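import Cfsg.Agent.Lib.FGS.ClassFour
import Cfsg.Agent.Lib.Solv.Super

/-!
# Groups with square-free class sizes (Chillag–Herzog, Cossey–Wang), Knoche's theorem
-/

set_option autoImplicit false

namespace Cfsg.Lib.FGS

open Subgroup Cfsg.Lib Cfsg.Lib.BG Cfsg.Lib.Transfer
open scoped commutatorElement

universe u

variable {G : Type u} [Group G] [Finite G] {p : ℕ}

/-- A family of "rank one" homomorphisms closed under differences has a common kernel or a
common image. -/
theorem common_ker_or_range {V W ι : Type*} [Group V] [Group W] [Finite V] [Finite W]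
    (hp : p.Prime) (θ : ι → V →* W) (h1 : ∀ i, (θ i).ker.index ∣ p)
    (h2 : ∀ i j, (θ i).range ⊓ (θ j).range = ⊥ → ((θ i).ker ⊓ (θ j).ker).index ∣ p) :
    (∃ K : Subgroup V, K.index ∣ p ∧ ∀ i, K ≤ (θ i).ker) ∨
      ∃ I : Subgroup W, Nat.card I ∣ p ∧ ∀ i, (θ i).range ≤ I := by
  have h3 : ∀ i, (θ i).ker ≠ ⊤ → (θ i).ker.index = p := fun i hi =>
    ((Nat.dvd_prime hp).1 (h1 i)).resolve_left fun e => hi (index_eq_one.1 e)
  have h4 : ∀ i j, (θ i).ker ≠ ⊤ → (θ j).ker ≠ ⊤ → ¬ (θ i).range ≤ (θ j).range →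
      (θ i).ker = (θ j).ker := fun i j hi hj h => by
    haveI : Fact (Nat.card (θ i).range).Prime := ⟨by rwa [← index_ker, h3 i hi]⟩
    have h5 := h2 i j (by
      rcases ((θ j).range.subgroupOf (θ i).range).eq_bot_or_eq_top_of_prime_card with e | e
      · exact disjoint_iff.1 (subgroupOf_eq_bot.1 e).symm
      · exact absurd (subgroupOf_eq_top.1 e) h)
    have h6 : ∀ {K : Subgroup V}, K.index = p → (θ i).ker ⊓ (θ j).ker ≤ K → K ≤ (θ i).ker ⊓ (θ j).ker :=
      fun hK e => relIndex_eq_one.1 (Nat.eq_one_of_dvd_one (Nat.dvd_of_mul_dvd_mul_right hp.pos (by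
        rw [← relIndex_mul_index e, hK] at h5; rwa [one_mul])))
    exact le_antisymm ((h6 (h3 i hi) inf_le_left).trans inf_le_right)
      ((h6 (h3 j hj) inf_le_right).trans inf_le_left)
  by_cases h0 : ∀ i, (θ i).ker = ⊤
  · exact Or.inl ⟨⊤, by simp, fun i => (h0 i).ge⟩
  obtain ⟨i, hi⟩ := not_forall.1 h0
  by_contra! H
  obtain ⟨j, hj⟩ := H.1 _ (h1 i)
  obtain ⟨k, hk⟩ := H.2 (θ i).range (index_ker (θ i) ▸ h1 i)
  have hj' : (θ j).ker ≠ ⊤ := fun e => hj (le_top.trans e.ge)
  have hk' : (θ k).ker ≠ ⊤ := fun e => hk ((MonoidHom.range_eq_bot_iff.2 (MonoidHom.ker_eq_top_iff.1 e)).le.trans bot_le)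
  have h5 : (θ j).range ≤ (θ i).range := by_contra fun e => hj (h4 j i hj' hi e).ge
  exact hj ((h4 k i hk' hi hk).ge.trans (h4 k j hk' hj' fun e => hk (e.trans h5)).le)

theorem relIndex_cent_dvd_or_card_dvd (hp : p.Prime) {V H : Subgroup G} (hH : H ≤ 𝐍(V))
    (hc : ⁅V, H⁆ ≤ 𝐂(V)) (h : ∀ g ∈ H, (𝐂[g]).relIndex V ∣ p) :
    (𝐂(H)).relIndex V ∣ p ∨ Nat.card ↥⁅V, H⁆ ∣ p := by
  let θ : H → V →* G := fun g => MonoidHom.mk' (fun v => ⁅(v : G), (g : G)⁆) fun v w => by
    have h1 := hc (commutator_mem_commutator w.2 g.2)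
    rw [coe_mul, PGroup.commutator_mul_left_of_commute (h1 v v.2),
      h1 _ (comm_le_left hH (commutator_mem_commutator v.2 g.2))]
  have hk : ∀ g : H, (θ g).ker = (𝐂[(g : G)]).subgroupOf V := fun g => Subgroup.ext fun v =>
    commutatorElement_eq_one_iff_mul_comm.trans mem_centralizer_singleton_iff.symm
  have key : ∀ g k : H, (θ g).range ⊓ (θ k).range = ⊥ → ((θ g).ker ⊓ (θ k).ker).index ∣ p := fun g k e => by
    refine (index_dvd_of_le fun v hv => ?_).trans (h _ (k⁻¹ * g).2)
    have h1 : θ g v = θ k v := by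
      have := mem_centralizer_singleton_iff.1 (inv_mem (mem_subgroupOf.1 hv))
      change ⁅(v : G), (g : G)⁆ = ⁅(v : G), (k : G)⁆
      simp only [commutatorElement_def]
      calc _ = (v : G) * k * (((k⁻¹ * g : H) : G) * (v : G)⁻¹) * (g : G)⁻¹ := by push_cast; group
        _ = _ := by rw [← this]; push_cast; group
    have h2 : θ g v = 1 := mem_bot.1 (e.le ⟨⟨v, rfl⟩, ⟨v, h1.symm⟩⟩)
    exact ⟨h2, h1.symm.trans h2⟩
  rcases common_ker_or_range hp θ (fun g => hk g ▸ h g g.2) key with ⟨K, h1, h2⟩ | ⟨I, h1, h2⟩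
  · exact Or.inl ((index_dvd_of_le (H := K) (K := (𝐂(H)).subgroupOf V) fun v hv g hg =>
      (commutatorElement_eq_one_iff_mul_comm.1 (h2 ⟨g, hg⟩ hv)).symm).trans h1)
  · exact Or.inr ((card_dvd_of_le (commutator_le.2 fun v hv g hg => h2 ⟨g, hg⟩ ⟨⟨v, hv⟩, rfl⟩)).trans h1)

theorem comm_le_of_relIndex_dvd [hp : Fact p.Prime] {P H : Subgroup G} (hP : IsPGroup p P)
    (h : H.relIndex P ∣ p) : ⁅P, P⁆ ≤ H := by
  rcases (Nat.dvd_prime hp.out).1 h with h | h
  · exact (commutator_le_self P).trans (relIndex_eq_one.1 h)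
  haveI := hP.isNilpotent
  have h1 := isCoatom_of_index_prime (H := H.subgroupOf P) (by rw [← relIndex, h]; exact hp.out)
  rw [← map_subtype_commutator, map_le_iff_le_comap]
  exact (PGroup.commutator_le_frattini hP).trans (frattini_le_coatom h1)

theorem relIndex_dvd_of_squarefree [hp : Fact p.Prime] {V H : Subgroup G} [V.Normal]
    (hV : IsPGroup p V) (h : Squarefree H.index) : H.relIndex V ∣ p := by
  obtain ⟨k, hk⟩ := hV.index (H.subgroupOf V)
  have h1 := h.squarefree_of_dvd (relIndex_dvd_index_of_normal' H V)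
  rw [relIndex, hk] at h1 ⊢
  rcases k with _ | k
  · simp
  · simpa using pow_dvd_pow p ((Nat.squarefree_pow_iff hp.out.ne_one k.succ_ne_zero).1 h1).2.le

theorem isSupersolvable_of_squarefree (G : Type u) [Group G] [Finite G] :
    (∀ x : G, Squarefree (𝐂[x]).index) → IsSupersolvable G := by
  refine Core.induction_on_isMinNormal (P := fun G _ _ => (∀ x : G, Squarefree (𝐂[x]).index) →
    IsSupersolvable G) G (fun G _ _ _ _ => Solv.isSupersolvable_of_subsingleton) fun G _ _ N _ hN ih h => ?_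
  haveI := isSolvable_of_not_four_dvd G fun x e => by
    simpa using (h x) 2 e
  obtain ⟨q, hq, h1⟩ := hN.exists_isPGroup inferInstance
  haveI := Fact.mk hq
  haveI := hN.isMulCommutative inferInstance
  refine Solv.isSupersolvable_of_card_prime (N := N) ?_ (ih fun x => ?_)
  · rcases hN.le_center_or with h2 | h2
    · exact hN.card_prime_of_le_center h2
    have h3 : Nat.card N ∣ q := by
      rcases relIndex_cent_dvd_or_card_dvd hq (V := N) (H := ⊤) le_normalizer_of_normal
        (h2.le.trans (le_centralizer N)) fun g _ => relIndex_dvd_of_squarefree h1 (h g) with h3 | h3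
      · rcases hN.inf_eq_bot_or_le 𝐂((⊤ : Subgroup G)) with h4 | h4
        · rwa [← inf_relIndex_left, h4, relIndex_bot_left] at h3
        · exact absurd (h2.symm.trans (commutator_eq_bot_iff_le_centralizer.2 h4)) hN.ne_bot
      · rwa [h2] at h3
    rwa [((Nat.dvd_prime hq).1 h3).resolve_left fun e => hN.ne_bot (card_eq_one.1 e)]
  · obtain ⟨x, rfl⟩ := QuotientGroup.mk_surjective x
    exact (h x).squarefree_of_dvd (index_cent1_map_dvd (QuotientGroup.mk'_surjective _) x)

theorem isMulCommutative_of_relIndex_dvd (hp : p.Prime) {P Z : Subgroup G} (hZ : P ⊓ Z ≤ 𝐂(P))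
    (h : Z.relIndex P ∣ p) : IsMulCommutative P :=
  isMulCommutative_of_index_center_dvd_prime hp (Z := Z.subgroupOf P)
    (fun z hz => mem_center_iff.2 fun g => Subtype.ext (hZ ⟨z.2, hz⟩ g g.2)) h

/-- A normal `p`-subgroup all of whose element centralizers have index at most `p`. -/
theorem comm_le_cent_of_relIndex_dvd [hp : Fact p.Prime] (P : Sylow p G) [(P : Subgroup G).Normal]
    (h : ∀ g : G, (𝐂[g]).relIndex P ∣ p) :
    pResidual p G ≤ 𝐂((P : Subgroup G)) ∨ IsMulCommutative P := by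
  refine or_iff_not_imp_left.2 fun h0 => ?_
  obtain ⟨y, hy, h1⟩ : ∃ y : G, (orderOf y).Coprime p ∧ y ∉ 𝐂((P : Subgroup G)) := by
    by_contra! e
    exact h0 (pResidual_le_iff.2 e)
  have h2 : (𝐂[y]).relIndex P = p := ((Nat.dvd_prime hp.out).1 (h y)).resolve_left fun e =>
    h1 fun t ht => mem_centralizer_singleton_iff.1 (relIndex_eq_one.1 e ht)
  have h3 : (P : Subgroup G) ⊓ 𝐂[y] ≤ 𝐂((P : Subgroup G) ⊓ 𝐂[y]) := fun c hc d hd => by
    obtain ⟨k, hk⟩ := exists_pow_of_mem P.2 hc.1
    have h4 := h (c * y)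
    rw [centralizer_mul_of_coprime (mem_centralizer_singleton_iff.1 hc.2) ((hy.pow_right k).coprime_dvd_right
      (orderOf_dvd_of_pow_eq_one hk)).symm, ← relIndex_inf_mul_relIndex, h2] at h4
    exact mem_centralizer_singleton_iff.1 (relIndex_eq_one.1 (Nat.eq_one_of_dvd_one
      (Nat.dvd_of_mul_dvd_mul_right hp.out.pos (by rwa [one_mul]))) (mem_inf.2 ⟨hd.2, hd.1⟩))
  have h4 : 𝐂(zpowers y) = 𝐂[y] := by rw [zpowers_eq_closure, centralizer_closure]
  have h5 : ⁅⁅(P : Subgroup G), zpowers y⁆, (P : Subgroup G) ⊓ 𝐂[y]⁆ = ⊥ := by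
    refine commutator_commutator_eq_bot_of_rotate ?_ ?_
    · rw [commutator_comm (zpowers y), commutator_eq_bot_iff_le_centralizer.2 (inf_le_right.trans h4.ge),
        commutator_bot_left]
    · exact commutator_eq_bot_iff_le_centralizer.2 (((commutator_mono inf_le_left le_rfl).trans
        (comm_le_of_relIndex_dvd P.2 (h y))).trans h4.ge)
  obtain ⟨k, hk⟩ := P.2.exists_card_eq
  have h6 := Coprime.commutator_sup_centralizer (A := zpowers y) (K := P) le_normalizer_of_normal
    (by rw [hk, Nat.card_zpowers]; exact hy.pow_right k) (Or.inl inferInstance)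
  rw [h4] at h6
  exact isMulCommutative_of_relIndex_dvd hp.out (le_centralizer_iff.1 (h6.ge.trans
    (sup_le (commutator_eq_bot_iff_le_centralizer.1 h5) h3))) (h y)

theorem card_commutator_dvd_of_relIndex_dvd [hp : Fact p.Prime] (P : Sylow p G)
    [(P : Subgroup G).Normal] (h : ∀ g : G, (𝐂[g]).relIndex P ∣ p) :
    Nat.card ↥(_root_.commutator G ⊓ P) ∣ p := by
  have h1 := commutator_inf_eq_of_normal_hall (P : Subgroup G) P.card_coprime_index
  have h2 : ⁅(P : Subgroup G), ⊤⁆ ≤ 𝐂((P : Subgroup G)) := by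
    rcases comm_le_cent_of_relIndex_dvd P h with h2 | h2
    · refine commutator_le.2 fun x hx g _ t ht => ?_
      obtain ⟨s, hs, c, hc, rfl⟩ := exists_mul_of_mem_sup' (N := 𝐂((P : Subgroup G))) (H := P)
        le_normalizer_of_normal ((sup_le_sup_right h2 _).trans' (pResidual_sup_sylow P).ge (mem_top g))
      have h3 : ⁅x, s * c⁆ = ⁅x, s⁆ := by
        simp only [commutatorElement_def]
        calc _ = x * s * (c * x⁻¹) * c⁻¹ * s⁻¹ := by group
          _ = _ := by rw [← hc _ (inv_mem hx)]; group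
      rw [h3]
      exact (mem_centralizer_singleton_iff.1 (comm_le_of_relIndex_dvd P.2 (h t)
        (commutator_mem_commutator hx hs))).symm
    · exact (commutator_le_left _ _).trans (le_centralizer _)
  rcases relIndex_cent_dvd_or_card_dvd hp.out le_normalizer_of_normal h2 fun g _ => h g with h3 | h3
  · rw [coe_top, centralizer_univ] at h3
    haveI := isMulCommutative_of_relIndex_dvd hp.out (inf_le_right.trans (center_le_centralizer _)) h3
    have h4 := center_inf_commutator_inf_sylow_le P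
    rw [commutator_eq_bot_iff_le_centralizer.2 (le_centralizer (P : Subgroup G)), inf_assoc, le_bot_iff] at h4
    rw [← relIndex_bot_left, ← h4, inf_relIndex_right]
    exact (Core.relIndex_dvd_of_normal _ inf_le_right).trans h3
  · rwa [h1]

/-- Knoche's theorem. -/
theorem card_commutator_dvd_of_index_dvd [hp : Fact p.Prime] (hG : IsPGroup p G)
    (h : ∀ g : G, (𝐂[g]).index ∣ p) : Nat.card (_root_.commutator G) ∣ p := by
  obtain ⟨P⟩ : Nonempty (Sylow p G) := inferInstance
  have h1 : (P : Subgroup G) = ⊤ := (eq_sylow_of_le P (hG.to_subgroup ⊤) le_top).symm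
  haveI : (P : Subgroup G).Normal := h1 ▸ inferInstance
  have := card_commutator_dvd_of_relIndex_dvd P fun g => by rw [h1, relIndex_top_right]; exact h g
  rwa [h1, inf_top_eq] at this

section

variable (h : ∀ x : G, Squarefree (𝐂[x]).index)
include h

theorem squarefree_card_commutator : Squarefree (Nat.card (_root_.commutator G)) := by
  refine Nat.squarefree_iff_prime_squarefree.2 fun p hp e => ?_
  haveI := Fact.mk hp
  set N := pPrimeCore p G
  have h1 : _root_.commutator (G ⧸ N) = (_root_.commutator G).map (QuotientGroup.mk' N) :=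
    by rw [map_commutator_eq, QuotientGroup.range_mk']; rfl
  have h2 : _root_.commutator (G ⧸ N) ≤ pCore p (G ⧸ N) := by
    rw [← Core.fittingSubgroup_eq_pCore (Core.pPrimeCore_quotient_pPrimeCore p G), h1]
    exact (map_mono (Core.le_fittingSubgroup inferInstance (Solv.isNilpotent_commutator
      (isSupersolvable_of_squarefree G h)))).trans (Core.map_fittingSubgroup_le (QuotientGroup.mk'_surjective N))
  obtain ⟨P⟩ : Nonempty (Sylow p (G ⧸ N)) := inferInstance
  have h3 := h2.trans (Core.pCore_le_sylow P)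
  haveI : (P : Subgroup (G ⧸ N)).Normal := Normal.of_commutator_le _ h3
  have h4 := card_commutator_dvd_of_relIndex_dvd P fun g => by
    obtain ⟨x, rfl⟩ := QuotientGroup.mk_surjective g
    exact relIndex_dvd_of_squarefree P.2
      ((h x).squarefree_of_dvd (index_cent1_map_dvd (QuotientGroup.mk'_surjective _) x))
  rw [inf_eq_left.2 h3, h1, ← relIndex_ker, QuotientGroup.ker_mk'] at h4
  rw [← BG.card_mul_relIndex (inf_le_right : N ⊓ _ ≤ _), inf_relIndex_right] at e
  have h5 : (p * p).Coprime (Nat.card ↥(N ⊓ _root_.commutator G)) :=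
    (Nat.Coprime.coprime_dvd_left (card_dvd_of_le inf_le_left) ((Core.pPrimeCore_coprime p G).mul_right
      (Core.pPrimeCore_coprime p G))).symm
  exact absurd (Nat.le_of_dvd hp.pos ((h5.dvd_of_dvd_mul_left e).trans h4)) (by nlinarith [hp.one_lt])

theorem isCyclic_commutator_of_squarefree : IsCyclic (_root_.commutator G) := by
  haveI := Solv.isNilpotent_commutator (isSupersolvable_of_squarefree G h)
  haveI := IsZGroup.of_squarefree (squarefree_card_commutator h)
  exact isCyclic_of_sylow_of_isNilpotent _ fun q _ P => IsZGroup.isZGroup q Fact.out P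

theorem exists_fitting_eq_cent1 :
    ∃ v : G, zpowers v = _root_.commutator G ∧ fittingSubgroup G = 𝐂[v] := by
  obtain ⟨v, hv⟩ := (Subgroup.isCyclic_iff_exists_zpowers_eq_top _).1 (isCyclic_commutator_of_squarefree h)
  have h1 : 𝐂[v] = 𝐂(_root_.commutator G) := by rw [← hv, zpowers_eq_closure, centralizer_closure]
  refine ⟨v, hv, h1 ▸ le_antisymm (le_centralizer_iff.1 fun x hx => by_contra fun e => ?_)
    (Core.le_fittingSubgroup inferInstance ⟨2, eq_top_iff.2 fun x _ => ?_⟩)⟩
  · obtain ⟨q, hq, y, hy, h2, k, hk⟩ := exists_primePow_not_mem e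
    have h3 : zpowers y ≤ _root_.commutator G := zpowers_le.2 (zpowers_le.2 hx hy)
    have h4 : (zpowers y).Normal := normalizer_eq_top_iff.1 (eq_top_iff.2 (le_normalizer_of_normal.trans
      (norm_le_of_le_cyclic (isCyclic_commutator_of_squarefree h) h3)))
    obtain ⟨j, -, hj⟩ := (Nat.dvd_prime_pow hq).1 (orderOf_dvd_of_pow_eq_one hk)
    have h5 := (squarefree_card_commutator h).squarefree_of_dvd (card_dvd_of_le h3)
    rw [Nat.card_zpowers, hj] at h5
    have h6 : j ≠ 0 := by
      rintro rfl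
      exact h2 (orderOf_eq_one_iff.1 hj ▸ one_mem _)
    refine h2 ((Core.isMinNormal_of_card_prime h4 ?_).le_centralizer_fittingSubgroup (mem_zpowers y))
    rwa [Nat.card_zpowers, hj, ((Nat.squarefree_pow_iff hq.ne_one h6).1 h5).2, pow_one]
  · rw [Subgroup.mem_upperCentralSeries_succ_iff, Subgroup.upperCentralSeries_one]
    exact fun y => mem_center_iff.2 fun z => Subtype.ext
      (z.2 _ (commutator_mem_commutator (mem_top (x : G)) (mem_top (y : G)))).symm

end

end Cfsg.Lib.FGS
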