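import Mathlib

/-! Fourier analysis over `ℤ/13` for multilinear maps with values in an elementary abelian 2-group. -/

set_option autoImplicit false

namespace Cfsg.Lib.FGS.C13

open Finset

abbrev Z := ZMod 13

instance fact13 : Fact (Nat.Prime 13) := ⟨by norm_num⟩

variable {U X Y : Type*} [CommGroup U] [Group X] [Group Y]

/-- An action of `ℤ/13` on a commutative group with trivial norm map. -/
structure Act (a : Z → U →* U) : Prop where
  add : ∀ i j u, a (i + j) u = a i (a j u)
  zero : ∀ u, a 0 u = u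
  nrm : ∀ u, ∏ k, a k u = 1

variable {a : Z → U →* U}

theorem Act.prod (h : Act a) (m : Z) (u : U) : ∏ k, a (m * k) u = if m = 0 then u ^ 13 else 1 := by
  split_ifs with e
  · simp [e, h.zero]
  · rw [← h.nrm u]; exact Equiv.prod_comp (Equiv.mulLeft₀ m e) fun k => a k u

/-- The norm identity of the Frobenius group `13 : n`. -/
theorem Act.frob (h : Act a) {κ : U →* U} {r : Z} {n : ℕ} (hκ : ∀ i u, κ (a i u) = a (r * i) (κ u))
    (hr : ∀ j, j < n → r ^ (j + 1) ≠ 1) (u : U) :
    ∏ i, a i (∏ j ∈ range (n + 1), κ^[j] (a (-i) u)) = u ^ 13 := by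
  have k : ∀ j i u, κ^[j] (a i u) = a (r ^ j * i) (κ^[j] u) := fun j => by
    induction j with
    | zero => simp
    | succ j ih => intro i u; rw [Function.iterate_succ_apply', ih, hκ, Function.iterate_succ_apply', pow_succ']; ring_nf
  simp only [map_prod, k, ← h.add]
  rw [prod_comm, prod_range_succ', prod_eq_one fun j hj => ?_]
  · simp [h.zero]
  · have := h.prod (1 - r ^ (j + 1)) (κ^[j + 1] u)
    rw [if_neg (sub_ne_zero.2 (hr j (mem_range.1 hj)).symm)] at this
    rw [← this]; exact prod_congr rfl fun i _ => by ring_nf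

/-- The Fourier transform. -/
def ft (a : Z → U →* U) (φ : Z → U) (v : Z) : U := ∏ k, a (-v * k) (φ k)

theorem ft_mul (φ ψ : Z → U) (v : Z) : ft a (fun k => φ k * ψ k) v = ft a φ v * ft a ψ v := by
  simp [ft, prod_mul_distrib]

theorem ft_one (v : Z) : ft a (fun _ => 1) v = 1 := by simp [ft]

theorem Act.ft_comm (h : Act a) (ψ : Z → Z → U) (u v : Z) :
    ft a (fun i => ft a (fun j => ψ i j) v) u = ft a (fun j => ft a (fun i => ψ i j) u) v := by
  simp only [ft, map_prod, ← h.add]
  rw [prod_comm]; simp only [add_comm]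

theorem Act.ft_shift (h : Act a) (φ : Z → U) (v m : Z) : ft a (fun k => φ (k + m)) v = a (v * m) (ft a φ v) := by
  simp only [ft, map_prod, ← h.add]
  rw [← Equiv.prod_comp (Equiv.addRight m) fun k => a (v * m + -v * k) (φ k)]
  exact prod_congr rfl fun k _ => by simp; ring_nf

theorem Act.ft_act (h : Act a) (φ : Z → U) (v m : Z) : ft a (fun k => a m (φ k)) v = a m (ft a φ v) := by
  simp only [ft, map_prod, ← h.add, add_comm]

theorem Act.ft_inv (h : Act a) (h2 : ∀ u : U, u * u = 1) {φ : Z → U} (e : ∀ v, ft a φ v = 1) : φ 0 = 1 := by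
  have : ∏ v, ft a φ v = 1 := prod_eq_one fun v _ => e v
  simp only [ft] at this
  rw [prod_comm, prod_eq_single 0 (fun k _ hk => by
    have := h.prod (-k) (φ k)
    rw [if_neg (neg_ne_zero.2 hk)] at this
    rw [← this]; exact prod_congr rfl fun i _ => by ring_nf) (by simp)] at this
  simp only [mul_zero, h.zero, prod_const, card_univ, ZMod.card] at this
  have e : φ 0 ^ 13 = (φ 0 * φ 0) ^ 6 * φ 0 := by rw [← pow_two, ← pow_mul, ← pow_succ]
  rwa [e, h2, one_pow, one_mul] at this

/-- A group with an action of `ℤ/13` and the fixed points `X₀` of the automorphism of order 3. -/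
structure Md (s : Z → X →* X) (X₀ : Set X) : Prop where
  add : ∀ i j x, s (i + j) x = s i (s j x)
  nrm : ∀ x, ∏ k, Abelianization.of (s k x) = 1
  tr : ∀ x ∈ X₀, ∀ i, ∃ y ∈ X₀, Abelianization.of (s i x * s (3 * i) x * s (9 * i) x) = Abelianization.of y
  gen : ∀ K : Subgroup X, commutator X ≤ K → (∀ i, ∀ x ∈ X₀, s i x ∈ K) → K = ⊤

variable {s : Z → X →* X} {s' : Z → Y →* Y} {X₀ : Set X} {Y₀ : Set Y}

theorem Md.nrm' (h : Md s X₀) (F : X →* U) (x : X) : ∏ k, F (s k x) = 1 := by
  simpa using congrArg (Abelianization.lift F) (h.nrm x)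

theorem Md.tr' (h : Md s X₀) {x : X} (hx : x ∈ X₀) (i : Z) :
    ∃ y ∈ X₀, ∀ F : X →* U, F (s (1 * i) x) * F (s (3 * i) x) * F (s (9 * i) x) = F y :=
  (h.tr x hx i).imp fun y hy => ⟨hy.1, fun F => by simpa using congrArg (Abelianization.lift F) hy.2⟩

theorem Md.gen' (h : Md s X₀) (F : X →* U) (e : ∀ i, ∀ x ∈ X₀, F (s i x) = 1) (x : X) : F x = 1 :=
  (h.gen F.ker (Abelianization.commutator_subset_ker F) e).ge (Subgroup.mem_top x)

/-- The transform in the second variable of a bilinear map. -/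
def hat (a : Z → U →* U) (s' : Z → Y →* Y) (h : X →* Y →* U) (v : Z) : X →* Y →* U :=
  ∏ k, (h.compl₂ (s' k)).compr₂ (a (-v * k))

theorem hat_apply (h : X →* Y →* U) (v : Z) (x : X) (y : Y) :
    hat a s' h v x y = ft a (fun k => h x (s' k y)) v := by
  simp [hat, ft, MonoidHom.finsetProd_apply]

theorem hat_eq_one (ha : Act a) (h2 : ∀ u : U, u * u = 1) (hX : Md s X₀) (hY : Md s' Y₀) (h : X →* Y →* U)
    {m : Z} (hm : m ≠ 0) (e : ∀ k x y, h (s k x) (s' k y) = a (m * k) (h x y))
    (z : ∀ x ∈ X₀, ∀ y ∈ Y₀, h x y = 1) {v : Z} (v1 : v ≠ 4 * m) (v2 : v ≠ 10 * m) (x : X) (y : Y) :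
    hat a s' h v x y = 1 := by
  have e1 : ∀ v j x y, hat a s' h v x (s' j y) = a (v * j) (hat a s' h v x y) := fun v j x y => by
    simp only [hat_apply, ← hY.add]; exact ha.ft_shift (fun k => h x (s' k y)) v j
  have e2 : ∀ v i x y, hat a s' h v (s i x) y = a ((m - v) * i) (hat a s' h v x y) := fun v i x y => by
    have : ∀ k, h (s i x) (s' k y) = a (m * i) (h x (s' (k + -i) y)) := fun k => by
      rw [← e, ← hY.add]; ring_nf
    simp only [hat_apply, this]
    rw [ha.ft_act, ha.ft_shift (fun k => h x (s' k y)), ← ha.add]; ring_nf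
  by_cases v0 : v = 0
  · simpa [hat_apply, ft, v0, ha.zero] using hY.nrm' (h x) y
  by_cases vm : v = m
  · have := hX.nrm' ((hat a s' h v).flip y) x
    simp only [MonoidHom.flip_apply, e2, vm, sub_self, zero_mul, ha.zero, prod_const, card_univ, ZMod.card] at this
    rw [← vm, show hat a s' h v x y ^ 13 = (hat a s' h v x y * hat a s' h v x y) ^ 6 * hat a s' h v x y by
      rw [← pow_two, ← pow_mul, ← pow_succ], h2, one_pow, one_mul] at this
    exact this
  refine hX.gen' ((hat a s' h v).flip y) (fun i x hx => ?_) x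
  refine hY.gen' (hat a s' h v (s i x)) (fun j y hy => ?_) y
  rw [e1, e2]
  suffices hat a s' h v x y = 1 by simp [this]
  have D : ∀ α β α' β' : Z, α * α' = 1 → β * β' = 1 →
      ft a (fun i => ft a (fun j => h (s (α * i) x) (s' (β * j) y)) v) (m - v) =
        if (m - v) * α' + v * β' = m then hat a s' h (v * β') x y else 1 := fun α β α' β' h1 h3 => by
    have r : ∀ (φ : Z → U) (w γ γ' : Z), γ * γ' = 1 → ft a (fun j => φ (γ * j)) w = ft a φ (w * γ') :=
      fun φ w γ γ' hγ => by
      rw [ft, ft, ← Equiv.prod_comp (Equiv.mulLeft₀ γ (left_ne_zero_of_mul_eq_one hγ))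
        fun k => a (-(w * γ') * k) (φ k)]
      exact prod_congr rfl fun k _ => by
        simp only [Equiv.mulLeft₀_apply]; congr 2; linear_combination (w * k) * hγ
    have r1 : ∀ x, ft a (fun j => h x (s' (β * j) y)) v = hat a s' h (v * β') x y := fun x =>
      (r (fun j => h x (s' j y)) v β β' h3).trans (hat_apply ..).symm
    simp only [r1]
    rw [r (fun i => hat a s' h (v * β') (s i x) y) _ α α' h1]
    simp only [e2, ft, ← ha.add, ← add_mul]
    rw [ha.prod]
    refine if_congr ⟨fun e => by linear_combination -e, fun e => by linear_combination -e⟩ ?_ rfl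
    rw [show ∀ u : U, u ^ 13 = (u * u) ^ 6 * u from fun u => by rw [← pow_two, ← pow_mul, ← pow_succ],
      h2, one_pow, one_mul]
  have R : ∀ i j, h (s (1 * i) x) (s' (1 * j) y) * h (s (1 * i) x) (s' (3 * j) y) * h (s (1 * i) x) (s' (9 * j) y) *
      (h (s (3 * i) x) (s' (1 * j) y) * h (s (3 * i) x) (s' (3 * j) y) * h (s (3 * i) x) (s' (9 * j) y)) *
      (h (s (9 * i) x) (s' (1 * j) y) * h (s (9 * i) x) (s' (3 * j) y) * h (s (9 * i) x) (s' (9 * j) y)) = 1 :=
    fun i j => by
    obtain ⟨x', hx', k1⟩ := hX.tr' (U := U) hx i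
    obtain ⟨y', hy', k2⟩ := hY.tr' (U := U) hy j
    rw [k2, k2, k2]
    exact (k1 (h.flip y')).trans (z x' hx' y' hy')
  have := congrArg (fun φ : Z → Z → U => ft a (fun i => ft a (fun j => φ i j) v) (m - v))
    (funext fun i => funext fun j => R i j)
  have c : ∀ m v : Z, m ≠ 0 → v ≠ 0 → v ≠ m → v ≠ 4 * m → v ≠ 10 * m → ∀ α ∈ [(1 : Z), 3, 9], ∀ β ∈ [(1 : Z), 3, 9],
      (m - v) * α + v * β = m → α = 1 ∧ β = 1 := by decide +kernel
  have c' := c m v hm v0 vm v1 v2
  simp only [ft_mul, ft_one] at this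
  rw [D 1 1 1 1 rfl rfl, D 1 3 1 9 rfl rfl, D 1 9 1 3 rfl rfl, D 3 1 9 1 rfl rfl, D 3 3 9 9 rfl rfl,
    D 3 9 9 3 rfl rfl, D 9 1 3 1 rfl rfl, D 9 3 3 9 rfl rfl, D 9 9 3 3 rfl rfl, if_pos (by ring)] at this
  rw [if_neg fun e => absurd (c' _ (by simp) _ (by simp) e) (by decide),
    if_neg fun e => absurd (c' _ (by simp) _ (by simp) e) (by decide),
    if_neg fun e => absurd (c' _ (by simp) _ (by simp) e) (by decide),
    if_neg fun e => absurd (c' _ (by simp) _ (by simp) e) (by decide),
    if_neg fun e => absurd (c' _ (by simp) _ (by simp) e) (by decide),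
    if_neg fun e => absurd (c' _ (by simp) _ (by simp) e) (by decide),
    if_neg fun e => absurd (c' _ (by simp) _ (by simp) e) (by decide),
    if_neg fun e => absurd (c' _ (by simp) _ (by simp) e) (by decide)] at this
  simpa using this

/-- A Lie triple commutator vanishes. -/
theorem tri_eq_one (ha : Act a) (h2 : ∀ u : U, u * u = 1) (hX : Md s X₀) (hY : Md s' Y₀) (g : Y →* X →* U)
    (f : X → X → Y) (fl : ∀ x x' y z, g (f (x * x') y) z = g (f x y) z * g (f x' y) z)
    (fa : ∀ x y z, g (f x y) z * g (f y x) z = 1)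
    (jac : ∀ x y z, g (f x y) z * g (f y z) x * g (f z x) y = 1)
    (eg : ∀ k w x, g (s' k w) (s k x) = a k (g w x)) (ef : ∀ k x y, f (s k x) (s k y) = s' k (f x y))
    (zg : ∀ w ∈ Y₀, ∀ x ∈ X₀, g w x = 1) (zf : ∀ x ∈ X₀, ∀ y ∈ X₀, f x y = 1) (s0 : ∀ x, s 0 x = x) (x y z : X) :
    g (f x y) z = 1 := by
  have sym : ∀ x y z, g (f x y) z = g (f y x) z := fun x y z =>
    mul_left_cancel (a := g (f x y) z) ((h2 _).trans (fa x y z).symm)
  let D : Z → Z → Z → X → X → X → U := fun u v w x y z =>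
    ft a (fun i => ft a (fun j => ft a (fun k => g (f (s i x) (s j y)) (s k z)) w) v) u
  have d1 : ∀ u v w x y z, w ≠ 4 → w ≠ 10 → D u v w x y z = 1 := fun u v w x y z h1 h3 => by
    simp only [D, ← hat_apply, hat_eq_one ha h2 hY hX g one_ne_zero (by simpa using eg) zg (v := w)
      (by simpa) (by simpa), ft_one]
  have d2 : ∀ u v w x y z, w ≠ 1 → v ≠ 4 * (1 - w) → v ≠ 10 * (1 - w) → D u v w x y z = 1 :=
    fun u v w x y z h0 h1 h3 => by
    have l : ∀ x x' y z, hat a s g w (f (x * x') y) z = hat a s g w (f x y) z * hat a s g w (f x' y) z :=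
      fun x x' y z => by simp only [hat_apply, fl, ft_mul]
    have sy : ∀ x y z, hat a s g w (f x y) z = hat a s g w (f y x) z := fun x y z => by
      simp only [hat_apply, sym x y]
    let H : X →* X →* U := MonoidHom.mk' (fun x => MonoidHom.mk' (fun y => hat a s g w (f x y) z)
      fun y y' => by rw [sy, l, sy y, sy y']) fun x x' => MonoidHom.ext fun y => l x x' y z
    have := fun x => hat_eq_one ha h2 hX hX H (sub_ne_zero.2 h0.symm) (fun k x y => by
      change hat a s g w _ z = a _ (hat a s g w _ z)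
      have : ∀ j, g (s' k (f x y)) (s j z) = a k (g (f x y) (s (j + -k) z)) := fun j => by
        rw [← eg, ← hX.add]; ring_nf
      simp only [hat_apply, ef, this]
      rw [ha.ft_act, ha.ft_shift (fun j => g (f x y) (s j z)), ← ha.add]; ring_nf)
      (fun x hx y hy => by change hat a s g w _ z = 1; rw [zf x hx y hy, map_one, MonoidHom.one_apply]) h1 h3 x y
    simp only [hat_apply] at this
    change ∀ x, ft a (fun j => hat a s g w (f x (s j y)) z) v = 1 at this
    simp only [D, ← hat_apply, this, ft_one]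
  have d3 : ∀ u v w x y z, D u v w x y z = D v u w y x z := fun u v w x y z => by
    simp only [D, sym (s _ x)]; exact ha.ft_comm _ u v
  have d4 : ∀ u v w, D u v w x y z * D v w u y z x * D w u v z x y = 1 := fun u v w => by
    have k1 : D v w u y z x = ft a (fun i => ft a (fun j => ft a (fun k => g (f (s j y) (s k z)) (s i x)) w) v) u := by
      simp only [D, ha.ft_comm _ w u]; exact ha.ft_comm _ v u
    have k2 : D w u v z x y = ft a (fun i => ft a (fun j => ft a (fun k => g (f (s k z) (s i x)) (s j y)) w) v) u := by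
      simp only [D, ha.ft_comm _ w u, ha.ft_comm _ w v]
    simp only [k1, k2, D, ← ft_mul, jac, ft_one]
  have d5 : ∀ u v w, D u v w x y z = 1 := fun u v w => by
    by_contra H
    have hw : w = 4 ∨ w = 10 := by by_contra! e; exact H (d1 _ _ _ _ _ _ e.1 e.2)
    have w1 : w ≠ 1 := by rcases hw with rfl | rfl <;> decide
    have hv : v = 4 * (1 - w) ∨ v = 10 * (1 - w) := by by_contra! e; exact H (d2 _ _ _ _ _ _ w1 e.1 e.2)
    have hu : u = 4 * (1 - w) ∨ u = 10 * (1 - w) := by
      by_contra! e; exact H ((d3 ..).trans (d2 _ _ _ _ _ _ w1 e.1 e.2))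
    have c : ∀ u w : Z, w = 4 ∨ w = 10 → u = 4 * (1 - w) ∨ u = 10 * (1 - w) → u ≠ 4 ∧ u ≠ 10 := by decide
    have := d4 u v w
    rw [d1 v w u _ _ _ (c u w hw hu).1 (c u w hw hu).2, d1 w u v _ _ _ (c v w hw hv).1 (c v w hw hv).2] at this
    exact H (by simpa using this)
  have := ha.ft_inv h2 fun w => ha.ft_inv h2 (φ := fun j => ft a (fun k => g (f (s 0 x) (s j y)) (s k z)) w)
    fun v => ha.ft_inv h2 (φ := fun i => ft a (fun j => ft a (fun k => g (f (s i x) (s j y)) (s k z)) w) v)
      fun u => d5 u v w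
  simpa [s0] using this

end Cfsg.Lib.FGS.C13
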