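import Cfsg.Agent.Lib.FGS.Crit13
import Cfsg.Agent.Lib.BG.Hall
import Cfsg.Agent.Lib.GW.Basic

/-! A 2-group admitting the Frobenius group `13 : 3` with elementary abelian fixed points has exponent 4. -/

set_option autoImplicit false

namespace Cfsg.Lib.FGS.C13

open Finset Subgroup Cfsg.Lib.BG Cfsg.Lib.Transfer Abelianization
open scoped IsMulCommutative commutatorElement

universe u
variable {G : Type u} [Group G] [Finite G] {A X : Subgroup G} {B : Z → G} {c : G}

/-- Conjugation on a normal subgroup. -/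
abbrev cj (X : Subgroup G) [X.Normal] (g : G) : X →* X := (MulAut.conjNormal g : MulAut X).toMonoidHom

omit [Finite G] in
theorem cj_mul [X.Normal] (g h : G) (x : X) : cj X (g * h) x = cj X g (cj X h x) := by simp

omit [Finite G] in
theorem B_zero (hB : ∀ i j, B (i + j) = B i * B j) : B 0 = 1 := by simpa using hB 0 0

omit [Finite G] in
theorem act_of {U : Type*} [CommGroup U] (hB : ∀ i j, B (i + j) = B i * B j) (ρ : G → U →* U)
    (h1 : ∀ g h u, ρ (g * h) u = ρ g (ρ h u)) (h0 : ∀ u, ρ 1 u = u) (hf : ∀ u, ρ (B 1) u = u → u = 1) :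
    Act fun k => ρ (B k) :=
  ⟨fun i j u => by rw [hB, h1], fun u => by rw [B_zero hB, h0], fun u => hf _ (by
    simp only [map_prod, ← h1, ← hB]
    exact Equiv.prod_comp (Equiv.addLeft 1) fun k => ρ (B k) u)⟩

theorem lift_fix [X.Normal] (hX : IsPGroup 2 X) {g : G} (hg : Odd (orderOf g)) (x : X)
    (h : of (cj X g x) = of x) : ∃ y : X, (y : G) ∈ 𝐂[g] ∧ of y = of x := by
  have k : ∀ a b : X, of a = of b ↔ QuotientGroup.mk' ⁅X, X⁆ a = QuotientGroup.mk' ⁅X, X⁆ b := fun a b => by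
    refine QuotientGroup.eq.trans (Iff.trans ?_ QuotientGroup.eq.symm)
    rw [← map_subtype_commutator]
    exact (mem_map_iff_mem X.subtype_injective).symm
  have := (coprime_map_cent (QuotientGroup.mk' ⁅X, X⁆) (A := zpowers g) (K := X) le_normalizer_of_normal
    (GW.cop_two hX (by rwa [Nat.card_zpowers])).symm (.inl inferInstance)).le
    (mem_inf.2 ⟨mem_map_of_mem _ x.2, by
      rw [MonoidHom.map_zpowers, cent_zpowers, mem_cent1, eq_comm, ← mul_inv_eq_iff_eq_mul]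
      exact (k _ _).1 h⟩)
  obtain ⟨y, hy, e⟩ := this
  exact ⟨⟨y, hy.1⟩, cent_zpowers g ▸ hy.2, (k _ _).2 e⟩

structure Hy (A : Subgroup G) (B : Z → G) (c : G) : Prop where
  p2 : IsPGroup 2 A
  add : ∀ i j, B (i + j) = B i * B j
  c3 : c ^ 3 = 1
  cb : ∀ i, c * B i = B (3 * i) * c
  fb : ∀ x ∈ A, x ∈ 𝐂[B 1] → x = 1
  fc : ∀ x ∈ A, x ∈ 𝐂[c] → x * x = 1

namespace Hy

theorem mono (h : Hy A B c) (hX : X ≤ A) : Hy X B c :=
  ⟨pgroup_of_le h.p2 hX, h.add, h.c3, h.cb, fun x hx => h.fb x (hX hx), fun x hx => h.fc x (hX hx)⟩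

theorem oddB (h : Hy A B c) : Odd (orderOf (B 1)) := by
  have k : ∀ n : ℕ, B n = B 1 ^ n := fun n => by
    induction n with
    | zero => simpa using B_zero h.add
    | succ n ih => rw [Nat.cast_succ, h.add, ih, pow_succ]
  exact (show Odd 13 by decide).of_dvd_nat (orderOf_dvd_of_pow_eq_one ((k 13).symm.trans (B_zero h.add)))

theorem oddc (h : Hy A B c) : Odd (orderOf c) :=
  (show Odd 3 by decide).of_dvd_nat (orderOf_dvd_of_pow_eq_one h.c3)

theorem map (h : Hy A B c) [A.Normal] {G' : Type u} [Group G'] (π : G →* G') :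
    Hy (A.map π) (fun i => π (B i)) (π c) := by
  have k : ∀ g : G, Odd (orderOf g) → ∀ x ∈ A.map π, x ∈ 𝐂[π g] → ∃ y ∈ A, y ∈ 𝐂[g] ∧ π y = x := fun g hg x h1 h2 => by
    obtain ⟨y, hy, e⟩ := (coprime_map_cent π (A := zpowers g) (K := A) le_normalizer_of_normal
      (GW.cop_two h.p2 (by rwa [Nat.card_zpowers])).symm (.inl inferInstance)).le
      ⟨h1, by rwa [MonoidHom.map_zpowers, cent_zpowers]⟩
    exact ⟨y, hy.1, cent_zpowers g ▸ hy.2, e⟩
  refine ⟨h.p2.map π, fun i j => by rw [h.add, map_mul], by rw [← map_pow, h.c3, map_one],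
    fun i => by rw [← map_mul, h.cb, map_mul], fun x h1 h2 => ?_, fun x h1 h2 => ?_⟩
  · obtain ⟨y, h3, h4, rfl⟩ := k _ h.oddB x h1 h2
    rw [h.fb y h3 h4, map_one]
  · obtain ⟨y, h3, h4, rfl⟩ := k _ h.oddc x h1 h2
    rw [← map_mul, h.fc y h3 h4, map_one]

theorem md (h : Hy A B c) [A.Normal] : Md (fun k => cj A (B k)) {x | (x : G) ∈ 𝐂[c]} := by
  let ρ : G → Abelianization A →* Abelianization A := fun g => Abelianization.map (cj A g)
  have r1 : ∀ g g' u, ρ (g * g') u = ρ g (ρ g' u) := fun g g' u => by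
    obtain ⟨x, rfl⟩ := QuotientGroup.mk_surjective u
    exact congrArg of (cj_mul g g' x)
  have r0 : ∀ u, ρ 1 u = u := fun u => by
    obtain ⟨x, rfl⟩ := QuotientGroup.mk_surjective u
    exact congrArg of (by simp)
  have ha := act_of h.add ρ r1 r0 fun u e => by
    obtain ⟨x, rfl⟩ := QuotientGroup.mk_surjective u
    obtain ⟨y, hy, e⟩ := lift_fix h.p2 h.oddB x e
    exact e.symm.trans (by rw [show y = 1 from Subtype.ext (h.fb _ y.2 hy), map_one])
  have hκ : ∀ i u, ρ c (ρ (B i) u) = ρ (B (3 * i)) (ρ c u) := fun i u => by rw [← r1, ← r1, h.cb]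
  have hf : ∀ x : A, ρ c (of x) = of x → ∃ y : A, (y : G) ∈ 𝐂[c] ∧ of x = of y := fun x e =>
    (lift_fix h.p2 h.oddc x e).imp fun y hy => ⟨hy.1, hy.2.symm⟩
  refine ⟨fun i j x => by rw [h.add, cj_mul], fun x => ha.nrm (of x), fun x hx i => hf _ ?_, fun K h1 h2 => ?_⟩
  · have e : ρ c (of x) = of x := congrArg of (Subtype.ext (mul_inv_eq_iff_eq_mul.2 (mem_cent1.1 hx).symm))
    change ρ c (ρ (B i) (of x) * ρ (B (3 * i)) (of x) * ρ (B (9 * i)) (of x)) =
      ρ (B i) (of x) * ρ (B (3 * i)) (of x) * ρ (B (9 * i)) (of x)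
    rw [map_mul, map_mul, hκ, hκ, hκ, e, show 3 * (3 * i) = 9 * i by ring,
      show 3 * (9 * i) = i by rw [← mul_assoc, show (3 * 9 : Z) = 1 from rfl, one_mul], mul_comm, mul_assoc]
  · have hK : K = (K.map of).comap of := (comap_map_eq_self (by rwa [Abelianization.ker_of])).symm
    refine top_le_iff.1 fun x _ => ?_
    have m : of x ^ 13 ∈ K.map of := by
      rw [← ha.frob (n := 2) hκ (by decide)]
      refine prod_mem fun i _ => ?_
      obtain ⟨w, hw⟩ : ∃ w, of w = ∏ j ∈ range (2 + 1), (ρ c)^[j] (ρ (B (-i)) (of x)) := QuotientGroup.mk_surjective _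
      obtain ⟨y, hy, e⟩ := hf w (by
        simp only [hw, prod_range_succ, prod_range_zero, Function.iterate_succ_apply', Function.iterate_zero_apply,
          map_mul, one_mul]
        rw [← r1 c c (ρ c _), ← r1 (c * c), ← pow_two, ← pow_succ, h.c3, r0, mul_comm, mul_assoc])
      rw [← hw, e]
      exact mem_map_of_mem _ (h2 i y hy)
    obtain ⟨k, hk⟩ := h.p2 x
    have m' : x ^ 13 ∈ K := by rw [hK]; simpa using m
    exact zpowers_le.2 m' (mem_zpowers_pow_iff.2 (Nat.Coprime.coprime_dvd_right (orderOf_dvd_of_pow_eq_one hk)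
      (Nat.Coprime.pow_right k (by norm_num))))

theorem comm (h : Hy A B c) {x y : G} (hx : x ∈ A) (hy : y ∈ A) (h1 : x ∈ 𝐂[c]) (h2 : y ∈ 𝐂[c]) : ⁅x, y⁆ = 1 := by
  have k := fun z h1 h2 => eq_inv_iff_mul_eq_one.2 (h.fc z h1 h2)
  rw [commutatorElement_def, ← k x hx h1, ← k y hy h2, mul_assoc, h.fc _ (mul_mem hx hy) (mul_mem h1 h2)]

theorem sq_comm (h : Hy A B c) [A.Normal] {x : G} (hx : x ∈ A) : x * x ∈ ⁅A, A⁆ := by
  have := h.md.gen' (U := Abelianization A) ((powMonoidHom 2).comp of) (fun i x hx => by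
    have : x * x = 1 := Subtype.ext (h.fc _ x.2 hx)
    simp only [MonoidHom.comp_apply, powMonoidHom_apply]
    rw [← map_pow, ← map_pow, pow_two, this, map_one, map_one]) ⟨x, hx⟩
  rw [MonoidHom.comp_apply, powMonoidHom_apply, ← map_pow, ← MonoidHom.mem_ker, Abelianization.ker_of] at this
  rw [← map_subtype_commutator, ← pow_two]
  exact mem_map_of_mem A.subtype this

theorem sq_of_comm (h : Hy A B c) [A.Normal] (hA : A ≤ 𝐂(A)) {x : G} (hx : x ∈ A) : x * x = 1 :=
  (commutator_eq_bot_iff_le_centralizer.2 hA).le (h.sq_comm hx)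

theorem cls3 (h : Hy A B c) [A.Normal] (h3 : ⁅⁅A, A⁆, A⁆ ≤ 𝐂(A)) : ⁅A, A⁆ ≤ 𝐂(A) := by
  haveI := abelian_center A
  have hAA : ⁅A, A⁆ ≤ A := commutator_le_left _ _
  have hZ := h.mono (X := 𝐙(A)) inf_le_left
  have m : ∀ (w : ↥⁅A, A⁆) (z : A), ⁅(w : G), (z : G)⁆ ∈ 𝐙(A) := fun w z =>
    ⟨commutator_le_right _ _ (commutator_mem_commutator w.2 z.2), h3 (commutator_mem_commutator w.2 z.2)⟩
  have cz : ∀ (w : ↥⁅A, A⁆) (z : A) (x : G), x ∈ A → x * ⁅(w : G), (z : G)⁆ = ⁅(w : G), (z : G)⁆ * x :=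
    fun w z x hx => mem_cent.1 (m w z).2 x hx
  let g : ↥⁅A, A⁆ →* A →* ↥𝐙(A) := MonoidHom.mk' (fun w => MonoidHom.mk' (fun z => ⟨_, m w z⟩) fun z z' =>
    Subtype.ext (by
      change ⁅(w : G), (z : G) * z'⁆ = ⁅(w : G), (z : G)⁆ * ⁅(w : G), (z' : G)⁆
      rw [show ⁅(w : G), (z : G) * z'⁆ = ⁅(w : G), (z : G)⁆ * (z * ⁅(w : G), (z' : G)⁆) * (z : G)⁻¹ by
        simp only [commutatorElement_def]; group, cz w z' z z.2]; group))
    fun w w' => MonoidHom.ext fun z => Subtype.ext (by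
      change ⁅(w : G) * w', (z : G)⁆ = ⁅(w : G), (z : G)⁆ * ⁅(w' : G), (z : G)⁆
      rw [show ⁅(w : G) * w', (z : G)⁆ = w * ⁅(w' : G), (z : G)⁆ * (w : G)⁻¹ * ⁅(w : G), (z : G)⁆ by
        simp only [commutatorElement_def]; group, cz w' z w (hAA w.2), mul_inv_cancel_right,
        cz w z _ (m w' z).1])
  let f : A → A → ↥⁅A, A⁆ := fun x y => ⟨⁅(x : G), (y : G)⁆, commutator_mem_commutator x.2 y.2⟩
  have gz : ∀ (w : ↥⁅A, A⁆) z, (w : G) ∈ 𝐂(A) → g w z = 1 := fun w z hw =>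
    Subtype.ext (commutatorElement_eq_one_iff_mul_comm.2 (mem_cent.1 hw _ z.2).symm)
  have gc : ∀ (w : ↥⁅A, A⁆) (x z : A), g (cj ⁅A, A⁆ (x : G) w) z = g w z := fun w x z => by
    have : cj ⁅A, A⁆ (x : G) w = ⟨⁅(w : G), (x : G)⁆, (commutator_mono hAA le_rfl) (commutator_mem_commutator w.2 x.2)⟩⁻¹ * w :=
      Subtype.ext (by simp [commutatorElement_def, mul_assoc])
    rw [this, map_mul, map_inv, MonoidHom.mul_apply, MonoidHom.inv_apply, gz _ z (m w x).2]; simp
  have key := tri_eq_one (act_of h.add (cj 𝐙(A)) cj_mul (by simp) fun u e => Subtype.ext (hZ.fb _ u.2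
      (mem_cent1.2 (mul_inv_eq_iff_eq_mul.1 (congrArg Subtype.val e)).symm)))
    (fun u => Subtype.ext (hZ.sq_of_comm (inf_le_right.trans (centralizer_le inf_le_left)) u.2))
    h.md (h.mono hAA).md g f (fun x x' y z => by
      rw [show f (x * x') y = cj ⁅A, A⁆ (x : G) (f x' y) * f x y from Subtype.ext (by
        simp [f, commutatorElement_def, mul_assoc]), map_mul, MonoidHom.mul_apply, gc, mul_comm])
    (fun x y z => by
      rw [← MonoidHom.mul_apply, ← map_mul, show f x y * f y x = 1 from Subtype.ext (by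
        simp [f, commutatorElement_def, mul_assoc]), map_one, MonoidHom.one_apply])
    (fun x y z => by
      have k : ∀ w (a b : A), g w a = g w (b * a * b⁻¹) := fun w a b => by simp
      rw [k _ z y, k _ x z, k _ y x]
      exact Subtype.ext (by simp [g, f, commutatorElement_def, mul_assoc]))
    (fun k w x => Subtype.ext (by simp [g, commutatorElement_def, mul_assoc]))
    (fun k x y => Subtype.ext (by simp [f, commutatorElement_def, mul_assoc]))
    (fun w hw x hx => Subtype.ext (h.comm (hAA w.2) x.2 hw hx))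
    (fun x hx y hy => Subtype.ext (h.comm x.2 y.2 hx hy)) (fun x => by simp [B_zero h.add])
  refine commutator_le.2 fun x hx y hy => mem_cent.2 fun z hz => ?_
  exact (commutatorElement_eq_one_iff_mul_comm.1 (congrArg Subtype.val (key ⟨x, hx⟩ ⟨y, hy⟩ ⟨z, hz⟩))).symm

theorem cls (h : Hy A B c) [A.Normal] : ⁅A, A⁆ ≤ 𝐂(A) := by
  induction' hn : Nat.card G using Nat.strong_induction_on with n ih generalizing G
  by_cases h1 : A = ⊥
  · simp [h1]
  have hs := QuotientGroup.mk'_surjective 𝐙(A)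
  haveI := (‹A.Normal›).map _ hs
  have := ih _ (hn ▸ Core.card_quotient_lt (center_ne_bot_of_nil h.p2.isNilpotent h1)) (h.map (QuotientGroup.mk' 𝐙(A))) rfl
  rw [← commutator_eq_bot_iff_le_centralizer, ← map_commutator, ← map_commutator, Subgroup.map_eq_bot_iff,
    QuotientGroup.ker_mk'] at this
  exact h.cls3 (this.trans inf_le_right)

theorem pow_four (h : Hy A B c) [A.Normal] {x : G} (hx : x ∈ A) : x ^ 4 = 1 := by
  rw [show x ^ 4 = x * x * (x * x) by rw [← pow_two x, ← pow_add]]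
  exact (h.mono (commutator_le_left A A)).sq_of_comm (h.cls.trans (centralizer_le (commutator_le_left A A)))
    (h.sq_comm hx)

end Hy

omit [Finite G] in
/-- Mazurov's lemma for the Frobenius groups `13 : n`. -/
theorem exists_pow_ne [X.Normal] [IsMulCommutative X] (hB : ∀ i j, B (i + j) = B i * B j)
    (fb : ∀ x ∈ X, x ∈ 𝐂[B 1] → x = 1) {r : Z} {n : ℕ} (hc : ∀ i, c * B i = B (r * i) * c)
    (hr : ∀ j, j < n → r ^ (j + 1) ≠ 1) (hn : c ^ (n + 1) = 1) {v : G} (hv : v ∈ X) (h : v ^ 13 ≠ 1) :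
    ∃ w ∈ X, (w * c) ^ (n + 1) ≠ 1 ∧ (w * c) ^ (n + 1) ∈ X := by
  have k : ∀ (w : X) (m : ℕ), ((w : G) * c) ^ m = (∏ j ∈ range m, (cj X c)^[j] w : X) * c ^ m := fun w m => by
    have k : ∀ m : ℕ, ((cj X c)^[m] w : X) = c ^ m * w * (c ^ m)⁻¹ := fun m => by
      induction m with
      | zero => simp
      | succ m ih => rw [Function.iterate_succ_apply', pow_succ']; exact (congrArg (c * · * c⁻¹) ih).trans (by group)
    induction m with
    | zero => simp
    | succ m ih => rw [pow_succ, ih, prod_range_succ, Subgroup.coe_mul, k, pow_succ]; group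
  by_contra! H
  have := (act_of hB (cj X) cj_mul (by simp) fun u e => Subtype.ext (fb _ u.2
    (mem_cent1.2 (mul_inv_eq_iff_eq_mul.1 (congrArg Subtype.val e)).symm))).frob (κ := cj X c)
    (fun i u => by rw [← cj_mul, ← cj_mul, hc]) hr ⟨v, hv⟩
  rw [prod_eq_one fun i _ => ?_] at this
  · exact h (congrArg Subtype.val this).symm
  · have e := k (cj X (B (-i)) ⟨v, hv⟩) (n + 1)
    rw [hn, mul_one] at e
    by_cases h1 : ((cj X (B (-i)) ⟨v, hv⟩ : X) * c) ^ (n + 1) = 1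
    · rw [show ∏ j ∈ range (n + 1), (cj X c)^[j] (cj X (B (-i)) ⟨v, hv⟩) = 1 from Subtype.ext (e.symm.trans h1),
        map_one]
    · exact absurd (e ▸ SetLike.coe_mem _) (H _ (SetLike.coe_mem _) h1)

end Cfsg.Lib.FGS.C13
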