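import Cfsg.Agent.Lib.FGS.Crit13b
import Cfsg.Agent.Lib.BG.T03_7
import Cfsg.Agent.Lib.BG.T03_9
import Cfsg.Agent.Lib.BG.T01_Coprime
import Cfsg.Agent.Lib.BG.T08_0
import Cfsg.Agent.Lib.Perm.Sym

/-! Soluble groups with element orders dividing 6, 8 or 13: the case `O₁₃(G) = 1` is impossible. -/

set_option autoImplicit false

namespace Cfsg.Lib.FGS.C13

open Subgroup Cfsg.Lib.BG Cfsg.Lib.Transfer
open scoped IsMulCommutative commutatorElement

universe u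
variable {G : Type u} [Group G] {x y : G}

theorem one_of (a b : ℕ) (h1 : x ^ a = 1) (h2 : x ^ b = 1) (h : a.gcd b = 1 := by decide) : x = 1 := by
  simpa [h] using pow_gcd_eq_one.2 ⟨h1, h2⟩

theorem pow_of (a b : ℕ) (h1 : x ^ a = 1) (h : a ∣ b := by decide) : x ^ b = 1 := by
  obtain ⟨c, rfl⟩ := h; rw [pow_mul, h1, one_pow]

/-- Every element order divides 6, 8 or 13. -/
def Om (G : Type u) [Group G] : Prop := ∀ g : G, g ^ 6 = 1 ∨ g ^ 8 = 1 ∨ g ^ 13 = 1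

theorem Om.or (h : Om G) (g : G) : g ^ 24 = 1 ∨ g ^ 13 = 1 := by
  rcases h g with e | e | e
  exacts [.inl (pow_of 6 _ e), .inl (pow_of 8 _ e), .inr e]

theorem Om.c13 (h : Om G) (hc : Commute x y) (h1 : x ^ 13 = 1) (h2 : x ≠ 1) : y ^ 13 = 1 := by
  refine (h.or y).elim (fun e => ?_) id
  rcases h.or (x * y) with e' | e' <;> rw [hc.mul_pow] at e'
  · exact absurd (one_of 13 24 h1 (by simpa [e] using e')) h2
  · simpa [h1] using e'

theorem Om.c3 (h : Om G) (hc : Commute x y) (h1 : x ^ 3 = 1) (h2 : x ≠ 1) : y ^ 6 = 1 := by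
  rcases h y with e | e | e
  · exact e
  · rcases h (x * y) with e' | e' | e'
    · simpa [hc.mul_pow, pow_of 3 6 h1] using e'
    · exact absurd (one_of 3 8 h1 (by simpa [hc.mul_pow, e] using e')) h2
    · exact absurd (one_of 3 104 h1 (by simpa [hc.mul_pow, pow_of 8 104 e] using pow_of 13 104 e')) h2
  · by_contra e'
    exact h2 (one_of 3 13 h1 (h.c13 hc.symm e fun e'' => e' (by simp [e''])))

theorem B_mul {B : Z → G} (hB : ∀ i j, B (i + j) = B i * B j) (r : Z) (k : ℕ) : B (r * k) = B r ^ k := by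
  induction k with
  | zero => simpa using B_zero hB
  | succ k ih => rw [Nat.cast_succ, mul_add, hB, ih, mul_one, pow_succ]

variable [Finite G]

theorem Om.not_frob (h : Om G) {A T : Subgroup G} [A.Normal] (hA : ¬ 13 ∣ Nat.card A) (hT : Nat.card T = 13)
    (hG : A ⊔ 𝐍(T) = ⊤) (h1 : A ≠ ⊥) {g k : G} (g8 : g ^ 8 = 1) (g4 : g ^ 4 ≠ 1) (k3 : k ^ 3 = 1) (k1 : k ≠ 1) :
    False := by
  let e : Multiplicative Z ≃* T := mulEquivOfPrimeCardEq (p := 13) (by simp) hT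
  obtain ⟨B, hB, mB, sB, iB⟩ : ∃ B : Z → G, (∀ i j, B (i + j) = B i * B j) ∧ (∀ i, B i ∈ T) ∧
      (∀ t ∈ T, ∃ i, B i = t) ∧ Function.Injective B :=
    ⟨fun i => e (.ofAdd i), fun i j => by simp, fun i => (e _).2, fun t ht => ⟨(e.symm ⟨t, ht⟩).toAdd, by simp⟩,
      fun i j h => by simpa using h⟩
  have b13 : ∀ i, B i ^ 13 = 1 := fun i => by
    rw [← B_mul hB, show ((13 : ℕ) : Z) = 0 from rfl, mul_zero, B_zero hB]
  have b1 : B 1 ≠ 1 := fun e => absurd (iB (e.trans (B_zero hB).symm)) (by decide)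
  have ap : ∀ (p : ℕ) [Fact p.Prime], ¬ p ∣ Nat.card A → ∀ x ∈ A, x ^ p = 1 → x = 1 := fun p _ hp x hx e =>
    by_contra fun e' => hp (orderOf_eq_prime e e' ▸ A.orderOf_dvd_natCard hx)
  have fb : ∀ x ∈ A, x ∈ 𝐂[B 1] → x = 1 := fun x hx e => ap 13 hA x hx (h.c13 (mem_cent1.1 e).symm (b13 1) b1)
  let R : G → Z → Prop := fun n r => ∀ i, n * B i = B (r * i) * n
  have Rm : ∀ {n m r s}, R n r → R m s → R (n * m) (r * s) := fun {n m r s} h1 h2 i => by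
    rw [mul_assoc, h2, ← mul_assoc, h1, mul_assoc, mul_assoc]
  have Rp : ∀ {n r}, R n r → ∀ j : ℕ, R (n ^ j) (r ^ j) := fun {n r} h1 j => by
    induction j with
    | zero => simp [R]
    | succ j ih => rw [pow_succ, pow_succ]; exact Rm ih h1
  have R1 : ∀ {n r}, R n r → ∀ j : ℕ, n ^ j = 1 → r ^ j = 1 := fun {n r} h1 j e =>
    iB (by simpa [e] using (Rp h1 j 1).symm)
  have R2 : ∀ {n r}, R n r → ∀ j : ℕ, r ^ j = 1 → n ^ (j * 13) = 1 := fun {n r} h1 j e => by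
    rw [pow_mul]; exact h.c13 (show B 1 * _ = _ * B 1 by simpa [e] using (Rp h1 j 1).symm) (b13 1) b1
  have E : ∀ w ∈ A, ∀ {n r}, R n r → ∀ j : ℕ, (w * n) ^ j ∈ A ↔ n ^ j = 1 := fun w hw n r h1 j => by
    have : (w * n) ^ j ∈ A ↔ n ^ j ∈ A := by
      simp only [← QuotientGroup.eq_one_iff, QuotientGroup.mk_pow, QuotientGroup.mk_mul,
        (QuotientGroup.eq_one_iff w).2 hw, one_mul]
    refine this.trans ⟨fun h2 => fb _ h2 (mem_cent1.2 ?_), fun e => e ▸ one_mem _⟩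
    have e1 := Rp h1 j 1
    have e2 : B (r ^ j * 1) = B (r ^ j - 1) * B 1 := by rw [← hB]; ring_nf
    rw [e1, e2, ap 13 hA (B (r ^ j - 1)) ?_ (b13 _), one_mul]
    rw [eq_mul_inv_of_mul_eq e2.symm, eq_mul_inv_of_mul_eq e1.symm, mul_assoc, mul_assoc, ← mul_assoc (B 1)]
    exact mul_mem h2 (‹A.Normal›.conj_mem _ (inv_mem h2) _)
  have D : ∀ g : G, ∃ n r, R n r ∧ ∀ j : ℕ, g ^ j ∈ A ↔ n ^ j = 1 := fun g => by
    obtain ⟨w, hw, n, hn, rfl⟩ := (mem_sup_of_normal_left (s := A) (t := 𝐍(T))).1 (hG.ge (mem_top g))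
    obtain ⟨r, hr⟩ := sB _ ((mem_normalizer_iff.1 hn _).1 (mB 1))
    have : R n r := fun i => by
      rw [← ZMod.natCast_zmod_val i, B_mul hB, hr, conj_pow, ← B_mul hB, one_mul, inv_mul_cancel_right]
    exact ⟨n, r, this, E w hw this⟩
  have hN : Group.IsNilpotent A := SemiReg.nil (R := T) (fun t ht t1 => eq_bot_iff.2 fun x hx => ap 13 hA x hx.1 (by
    obtain ⟨i, rfl⟩ := sB t ht
    exact h.c13 (mem_cent1.1 hx.2).symm (b13 i) t1)) le_normalizer_of_normal fun e => by simp [e] at hT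
  obtain ⟨n, r, hn, en⟩ := D g
  have n8 := (en 8).1 (g8 ▸ one_mem _)
  have r4 := (by decide : ∀ r : Z, r ^ 8 = 1 → r ^ 4 = 1) r (R1 hn 8 n8)
  have n4 : n ^ 4 = 1 := pow_gcd_eq_one.2 ⟨n8, R2 hn 4 r4⟩
  haveI := abelian_center A
  by_cases h3 : 3 ∣ Nat.card A
  · have hX := pcore_pgroup 3 𝐙(A)
    have := Nml.top_iff.1 ((Nml.top_iff.2 (inferInstance : (𝐙(A)).Normal)).pcore {3})
    haveI : IsMulCommutative 𝐎({3}, 𝐙(A)) := abelian_of_le (abelian_center A) (pcore_le _ _)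
    obtain ⟨v, hv⟩ := exists_prime_orderOf_dvd_card' (G := 𝐎({3}, 𝐙(A))) 3
      (hX.card_eq_or_dvd.resolve_left fun e => nil_pcore_center_ne_bot hN h3 (card_eq_one.1 e))
    rw [← orderOf_coe] at hv
    have v3 := hv ▸ pow_orderOf_eq_one (v : G)
    have v1 : (v : G) ≠ 1 := fun e => by simp [e] at hv
    have n2 : n ^ 2 ≠ 1 := fun e => g4 (pow_gcd_eq_one.2 ⟨g8, (pow_mul g 2 6).trans
      (h.c3 (mem_cent.1 (pcore_le _ _ v.2).2 _ ((en 2).2 e)).symm v3 v1)⟩)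
    obtain ⟨w, hw, h4, h5⟩ := exists_pow_ne (X := 𝐎({3}, 𝐙(A))) (n := 3) hB (fun x hx => fb x (pcore_le _ _ hx).1) hn
      ((by decide : ∀ r : Z, r ^ 4 = 1 → r ^ 2 ≠ 1 → ∀ j, j < 3 → r ^ (j + 1) ≠ 1) r r4
        fun e => n2 (pow_gcd_eq_one.2 ⟨n4, R2 hn 2 e⟩)) n4 v.2 fun e => v1 (one_of 3 13 v3 e)
    have k := fun j (e : (w * n) ^ j = 1) => (E w (pcore_le _ _ hw).1 hn j).1 (e ▸ one_mem _)
    rcases h (w * n) with e | e | e
    · exact n2 (pow_gcd_eq_one.2 ⟨n4, k 6 e⟩)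
    · obtain ⟨j, hj⟩ := hX ⟨_, h5⟩
      exact h4 (one_of 2 (3 ^ j) ((pow_mul _ 4 2).symm.trans e) (congrArg Subtype.val hj)
        (Nat.Coprime.pow_right j (by norm_num)))
    · exact n2 (by rw [one_of 4 13 n4 (k 13 e), one_pow])
  have a8 : ∀ x ∈ A, x ^ 8 = 1 := fun x hx => by
    rcases h x with e | e | e
    · exact pow_of 2 8 (ap 3 h3 _ (pow_mem hx 2) ((pow_mul x 2 3).symm.trans e))
    · exact e
    · rw [ap 13 hA x hx e, one_pow]
  obtain ⟨c, hc, c3⟩ : ∃ c, R c 3 ∧ c ^ 3 = 1 := by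
    obtain ⟨m, s, hm, em⟩ := D k
    have m3 := (em 3).1 (k3 ▸ one_mem _)
    rcases (by decide : ∀ s : Z, s ^ 3 = 1 → s ^ 1 = 1 ∨ s = 3 ∨ s ^ 2 = 3) s (R1 hm 3 m3) with e | e | e
    · exact absurd (ap 3 h3 k (by simpa using (em 1).2 (by simpa using one_of 3 13 m3 (R2 hm 1 e))) k3) k1
    · exact ⟨m, e ▸ hm, m3⟩
    · exact ⟨m ^ 2, e ▸ Rp hm 2, (pow_mul m 2 3).symm.trans (pow_of 3 6 m3)⟩
  have hy : Hy A B c := ⟨fun x => ⟨3, Subtype.ext (a8 _ x.2)⟩, hB, c3, hc, fb, fun x hx e => (pow_two x).symm.trans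
    (pow_gcd_eq_one.2 ⟨h.c3 (mem_cent1.1 e).symm c3 fun e => absurd (R1 hc 1 (by simp [e])) (by decide), a8 x hx⟩)⟩
  obtain ⟨d, hd⟩ : ∃ d, R d (-1 * 3) := by
    rcases (by decide : ∀ r : Z, r ^ 4 = 1 → r ^ 1 = 1 ∨ r = -1 ∨ r ^ 2 = -1) r r4 with e | e | e
    · exact absurd (hy.pow_four (by simpa using (en 1).2 (by simpa using one_of 4 13 n4 (R2 hn 1 e)))) g4
    · exact ⟨_, Rm (e ▸ hn) hc⟩
    · exact ⟨_, Rm (e ▸ Rp hn 2) hc⟩
  have k : ∀ w ∈ A, (w * d) ^ 6 = 1 := fun w hw => by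
    have k := fun j (e : (w * d) ^ j = 1) => R1 hd j ((E w hw hd j).1 (e ▸ one_mem _))
    rcases h (w * d) with e | e | e
    exacts [e, absurd (k 8 e) (by decide), absurd (k 13 e) (by decide)]
  obtain ⟨v, hv, v1⟩ := (𝐙(A)).bot_or_exists_ne_one.resolve_left (center_ne_bot_of_nil hN h1)
  obtain ⟨w, hw, h4, -⟩ := exists_pow_ne (X := 𝐙(A)) (n := 5) hB (fun x hx => fb x hx.1) hd (by decide)
    (by simpa using k 1 (one_mem _)) hv fun e => v1 (ap 13 hA v hv.1 e)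
  exact h4 (k w hw.1)

theorem Om.pow13 (h : Om G) {T : Subgroup G} (hT : IsPGroup 13 T) (hx : x ∈ T) : x ^ 13 = 1 := by
  refine (h.or x).elim (fun e => ?_) id
  obtain ⟨j, hj⟩ := hT ⟨x, hx⟩
  rw [one_of 24 (13 ^ j) e (congrArg Subtype.val hj) (Nat.Coprime.pow_right j (by norm_num)), one_pow]

theorem Om.semiReg (h : Om G) {A T : Subgroup G} (hA : ¬ 13 ∣ Nat.card A) (hT : IsPGroup 13 T) : SemiReg A T :=
  fun t ht t1 => eq_bot_iff.2 fun x hx => by_contra fun e => hA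
    (orderOf_eq_prime (h.c13 (mem_cent1.1 hx.2).symm (h.pow13 hT ht) t1) e ▸ A.orderOf_dvd_natCard hx.1)

theorem Om.pcore_ne_bot (h : Om G) [Group.IsSolvable G] {b g k : G} (b13 : b ^ 13 = 1) (b1 : b ≠ 1) (g8 : g ^ 8 = 1)
    (g4 : g ^ 4 ≠ 1) (k3 : k ^ 3 = 1) (k1 : k ≠ 1) : 𝐎({13}, (⊤ : Subgroup G)) ≠ ⊥ := fun h0 => by
  obtain ⟨T, hT⟩ := Syl.exists (p := 13) (O2 13 (⊤ : Subgroup G))
  have hA := PiGrp.p'_iff.1 (pcore_pi {13}ᶜ (⊤ : Subgroup G))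
  have := Nml.top_iff.1 (pcore_nml {13}ᶜ (⊤ : Subgroup G))
  have T1 : T ≠ ⊥ := fun e => hA ((orderOf_eq_prime b13 b1).symm.dvd.trans (Subgroup.orderOf_dvd_natCard _ (by
    simpa [← O2_eq_sup hT, e] using solvable_p_constrained inferInstance hT (show b ∈ _ by simp [e]))))
  have A1 : 𝐎({13}ᶜ, (⊤ : Subgroup G)) ≠ ⊥ := fun e => T1 (eq_bot_iff.2 (hT.le.trans ((O2_eq_pcore e).trans h0).le))
  haveI := odd_regular_pgroup_cyclic (by norm_num) hT.pgroup A1 le_normalizer_of_normal (h.semiReg hA hT.pgroup)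
  obtain ⟨t, ht⟩ := IsCyclic.exists_ofOrder_eq_natCard (α := T)
  refine h.not_frob (T := T) hA (ht ▸ orderOf_eq_prime (Subtype.ext (h.pow13 hT.pgroup t.2)) fun e => T1 ?_) ?_
    A1 g8 g4 k3 k1
  · rw [← card_eq_one, ← ht, e, orderOf_one]
  · have := hT.frattini (O2_nml 13 ⊤)
    rwa [← O2_eq_sup hT, top_inf_eq, sup_assoc, sup_eq_right.2 (le_norm T)] at this

/-- The Frobenius complement. -/
theorem Om.exists_S4 (h : Om G) (hc : Nat.card G ∣ 48) {z g : G} (hz : orderOf z = 2) (cz : z ∈ center G)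
    (uz : ∀ t : G, t ^ 2 = 1 → t ∈ zpowers z) (g8 : g ^ 8 = 1) (g4 : g ^ 4 ≠ 1) (x3 : x ^ 3 = 1) (x1 : x ≠ 1) :
    ∃ π : G →* Equiv.Perm (Fin 4), Function.Surjective π ∧ π.ker = zpowers z := by
  have ox := orderOf_eq_prime x3 x1
  have og : orderOf g = 8 := orderOf_eq_prime_pow (p := 2) (n := 2) g4 g8
  have h24 : 24 ∣ Nat.card G := Nat.Coprime.mul_dvd_of_dvd_of_dvd (m := 3) (n := 8) (by norm_num)
    (ox ▸ orderOf_dvd_natCard x) (og ▸ orderOf_dvd_natCard g)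
  have cx : Nat.card (zpowers x) = 3 := (Nat.card_zpowers x).trans ox
  have i16 : (zpowers x).index ∣ 16 := Nat.dvd_of_mul_dvd_mul_left (k := 3) (by norm_num)
    (by rwa [← card_mul_index (zpowers x), cx] at hc)
  let P := (IsPGroup.of_card (p := 3) (n := 1) cx).toSylow fun e => absurd (e.trans i16) (by norm_num)
  have nP : ¬ (zpowers x).Normal := fun hn => by
    obtain ⟨j, hj, e⟩ : ∃ j, j < 3 ∧ x ^ j = g * x * g⁻¹ := by
      obtain ⟨j, e⟩ := (mem_powers_iff_mem_zpowers.2 (hn.conj_mem x (mem_zpowers x) g))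
      exact ⟨j % 3, Nat.mod_lt _ (by norm_num), by rw [← ox, pow_mod_orderOf]; exact e⟩
    have : x ^ (j * j) = g ^ 2 * x * (g ^ 2)⁻¹ := by rw [pow_mul, e, conj_pow, e, pow_two]; group
    refine g4 (pow_gcd_eq_one.2 ⟨g8, (pow_mul g 2 6).trans (h.c3 (mul_inv_eq_iff_eq_mul.1 (this.symm.trans ?_)).symm x3 x1)⟩)
    interval_cases j
    · exact absurd (by simpa using e.symm) x1
    · simp
    · rw [pow_succ, x3, one_mul]
  have zN : zpowers z ≤ 𝐍(zpowers x) := (zpowers_le.2 cz).trans ((center_le_centralizer _).trans (cent_le_norm _))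
  have i4 : (𝐍(zpowers x)).index = 4 := by
    have e1 : (𝐍(zpowers x)).index ≡ 1 [MOD 3] := Sylow.card_eq_index_normalizer P ▸ card_sylow_modEq_one 3 G
    have e2 : 6 ∣ Nat.card 𝐍(zpowers x) := Nat.Coprime.mul_dvd_of_dvd_of_dvd (m := 2) (n := 3) (by norm_num)
      (hz ▸ Nat.card_zpowers z ▸ card_dvd_of_le zN) (cx ▸ card_dvd_of_le (le_norm _))
    have e3 : (𝐍(zpowers x)).index ∣ 8 := Nat.dvd_of_mul_dvd_mul_left (k := 6) (by norm_num)
      ((mul_dvd_mul_right e2 _).trans ((card_mul_index _).dvd.trans hc))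
    have e4 : (𝐍(zpowers x)).index ≠ 1 := fun e => nP (normalizer_eq_top_iff.1 (index_eq_one.1 e))
    have := Nat.le_of_dvd (by norm_num) e3
    interval_cases (𝐍(zpowers x)).index <;> simp_all [Nat.ModEq]
  obtain ⟨π, hπ, -⟩ := Perm.exists_coset_hom (Ω := Fin 4) _ (i4.trans (by simp)) 0
  have z1 : (zpowers z).Normal := ⟨fun y hy u => by
    rwa [mem_center_iff.1 (zpowers_le.2 cz hy), mul_inv_cancel_right]⟩
  have kN : π.ker ≤ 𝐍(zpowers x) := hπ ▸ normalCore_le _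
  have n3 : ∀ y ∈ π.ker, y ^ 3 = 1 → y ∈ zpowers x := fun y hy e =>
    ((IsPGroup.inf_normalizer_sylow (P := zpowers y) (fun u => ⟨1, by
      obtain ⟨_, j, rfl⟩ := u; exact Subtype.ext (by
        change (y ^ j) ^ 3 ^ 1 = 1; rw [pow_one, ← zpow_natCast, zpow_comm, zpow_natCast, e, one_zpow])⟩)
      P).le ⟨mem_zpowers y, kN hy⟩).2
  have xk : π.ker ⊓ zpowers x = ⊥ := by
    refine (eq_bot_or_eq_of_prime (cx ▸ Nat.prime_three) inf_le_right).resolve_right fun e => nP ⟨fun y hy u => ?_⟩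
    refine n3 _ (π.normal_ker.conj_mem _ (e.ge hy).1 u) ?_
    rw [conj_pow, show y ^ 3 = 1 from cx ▸ congrArg Subtype.val (pow_card_eq_one' (x := (⟨y, hy⟩ : zpowers x)))]
    simp
  have hk : π.ker = zpowers z := le_antisymm (fun k hk => uz k (by
    have c : Commute x k := commutatorElement_eq_one_iff_commute.1 (mem_bot.1 (xk.le ⟨by simp [π.mem_ker.1 hk],
      by simpa [commutatorElement_def, mul_assoc] using
        mul_mem (mem_zpowers x) (conj_mem_of_norm (kN hk) (inv_mem (mem_zpowers x)))⟩))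
    exact mem_bot.1 (xk.le ⟨pow_mem hk 2, n3 _ (pow_mem hk 2) ((pow_mul k 2 3).symm.trans (h.c3 c x3 x1))⟩)))
    (hπ ▸ normal_le_normalCore.2 zN)
  refine ⟨π, π.range_eq_top.1 ?_, hk⟩
  have e1 : 2 * Nat.card π.range = Nat.card G := by
    rw [← index_ker, hk, ← hz, ← Nat.card_zpowers, card_mul_index]
  have e2 : Nat.card π.range * π.range.index = 24 := by rw [card_mul_index]; simp [Fintype.card_perm]; rfl
  obtain ⟨m, hm⟩ := h24
  have e3 := Nat.le_of_dvd (by norm_num) hc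
  have e4 : 0 < Nat.card G := Nat.card_pos
  obtain rfl | rfl : m = 1 ∨ m = 2 := by omega
  · have e5 := Equiv.Perm.eq_alternatingGroup_of_index_eq_two (G := π.range)
      (by rw [show Nat.card π.range = 12 by omega] at e2; omega)
    have e6 : g ^ 6 ∈ zpowers z := hk ▸ π.mem_ker.2 ((map_pow π g 6).trans
      ((by decide +kernel : ∀ s : Equiv.Perm (Fin 4), Equiv.Perm.sign s = 1 → s ^ 6 = 1) _ (e5.le ⟨g, rfl⟩)))
    refine absurd (pow_gcd_eq_one.2 ⟨g8, (pow_mul g 6 2).trans ?_⟩) g4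
    exact hz ▸ Nat.card_zpowers z ▸ congrArg Subtype.val (pow_card_eq_one' (x := (⟨_, e6⟩ : zpowers z)))
  · exact index_eq_one.1 (by rw [show Nat.card π.range = 24 by omega] at e2; omega)

end Cfsg.Lib.FGS.C13
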