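import Cfsg.Agent.Lib.FGS.Crit13c
import Cfsg.Agent.Lib.Frobenius.CN

/-! The Frobenius groups with element orders `1, 2, 3, 4, 6, 8, 13`. -/

set_option autoImplicit false

namespace Cfsg.Lib.FGS.C13

theorem exists_four {M : Type*} [AddCommGroup M] [Module Z M] [Nontrivial M] {i j x y : Module.End Z M} {s ε : Z}
    (hs : s * s = 1) (ii : i * i = -1) (jj : j * j = -1) (ij : i * j = -(j * i)) (yy : y * y = i)
    (jx : j * x = x * i) (xx : 1 + x + x * x = 0) (ix : 1 + ε • (i * x) + i * x * (i * x) = 0)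
    (hy : y * j = s • (i * j * y)) :
    ∃ T : Submodule Z M, T ≠ ⊥ ∧ Module.finrank Z T ≤ 4 ∧ (∀ v ∈ T, x v ∈ T) ∧ ∀ v ∈ T, y v ∈ T := by
  have hx : (i + j) * x = -(ε • 1) - i := by
    have x2 : x * x = -1 - x := by rw [← sub_eq_zero, ← xx]; abel
    have x3 : x * (x * x) = 1 := by rw [x2, mul_sub, x2]; noncomm_ring
    have := congrArg (fun a => i * a * (x * x)) ix
    simp only [mul_add, add_mul, mul_one, mul_smul_comm, smul_mul_assoc, mul_assoc, x3, mul_zero, zero_mul] at this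
    rw [← mul_assoc i i, ii, x2, ← jx] at this
    rw [← sub_eq_zero, ← neg_eq_zero, ← this]
    simp only [mul_sub, add_mul, mul_neg, mul_one, neg_mul, one_mul, smul_neg]; abel
  obtain ⟨v, v0, hv⟩ : ∃ v : M, v ≠ 0 ∧ i v = (5 : Z) • v := by
    obtain ⟨u, hu⟩ := exists_ne (0 : M)
    have k : ∀ u, i (i u) = -u := fun u => congrArg (· u) ii
    by_cases h : i u + (5 : Z) • u = 0
    · refine ⟨j u, fun e => hu (by simpa [e] using congrArg (· u) jj), ?_⟩
      have : i (j u) = -j (i u) := congrArg (· u) ij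
      rw [this, eq_neg_of_add_eq_zero_left h]; simp
    · refine ⟨_, h, ?_⟩
      rw [map_add, map_smul, k, smul_add, smul_smul, show (5 * 5 : Z) = -1 from rfl, neg_one_smul, add_comm]
  have yi : y * i = i * y := by rw [← yy, mul_assoc]
  obtain ⟨w, hw⟩ : ∃ w, w = y * (1 - s • i) := ⟨_, rfl⟩
  have wi : i * w = w * i := by rw [hw, ← mul_assoc, ← yi, mul_assoc, mul_assoc]; simp [mul_sub, sub_mul]
  have wj : j * w = w * j := by
    have : w * j = y * j * (1 + s • i) := by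
      rw [hw, mul_assoc, mul_assoc]; simp [mul_add, sub_mul, ij]
    rw [this, hy, ij, hw]
    simp only [mul_add, mul_sub, mul_one, smul_mul_assoc, mul_smul_comm, neg_mul, smul_neg, mul_assoc, yi, smul_smul, hs,
      one_smul]
    rw [← mul_assoc i i, ii]; simp; abel
  have ww : w * w = (2 * s) • 1 := by
    have : w * w = i * ((1 - s • i) * (1 - s • i)) := by
      rw [hw, ← yy]
      simp only [mul_sub, sub_mul, mul_one, one_mul, smul_mul_assoc, mul_smul_comm, mul_assoc, ← yi]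
    rw [this]
    simp only [mul_sub, sub_mul, mul_one, one_mul, smul_mul_assoc, mul_smul_comm, ii, smul_sub, smul_smul, hs, one_smul,
      two_mul, add_smul, smul_neg, mul_neg]
    abel
  have ey : y = (7 : Z) • (w * (1 + s • i)) := by
    rw [hw, mul_assoc, show (1 - s • i) * (1 + s • i) = (2 : Z) • 1 by
      simp only [mul_add, sub_mul, mul_one, one_mul, smul_mul_assoc, mul_smul_comm, smul_sub, smul_smul, hs, ii,
        two_smul, one_smul]; abel]
    simp [smul_smul, show (7 * 2 : Z) = 1 from rfl]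
  have ex : x = (6 : Z) • ((i + j) * (-(ε • 1) - i)) := by
    rw [← hx, ← mul_assoc, show (i + j) * (i + j) = (-2 : Z) • 1 by
      simp only [mul_add, add_mul, ii, jj, ij, neg_smul, two_smul]; abel]
    simp [smul_smul, show (6 * 2 : Z) = -1 from rfl]
  set T := Submodule.span Z (Set.range ![v, j v, w v, w (j v)])
  have m : ∀ k, ![v, j v, w v, w (j v)] k ∈ T := fun k => Submodule.subset_span ⟨k, rfl⟩
  have inv : ∀ f : Module.End Z M, (∀ k, f (![v, j v, w v, w (j v)] k) ∈ T) → ∀ u ∈ T, f u ∈ T := fun f h u hu =>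
    (Submodule.span_le.2 (by rintro _ ⟨k, rfl⟩; exact h k) : T ≤ T.comap f) hu
  have e1 : ∀ u, i (j u) = -j (i u) := fun u => congrArg (· u) ij
  have e2 : ∀ u, i (w u) = w (i u) := fun u => congrArg (· u) wi
  have e3 : ∀ u, j (w u) = w (j u) := fun u => congrArg (· u) wj
  have e4 : ∀ u, j (j u) = -u := fun u => congrArg (· u) jj
  have e5 : ∀ u, w (w u) = (2 * s) • u := fun u => congrArg (· u) ww
  have ti := inv i fun k => by
    fin_cases k <;> simp [e1, e2, hv]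
    exacts [T.smul_mem _ (m 0), T.smul_mem _ (m 1), T.smul_mem _ (m 2), T.smul_mem _ (m 3)]
  have tj := inv j fun k => by
    fin_cases k <;> simp [e3, e4]
    exacts [m 1, m 0, m 3, m 2]
  have tw := inv w fun k => by
    fin_cases k <;> simp [e5]
    exacts [m 2, m 3, T.smul_mem _ (m 0), T.smul_mem _ (m 1)]
  refine ⟨T, fun e => v0 (e.le (m 0)), (finrank_range_le_card _).trans (by simp), fun u hu => ?_, fun u hu => ?_⟩
  · have : (-(ε • 1) - i : Module.End Z M) u ∈ T := T.sub_mem (T.neg_mem (T.smul_mem _ hu)) (ti u hu)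
    rw [ex]; exact T.smul_mem _ (T.add_mem (ti _ this) (tj _ this))
  · rw [ey]; exact T.smul_mem _ (tw _ (T.add_mem hu (T.smul_mem _ (ti u hu))))

open Subgroup Cfsg.Lib.BG Cfsg.Lib.Transfer Equiv
open scoped IsMulCommutative

universe u
variable {G : Type u} [Group G] [Finite G]

theorem Om.card_dvd (h : Om G) {K H : Subgroup G} (hK : K ≠ ⊥) (hN : H ≤ 𝐍(K)) (hH : ¬ 13 ∣ Nat.card H)
    (hr : SemiReg K H) : Nat.card H ∣ 48 := by
  have k : ∀ x ∈ H, 2 * orderOf x ∣ 48 := fun x hx => by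
    rcases h x with e | e | e
    · exact (mul_dvd_mul_left 2 (orderOf_dvd_of_pow_eq_one e)).trans (by norm_num)
    · exact (mul_dvd_mul_left 2 (orderOf_dvd_of_pow_eq_one e)).trans (by norm_num)
    · by_cases e' : x = 1
      · simp [e']
      · exact absurd (orderOf_eq_prime e e' ▸ H.orderOf_dvd_natCard hx) hH
  refine (Nat.dvd_iff_prime_pow_dvd_dvd _ _).2 fun p n hp hn => ?_
  haveI := Fact.mk hp
  obtain ⟨R, hR⟩ := Sylow.exists_subgroup_card_pow_prime p hn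
  have e := (card_map_of_injective H.subtype_injective).trans hR
  rcases Frobenius.cyclic_or_quaternion_of_semiReg hK ((map_subtype_le R).trans hN) (hr.mono le_rfl (map_subtype_le R))
    (IsPGroup.of_card e) with hc | ⟨-, m, ⟨f⟩⟩
  · obtain ⟨t, ht⟩ := IsCyclic.exists_ofOrder_eq_natCard (α := R.map H.subtype)
    rw [← e, ← ht, ← orderOf_coe]
    exact (Dvd.intro_left _ rfl).trans (k _ (map_subtype_le R t.2))
  · have := k _ (map_subtype_le R (f.symm (.a 1)).2)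
    rw [orderOf_coe, f.symm.orderOf_eq, QuaternionGroup.orderOf_a_one, ← mul_assoc] at this
    rwa [← e, Nat.card_congr f.toEquiv, Nat.card_eq_fintype_card, QuaternionGroup.card]

theorem Om.frob (h : Om G) [Group.IsSolvable G]
    (hc : ∀ H : Subgroup G, ∀ b ∈ H, ∀ g ∈ H, ∀ k ∈ H, orderOf b = 13 → orderOf g = 8 → orderOf k = 6 → H = ⊤)
    {b g k : G} (b13 : b ^ 13 = 1) (b1 : b ≠ 1) (g8 : g ^ 8 = 1) (g4 : g ^ 4 ≠ 1) (k3 : k ^ 3 = 1) (k1 : k ≠ 1) :
    ∃ (K H : Subgroup G), K.Normal ∧ IsMulCommutative K ∧ (∀ x ∈ K, x ^ 13 = 1) ∧ Nat.card K = 13 ^ 4 ∧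
      K ⊓ H = ⊥ ∧ K ⊔ H = ⊤ ∧ SemiReg K H ∧ ∃ (z : H) (π : H →* Perm (Fin 4)), orderOf z = 2 ∧
        (∀ t : H, t ^ 2 = 1 → t ∈ zpowers z) ∧ Function.Surjective π ∧ π.ker = zpowers z := by
  have K1 := h.pcore_ne_bot b13 b1 g8 g4 k3 k1
  have hK := pcore_pgroup 13 (⊤ : Subgroup G)
  have := Nml.top_iff.1 (pcore_nml {13} (⊤ : Subgroup G))
  generalize 𝐎({13}, (⊤ : Subgroup G)) = K at *
  have og : orderOf g = 8 := orderOf_eq_prime_pow (p := 2) (n := 2) g4 g8
  obtain ⟨H, hH, gH⟩ := Hall.exists_ge (π := {13}ᶜ) (M := ⊤) (U := zpowers g) inferInstance le_top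
    (PiGrp.p'_iff.2 (by rw [Nat.card_zpowers, og]; norm_num))
  have gH := gH (mem_zpowers g)
  obtain ⟨u, -, kH⟩ := hH.exists_conj_le (U := zpowers k) inferInstance le_top
    (PiGrp.p'_iff.2 (by rw [Nat.card_zpowers, orderOf_eq_prime k3 k1]; norm_num))
  have kH : u * k * u⁻¹ ∈ H := kH (mem_map_of_mem _ (mem_zpowers k))
  have H13 := PiGrp.p'_iff.1 hH.pi
  have hN : H ≤ 𝐍(K) := le_normalizer_of_normal
  have hr : SemiReg K H := (h.semiReg H13 hK).symm
  have KH : K ⊓ H = ⊥ := disjoint_of_coprime ((hH.pi.coprime_pgroup hK).symm)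
  obtain ⟨z, hz⟩ : ∃ z : H, orderOf z = 2 :=
    ⟨⟨g, gH⟩ ^ 4, orderOf_eq_prime (Subtype.ext ((pow_mul g 4 2).symm.trans g8)) fun e => g4 (congrArg Subtype.val e)⟩
  have hz' := (orderOf_coe z).trans hz
  have uz : ∀ t : H, t ^ 2 = 1 → t = 1 ∨ t = z := fun t e => or_iff_not_imp_left.2 fun e' => Subtype.ext
    (Frobenius.eq_of_inv_of_semiReg K1 hN hr t.2 z.2 ((orderOf_coe t).trans (orderOf_eq_prime e e')) hz')
  have cz : ∀ a : H, a * z = z * a := fun a => Subtype.ext (Frobenius.comm_of_inv_of_semiReg K1 hN hr z.2 hz' a.2)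
  have uz' : ∀ t : H, t ^ 2 = 1 → t ∈ zpowers z := fun t e => by rcases uz t e with rfl | rfl <;> simp
  have iz := fun x hx => Frobenius.inv_eq_of_semiReg hN hr z.2 hz' (x := x) hx
  haveI ab : IsMulCommutative K := ⟨⟨fun a b => Subtype.ext (inv_injective (by
    change ((a : G) * b)⁻¹ = ((b : G) * a)⁻¹
    rw [← iz _ (mul_mem a.2 b.2), mul_inv_rev, ← iz _ a.2, ← iz _ b.2]; group))⟩⟩
  have h48 := h.card_dvd K1 hN H13 hr
  obtain ⟨π, sπ, kπ⟩ := Om.exists_S4 (G := H) (fun a => by simpa [Subtype.ext_iff] using h a) h48 hz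
    (mem_center_iff.2 cz) uz' (g := ⟨g, gH⟩) (x := ⟨_, kH⟩) (Subtype.ext g8) (fun e => g4 (congrArg Subtype.val e))
    (Subtype.ext (by simp [k3])) fun e => k1 (by simpa using e)
  have zz : z ^ 2 = 1 := hz ▸ pow_orderOf_eq_one z
  have kz : ∀ t : H, π t = 1 → t ^ 2 = 1 := fun t e => by
    obtain ⟨j, rfl⟩ := kπ.le e
    change (z ^ j) ^ 2 = 1
    rw [← zpow_natCast, zpow_comm, zpow_natCast, zz, one_zpow]
  have zk : ∀ t : H, t ^ 2 = 1 → π t = 1 := fun t e => kπ.ge (uz' t e)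
  obtain ⟨y, hy⟩ := sπ (swap 0 1 * swap 1 2 * swap 2 3)
  obtain ⟨x, hx, x3⟩ : ∃ x : H, π x = swap 0 1 * swap 1 2 ∧ x ^ 3 = 1 := by
    obtain ⟨x, hx⟩ := sπ (swap 0 1 * swap 1 2)
    refine ⟨x ^ 4, by rw [map_pow, hx]; decide +kernel, ?_⟩
    rw [← pow_mul]; exact pow_of 6 12 ((pow_mul x 3 2).trans (kz _ (by rw [map_pow, hx]; decide +kernel)))
  have y4 : y ^ 4 = z := (uz _ (kz _ (by rw [map_pow, hy]; decide +kernel))).resolve_left fun e =>
    absurd (zk _ ((pow_mul y 2 2).symm.trans e)) (by rw [map_pow, hy]; decide +kernel)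
  have x1 : x ≠ 1 := fun e => absurd (hx.symm.trans (by rw [e, map_one])) (by decide)
  have z1 : z ≠ 1 := fun e => by simp [e] at hz
  have gen : ∀ V : Subgroup G, V ≠ ⊥ → ∀ L : Subgroup G, V ≤ K → (x : G) ∈ L → (y : G) ∈ L → V ⊔ L = ⊤ :=
    fun V V1 L hV h1 h2 => by
    obtain ⟨v, hv, v1⟩ := V.bot_or_exists_ne_one.resolve_left V1
    refine hc _ v (mem_sup_left hv) y (mem_sup_right h2) (y ^ 4 * x) (mem_sup_right (mul_mem (pow_mem h2 4) h1))
      (orderOf_eq_prime (h.pow13 hK (hV hv)) v1) ((orderOf_coe y).trans (orderOf_eq_prime_pow (p := 2) (n := 2)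
        (y4 ▸ z1) ((pow_mul y 4 2).trans (y4 ▸ zz)))) ((orderOf_coe (y ^ 4 * x)).trans ?_)
    rw [y4, Commute.orderOf_mul_eq_mul_orderOf_of_coprime (cz x).symm, hz, orderOf_eq_prime x3 x1]
    rw [hz, orderOf_eq_prime x3 x1]; norm_num
  refine ⟨K, H, this, ab, fun x => h.pow13 hK, ?_, KH, gen K K1 H le_rfl x.2 y.2, hr, z, π, hz, uz', sπ, kπ⟩
  letI : Module Z (Additive K) := AddCommGroup.zmodModule fun a =>
    congrArg Additive.ofMul (Subtype.ext (h.pow13 hK a.toMul.2) : a.toMul ^ 13 = 1)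
  haveI : Nontrivial K := (nontrivial_iff_ne_bot K).2 K1
  let ρ : H →* Module.End Z (Additive K) :=
    { toFun a := (cj K a).toAdditive.toZModLinearMap 13
      map_one' := LinearMap.ext fun a => by simp
      map_mul' a b := LinearMap.ext fun c => congrArg Additive.ofMul (cj_mul (a : G) b c.toMul) }
  have ρz : ρ z = -1 := LinearMap.ext fun a => congrArg Additive.ofMul (Subtype.ext (iz _ a.toMul.2))
  have ρ3 : ∀ t : H, t ^ 3 = 1 → π t ≠ 1 → 1 + ρ t + ρ t * ρ t = 0 := fun t t3 t1 => LinearMap.ext fun a => by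
    have e : ρ t ((1 + ρ t + ρ t * ρ t) a) = (1 + ρ t + ρ t * ρ t) a := by
      rw [← Module.End.mul_apply, mul_add, mul_add, mul_one, ← pow_three, ← map_pow, t3, map_one]
      simp only [LinearMap.add_apply]; abel
    exact congrArg Additive.ofMul (Subtype.ext (mem_bot.1 ((hr t t.2 fun e => t1 (by
      rw [show t = 1 from Subtype.ext e, map_one])).le ⟨((1 + ρ t + ρ t * ρ t) a).toMul.2,
        mem_cent1.2 (mul_inv_eq_iff_eq_mul.1 (congrArg (fun u => ((Additive.toMul u : K) : G)) e)).symm⟩)))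
  have sg : ∀ a b : H, π a = π b → ∃ s : Z, s * s = 1 ∧ ρ a = s • ρ b := fun a b e => by
    rcases uz (a * b⁻¹) (kz _ (by simp [e])) with e' | e'
    · exact ⟨1, one_mul _, by rw [mul_inv_eq_one.1 e', one_smul]⟩
    · exact ⟨-1, by simp, by rw [mul_inv_eq_iff_eq_mul.1 e', map_mul, ρz]; simp⟩
  have ii : ∀ a : H, ρ (a * y ^ 2 * a⁻¹) * ρ (a * y ^ 2 * a⁻¹) = -1 := fun a => by
    rw [← map_mul, ← pow_two, conj_pow, ← pow_mul, y4, cz, mul_inv_cancel_right, ρz]
  have ij : ρ (y ^ 2) * ρ (x * y ^ 2 * x⁻¹) = -(ρ (x * y ^ 2 * x⁻¹) * ρ (y ^ 2)) := by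
    rcases uz (y ^ 2 * (x * y ^ 2 * x⁻¹) * ((x * y ^ 2 * x⁻¹) * y ^ 2)⁻¹) (kz _ (by
      simp only [map_mul, map_inv, map_pow, hx, hy]; decide +kernel)) with e' | e'
    · refine absurd (zk (y ^ 2 * (x * y ^ 2 * x⁻¹)) ?_) (by simp only [map_mul, map_inv, map_pow, hx, hy]; decide +kernel)
      rw [Commute.mul_pow (mul_inv_eq_one.1 e'), conj_pow, ← pow_mul, y4, cz, mul_inv_cancel_right, ← pow_two, zz]
    · rw [← map_mul, mul_inv_eq_iff_eq_mul.1 e', map_mul, ρz, map_mul ρ _ (y ^ 2), neg_one_mul]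
  obtain ⟨ε, ix⟩ : ∃ ε : Z, 1 + ε • (ρ (y ^ 2) * ρ x) + ρ (y ^ 2) * ρ x * (ρ (y ^ 2) * ρ x) = 0 := by
    have e1 : π ((y ^ 2 * x) ^ 4) = π (y ^ 2 * x) := by simp only [map_mul, map_pow, hx, hy]; decide +kernel
    obtain ⟨s, ss, e⟩ := sg _ _ e1
    have := ρ3 ((y ^ 2 * x) ^ 4) ((pow_mul _ 4 3).symm.trans (pow_of 6 12 ((pow_mul _ 3 2).trans (kz _ (by
      simp only [map_mul, map_pow, hx, hy]; decide +kernel))))) (by rw [e1]; simp only [map_mul, map_pow, hx, hy]; decide +kernel)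
    rw [e, smul_mul_smul_comm, ss, one_smul, map_mul] at this
    exact ⟨s, this⟩
  obtain ⟨s, ss, e⟩ := sg (y * (x * y ^ 2 * x⁻¹)) (y ^ 2 * (x * y ^ 2 * x⁻¹) * y)
    (by simp only [map_mul, map_inv, map_pow, hx, hy]; decide +kernel)
  obtain ⟨T, T1, T4, Tx, Ty⟩ := exists_four (x := ρ x) (y := ρ y) ss (by simpa using ii 1) (ii x) ij
    (by rw [← map_mul, pow_two]) (by simp only [← map_mul, inv_mul_cancel_right]) (ρ3 x x3 (by rw [hx]; decide +kernel)) ix
    (by simpa only [map_mul] using e)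
  let V : Subgroup G := (AddSubgroup.toSubgroup' T.toAddSubgroup).map K.subtype
  have nV : ∀ a : H, (∀ v ∈ T, ρ a v ∈ T) → (a : G) ∈ 𝐍(V) := fun a ha => mem_normalizer_fintype (by
    rintro _ ⟨v, hv, rfl⟩; exact ⟨_, ha (.ofMul v) hv, rfl⟩)
  have VK : V = K := by
    have := modular_left (B := K) (map_subtype_le _ : V ≤ K) (inf_le_right : H ⊓ 𝐍(V) ≤ _)
    rw [gen V (fun e => T1 (eq_bot_iff.2 fun v hv => congrArg Additive.ofMul (Subtype.ext (mem_bot.1
      (e.le ⟨v.toMul, hv, rfl⟩))))) (H ⊓ 𝐍(V)) (map_subtype_le _) ⟨x.2, nV x Tx⟩ ⟨y.2, nV y Ty⟩, top_inf_eq,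
      eq_bot_iff.2 (show H ⊓ 𝐍(V) ⊓ K ≤ ⊥ from fun a ha => KH.le ⟨ha.2, ha.1.1⟩), sup_bot_eq] at this
    exact this.symm
  have cK : Nat.card K = 13 ^ Module.finrank Z T := by
    refine (congrArg (fun X : Subgroup G => Nat.card X) VK).symm.trans
      ((card_map_of_injective K.subtype_injective).trans ?_)
    exact (Module.natCard_eq_pow_finrank (K := Z) (V := T)).trans (by simp)
  have cH : Nat.card H = 48 := by
    rw [← card_mul_index π.ker, index_ker, π.range_eq_top.2 sπ, kπ, Nat.card_zpowers, hz, card_top]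
    simp [Fintype.card_perm]; rfl
  exact cK.trans (congrArg _ ((by decide : ∀ d ≤ 4, 48 ∣ 13 ^ d - 1 → 1 < 13 ^ d → d = 4) _ T4
    (cH.symm.dvd.trans ((regular_norm_dvd_pred hN hr).trans (congrArg (· - 1) cK).dvd))
    ((K.one_lt_card_iff_ne_bot.2 K1).trans_eq cK)))

end Cfsg.Lib.FGS.C13
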