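import Cfsg.Agent.Lib.FGS.ClassSize2
import Cfsg.Agent.Lib.FGS.Count
import Cfsg.Agent.Lib.FGS.Misc
import Cfsg.Agent.Lib.Perm.Centralizer

/-!
# Class sizes: Itô and Frobenius–Wielandt counting, monolithic quotients
-/

set_option autoImplicit false

namespace Cfsg.Lib.FGS.Diam

open Subgroup Cfsg.Lib.BG Cfsg.Lib.Transfer Cfsg.Lib.FGS

variable {G : Type*} [Group G] [Finite G] {p q : ℕ} {π σ : Set ℕ} {x y : G}

/-- Every Sylow `p`-subgroup is central in its normalizer. -/
def Ok (p : ℕ) (G : Type*) [Group G] : Prop :=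
  ∀ P : Sylow p G, 𝐍((P : Subgroup G)) ≤ 𝐂((P : Subgroup G))

/-- No two nontrivial normal subgroups commute. -/
def Mono (G : Type*) [Group G] : Prop := ∀ N : Subgroup G, N.Normal → N ≠ ⊥ → 𝐂(N) = ⊥

theorem ok_of_one [Fact p.Prime] (P : Sylow p G) (h : 𝐍((P : Subgroup G)) ≤ 𝐂((P : Subgroup G))) :
    Ok p G := fun R => by
  obtain ⟨g, rfl⟩ := MulAction.exists_smul_eq G P R
  rw [coe_smul_sylow, ← conj_normalizer, ← conj_centralizer]
  exact Transfer.conj_mono g h

open Classical in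
theorem two_mul_card [Fintype G] [Fact p.Prime] (h : ¬ Ok p G) :
    2 * (Finset.univ.filter fun x : G => x ≠ 1 ∧ ¬ p ∣ (𝐂[x]).index).card + 2 ≤ Fintype.card G := by
  haveI := Fintype.ofFinite (Sylow p G)
  have h1 : (Finset.univ.filter fun x : G => x ≠ 1 ∧ ¬ p ∣ (𝐂[x]).index) ⊆ Finset.univ.biUnion
      fun R : Sylow p G => (Finset.univ.filter (· ∈ 𝐂((R : Subgroup G)))).erase 1 := fun x hx => by
    obtain ⟨h1, h2⟩ := (Finset.mem_filter.1 hx).2
    obtain ⟨R, hR⟩ := exists_sylow_le_of_not_dvd_index h2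
    simp only [Finset.mem_biUnion, Finset.mem_univ, true_and, Finset.mem_erase, Finset.mem_filter]
    exact ⟨R, h1, fun y hy => (mem_centralizer_singleton_iff.1 (hR hy))⟩
  have h2 : ∀ R : Sylow p G, Fintype.card (Sylow p G) * (2 * ((Finset.univ.filter
      (· ∈ 𝐂((R : Subgroup G)))).erase 1).card + 2) ≤ Fintype.card G := fun R => by
    have h3 : 𝐂((R : Subgroup G)) < 𝐍((R : Subgroup G)) :=
      lt_of_le_not_ge (centralizer_le_normalizer _) fun e => h (ok_of_one R e)
    have h4 := BG.card_mul_relIndex h3.le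
    have h5 : 2 ≤ (𝐂((R : Subgroup G))).relIndex 𝐍((R : Subgroup G)) := by
      have : (𝐂((R : Subgroup G))).relIndex 𝐍((R : Subgroup G)) ≠ 0 := index_ne_zero_of_finite
      have : (𝐂((R : Subgroup G))).relIndex 𝐍((R : Subgroup G)) ≠ 1 :=
        fun e => h3.not_ge (relIndex_eq_one.1 e)
      omega
    have h6 := Finset.card_erase_add_one
      (s := Finset.univ.filter (· ∈ 𝐂((R : Subgroup G)))) (a := 1) (by simp [one_mem])
    rw [← Fintype.card_subtype, ← Nat.card_eq_fintype_card] at h6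
    rw [← Nat.card_eq_fintype_card, ← Nat.card_eq_fintype_card (α := G), card_sylow_eq_index R,
      ← index_mul_card 𝐍((R : Subgroup G)), ← h4]
    refine Nat.mul_le_mul_left _ ?_
    erw [← h6]; nlinarith
  have h3 := (Finset.card_le_card h1).trans Finset.card_biUnion_le
  have h4 := Finset.sum_le_sum fun R (_ : R ∈ Finset.univ) => h2 R
  rw [← Finset.mul_sum, Finset.sum_const, Finset.card_univ, smul_eq_mul, Finset.sum_add_distrib,
    ← Finset.mul_sum, Finset.sum_const, Finset.card_univ, smul_eq_mul] at h4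
  have h5 : 0 < Fintype.card (Sylow p G) := Fintype.card_pos
  have := Nat.le_of_mul_le_mul_left h4 h5
  omega

/-- Itô's lemma. -/
theorem ito [Fact p.Prime] [Fact q.Prime] (h : ∀ x : G, ¬ p ∣ (𝐂[x]).index ∨ ¬ q ∣ (𝐂[x]).index) :
    Ok p G ∨ Ok q G := by
  classical
  haveI := Fintype.ofFinite G
  by_contra! H
  have h1 := two_mul_card H.1
  have h2 := two_mul_card H.2
  have h3 : Finset.univ.erase (1 : G) ⊆
      (Finset.univ.filter fun x : G => x ≠ 1 ∧ ¬ p ∣ (𝐂[x]).index) ∪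
      (Finset.univ.filter fun x : G => x ≠ 1 ∧ ¬ q ∣ (𝐂[x]).index) := fun x hx => by
    have := Finset.ne_of_mem_erase hx
    simp only [Finset.mem_union, Finset.mem_filter, Finset.mem_univ, true_and]
    exact (h x).imp (fun e => ⟨this, e⟩) fun e => ⟨this, e⟩
  have h4 := (Finset.card_le_card h3).trans (Finset.card_union_le _ _)
  rw [Finset.card_erase_of_mem (Finset.mem_univ _), Finset.card_univ] at h4
  omega

open Classical in
theorem card_filter_mem [Fintype G] (H : Subgroup G) :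
    (Finset.univ.filter (· ∈ H)).card = Nat.card H := by
  rw [← Fintype.card_subtype, ← Nat.card_eq_fintype_card]

/-- Frobenius–Wielandt counting. -/
theorem fw [Fact q.Prime] (h : Ok q G) {C : Subgroup G} (hC : ∀ g ∉ C, ¬ q ∣ (𝐂[g]).index)
    (hy : q ∣ (𝐂[y]).index) : 𝐂[y] ≤ C := by
  classical
  haveI := Fintype.ofFinite G
  haveI := Fintype.ofFinite (Sylow q G)
  set S := Finset.univ.filter fun g : G => g ∉ C with eS
  have c1 : ∀ g ∈ S, 1 ≤ (Finset.univ.filter fun R : Sylow q G => g ∈ 𝐂((R : Subgroup G))).card :=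
    fun g hg => by
      obtain ⟨R, hR⟩ := exists_sylow_le_of_not_dvd_index (hC g (Finset.mem_filter.1 hg).2)
      exact Finset.card_pos.2 ⟨R, Finset.mem_filter.2 ⟨Finset.mem_univ _, le_cent1_iff.1 hR⟩⟩
  have c0 : S.card + Nat.card C = Nat.card G := by
    rw [← card_filter_mem, add_comm, eS, Finset.card_filter_add_card_filter_not, Finset.card_univ,
      Nat.card_eq_fintype_card]
  have c2 : ∀ R : Sylow q G, Fintype.card (Sylow q G) *
      (S.filter fun g => g ∈ 𝐂((R : Subgroup G))).card ≤ S.card := fun R => by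
    have e1 : (S.filter fun g => g ∈ 𝐂((R : Subgroup G))).card +
        Nat.card ↥(𝐂((R : Subgroup G)) ⊓ C) = Nat.card 𝐂((R : Subgroup G)) := by
      rw [← card_filter_mem, ← card_filter_mem, ← Finset.card_filter_add_card_filter_not (· ∉ C)
        (s := Finset.univ.filter (· ∈ 𝐂((R : Subgroup G)))), eS, Finset.filter_comm,
        Finset.filter_filter (q := fun a => ¬ a ∉ C)]
      simp
    have e2 : Fintype.card (Sylow q G) = (𝐂((R : Subgroup G))).index := by
      rw [← Nat.card_eq_fintype_card, card_sylow_eq_index R,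
        le_antisymm (h R) (centralizer_le_normalizer _)]
    have e3 := (𝐂((R : Subgroup G))).index_mul_card
    have e4 := BG.card_mul_relIndex (inf_le_right (a := 𝐂((R : Subgroup G))) (b := C))
    rw [inf_relIndex_right] at e4
    have e5 : (𝐂((R : Subgroup G))).relIndex C ≤ (𝐂((R : Subgroup G))).index := by
      rw [← relIndex_top_right]
      exact relIndex_le_of_le_right le_top index_ne_zero_of_finite
    rw [e2]
    nlinarith
  have c3 : ∑ g ∈ S, (Finset.univ.filter fun R : Sylow q G => g ∈ 𝐂((R : Subgroup G))).card ≤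
      ∑ _g ∈ S, 1 := by
    have := Finset.sum_le_sum fun R (_ : R ∈ Finset.univ) => c2 R
    rw [← Finset.mul_sum, Finset.sum_const, Finset.card_univ, smul_eq_mul] at this
    have := Nat.le_of_mul_le_mul_left this Fintype.card_pos
    simp only [Finset.card_filter] at this ⊢
    rw [Finset.sum_comm]
    simpa using this
  intro g hg
  by_contra hgC
  have hgS : g ∈ S := Finset.mem_filter.2 ⟨Finset.mem_univ _, hgC⟩
  have c4 : (Finset.univ.filter fun R : Sylow q G => g ∈ 𝐂((R : Subgroup G))).card ≤ 1 := by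
    by_contra! hlt
    exact absurd (Finset.sum_lt_sum c1 ⟨g, hgS, hlt⟩) (not_lt.2 c3)
  obtain ⟨R, hR⟩ := exists_sylow_le_of_not_dvd_index (hC g hgC)
  have e : y • R = R := Finset.card_le_one.1 c4 _ (Finset.mem_filter.2 ⟨Finset.mem_univ _, by
    rw [coe_smul_sylow, ← conj_centralizer, mem_conj]
    rw [mul_assoc, mem_cent1.1 hg, inv_mul_cancel_left]
    exact le_cent1_iff.1 hR⟩) _ (Finset.mem_filter.2 ⟨Finset.mem_univ _, le_cent1_iff.1 hR⟩)
  exact not_dvd_index_of_sylow_le R (le_cent1_iff.2 (h R (Sylow.smul_eq_iff_mem_normalizer.1 e))) hy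

theorem exists_mono {W : Subgroup G} [W.Normal] (h : ¬ Group.IsSolvable W) :
    ∃ (C : Subgroup G) (_ : C.Normal), ¬ W ≤ C ∧ Mono (G ⧸ C) := by
  obtain ⟨L, ⟨_, hL, hs⟩, hm⟩ := exists_minimal_of_wellFoundedLT
    (fun L : Subgroup G => L.Normal ∧ L ≤ W ∧ ¬ Group.IsSolvable L) ⟨W, ‹_›, le_rfl, h⟩
  have h1 : L ≤ ⁅L, L⁆ := hm ⟨inferInstance, (der_le L).trans hL,
    fun e => hs (Core.isSolvable_of_commutator_le le_rfl e)⟩ (der_le L)
  obtain ⟨C, ⟨_, hC⟩, hM⟩ := exists_maximal_of_wellFoundedGT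
    (fun C : Subgroup G => C.Normal ∧ ¬ L ≤ C) ⟨⊥, inferInstance, fun e => hs (by
      rw [le_bot_iff.1 e]; infer_instance)⟩
  refine ⟨C, ‹_›, fun e => hC (hL.trans e), fun N hN h0 => ?_⟩
  have key : ∀ N : Subgroup (G ⧸ C), N.Normal → N ≠ ⊥ → L.map (QuotientGroup.mk' C) ≤ N := by
    intro N hN h0
    rw [map_le_iff_le_comap]
    by_contra e
    refine h0 ?_
    rw [← map_comap_eq_self_of_surjective (QuotientGroup.mk'_surjective C) N,
      Subgroup.map_eq_bot_iff, QuotientGroup.ker_mk']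
    exact hM ⟨hN.comap _, e⟩ (QuotientGroup.le_comap_mk' _ _)
  by_contra h2
  refine hC (h1.trans ?_)
  rw [← QuotientGroup.ker_mk' C, ← Subgroup.map_eq_bot_iff, map_commutator, comm_eq_bot_iff]
  exact (key _ inferInstance h2).trans (cent_anti (key N hN h0))

namespace Mono

variable (m : Mono G)
include m

theorem not_sol [Nontrivial G] : ¬ Group.IsSolvable G := fun _ => by
  obtain ⟨L, _, -, h0, hm⟩ := Perm.exists_minimal_normal_le (⊤ : Subgroup G) top_ne_bot
  have h1 : ⁅L, L⁆ = ⊥ :=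
    (hm _ inferInstance (der_le L)).resolve_right (Group.IsSolvable.commutator_lt_of_ne_bot h0).ne
  exact h0 (le_bot_iff.1 ((comm_eq_bot_iff.1 h1).trans (m L ‹_› h0).le))

theorem not_comm (hx : x ≠ 1) (hy : y ≠ 1) (h : (𝐂[x]).index.Coprime (𝐂[y]).index) (g : G) :
    g * y * g⁻¹ ∉ 𝐂[x] := fun e => by
  have key : ∀ g : G, ∃ a ∈ 𝐂[x], g * y * g⁻¹ = a * y * a⁻¹ := fun g => by
    obtain ⟨a, ha, b, hb, rfl⟩ := exists_mul_of_coprime_index h g
    refine ⟨a, ha, ?_⟩
    rw [mul_assoc a, mem_cent1.1 hb]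
    group
  have h1 : y ∈ 𝐂[x] := by
    obtain ⟨a, ha, e'⟩ := key g
    rw [e'] at e
    simpa [mul_assoc] using mul_mem (mul_mem (inv_mem ha) e) ha
  have h2 : normalClosure {y} ≤ 𝐂[x] := by
    rw [normalClosure, closure_le]
    intro z hz
    obtain ⟨w, rfl, c, rfl⟩ : ∃ w, w = y ∧ ∃ c, c * w * c⁻¹ = z := by
      simpa [Group.mem_conjugatesOfSet_iff, isConj_iff] using hz
    obtain ⟨a, ha, e'⟩ := key c
    rw [e']
    exact mul_mem (mul_mem ha h1) (inv_mem ha)
  have h3 := m (normalClosure {y}) inferInstance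
    (ne_bot_of_mem (subset_normalClosure (Set.mem_singleton y)) hy)
  exact hx (mem_bot.1 (h3 ▸ le_cent1_iff.1 h2))

theorem dvd_index (hx : x ≠ 1) (h : (𝐂[x]).index.Coprime (𝐂[y]).index) {t : ℕ} (ht : t.Prime)
    (hd : t ∣ orderOf y) : t ∣ (𝐂[x]).index := by
  haveI := Fact.mk ht
  by_contra e
  have h1 := orderOf_pow_orderOf_div (orderOf_pos y).ne' hd
  obtain ⟨g, hg⟩ := exists_conj_mem_of_not_dvd_index e (y := y ^ (orderOf y / t)) (k := 1)
    (by rw [pow_one]; exact orderOf_dvd_iff_pow_eq_one.1 h1.dvd)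
  refine m.not_comm hx (fun e' => ht.ne_one ?_) (h.coprime_dvd_right
    (index_cent1_dvd_of_mem_zpowers (npow_mem_zpowers y _))) g hg
  rw [← h1, e', orderOf_one]

theorem exists_dvd [Fact p.Prime] (P : Sylow p G) (h0 : (P : Subgroup G) ≠ ⊥) {N : Subgroup G}
    [N.Normal] (h : (P : Subgroup G) ≤ N) : ∃ x ∈ N, p ∣ (𝐂[x]).index := by
  by_contra! H
  have h1 := sylow_le_center_of_not_dvd_index (G := N)
    (fun y e => H y y.2 (e.trans (index_cent1_subtype_dvd N y))) (P.subtype h)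
  refine h0 (le_bot_iff.1 (le_trans (b := 𝐂(N)) (fun a ha b hb => ?_)
    (m N ‹_› (ne_bot_mono h0 h)).le))
  exact congrArg Subtype.val (mem_center_iff.1 (h1 (x := ⟨a, h ha⟩) ha) ⟨b, hb⟩)

theorem not_compl [Fact p.Prime] {L : Subgroup G} [L.Normal] (h0 : L ≠ ⊥)
    (hm : ∀ K : Subgroup G, K.Normal → K ≤ L → K = ⊥ ∨ K = L) (hd : p ∣ Nat.card L) :
    ¬ HasNormalPComplement p G := by
  rintro ⟨P, K, _, hK⟩
  have h1 : ¬ p ∣ Nat.card K := by
    rw [← hK.index_eq_card]; exact P.not_dvd_index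
  have h2 : K ⊓ L = ⊥ := (hm _ inferInstance inf_le_right).resolve_right fun e =>
    h1 (hd.trans (card_dvd_of_le (e.ge.trans inf_le_left)))
  have h3 : K = ⊥ := le_bot_iff.1 ((cent_of_norm_of_disjoint (by simp [normalizer_eq_top])
    (by simp [normalizer_eq_top]) h2).trans (m L ‹_› h0).le)
  have h4 : (P : Subgroup G) = ⊤ := by simpa [h3] using hK.sup_eq_top
  haveI : Nontrivial G := (Subgroup.nontrivial_iff).1 (nontrivial_of_ne _ _ h0)
  have h5 : IsPGroup p G := P.isPGroup'.of_surjective (P : Subgroup G).subtype fun g =>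
    ⟨⟨g, h4 ▸ mem_top g⟩, rfl⟩
  haveI := h5.isNilpotent
  exact m.not_sol inferInstance

end Mono

end Cfsg.Lib.FGS.Diam
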