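import Cfsg.Agent.Lib.FGS.Diam
import Cfsg.Agent.Lib.Solv.KegelWielandt

/-!
# The class-size prime graph of a nonsolvable group has diameter at most two
-/

set_option autoImplicit false

namespace Cfsg.Lib.FGS.Diam

open Subgroup Cfsg.Lib.BG Cfsg.Lib.Transfer Cfsg.Lib.FGS
open scoped commutatorElement

universe u

variable {G : Type*} [Group G] [Finite G] {Γ : Type*} [Group Γ] [Finite Γ] {p q : ℕ}
  {π σ : Set ℕ} {x y : G}

theorem nil_of_cent {H : Subgroup G} {t : ℕ} (ht : t.Prime)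
    (h : ∀ e ∈ H, (orderOf e).Coprime t → H ≤ 𝐂[e]) : Group.IsNilpotent H := by
  haveI := Fact.mk ht
  refine Syl.nil_of_forall fun r hr _ => ?_
  haveI := Fact.mk hr
  have key : ∀ r : ℕ, r.Prime → r ≠ t → ∀ P : Subgroup G, IsPGroup r P → P ≤ H → H ≤ 𝐂(P) :=
    fun r hr hrt P hP hle => cent_symm fun e he => le_cent1_iff.1 (h e (hle he) (by
      haveI := Fact.mk hr
      obtain ⟨k, hk⟩ := IsPGroup.iff_orderOf.1 hP ⟨e, he⟩
      rw [orderOf_mk] at hk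
      rw [hk]
      exact Nat.Coprime.pow_left _ ((Nat.coprime_primes hr ht).2 hrt)))
  obtain ⟨P, hP⟩ := Syl.exists (p := r) H
  refine ⟨P, hP, ?_⟩
  by_cases e : r = t
  · subst e
    refine Syl.le_of_forall fun s hs _ => ?_
    haveI := Fact.mk hs
    by_cases e : s = r
    · exact ⟨P, e ▸ hP, le_norm P⟩
    · obtain ⟨R, hR⟩ := Syl.exists (p := s) H
      exact ⟨R, hR, norm_of_cent (cent_symm (hP.le.trans (key s hs e R (Syl.pgroup hR) hR.le)))⟩
  · exact norm_of_cent (key r hr e P (Syl.pgroup hP) hP.le)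

theorem le_of_piNat (hd : Disjoint π σ) {H K : Subgroup G} (hH : PiGrp σ H)
    (h : PiNat π (H ⊓ K).index) : H ≤ K := by
  rw [← relIndex_eq_one, ← inf_relIndex_left]
  exact Nat.eq_one_of_dvd_coprimes (PiNat.coprime' h hH fun _ h => Set.disjoint_left.1 hd h)
    (relIndex_dvd_index_of_le inf_le_left) (Subgroup.relIndex_dvd_card _ _)

theorem piGrp_of_prime {H : Subgroup G} (h : ∀ e ∈ H, (orderOf e).Prime → orderOf e ∈ π) :
    PiGrp π H := fun r hr hd => by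
  haveI := Fact.mk hr
  obtain ⟨e, he⟩ := exists_prime_orderOf_dvd_card' r hd
  rw [← orderOf_coe] at he
  exact he ▸ h e e.2 (he ▸ hr)

theorem lemA0 [Fact q.Prime] (hd : Disjoint π σ) {Q V : Subgroup G} [V.Normal] (hQ : Syl q Q ⊤)
    (hV : V ≤ 𝐂(V)) (h0 : V ≠ ⊥) (h1 : V ⊓ 𝐂(Q) = ⊥) (h2 : V ⊔ 𝐂(Q) = ⊤) {f : G →* Γ}
    (hf : Function.Surjective f) (hk : V ≤ f.ker)
    (hy : ∀ y : G, q ∣ (𝐂[y]).index → PiNat σ (𝐂[y]).index)
    (hB : ∀ g : Γ, PiNat σ (𝐂[g]).index → PiNat π (orderOf g)) :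
    ∃ H : Subgroup Γ, Group.IsNilpotent H ∧ PiGrp π H ∧ PiNat σ H.index := by
  have hn : ∀ {X : Subgroup G}, X ≤ 𝐍(V) := fun {X} => by rw [normalizer_eq_top]; exact le_top
  have dec : ∀ g : G, ∃ w ∈ V, ∃ c ∈ 𝐂(Q), w * c = g := fun g =>
    (mem_sup_left_norm hn).1 (h2 ▸ mem_top g)
  have nq : ∀ d ∈ 𝐂(Q), ∀ v ∈ V, ¬ q ∣ (𝐂[d * v]).index → ∃ w ∈ V, v = d⁻¹ * w * d * w⁻¹ := by
    intro d hd v hv h
    obtain ⟨R, hR⟩ := exists_sylow_le_of_not_dvd_index h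
    obtain ⟨g, -, hg⟩ := Syl.exists_conj_eq hQ (Syl.of_sylow_top R)
    obtain ⟨w, hw, c, hc, rfl⟩ := dec g
    rw [← conj_conj, conj_eq_of_cent hc] at hg
    have h3 := le_cent1_iff.1 hR
    rw [hg, ← conj_centralizer, mem_conj] at h3
    have h4 : d⁻¹ * (w⁻¹ * (d * v) * w) ∈ V ⊓ 𝐂(Q) := mem_inf.2 ⟨by
      rw [show d⁻¹ * (w⁻¹ * (d * v) * w) = d⁻¹ * w⁻¹ * d * v * w by group]
      exact mul_mem (mul_mem (conj_mem_of_norm' (hn (mem_top d)) (inv_mem hw)) hv) hw,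
      mul_mem (inv_mem hd) h3⟩
    rw [h1, mem_bot] at h4
    exact ⟨w, hw, by rw [← mul_one (d⁻¹ * w * d), ← h4]; group⟩
  obtain ⟨X, hX, ht⟩ := exists_prime_le h0
  obtain ⟨v, hv, hv1⟩ := exists_ne_one (ne_bot_of_prime ht)
  have ov : orderOf v = Nat.card X := by rw [← Nat.card_zpowers, zpowers_eq_of_prime ht hv hv1]
  replace hv := hX hv
  have hvq : q ∣ (𝐂[v]).index := by
    by_contra h
    obtain ⟨w, -, e⟩ := nq 1 (one_mem _) v hv (by rwa [one_mul])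
    exact hv1 (by simpa using e)
  have lift : ∀ h ∈ (𝐂[v]).map f, ∃ d ∈ 𝐂(Q), d ∈ 𝐂[v] ∧ f d = h := by
    rintro _ ⟨g, hg, rfl⟩
    obtain ⟨w, hw, c, hc, rfl⟩ := dec g
    refine ⟨c, hc, (mul_mem_cancel_left (cent_le_cent1 hv (hV hw))).1 hg, ?_⟩
    rw [map_mul, hk hw, one_mul]
  have hπ : PiGrp π ((𝐂[v]).map f) := PiGrp.iff_elt.2 fun h hh => by
    obtain ⟨d, hd, hdv, rfl⟩ := lift h hh
    let φ : V → V := fun w => ⟨d⁻¹ * w * d * w⁻¹,
      mul_mem (conj_mem_of_norm' (hn (mem_top d)) w.2) (inv_mem w.2)⟩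
    have h3 : ¬ Function.Surjective φ := fun e => hv1 (congrArg Subtype.val
      (Finite.injective_iff_surjective.2 e (a₁ := ⟨v, hv⟩) (a₂ := 1) (Subtype.ext (by
        simp only [φ, mul_assoc, ← mem_cent1.1 hdv]
        simp))))
    obtain ⟨v₀, hv₀⟩ := not_forall.1 h3
    have h4 : q ∣ (𝐂[d * v₀]).index := by
      by_contra h
      obtain ⟨w, hw, e⟩ := nq d hd v₀ v₀.2 h
      exact hv₀ ⟨⟨w, hw⟩, Subtype.ext e.symm⟩
    have h5 := (hy _ h4).of_dvd (index_cent1_map_dvd hf _)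
    rw [map_mul, hk v₀.2, mul_one] at h5
    exact hB _ h5
  refine ⟨_, nil_of_cent ht fun h hh hc => ?_, hπ, (hy v hvq).of_dvd (index_map_dvd _ hf)⟩
  obtain ⟨d, -, hdv, rfl⟩ := lift h hh
  haveI := Fact.mk ht
  obtain ⟨a, ha, b, hb, h3, h4, e, -⟩ := exists_pi_decomp {Nat.card X} d
  have h5 : f a = 1 := by
    have h6 : f a = f d * (f b)⁻¹ := by rw [e]; simp
    refine PiElt.eq_one (h3.map f) (h6 ▸ PiElt.mul (PiNat.p'_iff_coprime.2 hc) (h4.map f).inv ?_)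
    obtain ⟨k, rfl⟩ := hb
    simp only [map_zpow]
    group
  have h6 : f d = f b := by rw [e, map_mul, h5, one_mul]
  have h7 : b ∈ 𝐂[v] := zpowers_le.2 hdv hb
  have h8 := centralizer_mul_of_coprime (mem_cent1.1 h7)
    (by rw [ov]; exact PiNat.p'_iff_coprime.1 h4)
  have h9 := hy (b * v) (hvq.trans (index_dvd_of_le (h8.le.trans inf_le_right)))
  refine le_of_piNat hd.symm hπ (h9.of_dvd (dvd_trans (index_dvd_of_le ?_) (index_map_dvd _ hf)))
  rw [h8, h6]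
  refine le_inf (map_mono inf_le_right) ?_
  rintro _ ⟨g, hg, rfl⟩
  rw [mem_cent1, ← map_mul, ← map_mul, mem_cent1.1 hg.1]

theorem lemA [Fact q.Prime] (hd : Disjoint π σ)
    (hB : ∀ g : Γ, PiNat σ (𝐂[g]).index → PiNat π (orderOf g)) (n : ℕ) :
    ∀ {G : Type u} [Group G] [Finite G] {Q : Subgroup G} {f : G →* Γ}, Nat.card G ≤ n →
    Syl q Q ⊤ → Group.IsSolvable ↥⁅(⊤ : Subgroup G), Q⁆ → ⁅(⊤ : Subgroup G), Q⁆ ≠ ⊥ →
    ⁅(⊤ : Subgroup G), Q⁆ ⊔ 𝐂(Q) = ⊤ → Function.Surjective f → ⁅(⊤ : Subgroup G), Q⁆ ≤ f.ker →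
    (∀ y : G, q ∣ (𝐂[y]).index → PiNat σ (𝐂[y]).index) →
    ∃ H : Subgroup Γ, Group.IsNilpotent H ∧ PiGrp π H ∧ PiNat σ H.index := by
  induction n with
  | zero => exact fun h => absurd (Nat.card_pos.trans_le h) (lt_irrefl 0)
  | succ n ih =>
  intro G _ _ Q f hn hQ hs h0 h2 hf hk hy
  haveI : ⁅(⊤ : Subgroup G), Q⁆.Normal := by
    rw [← normalizer_eq_top_iff, eq_top_iff]; exact left_norm_comm _ _
  obtain ⟨V, _, hV, hV0, hm⟩ := Perm.exists_minimal_normal_le _ h0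
  by_cases e : V = ⁅(⊤ : Subgroup G), Q⁆
  · rw [← e] at h2 hk hs
    have h3 : V ≤ 𝐂(V) := comm_eq_bot_iff.1 ((hm _ inferInstance (der_le V)).resolve_right fun e =>
      hV0 (Core.eq_bot_of_isSolvable_of_commutator_eq hs e))
    refine lemA0 hd hQ h3 hV0 ((hm _ ?_ inf_le_left).resolve_right fun e' => hV0 ?_) h2 hf hk hy hB
    · rw [← normalizer_eq_top_iff, eq_top_iff, ← h2]
      exact sup_le (norm_of_cent (h3.trans (cent_anti inf_le_left)))
        (norm_inf (by rw [normalizer_eq_top]; exact le_top) (le_norm _))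
    · rw [e, comm_eq_bot_iff]
      exact h2.ge.trans (sup_le (e'.ge.trans inf_le_right) le_rfl)
  have hs' := QuotientGroup.mk'_surjective V
  have e1 : ⁅(⊤ : Subgroup (G ⧸ V)), Q.map (QuotientGroup.mk' V)⁆ =
      ⁅(⊤ : Subgroup G), Q⁆.map (QuotientGroup.mk' V) := by
    rw [map_commutator, map_top_of_surjective _ hs']
  refine ih (Q := Q.map (QuotientGroup.mk' V)) (f := QuotientGroup.lift V f (hV.trans hk)) ?_
    (map_top_of_surjective _ hs' ▸ hQ.map (QuotientGroup.mk' V)) ?_ ?_ ?_ ?_ ?_ fun y h => ?_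
  · have := V.index_mul_card
    have := one_lt_card_iff_ne_bot V |>.2 hV0
    have : 0 < V.index := Nat.pos_of_ne_zero index_ne_zero_of_finite
    rw [← index_eq_card]
    nlinarith
  · rw [e1]
    exact Group.isSolvable_of_surjective
      (MonoidHom.subgroupMap_surjective (QuotientGroup.mk' V) ⁅(⊤ : Subgroup G), Q⁆)
  · rw [e1, Ne, Subgroup.map_eq_bot_iff, QuotientGroup.ker_mk']
    exact fun h => e (le_antisymm hV h)
  · rw [e1, eq_top_iff, ← map_top_of_surjective _ hs']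
    refine (map_mono h2.ge).trans ?_
    rw [Subgroup.map_sup]
    exact sup_le_sup_left (map_cent (QuotientGroup.mk' V) le_rfl) _
  · intro g
    obtain ⟨g, rfl⟩ := hf g
    exact ⟨g, rfl⟩
  · rw [e1, map_le_iff_le_comap]
    exact hk
  · obtain ⟨y, rfl⟩ := hs' y
    exact (hy y (h.trans (index_cent1_map_dvd hs' y))).of_dvd (index_cent1_map_dvd hs' y)

theorem lemB0 (hd : Disjoint π σ) (hx : ∀ x : G, p ∣ (𝐂[x]).index → PiNat π (𝐂[x]).index)
    (hA : ∀ g : G, PiNat π (𝐂[g]).index → PiNat σ (orderOf g)) (h : p ∣ (𝐂[x]).index) :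
    PiGrp σ 𝐂[x] ∧ ∀ e ∈ 𝐂[x], (orderOf e).Coprime (orderOf x) → 𝐂[x] ≤ 𝐂[e] := by
  have key : ∀ e ∈ 𝐂[x], (orderOf e).Coprime (orderOf x) → PiNat π (𝐂[x] ⊓ 𝐂[e]).index ∧
      PiNat σ (orderOf e) := fun e he hc => by
    have h1 := centralizer_mul_of_coprime (mem_cent1.1 he) hc
    have h2 := hx (e * x) (h.trans (index_dvd_of_le (h1.le.trans inf_le_right)))
    refine ⟨by rwa [h1, inf_comm] at h2, (hA _ h2).of_dvd ?_⟩
    rw [Commute.orderOf_mul_eq_mul_orderOf_of_coprime (mem_cent1.1 he) hc]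
    exact dvd_mul_right _ _
  have h1 : PiGrp σ 𝐂[x] := piGrp_of_prime fun e he hp => by
    by_cases h2 : orderOf e ∣ orderOf x
    · exact hA x (hx x h) _ hp h2
    · exact (key e he ((Nat.Prime.coprime_iff_not_dvd hp).2 h2)).2 _ hp dvd_rfl
  exact ⟨h1, fun e he hc => le_of_piNat hd h1 (key e he hc).1⟩

theorem lemB [hp : Fact p.Prime] (m : Mono G) (hd : Disjoint π σ)
    (hx : ∀ x : G, p ∣ (𝐂[x]).index → PiNat π (𝐂[x]).index)
    (hA : ∀ g : G, PiNat π (𝐂[g]).index → PiNat σ (orderOf g)) {u : G} (hu : orderOf u = p)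
    (hσ : PiNat σ (𝐂[u]).index) :
    ∃ H : Subgroup G, Group.IsNilpotent H ∧ PiGrp σ H ∧ PiNat π H.index := by
  have u1 : u ≠ 1 := fun e => hp.out.ne_one (by rw [← hu, e, orderOf_one])
  obtain ⟨P⟩ := (inferInstance : Nonempty (Sylow p G))
  obtain ⟨x, -, h⟩ := m.exists_dvd P (P.ne_bot_of_dvd_card (hu ▸ orderOf_dvd_natCard u))
    (N := ⊤) le_top
  have x1 : x ∉ (⊥ : Subgroup G) := fun e => hp.out.ne_one (by
    rwa [mem_bot.1 e, cent1_one, index_top, Nat.dvd_one] at h)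
  obtain ⟨t, ht, y, hy, y1, k, hk⟩ := exists_primePow_not_mem x1
  have h1 := (hx x h).of_dvd (index_cent1_dvd_of_mem_zpowers hy)
  have h2 : p ∣ (𝐂[y]).index := hu ▸ m.dvd_index (fun e => y1 (mem_bot.2 e))
    (PiNat.coprime' h1 hσ fun _ h => Set.disjoint_left.1 hd h) (hu ▸ hp.out) dvd_rfl
  obtain ⟨h3, h4⟩ := lemB0 hd hx hA h2
  exact ⟨_, nil_of_cent ht fun e he hc => h4 e he ((hc.pow_right k).coprime_dvd_right
    (orderOf_dvd_of_pow_eq_one hk)), h3, h1⟩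

/-- The hypotheses on one of the two primes. -/
structure Hy (p : ℕ) (π : Set ℕ) (G : Type*) [Group G] : Prop where
  ex : ∃ x : G, p ∣ (𝐂[x]).index
  pi : ∀ x : G, p ∣ (𝐂[x]).index → PiNat π (𝐂[x]).index

theorem Hy.mem [hp : Fact p.Prime] (h : Hy p π G) : p ∈ π :=
  h.ex.elim fun x hx => h.pi x hx p hp.out hx

theorem Hy.map (h : Hy p π G) {f : G →* Γ} (hf : Function.Surjective f) (x : Γ)
    (hx : p ∣ (𝐂[x]).index) : PiNat π (𝐂[x]).index := by
  obtain ⟨x, rfl⟩ := hf x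
  exact (h.pi x (hx.trans (index_cent1_map_dvd hf x))).of_dvd (index_cent1_map_dvd hf x)

theorem Hy.ok [Fact p.Prime] (h : Hy p π G) {f : G →* Γ} (hf : Function.Surjective f) {r : ℕ}
    (hr : r.Prime) (hπ : r ∉ π) (hc : ∀ [Fact r.Prime], ¬ HasNormalPComplement r Γ) :
    Ok p G ∧ ((∀ x : G, p ∣ (𝐂[x]).index → f x = 1) → PiNat π (Nat.card Γ)) := by
  haveI := Fact.mk hr
  obtain ⟨R⟩ := (inferInstance : Nonempty (Sylow r G))
  have h1 : Ok p G := (ito fun x => or_iff_not_imp_left.2 fun e e' =>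
    hπ (h.pi x (not_not.1 e) r hr e')).resolve_right fun e => hc (hasNormalPComplement_of_surjective
      (hasNormalPComplement_of_normalizer_le_centralizer R (e R)) f hf)
  refine ⟨h1, fun H => ?_⟩
  obtain ⟨x, hx⟩ := h.ex
  refine (h.pi x hx).of_dvd (dvd_trans ?_ (index_dvd_of_le
    (fw h1 (C := f.ker) (fun g hg e => hg (H g e)) hx)))
  rw [index_ker, f.range_eq_top_of_surjective hf, card_top]

theorem step2 [Fact p.Prime] [Fact q.Prime] [Nontrivial Γ] (m : Mono Γ) (hd : Disjoint π σ)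
    (hp : Hy p π G) (hq : Hy q σ G) {f : G →* Γ} (hf : Function.Surjective f) :
    Ok p G ∧ ∃ g : Γ, g ≠ 1 ∧ PiNat π (𝐂[g]).index := by
  obtain ⟨L, _, -, h0, hm⟩ := Perm.exists_minimal_normal_le (⊤ : Subgroup Γ) top_ne_bot
  obtain ⟨r, hr, hrL, hσ⟩ : ∃ r : ℕ, r.Prime ∧ r ∣ Nat.card L ∧ r ∈ σ := by
    by_contra! H
    obtain ⟨r, hr, hrL⟩ := Nat.exists_prime_and_dvd (card_ne_one h0)
    refine H r hr hrL ((hq.ok hf hr (H r hr hrL) (m.not_compl h0 hm hrL)).2 (fun y hy => ?_) r hr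
      (hrL.trans (card_subgroup_dvd_card L)))
    have h1 : (𝐂[f y]).relIndex L = 1 := Nat.eq_one_of_dvd_coprimes (PiNat.coprime
      ((hq.pi y hy).of_dvd (index_cent1_map_dvd hf y)) (PiNat.compl_iff.2 fun s hs h h' =>
        H s hs h' h)) (relIndex_dvd_index_of_normal' _ _) (Subgroup.relIndex_dvd_card _ _)
    exact mem_bot.1 (m L ‹_› h0 ▸ le_cent1_iff.1 (relIndex_eq_one.1 h1))
  have hπ : r ∉ π := Set.disjoint_right.1 hd hσ
  obtain ⟨h1, h2⟩ := hp.ok hf hr hπ (m.not_compl h0 hm hrL)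
  refine ⟨h1, ?_⟩
  by_contra! H
  exact hπ (h2 (fun x hx => by_contra fun e => H _ e
    ((hp.pi x hx).of_dvd (index_cent1_map_dvd hf x))) r hr (hrL.trans (card_subgroup_dvd_card L)))

theorem good [Fact p.Prime] (hd : Disjoint π σ) (hp : Hy p π G) (ho : Ok p G) {f : G →* Γ}
    (hf : Function.Surjective f) (hA : ∀ g : Γ, PiNat π (𝐂[g]).index → PiNat σ (orderOf g))
    (P : Sylow p G) (hP : (P : Subgroup G) ≤ f.ker)
    (hs : Group.IsSolvable ↥⁅(⊤ : Subgroup G), (P : Subgroup G)⁆) :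
    ∃ H : Subgroup Γ, Group.IsNilpotent H ∧ PiGrp σ H ∧ PiNat π H.index := by
  haveI : ⁅(⊤ : Subgroup G), (P : Subgroup G)⁆.Normal := by
    rw [← normalizer_eq_top_iff, eq_top_iff]; exact left_norm_comm _ _
  refine lemA hd.symm hA _ le_rfl (Syl.of_sylow_top P) hs (fun e => ?_) ?_ hf
    ((commutator_mono le_rfl hP).trans (commutator_le_right _ _)) hp.pi
  · obtain ⟨x, hx⟩ := hp.ex
    exact not_dvd_index_of_sylow_le P (le_cent1_iff.2 (comm_eq_bot_iff.1 e (mem_top x))) hx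
  · have h1 := Syl.frattini ((Syl.of_sylow_top P).of_le (M := ⁅⊤, (P : Subgroup G)⁆ ⊔ P)
      le_sup_right le_top) (M := ⊤) ⟨le_top, norm_of_comm_le (by
        rw [commutator_comm]
        refine commutator_le.2 fun a _ b hb => ?_
        obtain ⟨c, hc, d, hd, rfl⟩ := (mem_sup_left_norm (right_norm_comm _ _)).1 hb
        rw [show ⁅a, c * d⁆ = (a * c * a⁻¹) * ⁅a, d⁆ * c⁻¹ by
          simp only [commutatorElement_def]; group]
        exact mem_sup_left (mul_mem (mul_mem (Normal.conj_mem ‹_› c hc a)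
          (commutator_mem_commutator (mem_top a) hd)) (inv_mem hc)))⟩
    refine eq_top_iff.2 (h1.ge.trans ?_)
    exact sup_le (sup_le_sup_left ((le_norm _).trans (ho P)) _)
      (inf_le_right.trans ((ho P).trans le_sup_right))

theorem main [ip : Fact p.Prime] [iq : Fact q.Prime] [Nontrivial Γ] (m : Mono Γ)
    (hd : Disjoint π σ) (hp : Hy p π G) (hq : Hy q σ G) {f : G →* Γ} (hf : Function.Surjective f)
    (P : Sylow p G) (Q : Sylow q G)
    (hP : (P : Subgroup G) ≤ f.ker → Group.IsSolvable ↥⁅(⊤ : Subgroup G), (P : Subgroup G)⁆)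
    (hQ : (Q : Subgroup G) ≤ f.ker → Group.IsSolvable ↥⁅(⊤ : Subgroup G), (Q : Subgroup G)⁆) :
    False := by
  obtain ⟨op, x, x1, hx⟩ := step2 m hd hp hq hf
  obtain ⟨oq, y, y1, hy⟩ := step2 m hd.symm hq hp hf
  have hA : ∀ g : Γ, PiNat π (𝐂[g]).index → PiNat σ (orderOf g) := fun g hg t ht h =>
    hy t ht (m.dvd_index y1 (PiNat.coprime' hy hg fun _ h => Set.disjoint_right.1 hd h) ht h)
  have hB : ∀ g : Γ, PiNat σ (𝐂[g]).index → PiNat π (orderOf g) := fun g hg t ht h =>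
    hx t ht (m.dvd_index x1 (PiNat.coprime' hx hg fun _ h => Set.disjoint_left.1 hd h) ht h)
  have key : ∀ {p q : ℕ} [Fact p.Prime] [Fact q.Prime] {π σ : Set ℕ}, Disjoint π σ → Hy p π G →
      Hy q σ G → Ok p G → Ok q G → (∀ g : Γ, PiNat π (𝐂[g]).index → PiNat σ (orderOf g)) →
      (∀ g : Γ, PiNat σ (𝐂[g]).index → PiNat π (orderOf g)) → ∀ (P : Sylow p G) (Q : Sylow q G),
      ((P : Subgroup G) ≤ f.ker → Group.IsSolvable ↥⁅(⊤ : Subgroup G), (P : Subgroup G)⁆) →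
      ((Q : Subgroup G) ≤ f.ker → Group.IsSolvable ↥⁅(⊤ : Subgroup G), (Q : Subgroup G)⁆) →
      ∃ H : Subgroup Γ, Group.IsNilpotent H ∧ PiGrp σ H ∧ PiNat π H.index := by
    intro p q ip iq π σ hd hp hq op oq hA hB P Q hP hQ
    by_cases h1 : (P : Subgroup G) ≤ f.ker
    · exact good hd hp op hf hA P h1 (hP h1)
    have dv : ∀ {p : ℕ} [Fact p.Prime] (P : Sylow p G), ¬ (P : Subgroup G) ≤ f.ker →
        p ∣ Nat.card Γ := fun P h => (pgroup_dvd_card (P.isPGroup'.map f)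
      (by rwa [Ne, Subgroup.map_eq_bot_iff])).trans (card_subgroup_dvd_card _)
    have dH : ∀ H : Subgroup Γ, PiNat σ H.index → p ∣ Nat.card H := fun H hH =>
      (ip.out.dvd_mul.1 (H.index_mul_card ▸ dv P h1)).resolve_left fun e =>
        Set.disjoint_left.1 hd hp.mem (hH p ip.out e)
    obtain ⟨u, hu, hσ⟩ : ∃ u : Γ, orderOf u = p ∧ PiNat σ (𝐂[u]).index := by
      by_cases h2 : (Q : Subgroup G) ≤ f.ker
      · obtain ⟨H, hn, -, hi⟩ := good hd.symm hq oq hf hB Q h2 (hQ h2)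
        obtain ⟨R, hR⟩ := Syl.exists (p := p) H
        have h3 := nil_meet_center hn hR.le (hR.nml_of_nil hn).2 (Syl.ne_bot' hR (dH H hi))
        obtain ⟨u, hu⟩ := exists_prime_orderOf_dvd_card' p
          (pgroup_dvd_card (pgroup_of_le (Syl.pgroup hR) inf_le_left) h3)
        exact ⟨u, by rwa [orderOf_coe], hi.of_dvd (index_dvd_of_le (le_cent1_iff.2 u.2.2))⟩
      · obtain ⟨R⟩ := (inferInstance : Nonempty (Sylow q Γ))
        obtain ⟨y, -, hy⟩ := m.exists_dvd R (R.ne_bot_of_dvd_card (dv Q h2)) (N := ⊤) le_top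
        have hi := hq.map hf y hy
        by_cases h3 : p ∣ orderOf y
        · exact ⟨_, orderOf_pow_orderOf_div (orderOf_pos y).ne' h3,
            hi.of_dvd (index_cent1_dvd_of_mem_zpowers (npow_mem_zpowers y _))⟩
        · obtain ⟨u, hu⟩ := exists_prime_orderOf_dvd_card' p (dH _ hi)
          rw [← orderOf_coe] at hu
          exact ⟨u, hu, hi.of_dvd (index_dvd_of_le ((lemB0 hd.symm (hq.map hf) hB hy).2 u u.2
            (hu ▸ (Nat.Prime.coprime_iff_not_dvd ip.out).2 h3)))⟩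
    exact lemB m hd (hp.map hf) hA hu hσ
  obtain ⟨U, nU, -, iU⟩ := key hd hp hq op oq hA hB P Q hP hQ
  obtain ⟨V, nV, -, iV⟩ := key hd.symm hq hp oq op hB hA Q P hQ hP
  exact m.not_sol (Solv.isSolvable_of_factor (exists_mul_of_coprime_index
    (PiNat.coprime' iU iV fun _ h => Set.disjoint_left.1 hd h)) nU nV)

theorem sol [ip : Fact p.Prime] [iq : Fact q.Prime] (hd : Disjoint π σ) (hp : Hy p π G)
    (hq : Hy q σ G) : Group.IsSolvable G := by
  by_contra hG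
  obtain ⟨P⟩ := (inferInstance : Nonempty (Sylow p G))
  obtain ⟨Q⟩ := (inferInstance : Nonempty (Sylow q G))
  have nt : ∀ {W C : Subgroup G} [C.Normal], ¬ W ≤ C → Nontrivial (G ⧸ C) := fun h =>
    QuotientGroup.nontrivial_iff.2 fun e => h (e ▸ le_top)
  have ex : ∀ {R : Subgroup G}, ¬ Group.IsSolvable ↥⁅(⊤ : Subgroup G), R⁆ →
      ∃ (C : Subgroup G) (_ : C.Normal), ¬ R ≤ C ∧ Mono (G ⧸ C) := fun {R} h => by
    haveI : ⁅(⊤ : Subgroup G), R⁆.Normal := by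
      rw [← normalizer_eq_top_iff, eq_top_iff]; exact left_norm_comm _ _
    obtain ⟨C, _, h1, h2⟩ := exists_mono h
    exact ⟨C, ‹_›, fun e => h1 ((commutator_mono le_rfl e).trans (commutator_le_right _ _)), h2⟩
  have sj := fun (C : Subgroup G) [C.Normal] => QuotientGroup.mk'_surjective C
  by_cases sp : Group.IsSolvable ↥⁅(⊤ : Subgroup G), (P : Subgroup G)⁆ <;>
    by_cases sq : Group.IsSolvable ↥⁅(⊤ : Subgroup G), (Q : Subgroup G)⁆
  · obtain ⟨C, _, h1, m⟩ := exists_mono (W := (⊤ : Subgroup G)) fun e =>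
      hG (Group.isSolvable_of_surjective (f := (⊤ : Subgroup G).subtype) fun g => ⟨⟨g, trivial⟩, rfl⟩)
    haveI := nt h1
    exact main m hd hp hq (sj C) P Q (fun _ => sp) fun _ => sq
  · obtain ⟨C, _, h1, m⟩ := ex sq
    haveI := nt h1
    exact main m hd hp hq (sj C) P Q (fun _ => sp) fun e => (h1 (by simpa using e)).elim
  · obtain ⟨C, _, h1, m⟩ := ex sp
    haveI := nt h1
    exact main m hd hp hq (sj C) P Q (fun e => (h1 (by simpa using e)).elim) fun _ => sq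
  obtain ⟨C, _, h1, m⟩ := ex sp
  obtain ⟨D, _, h2, m'⟩ := ex sq
  haveI := nt h1
  haveI := nt h2
  by_cases h3 : (Q : Subgroup G) ≤ C
  swap
  · exact main m hd hp hq (sj C) P Q (fun e => (h1 (by simpa using e)).elim)
      fun e => (h3 (by simpa using e)).elim
  by_cases h4 : (P : Subgroup G) ≤ D
  swap
  · exact main m' hd hp hq (sj D) P Q (fun e => (h4 (by simpa using e)).elim)
      fun e => (h2 (by simpa using e)).elim
  have key : ∀ {p : ℕ} [Fact p.Prime] (P : Sylow p G) {C D : Subgroup G} [C.Normal] [D.Normal],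
      Mono (G ⧸ C) → ¬ (P : Subgroup G) ≤ C → (P : Subgroup G) ≤ D →
      ∃ x ∈ D, ∀ c ∈ C, p ∣ (𝐂[x * c]).index := by
    intro p _ P C D _ _ m h1 h2
    haveI := Normal.map ‹D.Normal› _ (sj C)
    obtain ⟨_, ⟨x, hx, rfl⟩, h⟩ := m.exists_dvd (P.mapSurjective (sj C)) (by
      rwa [Sylow.coe_mapSurjective, Ne, Subgroup.map_eq_bot_iff, QuotientGroup.ker_mk'])
      (N := D.map (QuotientGroup.mk' C)) (map_mono h2)
    refine ⟨x, hx, fun c hc => dvd_trans ?_ (index_cent1_map_dvd (sj C) _)⟩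
    rwa [map_mul, QuotientGroup.mk'_apply C c, (QuotientGroup.eq_one_iff c).2 hc, mul_one]
  obtain ⟨x, hx, h5⟩ := key P m h1 h4
  obtain ⟨y, hy, h6⟩ := key Q m' h2 h3
  have h7 := h6 (y⁻¹ * x * y) (by simpa using Normal.conj_mem ‹D.Normal› x hx y⁻¹)
  rw [show y * (y⁻¹ * x * y) = x * y by group] at h7
  exact Set.disjoint_left.1 hd hp.mem (hq.pi _ h7 p ip.out (h5 y hy))

end Cfsg.Lib.FGS.Diam
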