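import Cfsg.Agent.Lib.FGS.TwoReg2
import Cfsg.Agent.Lib.FGS.Misc
import Cfsg.Agent.Lib.FGS.Sylow
import Cfsg.Agent.Lib.Char.Burnside

/-!
# Class sizes `1, n, m, nm` with `n, m` coprime: basic facts and the nilpotent case
-/

set_option autoImplicit false

namespace Cfsg.Lib.FGS.F4

open Subgroup Cfsg.Lib Cfsg.Lib.BG Cfsg.Lib.Transfer Cfsg.Lib.Core Cfsg.Lib.FGS.TR
open scoped commutatorElement Pointwise

variable {G : Type*} [Group G] [Finite G] {p q r s n m : ℕ} {x y u v w g z : G}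
  {K L : Subgroup G}

theorem ex_pe (hr : r.Prime) (h : r ∣ K.relIndex L) : ∃ w ∈ L, PE r w ∧ w ∉ K := by
  haveI := Fact.mk hr
  obtain ⟨T, -, h1, h2, h3⟩ := exists_sylowIn_ge (p := r) (Q := ⊥) (H := L) IsPGroup.of_bot bot_le
  by_contra hc
  push Not at hc
  exact h3 (h.trans (relIndex_dvd_of_le_left L fun w hw => hc w (h1 hw) (PE.of_pgroup h2 hw)))

theorem rel_pow (h : ∀ r : ℕ, r.Prime → r ≠ p → ∀ w ∈ L, PE r w → w ∈ K) :
    ∃ a, K.relIndex L = p ^ a :=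
  exists_index_eq_pow (H := K.subgroupOf L) fun r hr e hd => by
    obtain ⟨w, h1, h2, h3⟩ := ex_pe hr hd
    exact h3 (h r hr e w h1 h2)

theorem le_of_pe (h : ∀ r : ℕ, r.Prime → ∀ w ∈ L, PE r w → w ∈ K) : L ≤ K := by
  rw [← relIndex_eq_one]
  by_contra e
  obtain ⟨w, h1, h2, h3⟩ := ex_pe (Nat.minFac_prime e) (Nat.minFac_dvd _)
  exact h3 (h _ (Nat.minFac_prime e) w h1 h2)

theorem mem_center_of_not_dvd (hr : r.Prime) (h : ¬ r ∣ (center G).index) (hw : PE r w) :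
    w ∈ center G := by
  by_contra e
  exact h (relIndex_top_right (center G) ▸ dvd_relIndex_center hr (mem_top w) e hw)

omit [Finite G] in
theorem eq_of_pe (hp : p.Prime) (hq : q.Prime) (h1 : PE p x) (h2 : PE q x) (h : x ∉ center G) :
    p = q := by
  by_contra e
  have := h1.coprime' (h2.coprime hq hp (Ne.symm e))
  rw [Nat.coprime_self, orderOf_eq_one_iff] at this
  exact h (this ▸ one_mem _)

omit [Finite G] in
theorem idx_conj (g x : G) : (𝐂[g * x * g⁻¹]).index = (𝐂[x]).index := by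
  rw [← conj_cent1, index_conj]

omit [Finite G] in
theorem cop (hp : p.Prime) (hq : q.Prime) (e : p ≠ q) (h1 : PE p x) (h2 : PE q y) :
    (orderOf x).Coprime (orderOf y) := h1.coprime' (h2.coprime hq hp e.symm)

/-- If `p` divides no class size of a `p'`-element, `p`-elements commute with `p'`-elements. -/
theorem comm_of_not_dvd (hp : p.Prime) (h : ∀ y : G, (orderOf y).Coprime p → ¬ p ∣ (𝐂[y]).index)
    (hu : PE p u) (hv : (orderOf v).Coprime p) : u ∈ 𝐂[v] := by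
  haveI := Fact.mk hp
  obtain ⟨P, hP⟩ := hu.pgroup.exists_le_sylow
  exact mem_cent1_symm (cent_le_cent1 (hP (mem_zpowers u))
    ((sylow_normal_of_not_dvd_index h P).2 (mem_pResidual_of_coprime hv)))

theorem normal_of_comm [Fact p.Prime] (P : Sylow p G)
    (h : ∀ r : ℕ, r.Prime → r ≠ p → ¬ r ∣ (𝐂((P : Subgroup G))).index) : (P : Subgroup G).Normal := by
  refine normal_of_top_le_normalizer (relIndex_eq_one.1 ?_)
  rw [relIndex_top_right]
  by_contra e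
  have hr := Nat.minFac_prime e
  by_cases e' : (𝐍((P : Subgroup G))).index.minFac = p
  · exact P.not_dvd_index ((e' ▸ Nat.minFac_dvd _).trans (index_dvd_of_le (le_norm _)))
  · exact h _ hr e' ((Nat.minFac_dvd _).trans (index_dvd_of_le (cent_le_norm _)))

theorem nil_of_comm [hp : Fact p.Prime] [hq : Fact q.Prime] (P : Sylow p G) (Q : Sylow q G)
    (h : (P : Subgroup G) ≤ 𝐂((Q : Subgroup G)))
    (hc : ∀ r : ℕ, r.Prime → r ≠ p → r ≠ q → ¬ r ∣ (center G).index) : Group.IsNilpotent G := by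
  have key : ∀ (p q : ℕ) [Fact p.Prime] [Fact q.Prime] (P : Sylow p G) (Q : Sylow q G),
      (Q : Subgroup G) ≤ 𝐂((P : Subgroup G)) →
      (∀ r : ℕ, r.Prime → r ≠ p → r ≠ q → ¬ r ∣ (center G).index) →
      ∀ R : Sylow p G, (R : Subgroup G).Normal := by
    intro p q _ _ P Q h hc R
    have := normal_of_comm P fun r hr e hd => by
      by_cases e' : r = q
      · subst e'
        exact Q.not_dvd_index (hd.trans (index_dvd_of_le h))
      · exact hc r hr e e' (hd.trans (index_dvd_of_le (center_le_centralizer _)))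
    obtain ⟨g, hg⟩ := exists_conj_sylow_eq P R
    rw [← hg, conj_eq_self_of_normal]
    exact this
  refine isNilpotent_iff_sylow_normal.2 fun r hr R => ?_
  by_cases e1 : r = p
  · subst e1
    exact key r q P Q (cent_symm h) hc R
  by_cases e2 : r = q
  · subst e2
    exact key r p Q P h (fun s hs a b => hc s hs b a) R
  exact ⟨fun w hw g => by
    rw [mem_center_iff.1 (mem_center_of_not_dvd hr.out (hc r hr.out e1 e2)
      (PE.of_pgroup R.isPGroup' hw)) g, mul_inv_cancel_right]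
    exact hw⟩

theorem comm_of_all [hp : Fact p.Prime] [hq : Fact q.Prime] (P : Sylow p G) (Q : Sylow q G)
    (hc : ∀ r : ℕ, r.Prime → r ≠ p → r ≠ q → ¬ r ∣ (center G).index)
    (h : ∀ u ∈ (P : Subgroup G), ¬ q ∣ (𝐂[u]).index) : (P : Subgroup G) ≤ 𝐂((Q : Subgroup G)) := by
  by_contra hn
  obtain ⟨u, hu⟩ := exists_forall_not_mem_conj
    (M := (𝐂((Q : Subgroup G))).subgroupOf (P : Subgroup G)) (fun e => hn (subgroupOf_eq_top.1 e))
  obtain ⟨Q', hQ'⟩ := exists_sylow_le_of_not_dvd_index (h u u.2)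
  obtain ⟨g, hg⟩ := exists_conj_sylow_eq Q Q'
  obtain ⟨a, ha⟩ : ∃ a, (𝐍((Q : Subgroup G))).index = p ^ a :=
    exists_index_eq_pow fun r hr e hd => by
      by_cases e' : r = q
      · subst e'
        exact Q.not_dvd_index (hd.trans (index_dvd_of_le (le_norm _)))
      · exact hc r hr e e' (hd.trans (index_dvd_of_le
          ((center_le_centralizer _).trans (cent_le_norm _))))
  obtain ⟨s, hs, t, ht, rfl⟩ := FGS.exists_mul_of_coprime_index (A := (P : Subgroup G))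
    (B := 𝐍((Q : Subgroup G))) (by
      rw [ha]
      exact ((hp.out.coprime_iff_not_dvd.2 P.not_dvd_index).symm).pow_right a) g
  refine hu ⟨s, hs⟩ (mem_conj.2 (mem_subgroupOf.2 ?_))
  rw [← conj_conj, conj_eq_of_norm ht] at hg
  have h1 : (u : G) ∈ s ⋆ 𝐂((Q : Subgroup G)) := by
    rw [conj_centralizer, hg]
    exact le_cent1_iff.1 hQ'
  exact mem_conj.1 h1

/-- The class sizes are `1, n, m, nm`. -/
structure Hy (G : Type*) [Group G] (n m : ℕ) : Prop where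
  hn : 1 < n
  hm : 1 < m
  cop : n.Coprime m
  all : ∀ x : G, (𝐂[x]).index = 1 ∨ (𝐂[x]).index = n ∨ (𝐂[x]).index = m ∨ (𝐂[x]).index = n * m
  exn : ∃ x : G, (𝐂[x]).index = n
  exm : ∃ x : G, (𝐂[x]).index = m
  exnm : ∃ x : G, (𝐂[x]).index = n * m

namespace Hy

variable (h : Hy G n m)
include h

omit [Finite G] in
theorem symm : Hy G m n :=
  ⟨h.hm, h.hn, h.cop.symm, fun x => by rw [mul_comm]; have := h.all x; tauto, h.exm, h.exn,
    mul_comm n m ▸ h.exnm⟩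

omit [Finite G] in
theorem not_dvd : ¬ n ∣ m := fun e => h.hn.ne' (Nat.eq_one_of_dvd_coprimes h.cop dvd_rfl e)

omit [Finite G] in
theorem dvd (x : G) : (𝐂[x]).index ∣ n * m := by
  rcases h.all x with e | e | e | e <;> rw [e] <;> simp

omit [Finite G] in
theorem nc (hx : (𝐂[x]).index = n) : x ∉ center G :=
  fun e => h.hn.ne' (hx.symm.trans (index_cent1_eq_one.2 e))

omit [Finite G] in
theorem of_dvd (hd : (𝐂[x]).index ∣ n) : (𝐂[x]).index = 1 ∨ (𝐂[x]).index = n := by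
  rcases h.all x with e | e | e | e
  · exact Or.inl e
  · exact Or.inr e
  · exact absurd (e ▸ hd) h.symm.not_dvd
  · exact absurd ((dvd_mul_left m n).trans (e ▸ hd)) h.symm.not_dvd

omit [Finite G] in
theorem of_dvd' (hd : n ∣ (𝐂[x]).index) : (𝐂[x]).index = n ∨ (𝐂[x]).index = n * m := by
  rcases h.all x with e | e | e | e
  · exact absurd (Nat.dvd_one.1 (e ▸ hd)) h.hn.ne'
  · exact Or.inl e
  · exact absurd (e ▸ hd) h.not_dvd
  · exact Or.inr e

theorem exists_pe : ∃ (x : G) (s : ℕ), s.Prime ∧ PE s x ∧ (𝐂[x]).index = n := by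
  obtain ⟨x, hx⟩ := h.exn
  obtain ⟨q, hq, y, hy, h1, h2⟩ := exists_primePow_not_mem (h.nc hx)
  exact ⟨y, q, hq, h2, (h.of_dvd (hx ▸ index_cent1_dvd_of_mem_zpowers hy)).resolve_left
    fun e => h1 (index_cent1_eq_one.1 e)⟩

theorem rel (hx : (𝐂[x]).index = n) (hz : z ∈ 𝐂[x]) (hc : (orderOf x).Coprime (orderOf z)) :
    (𝐂[z]).relIndex 𝐂[x] = 1 ∨ (𝐂[z]).relIndex 𝐂[x] = m := by
  have e : (𝐂[z]).relIndex 𝐂[x] * n = (𝐂[x * z]).index := by
    rw [cent1_mul hz hc, ← hx, inf_comm, ← inf_relIndex_right,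
      relIndex_mul_index inf_le_right]
  have hn0 : 0 < n := h.hn.trans' one_pos
  rcases h.of_dvd' (x := x * z) (e ▸ dvd_mul_left _ _) with e' | e'
  · exact Or.inl (Nat.eq_of_mul_eq_mul_right hn0 (by rw [e, e', one_mul]))
  · exact Or.inr (Nat.eq_of_mul_eq_mul_right hn0 (by rw [e, e', mul_comm]))

theorem le_of_nm (hw : (𝐂[w]).index = n * m) (hz : z ∈ 𝐂[w])
    (hc : (orderOf w).Coprime (orderOf z)) : 𝐂[w] ≤ 𝐂[z] := by
  have e := cent1_mul hz hc
  have := cent1_eq_of_le (x := w * z) (y := w) (e ▸ inf_le_left)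
    (hw ▸ Nat.le_of_dvd (Nat.mul_pos (h.hn.trans' one_pos) (h.hm.trans' one_pos)) (h.dvd _))
  exact this ▸ e ▸ inf_le_right

theorem rel_eq (hx : (𝐂[x]).index = n) (hy : (𝐂[y]).index = m) : (𝐂[y]).relIndex 𝐂[x] = m := by
  rw [relIndex_eq_index_of_coprime (by rw [hx, hy]; exact h.cop.symm), hy]

theorem comm_of_conj (hx : (𝐂[x]).index = n) (hy : (𝐂[y]).index = m) (hg : g * x * g⁻¹ ∈ 𝐂[y]) :
    x ∈ 𝐂[y] := by
  obtain ⟨a, ha, b, hb, rfl⟩ := FGS.exists_mul_of_coprime_index (A := 𝐂[y]) (B := 𝐂[x])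
    (by rw [hx, hy]; exact h.cop.symm) g
  have e : a * b * x * (a * b)⁻¹ = a * x * a⁻¹ := by
    rw [mul_assoc a, mem_cent1.1 hb]
    group
  rw [e] at hg
  simpa [mul_assoc] using mul_mem (mul_mem (inv_mem ha) hg) ha

theorem comm (hp : p.Prime) (hx : (𝐂[x]).index = n) (hy : (𝐂[y]).index = m) (h1 : PE p x)
    (h2 : ¬ p ∣ m) : x ∈ 𝐂[y] := by
  haveI := Fact.mk hp
  obtain ⟨k, hk⟩ := h1
  obtain ⟨g, hg⟩ := exists_conj_mem_of_not_dvd_index (H := 𝐂[y]) (hy ▸ h2) hk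
  exact h.comm_of_conj hx hy hg

theorem central (hr : r.Prime) (h1 : ¬ r ∣ n) (h2 : ¬ r ∣ m) : ¬ r ∣ (center G).index := by
  haveI := Fact.mk hr
  obtain ⟨P⟩ : Nonempty (Sylow r G) := inferInstance
  exact fun hd => P.not_dvd_index (hd.trans (index_dvd_of_le (sylow_le_center_of_not_dvd_index
    (fun y e => (hr.dvd_mul.1 (e.trans (h.dvd y))).elim h1 h2) P)))

theorem sub (hx : (𝐂[x]).index = n) (h1 : PE s x) (u : 𝐂[x]) (hu : (orderOf u).Coprime s) :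
    (𝐂[u]).index = 1 ∨ (𝐂[u]).index = m := by
  rw [index_cent1_subtype]
  exact h.rel hx u.2 (h1.coprime' (by rwa [orderOf_coe]))

theorem caseA (hp : p.Prime) (hx : (𝐂[x]).index = n) (h1 : PE p x) (h2 : ¬ p ∣ m) :
    ∃ q : ℕ, q.Prime ∧ q ≠ p ∧ (∃ b, m = q ^ b) ∧
      (∀ (y : G) (s : ℕ), s.Prime → PE s y → (𝐂[y]).index = m → s = q) ∧
      ∀ u ∈ 𝐂[x], ∀ v ∈ 𝐂[x], PE p u → PE q v → u ∈ 𝐂[v] := by
  have hA : ∀ u ∈ 𝐂[x], ∀ v ∈ 𝐂[x], PE p u → (orderOf v).Coprime p → u ∈ 𝐂[v] := by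
    intro u hu v hv ⟨k, hk⟩ hv'
    have := comm_of_not_dvd (G := 𝐂[x]) (u := ⟨u, hu⟩) (v := ⟨v, hv⟩) hp (fun y hy => by
      rcases h.sub hx h1 y hy with e | e <;> rw [e]
      exacts [hp.not_dvd_one, h2]) ⟨k, Subtype.ext hk⟩ (by rwa [← orderOf_coe])
    exact mem_cent1.2 (congrArg Subtype.val (mem_cent1.1 this))
  have hm : ∀ a, m ≠ p ^ a := by
    rintro (_ | a) e
    · exact h.hm.ne' e
    · exact h2 (e ▸ dvd_pow_self p a.succ_ne_zero)
  obtain ⟨t, ht, htp, hc⟩ := (two_sizes (G := 𝐂[x]) hp (h.sub hx h1)).resolve_right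
    fun ⟨_, a, e⟩ => hm a e
  have hc' : ∀ r : ℕ, r.Prime → r ≠ p → r ≠ t → ∀ w ∈ 𝐂[x], PE r w → 𝐂[x] ≤ 𝐂[w] := by
    intro r hr e1 e2 w hw ⟨k, hk⟩ a ha
    exact mem_cent1.2 (congrArg Subtype.val (mem_center_iff.1
      (hc r hr e1 e2 ⟨w, hw⟩ ⟨k, Subtype.ext hk⟩) ⟨a, ha⟩))
  have key : ∀ (y : G) (s : ℕ), s.Prime → PE s y → (𝐂[y]).index = m → s = t ∧ ∃ b, m = t ^ b := by
    intro y s hs hy hi
    have hyx : y ∈ 𝐂[x] := mem_cent1_symm (h.comm hp hx hi h1 h2)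
    have e := h.rel_eq hx hi
    have hsp : s ≠ p := by
      rintro rfl
      obtain ⟨a, ha⟩ := rel_pow (K := 𝐂[y]) (L := 𝐂[x]) (p := s) fun r hr e w hw hw' =>
        mem_cent1_symm (hA y hyx w hw hy (hw'.coprime hr hs e))
      exact hm a (e.symm.trans ha)
    obtain rfl : s = t := by
      by_contra hst
      exact h.hm.ne' (e.symm.trans (relIndex_eq_one.2 (hc' s hs hsp hst y hyx hy)))
    obtain ⟨a, ha⟩ := rel_pow (K := 𝐂[y]) (L := 𝐂[x]) (p := s) fun r hr e w hw hw' => by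
      by_cases e' : r = p
      · exact hA w hw y hyx (e' ▸ hw') (hy.coprime hs hp hsp)
      · exact mem_cent1_symm (hc' r hr e' e w hw hw' hyx)
    exact ⟨rfl, a, e.symm.trans ha⟩
  obtain ⟨y, s, hs, hy, hi⟩ := h.symm.exists_pe
  exact ⟨t, ht, htp, (key y s hs hy hi).2, fun y s hs hy hi => (key y s hs hy hi).1,
    fun u hu v hv a b => hA u hu v hv a (b.coprime ht hp htp)⟩

end Hy

/-- In a subgroup containing a Sylow `p`-subgroup whose `p`-elements commute with all other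
prime-power elements, the Sylow subgroup contains all `p`-elements. -/
theorem mem_sylow [hp : Fact p.Prime] (P : Sylow p G) (hP : (P : Subgroup G) ≤ L)
    (hc : ∀ r : ℕ, r.Prime → r ≠ p → r ≠ q → ¬ r ∣ (center G).index)
    (h : ∀ u ∈ L, ∀ v ∈ L, PE p u → PE q v → u ∈ 𝐂[v]) (hu : u ∈ L) (h1 : PE p u) :
    u ∈ (P : Subgroup G) := by
  have : L ≤ 𝐍((P : Subgroup G)) := by
    rw [← relIndex_eq_one]
    by_contra e
    have hr := Nat.minFac_prime e
    by_cases e1 : ((𝐍((P : Subgroup G))).relIndex L).minFac = p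
    · exact sylow_not_dvd_relIndex P hP
        ((e1 ▸ Nat.minFac_dvd _).trans (relIndex_dvd_of_le_left L (le_norm _)))
    obtain ⟨w, h1, h2, h3⟩ := ex_pe hr (Nat.minFac_dvd _)
    refine h3 (cent_le_norm _ ?_)
    by_cases e2 : ((𝐍((P : Subgroup G))).relIndex L).minFac = q
    · exact le_cent1_iff.1 fun a ha => h a (hP ha) w h1 (PE.of_pgroup P.isPGroup' ha) (e2 ▸ h2)
    · exact center_le_centralizer _ (mem_center_of_not_dvd hr (hc _ hr e1 e2) h2)
  obtain ⟨k, hk⟩ := h1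
  exact mem_sylow_of_mem_normalizer P hk (this hu)

theorem norm_sylow (P : Sylow p G) {Q : Subgroup G}
    (h1 : ∀ u ∈ 𝐂[y], PE p u → u ∈ (P : Subgroup G)) (hy : y ∈ Q)
    (h2 : Q ⊓ 𝐂[y] ≤ 𝐂((P : Subgroup G))) (hg : g ∈ 𝐍(Q ⊓ 𝐂[y])) : g ∈ 𝐍((P : Subgroup G)) := by
  have h3 : (P : Subgroup G) ≤ g ⋆ 𝐂[y] := by
    rw [conj_cent1]
    exact le_cent1_iff.2 (h2 (conj_mem_of_norm hg ⟨hy, self_mem_cent1 y⟩))
  refine inv_mem_iff.1 (mem_normalizer_of_conj_le fun a ha => h1 a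
    (le_conj_iff_inv_conj_le.1 h3 ha) ?_)
  exact PE.of_pgroup (isPGroup_conj P.isPGroup' _) ha

theorem Hy.case1 (h : Hy G n m) (hp : p.Prime) (hx : (𝐂[x]).index = n) (h1 : PE p x)
    (h2 : ¬ p ∣ m) : Group.IsNilpotent G ∧ (∃ a, n = p ^ a) ∧ ∃ q b : ℕ, q.Prime ∧ m = q ^ b := by
  obtain ⟨q, hq, hqp, ⟨b, hb⟩, hY, hL⟩ := h.caseA hp hx h1 h2
  obtain ⟨y, s, hs, hy, hi⟩ := h.symm.exists_pe
  obtain rfl := hY y s hs hy hi
  have hsm : s ∣ m := hb ▸ dvd_pow_self s fun e => h.hm.ne' (by rw [hb, e, pow_zero])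
  have hsn : ¬ s ∣ n := fun e => hs.not_dvd_one (h.cop ▸ Nat.dvd_gcd e hsm)
  obtain ⟨p', hp', -, ⟨a, ha⟩, hX, hH⟩ := h.symm.caseA hs hi hy hsn
  obtain rfl := hX x p hp h1 hx
  refine ⟨?_, ⟨a, ha⟩, s, b, hs, hb⟩
  haveI := Fact.mk hp
  haveI := Fact.mk hs
  have hc : ∀ r : ℕ, r.Prime → r ≠ p → r ≠ s → ¬ r ∣ (center G).index := fun r hr e1 e2 =>
    h.central hr (fun e => e1 ((Nat.prime_dvd_prime_iff_eq hr hp).1 (hr.dvd_of_dvd_pow (ha ▸ e))))
      (fun e => e2 ((Nat.prime_dvd_prime_iff_eq hr hs).1 (hr.dvd_of_dvd_pow (hb ▸ e))))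
  obtain ⟨P, hP⟩ := exists_sylow_le_of_not_dvd_index (p := p) (H := 𝐂[y]) (hi ▸ h2)
  obtain ⟨Q, hQ⟩ := exists_sylow_le_of_not_dvd_index (p := s) (H := 𝐂[x]) (hx ▸ hsn)
  have mP : ∀ u ∈ 𝐂[y], PE p u → u ∈ (P : Subgroup G) := fun u hu hu' =>
    mem_sylow P hP hc (fun u hu v hv a b => mem_cent1_symm (hH v hv u hu b a)) hu hu'
  have mQ : ∀ u ∈ 𝐂[x], PE s u → u ∈ (Q : Subgroup G) := fun u hu hu' =>
    mem_sylow Q hQ (fun r hr a b => hc r hr b a)
      (fun u hu v hv a b => mem_cent1_symm (hL v hv u hu b a)) hu hu'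
  have hxy := h.comm hp hx hi h1 h2
  have hxP := mP x hxy h1
  have hyQ := mQ y (mem_cent1_symm hxy) hy
  have cQ : (Q : Subgroup G) ⊓ 𝐂[y] ≤ 𝐂((P : Subgroup G)) := fun t ht => le_cent1_iff.1 fun u hu =>
    mem_cent1_symm (hH t ht.2 u (hP hu) (PE.of_pgroup Q.isPGroup' ht.1) (PE.of_pgroup P.isPGroup' hu))
  have cP : (P : Subgroup G) ⊓ 𝐂[x] ≤ 𝐂((Q : Subgroup G)) := fun t ht => le_cent1_iff.1 fun u hu =>
    mem_cent1_symm (hL t ht.2 u (hQ hu) (PE.of_pgroup P.isPGroup' ht.1) (PE.of_pgroup Q.isPGroup' hu))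
  have hQi : (Q : Subgroup G).index.Coprime m :=
    hb ▸ ((hs.coprime_iff_not_dvd.2 Q.not_dvd_index).symm).pow_right b
  have hrel : (𝐂[y]).relIndex Q = m := by
    rw [relIndex_eq_index_of_coprime (by rw [hi]; exact hQi.symm), hi]
  refine nil_of_comm P Q ?_ hc
  by_cases hα : (Q : Subgroup G) ⊓ 𝐂((P : Subgroup G)) ≤ 𝐂[y]
  · exfalso
    have hlt : (Q : Subgroup G) ⊓ 𝐂[y] < Q := lt_of_le_of_ne inf_le_left fun e =>
      h.hm.ne' (hrel.symm.trans (relIndex_eq_one.2 (inf_eq_left.1 e)))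
    obtain ⟨t, ⟨ht1, ht2⟩, ht3⟩ := SetLike.exists_of_lt (lt_inf_normalizer_of_lt Q.isPGroup' hlt)
    have htP := norm_sylow P mP hyQ cQ ht2
    have hPQ : (P : Subgroup G) ⊓ Q = ⊥ :=
      disjoint_iff.1 (IsPGroup.disjoint_of_ne p s hqp.symm _ _ P.isPGroup' Q.isPGroup')
    have hA := Coprime.le_centralizer_of_centralizer_le (H := P) (A := zpowers t)
      (pgroup_nil P.isPGroup') (zpowers_le_of_mem htP)
      (IsPGroup.coprime_card_of_ne s p hqp _ _ (PE.of_pgroup Q.isPGroup' ht1).pgroup P.isPGroup')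
      (fun c hc => ?_)
    · exact ht3 ⟨ht1, hα ⟨ht1, hA (mem_zpowers t)⟩⟩
    have h3 : (P : Subgroup G) ⊓ 𝐂[x] ≤ (P : Subgroup G) ⊓ 𝐂(zpowers t) :=
      le_inf inf_le_left (cP.trans (cent_anti (zpowers_le_of_mem ht1)))
    have hcQ := norm_sylow Q mQ hxP cP (cent_le_norm _ (cent_anti h3 hc.2))
    rw [cent_zpowers, mem_cent1, ← commutatorElement_eq_one_iff_mul_comm, ← mem_bot (G := G), ← hPQ]
    have ht1' : t ∈ (Q : Subgroup G) := ht1
    have hc1 : c ∈ (P : Subgroup G) := hc.1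
    refine mem_inf.2 ⟨?_, mul_mem (conj_mem_of_norm hcQ ht1') (inv_mem ht1')⟩
    rw [show ⁅c, t⁆ = c * (t * c⁻¹ * t⁻¹) by rw [commutatorElement_def]; group]
    exact mul_mem hc1 (conj_mem_of_norm htP (inv_mem hc1))
  refine comm_of_all P Q hc fun u hu hd => hα ?_
  have h3 : m ∣ (𝐂[u]).index := by
    rcases h.all u with e | e | e | e <;> rw [e] at hd ⊢
    · exact absurd hd hs.not_dvd_one
    · exact absurd hd hsn
    · exact dvd_mul_left m n
  set T := (Q : Subgroup G) ⊓ 𝐂((P : Subgroup G))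
  have h4 : m ∣ T.relIndex Q := by
    refine hQi.symm.dvd_of_dvd_mul_right ?_
    rw [relIndex_mul_index inf_le_left]
    exact h3.trans (index_dvd_of_le (inf_le_right.trans (cent_le_cent1 hu)))
  have h5 := relIndex_mul_relIndex ((Q : Subgroup G) ⊓ 𝐂[y]) T Q (le_inf inf_le_left cQ) inf_le_left
  rw [inf_comm, inf_relIndex_right, hrel] at h5
  have h6 : (𝐂[y] ⊓ (Q : Subgroup G)).relIndex T = 1 := by
    obtain ⟨c, hc⟩ := h4
    rw [hc, mul_left_comm] at h5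
    exact Nat.eq_one_of_mul_eq_one_right
      (Nat.eq_of_mul_eq_mul_left (h.hm.trans' one_pos) (h5.trans (mul_one m).symm))
  exact (relIndex_eq_one.1 h6).trans inf_le_left

end Cfsg.Lib.FGS.F4
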