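import Cfsg.Agent.Lib.Frobenius.Basic
import Cfsg.Agent.Lib.PGroup.Basic

/-!
# Normal bases over semilocal rings and Galois descent
-/

set_option autoImplicit false

namespace Cfsg.Lib.FGS.FreeFrob

open scoped Pointwise

theorem field_nb {L D : Type*} [Field L] [Group D] [Fintype D] [MulSemiringAction D L]
    [FaithfulSMul D L] :
    ∃ θ : L, ∀ c : D → L, (∀ y, ∑ x, c x * (x * y) • θ = 0) → c = 0 := by
  let K := FixedPoints.subfield D L
  let e := FixedPoints.toAlgAutMulEquiv D L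
  let b := IsGalois.normalBasis K L
  refine ⟨b 1, fun c hc => ?_⟩
  have h1 : ∑ x, c x • (e x).toLinearMap = 0 := by
    refine b.ext fun σ => ?_
    obtain ⟨y, rfl⟩ := e.surjective σ
    rw [IsGalois.normalBasis_apply, LinearMap.sum_apply, LinearMap.zero_apply, ← hc y]
    refine Finset.sum_congr rfl fun x _ => ?_
    rw [mul_smul]; rfl
  have h2 := (linearIndependent_monoidHom L L).comp
    (fun x : D => ((MulSemiringAction.toRingHom D L x : L →+* L) : L →* L)) (fun x y h =>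
      FaithfulSMul.eq_of_smul_eq_smul (α := L) fun r => DFunLike.congr_fun h r)
  refine funext (Fintype.linearIndependent_iff.1 h2 c (funext fun r => ?_))
  have := LinearMap.congr_fun h1 r
  rw [LinearMap.sum_apply] at this
  rw [Finset.sum_apply]
  exact this

variable {R H : Type*} [CommRing R] [Group H] [Fintype H] [MulSemiringAction H R]

theorem local_nb (m : Ideal R) [m.IsMaximal] (h : ∀ g : H, g ≠ 1 → ∃ r, g • r - r ∉ m)
    [Fintype (MulAction.stabilizer H m)] :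
    ∃ t : R, ∀ c : MulAction.stabilizer H m → R,
      (∀ y, ∑ x, c x * ((x * y : MulAction.stabilizer H m) : H) • t ∈ m) → ∀ x, c x ∈ m := by
  letI := Ideal.Quotient.field m
  let φ := Ideal.Quotient.stabilizerHom m (m.under ℤ) H
  letI : MulSemiringAction (MulAction.stabilizer H m) (R ⧸ m) := MulSemiringAction.compHom _ φ
  have hs : ∀ (x : MulAction.stabilizer H m) (r : R),
      x • Ideal.Quotient.mk m r = Ideal.Quotient.mk m ((x : H) • r) := fun x r => rfl
  have : FaithfulSMul (MulAction.stabilizer H m) (R ⧸ m) := ⟨fun {x y} hxy => by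
    by_contra hne
    obtain ⟨r, hr⟩ := h ((y⁻¹ * x : MulAction.stabilizer H m) : H) (by
      rw [Ne, OneMemClass.coe_eq_one, inv_mul_eq_one]; exact Ne.symm hne)
    apply hr
    rw [← Ideal.Quotient.eq, ← hs, mul_smul, hxy, inv_smul_smul]⟩
  obtain ⟨θ, hθ⟩ := field_nb (L := R ⧸ m) (D := MulAction.stabilizer H m)
  obtain ⟨t, rfl⟩ := Ideal.Quotient.mk_surjective θ
  refine ⟨t, fun c hc x => ?_⟩
  rw [← Ideal.Quotient.eq_zero_iff_mem]
  refine congrFun (hθ (fun x => Ideal.Quotient.mk m (c x)) fun y => ?_) x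
  rw [← Ideal.Quotient.eq_zero_iff_mem.2 (hc y), map_sum]
  exact Finset.sum_congr rfl fun x _ => by rw [hs, map_mul]

omit [Fintype H] in
theorem isMaximal_smul (m : Ideal R) [m.IsMaximal] (g : H) : (g • m).IsMaximal :=
  Ideal.IsMaximal.map_bijective (MulSemiringAction.toRingHom H R g)
    (MulSemiringAction.toRingEquiv H R g).bijective ‹_›

theorem ring_nb [DecidableEq H] [Finite (MaximalSpectrum R)]
    (h : ∀ m : Ideal R, m.IsMaximal → ∀ g : H, g ≠ 1 → ∃ r, g • r - r ∉ m) :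
    ∃ θ : R, IsUnit (Matrix.of fun g d : H => (g * d) • θ).det := by
  classical
  choose t ht using fun m : MaximalSpectrum R => @local_nb R H _ _ _ _ m.1 m.2 (h m.1 m.2) _
  let rep : Ideal R → Ideal R := fun m => (Quotient.mk (MulAction.orbitRel H (Ideal R)) m).out
  have hrep : ∀ m, ∃ g : H, g • m = rep m := fun m =>
    MulAction.orbitRel_apply.1 (Quotient.mk_out (s := MulAction.orbitRel H (Ideal R)) m)
  have hrep2 : ∀ (g : H) m, rep (g • m) = rep m := fun g m =>
    congrArg Quotient.out (Quotient.sound (MulAction.orbitRel_apply.2 ⟨g, rfl⟩))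
  obtain ⟨θ, hθ⟩ := Ideal.exists_forall_sub_mem_ideal (I := fun m : MaximalSpectrum R => m.1)
    (fun m n hmn => MaximalSpectrum.isCoprime_of_ne hmn)
    fun m => if m.1 = rep m.1 then t m else 0
  refine ⟨θ, ?_⟩
  by_contra hu
  obtain ⟨n, hn, hd⟩ := exists_max_ideal_of_mem_nonunits hu
  letI := Ideal.Quotient.field n
  rw [← Ideal.Quotient.eq_zero_iff_mem, RingHom.map_det] at hd
  obtain ⟨c, hc0, hc⟩ := Matrix.exists_vecMul_eq_zero_iff.2 hd
  obtain ⟨g0, hg0⟩ := Function.ne_iff.1 hc0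
  choose c' hc' using fun g => Ideal.Quotient.mk_surjective (c g)
  obtain ⟨k, hk⟩ := hrep n
  let m : MaximalSpectrum R := ⟨k • n, isMaximal_smul n k⟩
  have hm : m.1 = rep m.1 := by rw [show m.1 = k • n from rfl, hrep2, hk]
  have h1 : ∀ d, ∑ g, k • c' g * (k * g * d) • θ ∈ m.1 := by
    intro d
    have h2 : ∑ g, c' g * (g * d) • θ ∈ n := by
      rw [← Ideal.Quotient.eq_zero_iff_mem, map_sum, ← show _ = (0 : R ⧸ n) from congrFun hc d]
      exact Finset.sum_congr rfl fun g _ => by rw [map_mul, hc']; rfl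
    have h3 := Ideal.smul_mem_pointwise_smul k _ n h2
    rw [Finset.smul_sum] at h3
    simpa only [smul_mul', mul_smul] using h3
  have h2 : ∀ u : H, u ∉ MulAction.stabilizer H m.1 → u • θ ∈ m.1 := by
    intro u hu
    have h3 := hθ ⟨u⁻¹ • m.1, @isMaximal_smul R H _ _ _ m.1 m.2 _⟩
    rw [if_neg, sub_zero, Ideal.mem_inv_pointwise_smul_iff] at h3
    · exact h3
    · rw [hrep2, ← hm]
      exact fun h4 => hu ((inv_mem_iff (x := u)).1 h4)
  have h3 : ∀ u : MulAction.stabilizer H m.1, (u : H) • θ - (u : H) • t m ∈ m.1 := by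
    intro u
    have h4 := hθ m
    rw [if_pos hm] at h4
    have h5 := Ideal.smul_mem_pointwise_smul (u : H) _ _ h4
    rwa [u.2, smul_sub] at h5
  have h4 := ht m (fun x => k • c' (k⁻¹ * x * k * g0)) (fun y => ?_) 1
  · apply hg0
    rw [OneMemClass.coe_one, mul_one, inv_mul_cancel, one_mul,
      Ideal.smul_mem_pointwise_smul_iff] at h4
    rw [← hc', Ideal.Quotient.eq_zero_iff_mem.2 h4]; rfl
  · rw [← Ideal.Quotient.eq_zero_iff_mem, ← Ideal.Quotient.eq_zero_iff_mem.2 (h1 ((k * g0)⁻¹ * y)),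
      map_sum, map_sum]
    refine Fintype.sum_of_injective (fun x : MulAction.stabilizer H m.1 => k⁻¹ * x * k * g0)
      (fun x z hxz => by simpa using hxz) _ _ (fun g hg => ?_) fun x => ?_
    · rw [Ideal.Quotient.eq_zero_iff_mem]
      refine Ideal.mul_mem_left _ _ (h2 _ fun hu => hg ⟨⟨_, hu⟩ * y⁻¹, ?_⟩)
      simp only [Subgroup.coe_mul, Subgroup.coe_inv]; group
    · rw [eq_comm, Ideal.Quotient.eq, ← mul_sub,
        show k * (k⁻¹ * x * k * g0) * ((k * g0)⁻¹ * y) = ((x * y : MulAction.stabilizer H m.1) : H) by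
          rw [Subgroup.coe_mul]; group]
      exact Ideal.mul_mem_left _ _ (h3 _)

/-- Galois descent with a normal basis. -/
theorem descent [DecidableEq H] {V : Type*} [AddCommGroup V] [Module R V] (ρ : H → V →+ V)
    (h1 : ∀ v, ρ 1 v = v) (hm : ∀ g d v, ρ (g * d) v = ρ g (ρ d v))
    (hs : ∀ g (r : R) v, ρ g (r • v) = (g • r) • ρ g v) {θ : R}
    (hθ : IsUnit (Matrix.of fun g d : H => (g * d) • θ).det) :
    (∀ u : H → V, (∀ d g, ρ g (u d) = u d) → ∑ d, (d • θ) • u d = 0 → u = 0) ∧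
      ∀ v, ∃ u : H → V, (∀ d g, ρ g (u d) = u d) ∧ v = ∑ d, (d • θ) • u d := by
  set M := Matrix.of fun g d : H => (g * d) • θ with hM
  have e1 := Matrix.mul_nonsing_inv M hθ
  have e2 := Matrix.nonsing_inv_mul M hθ
  have key : ∀ (A B : Matrix H H R), A * B = 1 → ∀ (u : H → V) (e : H),
      ∑ g, A e g • ∑ d, B g d • u d = u e := by
    intro A B hAB u e
    simp only [Finset.smul_sum, smul_smul]
    rw [Finset.sum_comm]
    simp only [← Finset.sum_smul, ← Matrix.mul_apply, hAB, Matrix.one_apply, ite_smul, one_smul,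
      zero_smul, Finset.sum_ite_eq, Finset.mem_univ, if_true]
  have uniq : ∀ u : H → V, (∀ g, ∑ d, M g d • u d = 0) → u = 0 := fun u hu => funext fun e => by
    rw [← key _ _ e2 u e]; simp [hu]
  refine ⟨fun u hu h0 => uniq u fun g => ?_, fun v => ?_⟩
  · have := congrArg (ρ g) h0
    rw [map_sum, map_zero] at this
    rw [← this]
    exact Finset.sum_congr rfl fun d _ => by rw [hs, hu, hM, Matrix.of_apply, mul_smul]
  · let u : H → V := fun d => ∑ g, M⁻¹ d g • ρ g v
    have hu : ∀ g, ∑ d, M g d • u d = ρ g v := fun g => key _ _ e1 (fun g => ρ g v) g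
    refine ⟨u, fun d x => ?_, ?_⟩
    · rw [← sub_eq_zero]
      refine congrFun (uniq (fun d => ρ x (u d) - u d) fun g => ?_) d
      simp only [smul_sub, Finset.sum_sub_distrib, hu]
      have := congrArg (ρ x) (hu (x⁻¹ * g))
      rw [← hm, mul_inv_cancel_left, map_sum] at this
      rw [← this, sub_eq_zero]
      exact Finset.sum_congr rfl fun d _ => by
        rw [hs, hM, Matrix.of_apply, Matrix.of_apply, ← mul_smul, ← mul_assoc, mul_inv_cancel_left]
    · rw [← h1 v, ← hu 1]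
      exact Finset.sum_congr rfl fun d _ => by rw [hM, Matrix.of_apply, one_mul]

theorem exists_ann {R : Type*} [CommRing R] [IsArtinianRing R] (m : Ideal R) [hm : m.IsMaximal] :
    ∃ x : R, x ≠ 0 ∧ ∀ r ∈ m, r * x = 0 := by
  have h := Module.associatedPrimes.minimalPrimes_annihilator_subset_associatedPrimes R R
    (show m ∈ (Module.annihilator R R).minimalPrimes by
      rw [Module.annihilator_eq_bot.2 inferInstance]
      exact m.mem_minimalPrimes_of_krullDimLE_zero)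
  obtain ⟨-, x, hx⟩ := isAssociatedPrime_iff.1 h
  refine ⟨x, ?_, fun r hr => ?_⟩
  · rintro rfl
    exact hm.ne_top (by rw [hx, eq_top_iff]; intro r _; simp [Submodule.mem_colon_singleton])
  · rw [hx, Submodule.mem_colon_singleton] at hr
    exact hr

section Rep

open Module

variable {k V A : Type*} [Field k] [AddCommGroup V] [Module k V] [Group A]
  (ρ : Representation k A V) (Q : Subgroup A)

/-- The centre of the centralizer algebra of `ρ Q`. -/
def RR : Subalgebra k (End k V) :=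
  Subalgebra.centralizer k (ρ '' Q) ⊓ Subalgebra.centralizer k (Subalgebra.centralizer k (ρ '' Q))

variable {ρ Q}

theorem mem_RR {T : End k V} : T ∈ RR ρ Q ↔ (∀ y ∈ Q, ρ y * T = T * ρ y) ∧
    ∀ S : End k V, (∀ y ∈ Q, ρ y * S = S * ρ y) → S * T = T * S := by
  simp [RR, Subalgebra.mem_centralizer_iff, Set.mem_centralizer_iff]

theorem conj_cent [hQ : Q.Normal] {S : End k V} (h : ∀ y ∈ Q, ρ y * S = S * ρ y) (g : A) :
    ∀ y ∈ Q, ρ y * (ρ g * S * ρ g⁻¹) = ρ g * S * ρ g⁻¹ * ρ y := by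
  intro y hy
  have h1 := h _ (hQ.conj_mem' y hy g)
  calc ρ y * (ρ g * S * ρ g⁻¹) = ρ g * (ρ (g⁻¹ * y * g) * S) * ρ g⁻¹ := by
        simp only [← mul_assoc, ← map_mul, mul_inv_cancel, one_mul]
    _ = _ := by rw [h1]; simp only [mul_assoc, ← map_mul, mul_inv_cancel, mul_one]

theorem conj_mem_RR [Q.Normal] {T : End k V} (h : T ∈ RR ρ Q) (g : A) :
    ρ g * T * ρ g⁻¹ ∈ RR ρ Q := by
  refine mem_RR.2 ⟨conj_cent (mem_RR.1 h).1 g, fun S hS => ?_⟩
  have h1 := (mem_RR.1 h).2 _ (conj_cent hS g⁻¹)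
  have e : ρ g * ρ g⁻¹ = 1 := by rw [← map_mul, mul_inv_cancel, map_one]
  rw [inv_inv] at h1
  calc S * (ρ g * T * ρ g⁻¹) = ρ g * (ρ g⁻¹ * S * ρ g * T) * ρ g⁻¹ := by
        simp only [← mul_assoc, e, one_mul]
    _ = _ := by rw [h1]; simp only [mul_assoc, e, mul_one]

instance commRingRR : CommRing (RR ρ Q) :=
  { (inferInstance : Ring (RR ρ Q)) with
    mul_comm := fun a b => Subtype.ext ((mem_RR.1 b.2).2 _ (mem_RR.1 a.2).1) }

instance actRR [Q.Normal] : MulSemiringAction A (RR ρ Q) where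
  smul g T := ⟨ρ g * T * ρ g⁻¹, conj_mem_RR T.2 g⟩
  one_smul T := Subtype.ext (show ρ 1 * T * ρ 1⁻¹ = T by simp)
  mul_smul g h T := Subtype.ext (show ρ (g * h) * T * ρ (g * h)⁻¹ = ρ g * (ρ h * T * ρ h⁻¹) * ρ g⁻¹ by
    simp only [mul_inv_rev, map_mul, mul_assoc])
  smul_zero g := Subtype.ext (show ρ g * 0 * ρ g⁻¹ = 0 by simp)
  smul_add g S T := Subtype.ext (show ρ g * (S + T) * ρ g⁻¹ = ρ g * S * ρ g⁻¹ + ρ g * T * ρ g⁻¹ by
    simp only [mul_add, add_mul])
  smul_one g := Subtype.ext (show ρ g * 1 * ρ g⁻¹ = 1 by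
    rw [mul_one, ← map_mul, mul_inv_cancel, map_one])
  smul_mul g S T := Subtype.ext
    (show ρ g * (S * T) * ρ g⁻¹ = ρ g * S * ρ g⁻¹ * (ρ g * T * ρ g⁻¹) by
      simp only [mul_assoc, ← mul_assoc (ρ g⁻¹) (ρ g), ← map_mul, inv_mul_cancel, map_one, one_mul])

theorem rho_smul [Q.Normal] (g : A) (r : RR ρ Q) (v : V) : ρ g (r • v) = (g • r) • ρ g v := by
  show ρ g (r.1 v) = ρ g (r.1 (ρ g⁻¹ (ρ g v)))
  rw [Representation.inv_self_apply]

theorem sum_mem_RR [Fintype Q] {z : A} (hz : z ∈ Q) : ∑ y : Q, ρ (y * z * y⁻¹) ∈ RR ρ Q := by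
  refine mem_RR.2 ⟨fun x hx => ?_, fun S hS => ?_⟩
  · rw [Finset.mul_sum, Finset.sum_mul]
    refine Fintype.sum_equiv (Equiv.mulLeft (⟨x, hx⟩ : Q)) _ _ fun y => ?_
    rw [← map_mul, ← map_mul]
    congr 1
    simp only [Equiv.coe_mulLeft, Subgroup.coe_mul, Subgroup.coe_inv]; group
  · rw [Finset.mul_sum, Finset.sum_mul]
    exact Finset.sum_congr rfl fun y _ => (hS _ (mul_mem (mul_mem y.2 hz) (inv_mem y.2))).symm

open scoped commutatorElement in
theorem inertia [FiniteDimensional k V] [Finite A] [hQ : Q.Normal] [Group.IsNilpotent Q]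
    (hc : (Nat.card Q : k) ≠ 0) (h0 : ∀ v, (∀ y ∈ Q, ρ y v = v) → v = 0) {h : A}
    (hf : Q ⊓ Subgroup.centralizer {h} = ⊥) (m : Ideal (RR ρ Q)) (hm : m.IsMaximal) :
    ∃ r, h • r - r ∉ m := by
  classical
  have := Fintype.ofFinite Q
  by_contra! hr
  have : IsArtinianRing (RR ρ Q) := IsArtinianRing.of_finite k _
  have hU : ∀ g : A, (∀ r ∈ m, g⁻¹ • r ∈ m) → ∀ v : V, (∀ r ∈ m, r • v = 0) →
      ∀ r ∈ m, r • ρ g v = 0 := fun g hg v hv r hr => by
    rw [← smul_inv_smul g r, ← rho_smul, hv _ (hg r hr), map_zero]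
  have hUQ : ∀ y ∈ Q, ∀ v : V, (∀ r ∈ m, r • v = 0) → ∀ r ∈ m, r • ρ y v = 0 := by
    intro y hy v hv r hr
    have := LinearMap.congr_fun ((mem_RR.1 r.2).1 y hy) v
    exact this.symm.trans ((congrArg (ρ y) (hv r hr)).trans (map_zero _))
  have hUh := hU h⁻¹ fun r h1 => by simpa using add_mem (hr r) h1
  let K : Subgroup A :=
    { carrier := {x | x ∈ Q ∧ ∀ v : V, (∀ r ∈ m, r • v = 0) → ρ x v = v}
      one_mem' := ⟨one_mem _, fun v _ => by simp⟩
      mul_mem' := fun ha hb => ⟨mul_mem ha.1 hb.1, fun v hv => by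
        rw [map_mul, End.mul_apply, hb.2 v hv, ha.2 v hv]⟩
      inv_mem' := fun {a} ha => ⟨inv_mem ha.1, fun v hv => by
        conv_lhs => rw [← ha.2 v hv]
        rw [Representation.inv_self_apply]⟩ }
  have hK : ¬ Q ≤ K := by
    intro hK
    obtain ⟨x, hx0, hx⟩ := exists_ann m
    refine hx0 (Subtype.ext (LinearMap.ext fun v => h0 _ fun y hy => (hK hy).2 _ fun r hr => ?_))
    show r • x • v = 0
    rw [← mul_smul, hx r hr, zero_smul]
  obtain ⟨z, hz, hzK, hzc⟩ := PGroup.exists_mem_not_mem_commutator_mem (S := Q) le_rfl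
    Subgroup.le_normalizer hK
  have hS : ∀ v : V, (∀ r ∈ m, r • v = 0) →
      (⟨_, sum_mem_RR hz⟩ : RR ρ Q) • v = (Nat.card Q : k) • ρ z v := by
    intro v hv
    show (∑ y : Q, ρ (y * z * y⁻¹)) v = _
    rw [LinearMap.sum_apply, Nat.cast_smul_eq_nsmul, Nat.card_eq_fintype_card, ← Finset.card_univ,
      ← Finset.sum_const]
    refine Finset.sum_congr rfl fun y _ => ?_
    rw [show (y : A) * z * (y⁻¹ : Q) = ⁅z, (y : A)⁆⁻¹ * z by
      rw [commutatorElement_def, Subgroup.coe_inv]; group, map_mul, End.mul_apply]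
    exact (inv_mem (hzc y y.2)).2 _ (hUQ z hz v hv)
  refine hzK (Frobenius.mem_of_commutator_mem (N := K) (fun x hx => hx.1) ?_ hf hz ⟨?_, fun v hv => ?_⟩)
  · refine Subgroup.mem_normalizer_fintype fun x hx => ⟨hQ.conj_mem x hx.1 h, fun v hv => ?_⟩
    rw [map_mul, map_mul, End.mul_apply, End.mul_apply, hx.2 _ (hUh v hv),
      Representation.self_inv_apply]
  · rw [mul_assoc, mul_assoc, ← mul_assoc h]
    exact mul_mem hz (hQ.conj_mem _ (inv_mem hz) h)
  · have hw := hUQ _ (hQ.conj_mem _ (inv_mem hz) h) v hv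
    set w := ρ (h * z⁻¹ * h⁻¹) v with hwd
    have h1 := hw _ (hr ⟨_, sum_mem_RR hz⟩)
    rw [sub_smul, sub_eq_zero, hS w hw, ← Representation.self_inv_apply ρ h w, ← rho_smul,
      hS _ (hUh w hw), map_smul, Representation.self_inv_apply] at h1
    have h2 := smul_right_injective V hc h1
    rw [mul_assoc, mul_assoc, ← mul_assoc h, map_mul, End.mul_apply, ← hwd, ← h2, hwd]
    simp only [← End.mul_apply, ← map_mul]
    rw [show h * (z * (h⁻¹ * (h * z⁻¹ * h⁻¹))) = 1 by group, map_one, End.one_apply]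

theorem free [FiniteDimensional k V] [Finite A] [DecidableEq A] [Q.Normal] [Group.IsNilpotent Q]
    (hc : (Nat.card Q : k) ≠ 0) (h0 : ∀ v, (∀ y ∈ Q, ρ y v = v) → v = 0) {H : Subgroup A}
    (hf : ∀ h ∈ H, h ≠ 1 → Q ⊓ Subgroup.centralizer {h} = ⊥) :
    ∃ W : Submodule k V, DirectSum.IsInternal (fun h : H => W.map (ρ (h : A))) := by
  classical
  have := Fintype.ofFinite H
  have : IsArtinianRing (RR ρ Q) := IsArtinianRing.of_finite k _
  obtain ⟨θ, hθ⟩ := ring_nb (R := RR ρ Q) (H := H) fun m hm g hg =>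
    inertia hc h0 (hf g g.2 fun h => hg (Subtype.ext h)) m hm
  obtain ⟨d1, d2⟩ := descent (R := RR ρ Q) (fun g : H => (ρ g).toAddMonoidHom) (fun v => by simp)
    (fun g d v => by simp) (fun g r v => rho_smul (g : A) r v) hθ
  replace d1 : ∀ u : H → V, (∀ (d : H) (g : H), ρ g (u d) = u d) →
    ∑ d : H, ((d : A) • θ) • u d = 0 → u = 0 := d1
  replace d2 : ∀ v, ∃ u : H → V, (∀ (d : H) (g : H), ρ g (u d) = u d) ∧
    v = ∑ d : H, ((d : A) • θ) • u d := d2
  have hmem : ∀ (d : H) v, v ∈ ((Representation.invariants (ρ.comp H.subtype)).map θ.1).map (ρ d) ↔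
      ∃ u, (∀ g : H, ρ g u = u) ∧ v = ((d : A) • θ) • u := by
    intro d v
    constructor
    · rintro ⟨_, ⟨u, hu, rfl⟩, rfl⟩
      exact ⟨u, hu, (rho_smul (d : A) θ u).trans (by rw [show ρ d u = u from hu d])⟩
    · rintro ⟨u, hu, rfl⟩
      exact ⟨_, ⟨u, hu, rfl⟩, (rho_smul (d : A) θ u).trans (by rw [hu d])⟩
  refine ⟨(Representation.invariants (ρ.comp H.subtype)).map θ.1,
    (DirectSum.isInternal_submodule_iff_iSupIndep_and_iSup_eq_top _).2 ⟨?_, ?_⟩⟩
  · rw [iSupIndep_iff_finsetSum_eq_zero_imp_eq_zero]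
    intro s v hv hs i hi
    have : ∀ d, ∃ u, (∀ g : H, ρ g u = u) ∧ (if d ∈ s then v d else 0) = ((d : A) • θ) • u := by
      intro d
      split_ifs with hd
      · exact (hmem d _).1 (hv d hd)
      · exact ⟨0, by simp, by simp⟩
    choose u hu1 hu2 using this
    have h1 := d1 u hu1 (by rw [← Finset.sum_congr rfl fun d _ => hu2 d]; simpa using hs)
    have h2 := hu2 i
    rwa [if_pos hi, h1, Pi.zero_apply, smul_zero] at h2
  · rw [eq_top_iff]
    intro v _
    obtain ⟨u, hu, rfl⟩ := d2 v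
    exact Submodule.sum_mem _ fun d _ => Submodule.mem_iSup_of_mem d ((hmem d _).2 ⟨_, hu d, rfl⟩)

end Rep

end Cfsg.Lib.FGS.FreeFrob
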