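import Cfsg.Agent.Lib.Char.ComplexAut

/-!
# An explicit isotropic vector over a cyclotomic field (Gauss's identity) and Thue's lemma
-/

set_option autoImplicit false

namespace Cfsg.Lib.FGS.GaussId

open Finset Polynomial

theorem prod_one_sub {q : ℕ} [NeZero q] (η : ℂ) :
    ∏ b : ZMod q, (1 - η * ZMod.stdAddChar b) = 1 - η ^ q := by
  have hq : 0 < q := NeZero.pos q
  have h := (Complex.isPrimitiveRoot_exp q hq.ne').pow_sub_pow_eq_prod_sub_mul 1 η hq
  rw [one_pow] at h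
  rw [h]
  have inj : Function.Injective (ZMod.stdAddChar (N := q)) := ZMod.injective_stdAddChar
  have hm : ∀ b : ZMod q, ZMod.stdAddChar b ∈ nthRootsFinset q (1 : ℂ) := fun b => by
    rw [mem_nthRootsFinset hq, ← AddChar.map_nsmul_eq_pow, nsmul_eq_mul, ZMod.natCast_self,
      zero_mul, AddChar.map_zero_eq_one]
  refine prod_bij (fun b _ => ZMod.stdAddChar b) (fun b _ => hm b) (fun a _ b _ e => inj e)
    (fun z hz => ?_) fun b _ => by rw [mul_comm]
  have : (univ.image (ZMod.stdAddChar (N := q))) = nthRootsFinset q (1 : ℂ) :=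
    eq_of_subset_of_card_le (image_subset_iff.2 fun b _ => hm b) (by
      rw [card_image_of_injective _ inj, card_univ, ZMod.card,
        (Complex.isPrimitiveRoot_exp q hq.ne').card_nthRootsFinset])
  obtain ⟨b, -, e⟩ := mem_image.1 (this ▸ hz)
  exact ⟨b, mem_univ _, e⟩

theorem gauss {q r : ℕ} [hq : Fact q.Prime] (q4 : q % 4 = 3) (hr : r ≠ 0) (hqr : r ∣ q + 1)
    {η : ℂ} (hη : η ^ r = 1) (η1 : η ≠ 1) : ∃ P Q : ℤ[X],
      η * (q * aeval η P ^ 2 + aeval η Q ^ 2) + q * (2 * (q - 1)) ^ 2 = 0 := by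
  classical
  have : NeZero q := ⟨hq.out.ne_zero⟩
  have cop : q.Coprime r := (Nat.Coprime.coprime_dvd_right hqr (by simp))
  set ψ : AddChar (ZMod q) ℂ := ZMod.stdAddChar
  have hψ : ψ.IsPrimitive := ZMod.isPrimitive_stdAddChar q
  have ψq : ∀ b, ψ b ^ q = 1 := fun b => by
    rw [← AddChar.map_nsmul_eq_pow, nsmul_eq_mul, ZMod.natCast_self, zero_mul,
      AddChar.map_zero_eq_one]
  have : ∀ k : (ZMod q)ˣ, ∃ σ : ℂ ≃+* ℂ, (∀ b, σ (ψ b) = ψ (k * b)) ∧ σ η = η := fun k => by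
    obtain ⟨σ, h1, h2⟩ := Char.exists_ringEquiv_pow_fix hq.out.ne_zero hr cop
      (ZMod.val_coe_unit_coprime k)
    refine ⟨σ, fun b => ?_, h2 η hη⟩
    rw [h1 _ (ψq b), ← AddChar.map_nsmul_eq_pow, nsmul_eq_mul, ZMod.natCast_zmod_val]
  choose σ σψ ση using this
  let T : ℂ → ℂ := fun x => ∑ k, σ k x
  let R := (aeval (R := ℤ) η).range
  let R' := Subring.closure (insert η (Set.range ψ))
  have key : ∀ y ∈ R', ∀ x, (∀ b, T (ψ b * x) ∈ R) → ∀ b, T (ψ b * (y * x)) ∈ R := fun y hy => by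
    induction hy using Subring.closure_induction with
    | mem y hy =>
      rcases hy with rfl | ⟨c, rfl⟩
      · intro x hx b
        have : T (ψ b * (y * x)) = y * T (ψ b * x) := by
          simp only [T, mul_sum, map_mul, ση]
          exact sum_congr rfl fun k _ => by ring
        exact this ▸ mul_mem ⟨X, by simp⟩ (hx b)
      · intro x hx b
        rw [← mul_assoc, ← AddChar.map_add_eq_mul]
        exact hx _
    | zero => intro x _ b; simpa [T] using zero_mem R
    | one => intro x hx b; simpa using hx b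
    | add y z _ _ h1 h2 =>
      intro x hx b
      have := add_mem (h1 x hx b) (h2 x hx b)
      simpa only [T, add_mul, mul_add, map_add, sum_add_distrib] using this
    | neg y _ h1 =>
      intro x hx b
      have := neg_mem (h1 x hx b)
      simpa only [T, neg_mul, mul_neg, map_neg, sum_neg_distrib] using this
    | mul y z _ _ h1 h2 =>
      intro x hx b
      rw [mul_assoc]
      exact h1 _ (h2 x hx) b
  have one : ∀ b, T (ψ b * 1) ∈ R := fun b => by
    have h1 := AddChar.sum_mulShift b hψ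
    have h2 : ∑ x : ZMod q, ψ (x * b) = 1 + T (ψ b * 1) := by
      rw [← add_sum_erase _ _ (mem_univ 0), zero_mul, AddChar.map_zero_eq_one]
      simp only [T, mul_one, σψ]
      congr 1
      exact (sum_bij (fun (k : (ZMod q)ˣ) _ => (k : ZMod q)) (fun k _ => by simp)
        (fun a _ b _ e => Units.ext e)
        (fun x hx => ⟨Units.mk0 x (ne_of_mem_erase hx), mem_univ _, rfl⟩) fun _ _ => rfl).symm
    rw [← sub_eq_of_eq_add' h2, h1]
    exact sub_mem (natCast_mem _ _) (one_mem _)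
  have TR : ∀ y ∈ R', T y ∈ R := fun y hy => by simpa using key y hy 1 one 0
  let χ₀ := quadraticChar (ZMod q)
  let χ := χ₀.ringHomComp (Int.castRingHom ℂ)
  have q2 : ringChar (ZMod q) ≠ 2 := by rw [ZMod.ringChar_zmod_n]; omega
  have χm : χ₀ (-1) = -1 := by
    rw [quadraticChar_neg_one q2, ZMod.card, ZMod.χ₄_nat_three_mod_four q4]
  have χ0 : ∀ b, χ₀ b = 1 → b ≠ 0 := fun b h e => by
    rw [e, MulChar.map_zero] at h; exact zero_ne_one h
  set g := gaussSum χ ψ with hg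
  have g2 : g ^ 2 = -q := by
    rw [gaussSum_sq ((MulChar.ringHomComp_ne_one_iff Int.cast_injective).2
      (quadraticChar_ne_one q2)) ((quadraticChar_isQuadratic _).comp _) hψ]
    rw [MulChar.ringHomComp_apply, show quadraticChar (ZMod q) (-1) = -1 from χm]
    simp
  let A : ZMod q → ℂ := fun c => ∏ b with χ₀ b = 1, (1 - η * ψ (c * b))
  have A1 : ∀ c d, χ₀ c = 1 → A (c * d) = A d := fun c d hc => by
    have c0 : c ≠ 0 := χ0 c hc
    refine prod_bij (fun b _ => c * b) (fun b hb => ?_) (fun a _ b _ e => mul_left_cancel₀ c0 e)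
      (fun b hb => ⟨c⁻¹ * b, ?_, mul_inv_cancel_left₀ c0 b⟩) fun b _ => by ring_nf
    · simp only [mem_filter, mem_univ, true_and] at hb ⊢
      rw [map_mul, hc, hb, mul_one]
    · simp only [mem_filter, mem_univ, true_and] at hb ⊢
      rw [← hb, ← one_mul (χ₀ (c⁻¹ * b)), ← hc, ← map_mul, mul_inv_cancel_left₀ c0]
  have Aσ : ∀ k c, σ k (A c) = A (k * c) := fun k c => by
    simp only [A, map_prod, map_sub, map_one, map_mul, ση, σψ, mul_assoc]
  have gσ : ∀ k, σ k g = χ₀ k * g := fun k => by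
    have h1 := gaussSum_mulShift χ ψ k
    have h2 : σ k g = gaussSum χ (ψ.mulShift k) := by
      simp only [hg, gaussSum, map_sum, map_mul, σψ, AddChar.mulShift_apply, χ,
        MulChar.ringHomComp_apply, eq_intCast, map_intCast]
    have h3 : (χ₀ k : ℂ) * χ k = 1 := by
      rcases quadraticChar_dichotomy k.ne_zero with e | e <;> simp [χ, χ₀, e]
    rw [h2, hg, ← h1, ← mul_assoc, h3, one_mul]
  have fix : ∀ k, σ k (A 1 + A (-1)) = A 1 + A (-1) ∧
      σ k (g * (A 1 - A (-1))) = g * (A 1 - A (-1)) := fun k => by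
    rw [map_add, map_mul, map_sub, Aσ, Aσ, gσ]
    rcases quadraticChar_dichotomy k.ne_zero with e | e
    · rw [A1 _ _ e, A1 _ _ e, show χ₀ k = 1 from e]
      exact ⟨rfl, by simp⟩
    · have h1 : χ₀ (-k) = 1 := by rw [← neg_one_mul, map_mul, χm, show χ₀ k = -1 from e]; rfl
      have h2 := A1 _ (-1) h1
      have h3 := A1 _ 1 h1
      simp only [mul_neg, mul_one, neg_neg] at h2 h3 ⊢
      rw [h2, h3, show χ₀ k = -1 from e]
      exact ⟨add_comm _ _, by push_cast; ring⟩
  have AR : ∀ c, A c ∈ R' := fun c => prod_mem fun b _ => sub_mem (one_mem _) (mul_mem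
    (Subring.subset_closure (Or.inl rfl)) (Subring.subset_closure (Or.inr ⟨_, rfl⟩)))
  have gR : g ∈ R' := sum_mem fun b _ => mul_mem (intCast_mem _ _)
    (Subring.subset_closure (Or.inr ⟨_, rfl⟩))
  obtain ⟨P, hP⟩ := TR _ (add_mem (AR 1) (AR (-1)))
  obtain ⟨Q, hQ⟩ := TR _ (mul_mem gR (sub_mem (AR 1) (AR (-1))))
  have cu : (Fintype.card (ZMod q)ˣ : ℂ) = q - 1 := by
    rw [ZMod.card_units q, Nat.cast_sub hq.out.one_le, Nat.cast_one]
  simp only [T, fun k => (fix k).1, fun k => (fix k).2, sum_const, card_univ, nsmul_eq_mul, cu,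
    AlgHom.toRingHom_eq_coe, RingHom.coe_coe] at hP hQ
  have AB : A 1 * A (-1) * (1 - η) = 1 - η ^ q := by
    rw [← prod_one_sub, ← mul_prod_erase _ _ (mem_univ (0 : ZMod q)), AddChar.map_zero_eq_one,
      mul_one, mul_comm, ← prod_filter_mul_prod_filter_not (univ.erase 0) fun b => χ₀ b = 1]
    congr 2
    · refine prod_congr (Finset.ext fun b => ?_) fun b _ => by rw [one_mul]
      simp only [mem_filter, mem_univ, true_and, mem_erase, and_true]
      exact ⟨fun h => ⟨χ0 b h, h⟩, fun h => h.2⟩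
    · refine prod_bij (fun b _ => -b) (fun b hb => ?_) (fun a _ b _ e => neg_injective e)
        (fun b hb => ⟨-b, ?_, neg_neg b⟩) fun b _ => by rw [neg_one_mul]
      · simp only [mem_filter, mem_univ, true_and, mem_erase, and_true] at hb ⊢
        rw [← neg_one_mul, map_mul, χm, hb]
        exact ⟨fun e => χ0 b hb (by simpa using e), by decide⟩
      · simp only [mem_filter, mem_univ, true_and, mem_erase, and_true] at hb ⊢
        rw [← neg_one_mul, map_mul, χm,
          show χ₀ b = -1 from (quadraticChar_dichotomy hb.1).resolve_left hb.2]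
        rfl
  have h1 : η * η ^ q = 1 := by
    obtain ⟨c, hc⟩ := hqr
    rw [← pow_succ', hc, pow_mul, hη, one_pow]
  have h2 : η * (A 1 * A (-1)) = -1 := mul_right_cancel₀ (sub_ne_zero.2 η1.symm) (by
    linear_combination η * AB - h1)
  refine ⟨P, Q, ?_⟩
  rw [hP, hQ]
  linear_combination η * ((q : ℂ) - 1) ^ 2 * (A 1 - A (-1)) ^ 2 * g2 + 4 * q * (q - 1) ^ 2 * h2

theorem thue {q : ℕ} [hq : Fact q.Prime] {n : ℤ} (hn : 0 < n) (h : IsSquare (-n : ZMod q)) :
    ∃ x y k : ℤ, 0 < k ∧ k ≤ n ∧ k * q = x ^ 2 + n * y ^ 2 := by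
  classical
  obtain ⟨w, hw⟩ := h
  set s := Nat.sqrt q
  have s1 : s * s < q := lt_of_le_of_ne (Nat.sqrt_le q) fun e =>
    hq.out.prime.irreducible.not_isSquare ⟨s, e.symm⟩
  obtain ⟨a, ha, b, hb, ab, e⟩ := exists_ne_map_eq_of_card_lt_of_maps_to
    (s := range (s + 1) ×ˢ range (s + 1)) (t := (univ : Finset (ZMod q)))
    (by simpa using Nat.lt_succ_sqrt q) (f := fun a => (a.1 : ZMod q) - w * a.2)
    fun _ _ => mem_univ _
  simp only [mem_product, mem_range] at ha hb
  have hd : (q : ℤ) ∣ ((a.1 : ℤ) - b.1) ^ 2 + n * ((a.2 : ℤ) - b.2) ^ 2 := by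
    rw [← ZMod.intCast_zmod_eq_zero_iff_dvd]
    push_cast
    linear_combination ((a.1 : ZMod q) - b.1 + w * (a.2 - b.2)) * e - ((a.2 : ZMod q) - b.2) ^ 2 * hw
  obtain ⟨k, hk⟩ := hd
  have s2 : (s : ℤ) * s < q := by exact_mod_cast s1
  have x1 : ((a.1 : ℤ) - b.1) ^ 2 ≤ s * s := by nlinarith [ha.1, hb.1]
  have y1 : ((a.2 : ℤ) - b.2) ^ 2 ≤ s * s := by nlinarith [ha.2, hb.2]
  have q0 : (0 : ℤ) < q := by exact_mod_cast hq.out.pos
  have pos : 0 < ((a.1 : ℤ) - b.1) ^ 2 + n * ((a.2 : ℤ) - b.2) ^ 2 := by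
    by_cases h1 : (a.1 : ℤ) - b.1 = 0
    · have h2 : (a.2 : ℤ) - b.2 ≠ 0 := fun h2 => ab (Prod.ext (by omega) (by omega))
      positivity
    · positivity
  refine ⟨_, _, k, (pos_iff_pos_of_mul_pos (hk ▸ pos)).1 q0, ?_, by rw [hk, mul_comm]⟩
  by_contra h1
  nlinarith

/-- In a commutative domain containing a primitive `r`-th root of unity and a square root of `5`,
there is a non-trivial vanishing sum of four squares. -/
theorem exists_four {Z : Type*} [CommRing Z] [IsDomain Z] {r : ℕ} (hr : r.Prime)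
    (r20 : r.Coprime 20) {η ρ : Z} (hη : η ^ r = 1) (η1 : η ≠ 1) (hρ : ρ ^ 2 = 5) :
    ∃ (n : ℕ) (b c d : Z), n ≠ 0 ∧ (n : Z) ^ 2 + b ^ 2 + c ^ 2 + d ^ 2 = 0 := by
  obtain ⟨a, a1, a2⟩ := Nat.chineseRemainder r20 (r - 1) 3
  have ac : a.Coprime (r * 20) := Nat.Coprime.mul_right
    ((Nat.ModEq.gcd_eq a1).trans (Nat.coprime_self_sub_left hr.one_le |>.2 (by simp)))
    ((Nat.ModEq.gcd_eq a2).trans (by norm_num))
  obtain ⟨q, -, hq, qa⟩ := Nat.forall_exists_prime_gt_and_modEq 0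
    (mul_ne_zero hr.ne_zero (by norm_num)) ac
  have : Fact q.Prime := ⟨hq⟩
  have q20 : q % 20 = 3 := (qa.of_mul_left r).trans a2
  have qr : r ∣ q + 1 := by
    have := ((qa.of_mul_right 20).trans a1).add_right 1
    rw [Nat.sub_add_cancel hr.one_le] at this
    exact (Nat.modEq_zero_iff_dvd).1 (this.trans (Nat.modEq_zero_iff_dvd.2 dvd_rfl))
  have hp := Complex.isPrimitiveRoot_exp r hr.ne_zero
  obtain ⟨P, Q, hPQ⟩ := gauss (q := q) (by omega) hr.ne_zero qr hp.pow_eq_one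
    (hp.ne_one hr.one_lt)
  have h1 : cyclotomic r ℤ ∣ X * ((q : ℤ[X]) * P ^ 2 + Q ^ 2) +
      (q : ℤ[X]) * (2 * ((q : ℤ[X]) - 1)) ^ 2 := by
    rw [cyclotomic_eq_minpoly hp hr.pos]
    refine minpoly.isIntegrallyClosed_dvd (hp.isIntegral hr.pos) ?_
    simpa [map_ofNat] using hPQ
  have h2 : aeval η (cyclotomic r ℤ) = 0 := by
    have : Fact r.Prime := ⟨hr⟩
    have := mul_geom_sum η r
    rw [hη, sub_self] at this
    simpa [cyclotomic_prime] using (mul_eq_zero.1 this).resolve_left (sub_ne_zero.2 η1)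
  obtain ⟨c, hc⟩ := h1
  have h3 := congrArg (aeval η) hc
  rw [map_mul, h2, zero_mul] at h3
  simp only [map_add, map_mul, map_pow, map_sub, map_natCast, map_one, aeval_X, map_ofNat] at h3
  obtain ⟨m, hm⟩ : ∃ m : Z, m ^ 2 = η := by
    obtain ⟨l, hl⟩ := hr.odd_of_ne_two (fun e => by subst e; norm_num at r20)
    exact ⟨η ^ (l + 1), by rw [← pow_mul, show (l + 1) * 2 = r + 1 by omega, pow_succ, hη, one_mul]⟩
  have sq : IsSquare (-(5 : ℤ) : ZMod q) := by
    have h5 : Fact (Nat.Prime 5) := ⟨by norm_num⟩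
    have q5 : ((-5 : ℤ) : ZMod q) ≠ 0 := by
      rw [Ne, ZMod.intCast_zmod_eq_zero_iff_dvd, dvd_neg]
      intro e
      have : q ≤ 5 :=
        Nat.le_of_dvd (by norm_num) (Int.natCast_dvd_natCast.1 (e : (q : ℤ) ∣ (5 : ℕ)))
      have h6 : q = 3 := by omega
      subst h6
      norm_num at e
    have := (legendreSym.eq_one_iff q q5).1 (by
      rw [← neg_one_mul, legendreSym.mul, legendreSym.at_neg_one (by omega),
        ZMod.χ₄_nat_three_mod_four (by omega),
        show (5 : ℤ) = (5 : ℕ) from rfl, legendreSym.quadratic_reciprocity_one_mod_four (p := 5)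
          (by norm_num) (by omega), legendreSym.mod, show (q : ℤ) % (5 : ℕ) = 3 by omega]
      norm_num)
    simpa using this
  obtain ⟨x, y, k, k0, k5, hk⟩ := thue (q := q) (n := 5) (by norm_num) sq
  have hk' : (k : Z) * q = x ^ 2 + (ρ * y) ^ 2 := by
    rw [mul_pow, hρ]; exact_mod_cast congrArg (Int.cast : ℤ → Z) hk
  obtain ⟨s, t, hst⟩ : ∃ s t : Z, 4 * (k : Z) = s ^ 2 + t ^ 2 := by
    interval_cases k
    · exact ⟨2, 0, by norm_num⟩
    · exact ⟨2, 2, by norm_num⟩
    · exact ⟨1 + ρ, 1 - ρ, by push_cast; linear_combination -2 * hρ⟩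
    · exact ⟨4, 0, by norm_num⟩
    · exact ⟨4, 2, by norm_num⟩
  obtain ⟨k', rfl⟩ := Int.eq_ofNat_of_zero_le k0.le
  refine ⟨2 * k' * q * (2 * (q - 1)), 2 * k' * q * (m * aeval η P),
    (s * x - t * (ρ * y)) * (m * aeval η Q), (s * (ρ * y) + t * x) * (m * aeval η Q), ?_, ?_⟩
  · have := hq.two_le
    have : k' ≠ 0 := by omega
    have : q - 1 ≠ 0 := by omega
    positivity
  · push_cast [Nat.cast_sub hq.one_le] at hk' hst ⊢
    rw [← hm] at h3
    rw [← hm]
    generalize aeval (m ^ 2) P = U at *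
    generalize aeval (m ^ 2) Q = W at *
    linear_combination 4 * (k' : Z) ^ 2 * q * h3 - m ^ 2 * W ^ 2 * (s ^ 2 + t ^ 2) * hk' -
      m ^ 2 * W ^ 2 * k' * q * hst

end Cfsg.Lib.FGS.GaussId
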