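import Cfsg.Agent.Lib.FGS.KPi
import Cfsg.Agent.Lib.Char.Product
import Cfsg.Agent.Lib.Solv.KegelWielandt
import Cfsg.Agent.Lib.Coprime.Sylow

/-!
# Many `π`-classes force a nilpotent Hall `π`-subgroup

If `p ≤ min π` and `k_π(G) > |G|_π / p` then `G` has a nilpotent Hall `π`-subgroup.
-/

set_option autoImplicit false

namespace Cfsg.Lib.FGS

open Subgroup Finset Cfsg.Lib.BG Cfsg.Lib.Transfer Cfsg.Lib.Char
open scoped Classical commutatorElement

section Deg

variable {H : Type*} [Group H] [Finite H] {p : ℕ}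

theorem le_of_dvd_of_primes_ge {n d : ℕ} (h : ∀ q : ℕ, q.Prime → q ∣ n → p ≤ q) (hd : d ∣ n)
    (h0 : d ≠ 0) (h1 : d ≠ 1) : p ≤ d :=
  (h _ (Nat.minFac_prime h1) ((Nat.minFac_dvd d).trans hd)).trans (Nat.minFac_le (Nat.pos_of_ne_zero h0))

theorem kpi_deg_bound (h : ∀ q : ℕ, q.Prime → q ∣ Nat.card H → p ≤ q) :
    (_root_.commutator H).index + p ^ 2 * Nat.card (ConjClasses H) ≤
      Nat.card H + p ^ 2 * (_root_.commutator H).index := by
  rw [← card_irr_eq_card_conjClasses, ← card_linear_irr, ← sum_charDegree_sq H,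
    Nat.card_eq_fintype_card (α := IrrCharacter H), Nat.card_eq_fintype_card, Fintype.card_subtype,
    ← Finset.card_univ, card_eq_sum_ones, card_eq_sum_ones, sum_filter, mul_sum, mul_sum,
    ← sum_add_distrib, ← sum_add_distrib]
  refine sum_le_sum fun χ _ => ?_
  split_ifs with h1
  · rw [(χ.2.isCharacter.charDegree_eq_one_iff).2 h1]; simp
  · have := le_of_dvd_of_primes_ge h χ.2.charDegree_dvd_card χ.2.charDegree_pos.ne'
      (fun e => h1 ((χ.2.isCharacter.charDegree_eq_one_iff).1 e))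
    simpa using Nat.pow_le_pow_left this 2

theorem card_commutator_le_of_classes (hp : 2 ≤ p) (h : ∀ q : ℕ, q.Prime → q ∣ Nat.card H → p ≤ q)
    (hk : Nat.card H < p * Nat.card (ConjClasses H)) : Nat.card (_root_.commutator H) ≤ p := by
  have h1 := kpi_deg_bound h
  have h2 := (_root_.commutator H).card_mul_index
  have h3 : 0 < (_root_.commutator H).index := Nat.pos_of_ne_zero index_ne_zero_of_finite
  rw [← h2] at h1 hk
  generalize Nat.card (_root_.commutator H) = c at *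
  generalize (_root_.commutator H).index = l at *
  generalize Nat.card (ConjClasses H) = k at *
  by_contra hc
  obtain ⟨d, rfl⟩ := Nat.exists_eq_add_of_le hp
  obtain ⟨e, rfl⟩ := Nat.exists_eq_add_of_lt (not_le.1 hc)
  have h4 : (2 + d) * ((2 + d + e + 1) * l + 1) ≤ (2 + d) * ((2 + d) * k) := Nat.mul_le_mul_left _ hk
  nlinarith [Nat.zero_le (d * e * l), Nat.zero_le (e * l)]

theorem commutator_le_center_of_card_le (h : ∀ q : ℕ, q.Prime → q ∣ Nat.card H → p ≤ q)
    (hc : Nat.card (_root_.commutator H) ≤ p) : _root_.commutator H ≤ center H := by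
  intro x hx
  by_cases h1 : x = 1
  · rw [h1]; exact one_mem _
  by_contra hz
  have h2 : (𝐂[x]).index ≠ 1 := by
    rw [Ne, index_eq_one]
    intro e
    exact hz (mem_center_iff.2 fun g => mem_cent1.1 (e ▸ mem_top g))
  have h3 := le_of_dvd_of_primes_ge h (𝐂[x]).index_dvd_card index_ne_zero_of_finite h2
  rw [← ncard_isConj] at h3
  have h4 : {y | IsConj x y} ⊆ (_root_.commutator H : Set H) \ {1} := by
    intro y hy
    obtain ⟨g, rfl⟩ := isConj_iff.1 hy
    refine ⟨Normal.conj_mem inferInstance x hx g, fun e => h1 ?_⟩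
    simpa using e
  have h5 := Set.ncard_le_ncard h4 (Set.toFinite _)
  have h6 := Set.ncard_diff_singleton_add_one (s := (_root_.commutator H : Set H)) (one_mem _) (Set.toFinite _)
  have h7 : (_root_.commutator H : Set H).ncard = Nat.card (_root_.commutator H) := by
    rw [← Nat.card_coe_set_eq]; rfl
  omega

theorem isNilpotent_of_classes (hp : 2 ≤ p) (h : ∀ q : ℕ, q.Prime → q ∣ Nat.card H → p ≤ q)
    (hk : Nat.card H < p * Nat.card (ConjClasses H)) : Group.IsNilpotent H :=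
  Subgroup.isNilpotent_of_ker_le_center (Abelianization.of : H →* Abelianization H) (by
    rw [Abelianization.ker_of]
    exact commutator_le_center_of_card_le h (card_commutator_le_of_classes hp h hk))

theorem isMulCommutative_of_classes (hp : 2 ≤ p) (h : ∀ q : ℕ, q.Prime → q ∣ Nat.card H → p ≤ q)
    (hk : Nat.card H * (p ^ 2 + p - 1) < p ^ 3 * Nat.card (ConjClasses H)) : IsMulCommutative H := by
  by_contra hne
  have h0 : Nat.card (_root_.commutator H) ≠ 1 := by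
    rw [Ne, Subgroup.card_eq_one]
    intro e
    refine hne ⟨⟨fun a b => ?_⟩⟩
    have : ⁅a, b⁆ ∈ _root_.commutator H := commutator_mem_commutator (mem_top _) (mem_top _)
    rw [e, mem_bot, commutatorElement_eq_one_iff_mul_comm] at this
    exact this
  have h4 := le_of_dvd_of_primes_ge h (card_subgroup_dvd_card (_root_.commutator H)) Nat.card_pos.ne' h0
  have h1 := kpi_deg_bound h
  have h2 := (_root_.commutator H).card_mul_index
  rw [← h2] at h1 hk
  generalize Nat.card (_root_.commutator H) = c at *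
  generalize (_root_.commutator H).index = l at *
  generalize Nat.card (ConjClasses H) = k at *
  obtain ⟨d, rfl⟩ := Nat.exists_eq_add_of_le hp
  obtain ⟨e, rfl⟩ := Nat.exists_eq_add_of_le h4
  have h5 : (2 + d) ^ 2 + (2 + d) - 1 = (2 + d) ^ 2 + d + 1 := by omega
  rw [h5] at hk
  have h6 := Nat.mul_le_mul_left (2 + d) h1
  nlinarith [Nat.zero_le (d * d * e * l), Nat.zero_le (d * e * l), Nat.zero_le (e * l)]

end Deg

section Part

/-- The `s`-part of `n`. -/
def kpiPart (s : Finset ℕ) (n : ℕ) : ℕ := ∏ q ∈ s, q ^ n.factorization q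

variable {s : Finset ℕ} {m n q : ℕ}

theorem kpiPart_mul (hm : m ≠ 0) (hn : n ≠ 0) : kpiPart s (m * n) = kpiPart s m * kpiPart s n := by
  simp only [kpiPart, Nat.factorization_mul hm hn, Finsupp.add_apply, pow_add, prod_mul_distrib]

theorem kpiPart_of_compl (hs : ∀ q ∈ s, q.Prime) (h : PiNat (s : Set ℕ)ᶜ n) : kpiPart s n = 1 :=
  prod_eq_one fun q hq => by
    rw [Nat.factorization_eq_zero_of_not_dvd (h.not_dvd (hs q hq) hq), pow_zero]

theorem kpiPart_of_piNat (hn : n ≠ 0) (h : PiNat (s : Set ℕ) n) : kpiPart s n = n := by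
  conv_rhs => rw [← Nat.prod_factorization_pow_eq_self hn]
  refine (prod_subset (fun q hq => ?_) fun q _ hq => ?_).symm
  · exact h q (Nat.prime_of_mem_primeFactors hq) (Nat.dvd_of_mem_primeFactors hq)
  · rw [Finsupp.notMem_support_iff.1 hq, pow_zero]

theorem kpiPart_pos (hs : ∀ q ∈ s, q.Prime) : 0 < kpiPart s n :=
  prod_pos fun q hq => pow_pos (hs q hq).pos _

theorem le_kpiPart (hs : ∀ q ∈ s, q.Prime) (hn : n ≠ 0) (hq : q ∈ s) (hd : q ∣ n) : q ≤ kpiPart s n :=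
  Nat.le_of_dvd (kpiPart_pos hs) ((dvd_pow_self q ((hs q hq).factorization_pos_of_dvd hn hd).ne').trans
    (dvd_prod_of_mem (fun q => q ^ n.factorization q) hq))

theorem kpiPart_erase (hq : q ∈ s) : kpiPart s n = q ^ n.factorization q * kpiPart (s.erase q) n :=
  (mul_prod_erase s (fun q => q ^ n.factorization q) hq).symm

variable {G : Type*} [Group G] [Finite G]

theorem card_eq_kpiPart (hs : ∀ q ∈ s, q.Prime) {H : Subgroup G} (h1 : PiGrp (s : Set ℕ) H)
    (h2 : PiNat (s : Set ℕ)ᶜ H.index) : Nat.card H = kpiPart s (Nat.card G) := by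
  rw [← H.card_mul_index, kpiPart_mul Nat.card_pos.ne' index_ne_zero_of_finite,
    kpiPart_of_piNat Nat.card_pos.ne' h1, kpiPart_of_compl hs h2, mul_one]

theorem exists_reps (Q : G → Prop) : ∃ T : Finset G, #T ≤ kQ Q ∧ (∀ y ∈ T, Q y) ∧
    ∀ x, Q x → ∃ h : G, h * x * h⁻¹ ∈ T := by
  haveI := Fintype.ofFinite {C : ConjClasses G // ∃ g, ConjClasses.mk g = C ∧ Q g}
  choose f hf hQ using fun C : {C : ConjClasses G // ∃ g, ConjClasses.mk g = C ∧ Q g} => C.2
  refine ⟨univ.image f, card_image_le.trans (by rw [kQ, Nat.card_eq_fintype_card, card_univ]), ?_, ?_⟩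
  · intro y hy
    obtain ⟨C, -, rfl⟩ := mem_image.1 hy
    exact hQ C
  · intro x hx
    obtain ⟨h, e⟩ := isConj_iff.1 (ConjClasses.mk_eq_mk_iff_isConj.1 (hf ⟨_, x, rfl, hx⟩).symm)
    exact ⟨h, mem_image.2 ⟨_, mem_univ _, e.symm⟩⟩

theorem exists_reps_sub (H : Subgroup G) (Q : G → Prop) : ∃ T : Finset G, #T ≤ kQ (fun x : H => Q x) ∧
    (∀ y ∈ T, y ∈ H ∧ Q y) ∧ ∀ x ∈ H, Q x → ∃ h ∈ H, h * x * h⁻¹ ∈ T := by
  obtain ⟨T, h1, h2, h3⟩ := exists_reps (fun x : H => Q x)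
  refine ⟨T.image (↑), card_image_le.trans h1, fun y hy => ?_, fun x hx hQ => ?_⟩
  · obtain ⟨z, hz, rfl⟩ := mem_image.1 hy
    exact ⟨z.2, h2 z hz⟩
  · obtain ⟨h, e⟩ := h3 ⟨x, hx⟩ hQ
    exact ⟨h, h.2, mem_image.2 ⟨_, e, rfl⟩⟩

theorem kQ_le_classes_of_conj {Q : G → Prop} (H : Subgroup G) (h : ∀ x, Q x → ∃ y ∈ H, IsConj x y) :
    kQ Q ≤ Nat.card (ConjClasses H) := by
  obtain ⟨T, h1, -, h3⟩ := exists_reps_sub H (fun _ => True)
  rw [kQ_true] at h1
  refine le_trans (kQ_le_card (S := T) fun x hx => ?_) (by rwa [Set.ncard_coe_finset])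
  obtain ⟨y, hy, e⟩ := h x hx
  obtain ⟨g, -, hg⟩ := h3 y hy trivial
  exact ⟨_, hg, e.trans (isConj_iff.2 ⟨g, rfl⟩)⟩

theorem isConj_mul_conj (h x y : G) : IsConj (x * y) (h * x * h⁻¹ * (h * y * h⁻¹)) :=
  isConj_iff.2 ⟨h, by group⟩

theorem kQ_le_classes_of_hall (π : Set ℕ) {H : Subgroup G} (hH : Group.IsNilpotent H)
    (h2 : PiNat πᶜ H.index) : kQ (PiElt π : G → Prop) ≤ Nat.card (ConjClasses H) := by
  refine kQ_le_classes_of_conj H fun x hx => ?_
  obtain ⟨g, hg⟩ := Solv.exists_conj_le_of_isNilpotent hH (zpowers x) (PiNat.coprime hx.zpowers h2)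
  exact ⟨_, hg (conj_mem_conj.2 (mem_zpowers x)), isConj_iff.2 ⟨g, rfl⟩⟩

/-- Removing one prime. -/
theorem kQ_le_erase_mul (hs : ∀ q ∈ s, q.Prime) (hq : q ∈ s) :
    kQ (PiElt (s : Set ℕ) : G → Prop) ≤
      kQ (PiElt (s.erase q : Set ℕ) : G → Prop) * q ^ (Nat.card G).factorization q := by
  have e1 : (s : Set ℕ) ∩ (s.erase q : Set ℕ) = (s.erase q : Finset ℕ) :=
    Set.inter_eq_right.2 (coe_subset.2 (erase_subset _ _))
  have e2 : (s : Set ℕ) ∩ (s.erase q : Set ℕ)ᶜ = ({q} : Finset ℕ) := by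
    ext t
    simp only [coe_erase, Set.mem_inter_iff, mem_coe, Set.mem_compl_iff, Set.mem_diff,
      Set.mem_singleton_iff, coe_singleton]
    exact ⟨fun h => by tauto, fun h => by subst h; tauto⟩
  have := kQ_piElt_le_of_cent (G := G) (s : Set ℕ) (s.erase q : Set ℕ)
    (b := q ^ (Nat.card G).factorization q) fun u => by
      rw [e2]
      simpa using kQ_piElt_le_prod {q} (by simpa using hs q hq) (Nat.card G) Nat.card_pos.ne' 𝐂[u]
        (card_subgroup_dvd_card _)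
  rwa [e1] at this

end Part

section Main

variable {G : Type*} [Group G] [Finite G] {s : Finset ℕ} {p q : ℕ}

/-- A nilpotent Hall `s`-subgroup exists. -/
def HasNilHall (s : Finset ℕ) (G : Type*) [Group G] : Prop :=
  ∃ H : Subgroup G, Group.IsNilpotent H ∧ PiGrp (s : Set ℕ) H ∧ PiNat (s : Set ℕ)ᶜ H.index

theorem HasNilHall.of_npc (hp : 2 ≤ p) (hs : ∀ q ∈ s, q.Prime ∧ p ≤ q) (hq : q ∈ s)
    (hc : HasNormalPComplement q G) (ih : HasNilHall (s.erase q) G)
    (hk : kpiPart s (Nat.card G) < p * kQ (PiElt (s : Set ℕ) : G → Prop)) : HasNilHall s G := by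
  haveI : Fact q.Prime := ⟨(hs q hq).1⟩
  obtain ⟨Q, N, hN, hc⟩ := hc
  obtain ⟨L0, n0, p0, i0⟩ := ih
  have hNi : PiNat {q} N.index := by
    rw [hc.symm.index_eq_card]; exact PiGrp.p_iff.2 Q.isPGroup'
  have hNc : PiGrp {q}ᶜ N := by
    rw [PiGrp.p'_iff, ← hc.index_eq_card]; exact Q.not_dvd_index
  have hleN : ∀ {K : Subgroup G}, PiGrp {q}ᶜ K → K ≤ N := fun {K} hK =>
    hK.le_of_relIndex (M := ⊤) le_top le_normalizer_of_normal (by rwa [relIndex_top_right, compl_compl])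
  have hμ : ((s.erase q : Finset ℕ) : Set ℕ) ⊆ {q}ᶜ := fun t ht => (mem_erase.1 ht).1
  have hμs : ((s.erase q : Finset ℕ) : Set ℕ) ⊆ s := coe_subset.2 (erase_subset _ _)
  have hcop : ∀ A : Subgroup G, A ≤ Q → (Nat.card A).Coprime (Nat.card N) := fun A hA =>
    (hNc.coprime_pgroup (pgroup_of_le Q.isPGroup' hA)).symm
  obtain ⟨k, -, hkn⟩ := Coprime.exists_invariant_conj (A := Q) (K := N) (P := L0) le_normalizer_of_normal
    (hcop _ le_rfl) (Or.inl (pgroup_sol Q.isPGroup')) fun a _ => by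
      obtain ⟨x, hx, e⟩ := Solv.exists_conj_le_of_isNilpotent_of n0 (K := a ⋆ L0) (C := N)
        (hleN ((p0.conj a).mono hμ)) (PiNat.coprime (p0.conj a)
          (i0.of_dvd (relIndex_dvd_index_of_le (hleN (p0.mono hμ)))))
      exact ⟨x, hx, eq_of_le_of_card_le e (by rw [card_conj, card_conj])⟩
  have nL : Group.IsNilpotent ↥(k ⋆ L0) := (nil_conj k).2 n0
  have pL : PiGrp ((s.erase q : Finset ℕ) : Set ℕ) (k ⋆ L0) := p0.conj k
  have iL : PiNat ((s.erase q : Finset ℕ) : Set ℕ)ᶜ (k ⋆ L0).index := by rwa [Coprime.index_map_conj]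
  generalize k ⋆ L0 = L at hkn nL pL iL
  have hLN : L ≤ N := hleN (pL.mono hμ)
  have pH : PiGrp (s : Set ℕ) (L ⊔ Q) := (pL.mono hμs).sup (PiGrp.of_pgroup Q.isPGroup' hq) hkn
  have iH : PiNat (s : Set ℕ)ᶜ (L ⊔ (Q : Subgroup G)).index := by
    intro t ht hd hts
    by_cases e : t = q
    · rw [e] at hd
      exact Q.not_dvd_index (hd.trans (index_dvd_of_le le_sup_right))
    · exact iL t ht (hd.trans (index_dvd_of_le le_sup_left)) (mem_coe.2 (mem_erase.2 ⟨e, hts⟩))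
  refine ⟨L ⊔ Q, isNilpotent_of_classes hp (fun t ht hd => (hs t (pH t ht hd)).2) ?_, pH, iH⟩
  rw [card_eq_kpiPart (fun q hq => (hs q hq).1) pH iH]
  refine hk.trans_le (Nat.mul_le_mul_left _ (kQ_le_classes_of_conj _ fun g hg => ?_))
  obtain ⟨u, hu, v, hv, pu, pv, e, hcm⟩ := exists_pi_decomp {q} g
  obtain ⟨Q', hQ'⟩ := (PiGrp.pgroup pu.zpowers).exists_le_sylow
  obtain ⟨c, hc'⟩ := exists_conj_sylow_eq Q' Q
  have huQ : c * u * c⁻¹ ∈ (Q : Subgroup G) := hc' ▸ conj_mem_conj.2 (hQ' (mem_zpowers u))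
  have pv' : PiElt ((s.erase q : Finset ℕ) : Set ℕ) (c * v * c⁻¹) := by
    refine PiElt.conj (fun t ht hd => ?_) c
    exact mem_coe.2 (mem_erase.2 ⟨pv t ht hd, hg.zpowers.elt hv t ht hd⟩)
  have hcm' : c * u * c⁻¹ * (c * v * c⁻¹) = c * v * c⁻¹ * (c * u * c⁻¹) := by
    rw [conj_mul, conj_mul, hcm]
  have h0 := isConj_mul_conj c u v
  rw [← e] at h0
  generalize c * u * c⁻¹ = u' at huQ hcm' h0
  generalize c * v * c⁻¹ = v' at pv' hcm' h0
  have hA : zpowers u' ≤ Q := zpowers_le.2 huQ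
  obtain ⟨x, hx, hxv⟩ := Solv.exists_conj_le_of_isNilpotent_of nL (K := zpowers v') (C := N ⊓ 𝐂(zpowers u'))
    (le_inf (hleN (pv'.zpowers.mono hμ)) (by rw [cent_zpowers]; exact zpowers_le.2 (mem_cent1.2 hcm'.symm)))
    (PiNat.coprime pv'.zpowers fun t ht hd hts => by
      haveI := Fact.mk ht
      obtain ⟨h1, h2, h3⟩ := Core.isPiHallOf_piCoreOf nL {t}
      refine Coprime.not_dvd_relIndex_centralizer_of_invariant (p := t) (A := zpowers u') (K := N)
        le_normalizer_of_normal (hcop _ hA) (Or.inl (pgroup_sol (pgroup_of_le Q.isPGroup' hA)))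
        (h1.trans hLN) (PiGrp.pgroup h2) (fun hd' => ?_) (norm_pcore (hA.trans hkn) _)
        (hd.trans (relIndex_dvd_left h1 _))
      have h4 := hd'.trans (relIndex_dvd_index_of_le (h1.trans hLN))
      rw [← relIndex_mul_index h1] at h4
      exact (ht.dvd_mul.1 h4).elim (h3 t ht rfl) fun h5 => iL t ht h5 hts)
  refine ⟨_, ?_, h0.trans (isConj_mul_conj x u' v')⟩
  have h5 : x * u' * x⁻¹ = u' := by
    rw [← mem_cent.1 hx.2 u' (mem_zpowers _), mul_inv_cancel_right]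
  rw [h5]
  exact mul_mem (mem_sup_right huQ) (mem_sup_left (hxv (conj_mem_conj.2 (mem_zpowers v'))))

theorem kQ_insert_bound {μ : Finset ℕ} {r : ℕ} [hr : Fact r.Prime] (hrμ : r ∉ μ) (R : Sylow r G) :
    ∃ c, kQ (PiElt (insert r μ : Finset ℕ) : G → Prop) ≤
      kp r 𝐍((R : Subgroup G)) * kQ (PiElt (μ : Set ℕ) : 𝐂((R : Subgroup G)) → Prop) + c ∧
      r * c ≤ kQ (PiElt (μ : Set ℕ) : G → Prop) * Nat.card (R : Subgroup G) := by
  obtain ⟨T1, c1, -, r1⟩ := exists_reps_sub 𝐂((R : Subgroup G)) (PiElt (μ : Set ℕ))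
  obtain ⟨T2, c2, -, r2⟩ := exists_reps_sub 𝐍((R : Subgroup G)) (PiElt {r})
  obtain ⟨T3, c3, -, r3⟩ := exists_reps (PiElt (μ : Set ℕ) : G → Prop)
  simp only [piElt_coe] at c1 c2
  have hS : ∀ y : G, ∃ S : Subgroup G, S ≤ 𝐂[y] ∧ IsPGroup r S ∧
      ∀ x ∈ 𝐂[y], PiElt {r} x → ∃ c ∈ 𝐂[y], c * x * c⁻¹ ∈ S := by
    intro y
    obtain ⟨P⟩ : Nonempty (Sylow r 𝐂[y]) := inferInstance
    refine ⟨(P : Subgroup 𝐂[y]).map (Subgroup.subtype _), map_subtype_le _, P.isPGroup'.map _, fun x hx px => ?_⟩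
    obtain ⟨z, hz, e⟩ := exists_isConj_mem_sylow P (x := ⟨x, hx⟩) (piElt_coe.1 px)
    obtain ⟨c, rfl⟩ := isConj_iff.1 e
    exact ⟨c, c.2, mem_map_of_mem _ hz⟩
  choose S hS1 hS2 hS3 using hS
  let B : Finset G := (T3.filter fun y => r * Nat.card (S y) ≤ Nat.card (R : Subgroup G)).biUnion
    fun y => (elts (S y)).image (· * y)
  refine ⟨#B, ?_, ?_⟩
  · refine le_trans (kQ_le_card (S := (image₂ (· * ·) T2 T1 ∪ B : Finset G)) fun g hg => ?_) ?_
    · obtain ⟨x, hx, y, hy, px, py, e, hcm⟩ := exists_pi_decomp {r} g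
      have py' : PiElt (μ : Set ℕ) y := fun t ht hd =>
        (mem_insert.1 (mem_coe.1 (hg.zpowers.elt hy t ht hd))).resolve_left (py t ht hd)
      obtain ⟨h, hh⟩ := r3 y py'
      have h0 := isConj_mul_conj h x y
      rw [← e] at h0
      have hcm' : h * x * h⁻¹ ∈ 𝐂[h * y * h⁻¹] := mem_cent1.2 (by rw [conj_mul, conj_mul, hcm])
      have px' := px.conj h
      replace py' := py'.conj h
      generalize h * x * h⁻¹ = x1 at h0 hcm' px'
      generalize h * y * h⁻¹ = y1 at h0 hcm' py' hh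
      obtain ⟨c, hc, hcx⟩ := hS3 y1 x1 hcm' px'
      have h1 := h0.trans (isConj_mul_conj c x1 y1)
      rw [mem_cent1.1 hc, mul_inv_cancel_right] at h1
      replace px' := px'.conj c
      generalize c * x1 * c⁻¹ = x2 at h1 hcx px'
      by_cases hf : r * Nat.card (S y1) ≤ Nat.card (R : Subgroup G)
      · exact ⟨_, mem_coe.2 (mem_union_right _ (mem_biUnion.2 ⟨y1, mem_filter.2 ⟨hh, hf⟩,
          mem_image.2 ⟨x2, mem_elts.2 hcx, rfl⟩⟩)), h1⟩
      obtain ⟨R', hR'⟩ := (hS2 y1).exists_le_sylow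
      obtain ⟨d, hd⟩ := exists_conj_sylow_eq R' R
      have hle : (R' : Subgroup G) ≤ S y1 := by
        by_contra hne
        have := mul_card_le_of_lt R'.isPGroup' hR' hne
        rw [← card_conj d (R' : Subgroup G), hd] at this
        exact hf this
      have hx3 : d * x2 * d⁻¹ ∈ (R : Subgroup G) := hd ▸ conj_mem_conj.2 (hR' hcx)
      have hy3 : d * y1 * d⁻¹ ∈ 𝐂((R : Subgroup G)) := by
        rw [← le_cent1_iff, ← conj_cent1, ← hd]
        exact map_mono (hle.trans (hS1 y1))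
      have h2 := h1.trans (isConj_mul_conj d x2 y1)
      replace px' := px'.conj d
      replace py' := py'.conj d
      generalize d * x2 * d⁻¹ = x3 at h2 hx3 px'
      generalize d * y1 * d⁻¹ = y3 at h2 hy3 py'
      obtain ⟨n, hn, hnx⟩ := r2 x3 (le_norm _ hx3) px'
      have h3 := h2.trans (isConj_mul_conj n x3 y3)
      have hx4 := conj_mem_of_norm hn hx3
      have hy4 := conj_mem_of_norm (norm_cent le_rfl hn) hy3
      obtain ⟨c', hc', hcy⟩ := r1 _ hy4 (py'.conj n)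
      have h4 := h3.trans (isConj_mul_conj c' _ _)
      rw [← mem_cent.1 hc' _ hx4, mul_inv_cancel_right] at h4
      exact ⟨_, mem_coe.2 (mem_union_left _ (mem_image₂_of_mem hnx hcy)), h4⟩
    · rw [Set.ncard_coe_finset]
      exact (card_union_le _ _).trans (Nat.add_le_add_right
        ((card_image₂_le _ _ _).trans (Nat.mul_le_mul c2 c1)) _)
  · refine (Nat.mul_le_mul_left r card_biUnion_le).trans ?_
    rw [mul_sum]
    refine (sum_le_card_nsmul _ _ (Nat.card (R : Subgroup G)) fun y hy => ?_).trans ?_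
    · exact (Nat.mul_le_mul_left r (card_image_le.trans (card_elts _).le)).trans (mem_filter.1 hy).2
    · exact Nat.mul_le_mul_right _ ((card_filter_le _ _).trans c3)

theorem kp_norm_le {r : ℕ} [hr : Fact r.Prime] (R : Sylow r G) (h : ¬ HasNormalPComplement r G) :
    2 * r * kp r 𝐍((R : Subgroup G)) ≤ (r + 1) * Nat.card (R : Subgroup G) := by
  by_contra hlt
  have hle : (R : Subgroup G) ≤ 𝐍((R : Subgroup G)) := le_norm _
  have := norm_le_cent_of_kp (R.subtype hle) (by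
    rw [Sylow.coe_subtype, Nat.card_congr (subgroupOfEquivOfLe hle).toEquiv]; exact not_le.1 hlt)
  refine h (hasNormalPComplement_of_normalizer_le_centralizer R fun n hn => ?_)
  have h1 : (⟨n, hn⟩ : 𝐍((R : Subgroup G))) ∈ 𝐂(((R.subtype hle : Sylow r _) : Subgroup 𝐍((R : Subgroup G)))) := by
    refine this ?_
    rw [Sylow.coe_subtype]
    exact le_normalizer_of_normal (mem_top _)
  exact mem_cent.2 fun x hx => congrArg Subtype.val (mem_cent.1 h1 ⟨x, hle hx⟩ hx)

theorem kQ_le_of_not_npc {r : ℕ} (hp : 2 ≤ p) (hs : ∀ q ∈ s, q.Prime) (hq : q ∈ s) (hpq : p ≤ q) (hr : r.Prime)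
    (hqr : q < r) (h : ¬ HasNormalPComplement q G) :
    2 * p * kQ (PiElt (s : Set ℕ) : G → Prop) + kpiPart s (Nat.card G) ≤ r * kpiPart s (Nat.card G) := by
  haveI : Fact q.Prime := ⟨hs q hq⟩
  obtain ⟨Q⟩ : Nonempty (Sylow q G) := inferInstance
  obtain ⟨b, h1, h2⟩ := kQ_le_kp_mul hs hq Q
  rw [kpiPart, h2]
  rcases (hs q hq).eq_two_or_odd' with rfl | ho
  · have h3 : 2 * kp 2 G ≤ Nat.card (Q : Subgroup G) := not_lt.1 fun h' => h (npc_two_of_kp Q h')
    obtain rfl : p = 2 := le_antisymm hpq hp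
    have h4 := Nat.mul_le_mul_right b h3
    have h5 := Nat.mul_le_mul_right (Nat.card (Q : Subgroup G) * b) (show 3 ≤ r from hqr)
    nlinarith
  · have h3 : 2 * q * kp q G ≤ (q + 1) * Nat.card (Q : Subgroup G) := not_lt.1 fun h' => h (npc_of_kp Q h').1
    have h6 : q + 2 ≤ r := by
      have := hr.odd_of_ne_two (by omega)
      obtain ⟨a, ha⟩ := this
      obtain ⟨b, hb⟩ := ho
      omega
    have h4 := Nat.mul_le_mul_right b h3
    have h5 := Nat.mul_le_mul_right (Nat.card (Q : Subgroup G) * b) h6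
    have h7 := Nat.mul_le_mul (Nat.mul_le_mul_left 2 hpq) h1
    nlinarith

theorem hasNilHall_of_classes (hp : 2 ≤ p) (n : ℕ) : ∀ (s : Finset ℕ), #s = n → (∀ q ∈ s, q.Prime ∧ p ≤ q) →
    ∀ (G : Type u_1) [Group G] [Finite G],
      kpiPart s (Nat.card G) < p * kQ (PiElt (s : Set ℕ) : G → Prop) → HasNilHall s G := by
  induction n using Nat.strong_induction_on with
  | _ n ih =>
  intro s hn hs G _ _ hk
  have hs1 : ∀ q ∈ s, q.Prime := fun q hq => (hs q hq).1
  rcases s.eq_empty_or_nonempty with rfl | hne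
  · exact ⟨⊥, inferInstance, PiGrp.bot, fun _ _ _ => by simp⟩
  by_cases hc : ∃ q ∈ s, HasNormalPComplement q G
  · obtain ⟨q, hq, hc⟩ := hc
    refine HasNilHall.of_npc hp hs hq hc (ih _ (hn ▸ card_erase_lt_of_mem hq) _ rfl
      (fun t ht => hs t (mem_of_mem_erase ht)) G ?_) hk
    rw [kpiPart_erase hq] at hk
    have := hk.trans_le (Nat.mul_le_mul_left p (kQ_le_erase_mul hs1 hq))
    rw [← mul_assoc, mul_comm] at this
    exact Nat.lt_of_mul_lt_mul_right this
  push Not at hc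
  obtain ⟨r, hr, hmax⟩ := s.exists_max_image id hne
  haveI : Fact r.Prime := ⟨hs1 r hr⟩
  obtain ⟨R⟩ : Nonempty (Sylow r G) := inferInstance
  have hμ : ∀ q ∈ s.erase r, q.Prime ∧ p ≤ q := fun t ht => hs t (mem_of_mem_erase ht)
  have hμ1 : ∀ q ∈ s.erase r, q.Prime := fun t ht => (hμ t ht).1
  rcases (s.erase r).eq_empty_or_nonempty with he | ⟨q, hq⟩
  · refine ⟨R, pgroup_nil R.isPGroup', PiGrp.of_pgroup R.isPGroup' hr, fun t ht hd hts => ?_⟩
    by_cases e : t = r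
    · rw [e] at hd
      exact R.not_dvd_index hd
    · exact notMem_empty t (he ▸ mem_erase.2 ⟨e, hts⟩)
  have hqr : q < r := lt_of_le_of_ne (hmax q (mem_of_mem_erase hq)) (mem_erase.1 hq).1
  have h1 := kQ_le_of_not_npc hp hμ1 hq (hμ q hq).2 (hs1 r hr) hqr (hc q (mem_of_mem_erase hq))
  have h2 := kp_norm_le R (hc r hr)
  obtain ⟨c, h3, h4⟩ := kQ_insert_bound (notMem_erase r s) R
  rw [insert_erase hr] at h3
  rw [kpiPart_erase hr, ← R.card_eq_multiplicity] at hk
  have h5 : kpiPart (s.erase r) (Nat.card G) <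
      p * kQ (PiElt ((s.erase r : Finset ℕ) : Set ℕ) : 𝐂((R : Subgroup G)) → Prop) := by
    by_contra h5
    push Not at h5
    generalize kpiPart (s.erase r) (Nat.card G) = a at *
    generalize Nat.card (R : Subgroup G) = b at *
    generalize kQ (PiElt ((s.erase r : Finset ℕ) : Set ℕ) : 𝐂((R : Subgroup G)) → Prop) = kC at *
    generalize kQ (PiElt ((s.erase r : Finset ℕ) : Set ℕ) : G → Prop) = kG at *
    generalize kp r 𝐍((R : Subgroup G)) = kN at *
    generalize kQ (PiElt (s : Set ℕ) : G → Prop) = k at *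
    have e1 := Nat.mul_le_mul h2 h5
    have e2 := Nat.mul_le_mul_left (2 * p) h4
    have e3 := Nat.mul_le_mul_right b h1
    have e4 := Nat.mul_le_mul_left (2 * r * p) h3
    have e5 := Nat.mul_lt_mul_of_pos_left hk (show 0 < 2 * r by omega)
    nlinarith
  have h6 : kpiPart (s.erase r) (Nat.card G) = kpiPart (s.erase r) (Nat.card 𝐂((R : Subgroup G))) *
      kpiPart (s.erase r) (𝐂((R : Subgroup G))).index := by
    rw [← kpiPart_mul Nat.card_pos.ne' index_ne_zero_of_finite, card_mul_index]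
  obtain ⟨L, nL, pL, iL⟩ := ih _ (hn ▸ card_erase_lt_of_mem hr) _ rfl hμ 𝐂((R : Subgroup G))
    (lt_of_le_of_lt (h6 ▸ Nat.le_mul_of_pos_right _ (kpiPart_pos hμ1)) h5)
  have nL' : Group.IsNilpotent ↥(L.map (Subgroup.subtype _)) :=
    Group.nilpotent_of_mulEquiv (L.equivMapOfInjective _ (Subgroup.subtype_injective _))
  refine ⟨L.map (Subgroup.subtype _) ⊔ R, Core.isNilpotent_sup_of_le_centralizer (map_subtype_le _) nL'
    (pgroup_nil R.isPGroup'), PiGrp.sup' ((pL.map _).mono (coe_subset.2 (erase_subset _ _)))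
      (PiGrp.of_pgroup R.isPGroup' hr) (norm_of_cent (map_subtype_le _)), fun t ht hd hts => ?_⟩
  by_cases e : t = r
  · rw [e] at hd
    exact R.not_dvd_index (hd.trans (index_dvd_of_le le_sup_right))
  have htμ : t ∈ s.erase r := mem_erase.2 ⟨e, hts⟩
  have h7 := hd.trans (index_dvd_of_le le_sup_left)
  rw [index_map_subtype] at h7
  refine (ht.dvd_mul.1 h7).elim (fun h8 => iL t ht h8 htμ) fun h8 => ?_
  have h9 := (hμ t htμ).2.trans (le_kpiPart hμ1 index_ne_zero_of_finite htμ h8)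
  have h10 := kQ_piElt_le_prod (s.erase r) hμ1 _ Nat.card_pos.ne' 𝐂((R : Subgroup G)) dvd_rfl
  rw [h6, mul_comm] at h5
  exact absurd (Nat.mul_le_mul h9 h10) (not_le.2 h5)

/-- Set form. -/
theorem exists_nil_hall_of_classes (π : Set ℕ) (hπ : ∀ q ∈ π, q.Prime) (hp : p ∈ π) (hmin : ∀ q ∈ π, p ≤ q)
    {m : ℕ} (hm : m ∣ Nat.card G) (hmπ : ∀ q : ℕ, q.Prime → q ∣ m → q ∈ π)
    (hm' : ∀ q ∈ π, ¬ q ∣ Nat.card G / m) (hk : m < p * kQ (PiElt π : G → Prop)) :
    ∃ H : Subgroup G, Nat.card H = m ∧ Group.IsNilpotent H ∧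
      kQ (PiElt π : G → Prop) ≤ Nat.card (ConjClasses H) := by
  have hG : Nat.card G ≠ 0 := Nat.card_pos.ne'
  have hm0 : m ≠ 0 := fun h => hG (by rw [h] at hm; exact Nat.eq_zero_of_zero_dvd hm)
  have h3 : Nat.card G / m ≠ 0 := fun h => hG (by rw [← Nat.mul_div_cancel' hm, h, mul_zero])
  have hs : ∀ q ∈ m.primeFactors, q.Prime := fun q hq => Nat.prime_of_mem_primeFactors hq
  have hs2 : ∀ q ∈ m.primeFactors, q ∈ π := fun q hq => hmπ q (hs q hq) (Nat.dvd_of_mem_primeFactors hq)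
  have e1 : kQ (PiElt π : G → Prop) = kQ (PiElt (m.primeFactors : Set ℕ) : G → Prop) := by
    refine kQ_congr fun x => ⟨fun hx q hq hd => ?_, fun hx q hq hd => hs2 q (hx q hq hd)⟩
    have h1 : q ∣ m * (Nat.card G / m) := by
      rw [Nat.mul_div_cancel' hm]; exact hd.trans (orderOf_dvd_natCard x)
    have := (hq.dvd_mul.1 h1).resolve_right (hm' q (hx q hq hd))
    simp [hq, this, hm0]
  have e2 : kpiPart m.primeFactors (Nat.card G) = m := by
    rw [← Nat.mul_div_cancel' hm, kpiPart_mul hm0 h3, kpiPart_of_piNat hm0 fun q hq hd => by simp [hq, hd, hm0],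
      kpiPart_of_compl hs fun q _ hd hq => hm' q (hs2 q hq) hd, mul_one]
  rw [e1] at hk ⊢
  obtain ⟨H, h1, h2, h4⟩ := hasNilHall_of_classes (hπ p hp).two_le _ m.primeFactors rfl
    (fun q hq => ⟨hs q hq, hmin q (hs2 q hq)⟩) G (e2.symm ▸ hk)
  exact ⟨H, (card_eq_kpiPart hs h2 h4).trans e2, h1, kQ_le_classes_of_hall _ h1 h4⟩

end Main

end Cfsg.Lib.FGS
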