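import Cfsg.Agent.Lib.FGS.ClassSize2
import Cfsg.Agent.Lib.Perm.Module

/-!
# Derived length of linear `p`-groups
-/

set_option autoImplicit false

namespace Cfsg.Lib.FGS

open Subgroup Cfsg.Lib Cfsg.Lib.BG Module
open scoped commutatorElement

universe u v

variable {K : Type*} [Field K] {p : ℕ} [hp : Fact p.Prime]

/-- The upper fixed series of a representation. -/
def fixSer {P V : Type*} [Group P] [AddCommGroup V] [Module K V] (ρ : Representation K P V) : ℕ → Submodule K V
  | 0 => ⊥
  | i + 1 => ⨅ g, (fixSer ρ i).comap (ρ g - 1)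

theorem derived_charP [CharP K p] {P V : Type*} [Group P] [Finite P] [AddCommGroup V] [Module K V] [FiniteDimensional K V]
    (hP : IsPGroup p P) (ρ : Representation K P V) {k : ℕ} (h : finrank K V ≤ 2 ^ k) {g : P} (hg : g ∈ derivedSeries P k) :
    ρ g = 1 := by
  have mem : ∀ i v, v ∈ fixSer ρ (i + 1) ↔ ∀ g, ρ g v - v ∈ fixSer ρ i := fun i v => by simp [fixSer]
  have mul : ∀ g h v, ρ (g * h) v = ρ g (ρ h v) := fun g h v => by rw [map_mul]; rfl
  have inv : ∀ i g, ∀ v ∈ fixSer ρ i, ρ g v ∈ fixSer ρ i := fun i => by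
    induction i with
    | zero => intro g v hv; rw [(Submodule.mem_bot K).1 hv, map_zero]; exact zero_mem _
    | succ i ih =>
      intro g v hv
      refine (mem _ _).2 fun x => ?_
      rw [← mul, show x * g = g * (g⁻¹ * x * g) by group, mul, ← map_sub]
      exact ih _ _ ((mem _ _).1 hv _)
  have mono : ∀ i, fixSer ρ i ≤ fixSer ρ (i + 1) := fun i v hv => (mem _ _).2 fun g => sub_mem (inv i g v hv) hv
  have rk : ∀ i, fixSer ρ i = ⊤ ∨ i ≤ finrank K (fixSer ρ i) := fun i => by
    induction i with
    | zero => simp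
    | succ i ih =>
      by_cases e : fixSer ρ i = ⊤
      · exact .inl (top_le_iff.1 (e ▸ mono i))
      refine .inr ((ih.resolve_left e).trans_lt (Submodule.finrank_lt_finrank_of_lt ((mono i).lt_of_ne fun e1 => ?_)))
      have := Submodule.Quotient.nontrivial_iff.2 e
      obtain ⟨v, -, h0, hv⟩ := Perm.exists_fixed_vector hP (ρ.quotient _ (inv i)) ⊤ (fun _ _ _ => trivial) top_ne_bot
      obtain ⟨v, rfl⟩ := Submodule.Quotient.mk_surjective _ v
      exact h0 ((Submodule.Quotient.mk_eq_zero _).2 (e1 ▸ (mem _ _).2 fun g => (Submodule.Quotient.eq _).1 (hv g)))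
  have key : ∀ k, ∀ g ∈ derivedSeries P k, ∀ i, ∀ v ∈ fixSer ρ (i + 2 ^ k), ρ g v - v ∈ fixSer ρ i := fun k => by
    induction k with
    | zero => exact fun g _ i v hv => (mem _ _).1 hv g
    | succ k ih =>
      intro g hg i
      refine closure_induction (p := fun g _ => ∀ v ∈ fixSer ρ (i + 2 ^ (k + 1)), ρ g v - v ∈ fixSer ρ i) ?_ (by simp) ?_ ?_ hg
      · rintro _ ⟨a, ha, b, hb, rfl⟩ v hv
        have hw := inv _ (a⁻¹ * b⁻¹) v hv
        rw [pow_succ, mul_two, ← add_assoc] at hw
        have := sub_mem (ih a ha _ _ (ih b hb _ _ hw)) (ih b hb _ _ (ih a ha _ _ hw))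
        convert this using 1
        simp only [map_sub, ← mul, commutatorElement_def, mul_assoc, mul_inv_cancel_left, mul_inv_cancel, map_one,
          Module.End.one_apply]
        abel
      · intro a b _ _ ha hb v hv
        rw [mul, show ρ a (ρ b v) - v = ρ a (ρ b v - v) + (ρ a v - v) by rw [map_sub]; abel]
        exact add_mem (inv _ _ _ (hb v hv)) (ha v hv)
      · intro a _ ha v hv
        have := neg_mem (ha _ (inv _ a⁻¹ v hv))
        rwa [← mul, mul_inv_cancel, map_one, neg_sub] at this
  have top : fixSer ρ (0 + 2 ^ k) = ⊤ := (rk _).elim id fun e =>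
    Submodule.eq_top_of_finrank_eq ((Submodule.finrank_le _).antisymm (by omega))
  exact LinearMap.ext fun v => sub_eq_zero.1 (key k g hg 0 v (top ▸ trivial))

theorem eq_one_of_section (h0 : (p : K) ≠ 0) {V : Type*} [AddCommGroup V] [Module K V] {f : End K V} {a : ℕ}
    (hf : f ^ p ^ a = 1) {W : Submodule K V} (h1 : ∀ v, f v - v ∈ W) (h2 : ∀ w ∈ W, f w = w) : f = 1 := by
  refine LinearMap.ext fun v => ?_
  have : ∀ n : ℕ, (f ^ n) v = v + (n : K) • (f v - v) := fun n => by
    induction n with
    | zero => simp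
    | succ n ih => rw [pow_succ', Module.End.mul_apply, ih, map_add, map_smul, h2 _ (h1 v), Nat.cast_succ, add_smul, one_smul]; abel
  have := this (p ^ a)
  rw [hf, Module.End.one_apply, left_eq_add, smul_eq_zero, Nat.cast_pow] at this
  exact sub_eq_zero.1 (this.resolve_left (pow_ne_zero _ h0))

/-- Reduction to faithful irreducible modules in characteristic other than `p`. -/
theorem derived_of_irr (h0 : (p : K) ≠ 0) (k d : ℕ)
    (h : ∀ (P : Type u) [Group P] [Finite P] (V : Type v) [AddCommGroup V] [Module K V] [FiniteDimensional K V] [Nontrivial V],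
      IsPGroup p P → finrank K V < d → ∀ ρ : Representation K P V, Function.Injective ρ →
      (∀ W : Submodule K V, (∀ g, W ≤ W.comap (ρ g)) → W = ⊥ ∨ W = ⊤) → derivedSeries P k = ⊥) (n : ℕ) :
    ∀ (P : Type u) [Group P] [Finite P] (V : Type v) [AddCommGroup V] [Module K V] [FiniteDimensional K V],
      IsPGroup p P → finrank K V = n → n < d → ∀ ρ : Representation K P V, ∀ g ∈ derivedSeries P k, ρ g = 1 := by
  induction n using Nat.strong_induction_on with
  | _ n ih =>
  intro P _ _ V _ _ _ hP hn hd ρ g hg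
  rcases subsingleton_or_nontrivial V with e | e
  · exact Subsingleton.elim _ _
  by_cases hi : ∀ W : Submodule K V, (∀ g, W ≤ W.comap (ρ g)) → W = ⊥ ∨ W = ⊤
  · have := h (P ⧸ ρ.ker) V (hP.to_quotient _) (hn ▸ hd) (QuotientGroup.lift ρ.ker ρ fun _ h => h)
      ((injective_iff_map_eq_one _).2 fun x => QuotientGroup.induction_on x fun g e => (QuotientGroup.eq_one_iff g).2 e) fun W hW => hi W fun g => hW (g : P ⧸ ρ.ker)
    exact (QuotientGroup.eq_one_iff g).1
      (mem_bot.1 (this ▸ map_derivedSeries_le_derivedSeries (QuotientGroup.mk' ρ.ker) k ⟨g, hg, rfl⟩))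
  push Not at hi
  obtain ⟨W, hW, h1, h2⟩ := hi
  have a1 := Submodule.finrank_lt h2
  have a2 := W.finrank_quotient_add_finrank
  have a3 := Submodule.one_le_finrank_iff.2 h1
  obtain ⟨a, ha⟩ := hP g
  refine eq_one_of_section h0 (a := a) (by rw [← map_pow, ha, map_one]) (W := W) (fun v => ?_) fun w hw => ?_
  · exact (Submodule.Quotient.eq _).1 (LinearMap.congr_fun
      (ih _ (by omega) P _ hP rfl (by omega) (ρ.quotient W hW) g hg) (Submodule.Quotient.mk v))
  · exact congrArg Subtype.val (LinearMap.congr_fun (ih _ (by omega) P _ hP rfl (by omega) (ρ.subrepresentation W hW) g hg) ⟨w, hw⟩)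

theorem derived_algClosed [IsAlgClosed K] (h0 : (p : K) ≠ 0) (k : ℕ) :
    ∀ (P : Type u) [Group P] [Finite P] (V : Type v) [AddCommGroup V] [Module K V] [FiniteDimensional K V],
      IsPGroup p P → finrank K V < 2 ^ k → ∀ ρ : Representation K P V, ∀ g ∈ derivedSeries P k, ρ g = 1 := by
  induction k with
  | zero =>
    intro P _ _ V _ _ _ _ h ρ g _
    have := Module.finrank_zero_iff.1 (Nat.lt_one_iff.1 h)
    exact Subsingleton.elim _ _
  | succ k ih =>
  refine fun P _ _ V _ _ _ hP h => derived_of_irr h0 _ _ ?_ _ P V hP rfl h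
  intro P _ _ V _ _ _ _ hP h ρ hρ hi
  have mul : ∀ g h v, ρ (g * h) v = ρ g (ρ h v) := fun g h v => by rw [map_mul]; rfl
  by_cases hc : (⊤ : Subgroup P) ≤ center P
  · refine le_bot_iff.1 ((derivedSeries_antitone P (Nat.le_add_left 1 k)).trans ?_)
    rw [derivedSeries_one, _root_.commutator_def, commutator_le]
    exact fun a _ b _ => mem_bot.2 (commutatorElement_eq_one_iff_mul_comm.2 (mem_center_iff.1 (hc trivial) a))
  obtain ⟨y, -, y1, y2, y3⟩ := exists_second_center (hP.to_subgroup ⊤) hc
  obtain ⟨s, hs⟩ := not_forall.1 (mt mem_center_iff.2 y1)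
  obtain ⟨c, hc⟩ := Module.End.exists_eigenvalue (ρ ⁅y, s⁆)
  have e1 : ∀ v, ρ ⁅y, s⁆ v = c • v := fun v => Module.End.mem_eigenspace_iff.1
    (((hi _ fun g w hw => Module.End.mem_eigenspace_iff.2 (by
      rw [← mul, ← mem_center_iff.1 (y3 s trivial), mul, Module.End.mem_eigenspace_iff.1 hw, map_smul])).resolve_left hc).ge trivial)
  have c1 : c ≠ 1 := fun e => hs (commutatorElement_eq_one_iff_mul_comm.1
    (hρ (by rw [map_one]; exact LinearMap.ext fun v => by rw [e1, e, one_smul]; rfl))).symm
  have inj : ∀ g, Function.Injective (ρ g) := fun g a b e => by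
    simpa [← mul] using congrArg (ρ g⁻¹) e
  have rk : ∀ a : K, finrank K (Module.End.eigenspace (ρ y) a) < 2 ^ k := fun a => by
    by_cases a0 : a = 0
    · rw [a0, Module.End.eigenspace_zero, LinearMap.ker_eq_bot.2 (inj y), finrank_bot]; positivity
    have b1 := Submodule.finrank_sup_add_finrank_inf_eq (Module.End.eigenspace (ρ y) a) (Module.End.eigenspace (ρ y) (c * a))
    have b0 : Disjoint (Module.End.eigenspace (ρ y) a) (Module.End.eigenspace (ρ y) (c * a)) :=
      (Module.End.eigenspaces_iSupIndep (ρ y)).pairwiseDisjoint fun e => c1 (mul_right_cancel₀ a0 (e.symm.trans (one_mul a).symm))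
    rw [b0.eq_bot, finrank_bot] at b1
    have b2 := Submodule.finrank_le (Module.End.eigenspace (ρ y) a ⊔ Module.End.eigenspace (ρ y) (c * a))
    have b3 : finrank K (Module.End.eigenspace (ρ y) a) ≤ finrank K (Module.End.eigenspace (ρ y) (c * a)) :=
      LinearMap.finrank_le_finrank_of_injective (f := (ρ s).restrict fun w hw => Module.End.mem_eigenspace_iff.2 (by
        rw [← mul, show y * s = ⁅y, s⁆ * (s * y) by group, mul, e1, mul, Module.End.mem_eigenspace_iff.1 hw, map_smul, smul_smul]))
        fun _ _ e => Subtype.ext (inj s (congrArg Subtype.val e))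
    omega
  have d1 : derivedSeries P (k + 1) ≤ (derivedSeries 𝐂[y] k).map (𝐂[y]).subtype := by
    have : ∀ i, derivedSeries P (i + 1) ≤ (derivedSeries 𝐂[y] i).map (𝐂[y]).subtype := fun i => by
      induction i with
      | zero =>
        rw [derivedSeries_zero, ← MonoidHom.range_eq_map, range_subtype, zero_add, derivedSeries_one, _root_.commutator_def, commutator_le]
        exact fun a _ b _ => (second_center_facts y2 y3).2.2 a trivial b trivial
      | succ i ih => rw [derivedSeries_succ, derivedSeries_succ 𝐂[y] i, map_commutator]; exact commutator_mono ih ih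
    exact this k
  refine eq_bot_iff.2 fun g hg => hρ ?_
  obtain ⟨x, hx, rfl⟩ := d1 hg
  have : ⨆ a, Module.End.eigenspace (ρ y) a = ⊤ := by
    obtain ⟨a, ha⟩ := Module.End.exists_eigenvalue (ρ y)
    refine (hi _ fun s => iSup_le fun b w hw => ?_).resolve_left fun e => ha (le_bot_iff.1 ((le_iSup _ a).trans e.le))
    obtain ⟨c, hc⟩ := Module.End.exists_eigenvalue (ρ ⁅y, s⁆)
    have e1 : ∀ v, ρ ⁅y, s⁆ v = c • v := fun v => Module.End.mem_eigenspace_iff.1
      (((hi _ fun g w hw => Module.End.mem_eigenspace_iff.2 (by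
        rw [← mul, ← mem_center_iff.1 (y3 s trivial), mul, Module.End.mem_eigenspace_iff.1 hw, map_smul])).resolve_left hc).ge trivial)
    exact Submodule.mem_iSup_of_mem (c * b) (Module.End.mem_eigenspace_iff.2 (by
      rw [← mul, show y * s = ⁅y, s⁆ * (s * y) by group, mul, e1, mul, Module.End.mem_eigenspace_iff.1 hw, map_smul, smul_smul]))
  rw [map_one]
  refine LinearMap.ext fun v => Submodule.iSup_induction _ (motive := fun v => ρ x v = v) (this.ge trivial)
    (fun a w hw => ?_) (map_zero _) fun a b ha hb => by rw [map_add, ha, hb]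
  exact congrArg Subtype.val (LinearMap.congr_fun (ih 𝐂[y] _ (hP.to_subgroup _) (rk a)
    (Representation.subrepresentation (ρ.comp (𝐂[y]).subtype) _ fun z w hw => Module.End.mem_eigenspace_iff.2 (by
      change ρ y (ρ z w) = a • ρ z w
      rw [← mul, ← mem_cent1.1 z.2, mul, Module.End.mem_eigenspace_iff.1 hw, map_smul])) x hx) ⟨w, hw⟩)

theorem derived_char_ne (h0 : (p : K) ≠ 0) {P V : Type*} [Group P] [Finite P] [AddCommGroup V] [Module K V]
    [FiniteDimensional K V] (hP : IsPGroup p P) (ρ : Representation K P V) {k : ℕ} (h : finrank K V < 2 ^ k) {g : P}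
    (hg : g ∈ derivedSeries P k) : ρ g = 1 := by
  classical
  let f := (Matrix.toLinAlgEquiv' (R := AlgebraicClosure K)).toMonoidHom.comp
    (((algebraMap K (AlgebraicClosure K)).mapMatrix.toMonoidHom.comp
      (LinearMap.toMatrixAlgEquiv (Module.finBasis K V)).toMonoidHom).comp ρ)
  have := derived_algClosed (K := AlgebraicClosure K) (p := p) (by rwa [← map_natCast (algebraMap K _), map_ne_zero]) k P _ hP
    (by simpa using h) f g hg
  refine (LinearMap.toMatrixAlgEquiv (Module.finBasis K V)).injective (Matrix.map_injective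
    (algebraMap K (AlgebraicClosure K)).injective (Matrix.toLinAlgEquiv'.injective (this.trans ?_)))
  simp

/-- A `p`-group acting faithfully on a space of dimension less than `2 ^ k` has derived length at most `k`. -/
theorem derived_linear {P V : Type*} [Group P] [Finite P] [AddCommGroup V] [Module K V]
    [FiniteDimensional K V] (hP : IsPGroup p P) (ρ : Representation K P V) {k : ℕ} (h : finrank K V < 2 ^ k) {g : P}
    (hg : g ∈ derivedSeries P k) : ρ g = 1 := by
  by_cases h0 : (p : K) = 0
  · have := (CharP.charP_iff_prime_eq_zero hp.out).2 h0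
    exact derived_charP hP ρ h.le hg
  · exact derived_char_ne h0 hP ρ h hg

/-- Schur's lemma and Wedderburn's theorem. -/
theorem isField_commutant [Finite K] {P V : Type*} [Group P] [AddCommGroup V] [Module K V] [FiniteDimensional K V]
    [Nontrivial V] (ρ : Representation K P V) (hi : ∀ W : Submodule K V, (∀ g, W ≤ W.comap (ρ g)) → W = ⊥ ∨ W = ⊤) :
    IsField (Subalgebra.centralizer K (Set.range ρ)) := by
  have := Module.finite_of_finite K (M := End K V)
  have : NoZeroDivisors (Subalgebra.centralizer K (Set.range ρ)) := ⟨fun {a b} e => by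
    rcases hi (LinearMap.ker a.1) fun g w hw => (by
      change a.1 (ρ g w) = 0
      rw [← Module.End.mul_apply, ← a.2 _ ⟨g, rfl⟩, Module.End.mul_apply, LinearMap.mem_ker.1 hw, map_zero]) with k | k
    · exact .inr (Subtype.ext (LinearMap.ext fun v =>
        (Submodule.mem_bot K).1 (k ▸ (LinearMap.congr_fun (congrArg Subtype.val e) v :))))
    · exact .inl (Subtype.ext (LinearMap.ker_eq_top.1 k))⟩
  have := NoZeroDivisors.to_isDomain (Subalgebra.centralizer K (Set.range ρ))
  exact Finite.isDomain_to_isField _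

theorem derived_finite [Finite K] (h0 : ¬ p ∣ Nat.card K) {P V : Type*} [Group P] [Finite P] [AddCommGroup V] [Module K V]
    [FiniteDimensional K V] (hP : IsPGroup p P) (ρ : Representation K P V) {k : ℕ}
    (h : finrank K V < orderOf (Nat.card K : ZMod p) * 2 ^ k) {g : P} (hg : g ∈ derivedSeries P k) : ρ g = 1 := by
  have := Fintype.ofFinite K
  refine derived_of_irr (p := p) (fun e => h0 ?_) k _ ?_ _ P V hP rfl h ρ g hg
  · have := (CharP.charP_iff_prime_eq_zero hp.out).2 e
    obtain ⟨n, -, hn⟩ := FiniteField.card K p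
    rw [Nat.card_eq_fintype_card, hn]
    exact dvd_pow_self _ n.2.ne'
  intro P _ _ V _ _ _ _ hP h ρ hρ hi
  rcases subsingleton_or_nontrivial P with e | e
  · exact Subsingleton.elim _ _
  have := hP.center_nontrivial
  obtain ⟨n, hn, e⟩ := (hP.to_subgroup (center P)).nontrivial_iff_card.1 this
  obtain ⟨z, hz⟩ := exists_prime_orderOf_dvd_card' (G := center P) p (e ▸ dvd_pow_self p hn.ne')
  have := Module.finite_of_finite K (M := End K V)
  let L := Subalgebra.centralizer K (Set.range ρ)
  let _ : Field L := (isField_commutant ρ hi).toField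
  let t : L := ⟨ρ z, by rintro _ ⟨g, rfl⟩; rw [← map_mul, ← map_mul, mem_center_iff.1 z.2]⟩
  have ht : orderOf t = p := by
    rw [← orderOf_injective L.val.toMonoidHom Subtype.val_injective, ← hz, ← orderOf_coe z, ← orderOf_injective ρ hρ]; rfl
  have := Fintype.ofFinite L
  have h1 : p ∣ Nat.card L - 1 := by
    rw [← ht, Nat.card_eq_fintype_card]
    refine orderOf_dvd_of_pow_eq_one (FiniteField.pow_card_sub_one_eq_one t fun e => hp.out.ne_zero ?_)
    rw [← ht, e, orderOf_zero]
  rw [Module.natCard_eq_pow_finrank (K := K)] at h1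
  have h2 : orderOf (Nat.card K : ZMod p) ≤ finrank K L := by
    refine orderOf_le_of_pow_eq_one Module.finrank_pos ?_
    have := (ZMod.natCast_eq_zero_iff _ _).2 h1
    rwa [Nat.cast_sub (Nat.one_le_pow _ _ Nat.card_pos), Nat.cast_pow, Nat.cast_one, sub_eq_zero] at this
  have := Module.Finite.of_restrictScalars_finite K L V
  let σ : Representation L P V :=
    { toFun := fun g => { toFun := ρ g, map_add' := map_add _, map_smul' := fun a v => LinearMap.congr_fun (a.2 _ ⟨g, rfl⟩) v }
      map_one' := LinearMap.ext fun v => LinearMap.congr_fun (map_one ρ) v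
      map_mul' := fun a b => LinearMap.ext fun v => LinearMap.congr_fun (map_mul ρ a b) v }
  refine eq_bot_iff.2 fun g hg => hρ (LinearMap.ext fun v => ?_)
  rw [map_one]
  refine LinearMap.congr_fun (derived_linear hP σ (k := k) ?_ hg) v
  rw [← Module.finrank_mul_finrank K L V] at h
  exact lt_of_mul_lt_mul_left (h.trans_le (Nat.mul_le_mul_right _ h2)) (Nat.zero_le _)

end Cfsg.Lib.FGS
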