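import Cfsg.Agent.Lib.BG.Quo
import Cfsg.Agent.Lib.FGS.Basic
import Cfsg.Agent.Lib.PGroup.Alperin

/-!
# Fusion of elements with small centralizer in a Sylow subgroup

If `x ∈ P`, `P` a Sylow `p`-subgroup of `H`, has centralizer of order at most `p ^ 2` in `P` but
centralizer of order divisible by `p ^ 3` in `H`, then `x` is conjugate to an element of `P'`.
-/

set_option autoImplicit false

namespace Cfsg.Lib.FGS.MaxFus

open Subgroup Cfsg.Lib.BG Cfsg.Lib.Transfer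
open scoped commutatorElement

universe u

variable {p : ℕ} [hp : Fact p.Prime]

theorem card_eq_prime {G : Type*} [Group G] [Finite G] {A : Subgroup G} (hA : IsPGroup p A)
    (h1 : A ≠ ⊥) (h : Nat.card A ≤ p) : Nat.card A = p :=
  le_antisymm h (Nat.le_of_dvd Nat.card_pos (pgroup_dvd_card hA h1))

theorem cent_of_card_le {G : Type*} [Group G] [Finite G] {T A : Subgroup G} (hT : IsPGroup p T)
    (hA : A ≤ T) (hn : T ≤ 𝐍(A)) (h : Nat.card A ≤ p) : A ≤ 𝐂(T) := by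
  by_cases h1 : A = ⊥
  · exact h1 ▸ bot_le
  exact le_of_prime_of_inf_ne_bot (by rw [card_eq_prime (pgroup_of_le hT hA) h1 h]; exact hp.out)
    (nil_meet_center (pgroup_nil hT) hA hn h1)

theorem fuse (n : ℕ) : ∀ {G : Type u} [Group G] [Finite G] {P H : Subgroup G} {x : G},
    Nat.card P ≤ n → Syl p P H → x ∈ P → Nat.card ↥(P ⊓ 𝐂[x]) ≤ p ^ 2 →
    p ^ 3 ∣ Nat.card ↥(H ⊓ 𝐂[x]) → ∃ g ∈ H, g * x * g⁻¹ ∈ ⁅P, P⁆ := by
  induction n with
  | zero => exact fun h => absurd (Nat.card_pos.trans_le h) (lt_irrefl 0)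
  | succ n ih =>
  intro G _ _ P H x hn hP hx hA h3
  have p1 := hp.out.one_lt
  have hpP := Syl.pgroup hP
  set A := P ⊓ 𝐂[x] with eA
  set Z := P ⊓ 𝐂(P) with eZ
  have hpA : IsPGroup p A := pgroup_of_le hpP inf_le_left
  obtain ⟨R, hR, hAR⟩ := Syl.exists_ge hpA (M := H ⊓ 𝐂[x]) (inf_le_inf_right _ hP.le)
  have hR3 : p ^ 3 ≤ Nat.card R := by
    refine Nat.le_of_dvd Nat.card_pos ?_
    rw [← Transfer.card_mul_relIndex hR.le] at h3
    exact (Nat.Coprime.pow_left 3 ((Nat.Prime.coprime_iff_not_dvd hp.out).2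
      (Syl.not_dvd' hR))).dvd_of_dvd_mul_right h3
  have h23 : p ^ 2 < p ^ 3 := Nat.pow_lt_pow_right p1 (by omega)
  have hP3 : p ^ 3 ≤ Nat.card P :=
    hR3.trans (Syl.card_le hP (Syl.pgroup hR) (hR.le.trans inf_le_left))
  have hAP : A < P := lt_of_le_of_ne inf_le_left fun e => by rw [e] at hA; omega
  have hAR' : A < R := lt_of_le_of_ne hAR fun e => by rw [e] at hA; omega
  have hxA : x ∈ A := ⟨hx, self_mem_cent1 x⟩
  have hZA : Z ≤ A := inf_le_inf_left _ (cent_le_cent1 hx)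
  have hxZ : x ∉ Z := fun h => hAP.not_ge (le_inf le_rfl (le_cent1_iff.2 h.2))
  have hZA' : Z < A := lt_of_le_of_ne hZA fun e => hxZ (e ▸ hxA)
  have hZ1 : Z ≠ ⊥ := center_ne_bot_of_nil (pgroup_nil hpP) (ne_bot_of_gt hAP)
  have hpZ : IsPGroup p Z := pgroup_of_le hpP inf_le_left
  have hZc : Nat.card Z = p := by
    refine card_eq_prime hpZ hZ1 (Nat.le_of_mul_le_mul_left ?_ hp.out.pos)
    exact (PGroup.mul_card_le_of_lt hpA hZA').trans (by rwa [← sq])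
  have hAc : Nat.card A = p ^ 2 :=
    le_antisymm hA (by simpa [hZc, sq] using PGroup.mul_card_le_of_lt hpA hZA')
  have hZP : Z ≤ ⁅P, P⁆ := by
    have h1 : ⁅P, P⁆ ≠ ⊥ := fun e => hxZ ⟨hx, comm_eq_bot_iff.1 e hx⟩
    have h2 := nil_meet_center (pgroup_nil hpP) (der_le P) (norm_der (le_norm P)) h1
    refine le_of_prime_of_inf_ne_bot (hZc ▸ hp.out) (ne_bot_mono h2 ?_)
    exact le_inf (inf_le_inf_right _ (der_le P)) inf_le_left
  have key : ∀ y ∈ A, y ∉ Z → P ⊓ 𝐂[y] ≤ A := by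
    intro y hy hyZ
    have h1 : Z < Z ⊔ zpowers y :=
      lt_of_le_of_ne le_sup_left fun e => hyZ (e ▸ mem_sup_right (mem_zpowers y))
    have h2 : Z ⊔ zpowers y ≤ A := sup_le hZA (zpowers_le.2 hy)
    have h3 : Z ⊔ zpowers y = A := eq_of_le_of_card_le h2 (by
      simpa [hZc, hAc, sq] using PGroup.mul_card_le_of_lt (pgroup_of_le hpA h2) h1)
    refine le_inf inf_le_left (le_trans ?_ (cent_le_cent1 hxA))
    rw [← h3]
    exact le_cent_sup (inf_le_left.trans (cent_symm inf_le_right))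
      (by rw [cent_zpowers]; exact inf_le_right)
  have hB := nil_norm_grow (pgroup_nil (Syl.pgroup hR)) hAR'
  have hD := nil_norm_grow (pgroup_nil hpP) hAP
  obtain ⟨T, hT, hDT⟩ := Syl.exists_ge (pgroup_of_le hpP (inf_le_left (b := 𝐍(A))))
    (M := H ⊓ 𝐍(A)) (inf_le_inf_right _ hP.le)
  have hTA : T ≤ 𝐍(A) := hT.le.trans inf_le_right
  have hpT := Syl.pgroup hT
  by_cases hTP : T ≤ P
  · obtain ⟨g, hg, hgB⟩ := Syl.exists_conj_le hT
      (pgroup_of_le (Syl.pgroup hR) (inf_le_left (b := 𝐍(A))))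
      (inf_le_inf_right _ (hR.le.trans inf_le_left))
    refine ⟨g, hg.1, hZP ?_⟩
    by_contra hy
    have h1 := key _ (conj_mem_of_norm hg.2 hxA) hy
    have h2 : g ⋆ (R ⊓ 𝐍(A)) ≤ A := by
      refine le_trans (le_inf (hgB.trans hTP) ?_) h1
      rw [← conj_cent1]
      exact Transfer.conj_mono g (inf_le_left.trans (hR.le.trans inf_le_right))
    have h3 := card_le_of_le h2
    rw [Transfer.card_conj] at h3
    exact absurd (Transfer.card_lt_of_lt hB) (not_lt.2 h3)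
  have hAT : A ≤ T := hD.le.trans hDT
  have hTZ : T ≤ 𝐂(Z) := by
    have h1 := nil_meet_center (pgroup_nil hpT) hAT hTA (ne_bot_of_gt hZA')
    have h2 : A ⊓ 𝐂(T) ≤ Z := fun y hy => by
      by_contra hyZ
      exact hD.not_ge (le_trans (le_inf inf_le_left (hDT.trans (le_cent1_iff.2 hy.2)))
        (key y hy.1 hyZ))
    exact cent_symm (le_of_prime_of_inf_ne_bot (hZc ▸ hp.out)
      (ne_bot_mono h1 (le_inf h2 inf_le_right)))
  have hPZ : P ≤ 𝐍(Z) := norm_center (le_norm P)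
  have hTN : T ≤ 𝐍(Z) := norm_of_cent hTZ
  have hxN : x ∈ 𝐍(Z) := hPZ hx
  have hT4 : p * (p * p ^ 2) ≤ Nat.card T := by
    have h1 : P ⊓ 𝐍(A) < T := lt_of_le_of_ne hDT fun e => hTP (e ▸ inf_le_left)
    refine le_trans (Nat.mul_le_mul_left _ ?_) (PGroup.mul_card_le_of_lt hpT h1)
    rw [← hAc]
    exact PGroup.mul_card_le_of_lt (pgroup_of_le hpP inf_le_left) hD
  have cP := card_quo_mul (N := Z) ⟨inf_le_left, hPZ⟩
  have cA := card_quo_mul (N := Z) ⟨hZA, hAP.le.trans hPZ⟩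
  have cT := card_quo_mul (N := Z) ⟨hZA.trans hAT, hTN⟩
  rw [hZc] at cP cA cT
  have hxq : ∀ {X : Subgroup G}, x ∈ X → qhom Z ⟨x, hxN⟩ ∈ quo X Z :=
    fun h => mem_quo.2 ⟨⟨x, hxN⟩, h, rfl⟩
  obtain ⟨g, hg, hgx⟩ := ih (P := quo P Z) (H := quo (H ⊓ 𝐍(Z)) Z) (x := qhom Z ⟨x, hxN⟩)
    (by have := Nat.card_pos (α := quo P Z); nlinarith)
    (Hall.quo (hP.of_le (le_inf hP.le hPZ) inf_le_left) inf_le_right) (hxq hx) (by
      set W := copre Z (quo P Z ⊓ 𝐂[qhom Z ⟨x, hxN⟩]) with eW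
      have h1 : W ≤ P := copre_le_of_le_quo ⟨inf_le_left, hPZ⟩ inf_le_left
      have h2 : (𝐂[x]).relIndex W ≤ Nat.card Z := by
        refine relIndex_centralizer_le_card fun w hw => ?_
        obtain ⟨hwN, hw⟩ := mem_copre.1 hw
        have h3 : qhom Z ⁅(⟨w, hwN⟩ : 𝐍(Z)), ⟨x, hxN⟩⁆ = 1 := by
          rw [map_commutatorElement]
          exact commutatorElement_eq_one_iff_mul_comm.2 (mem_cent1.1 hw.2)
        exact mem_subgroupOf.1 ((QuotientGroup.eq_one_iff (N := Z.subgroupOf 𝐍(Z)) _).1 h3)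
      have h3 := Transfer.card_mul_relIndex (inf_le_right (a := 𝐂[x]) (b := W))
      rw [inf_relIndex_right, eW, card_copre, ← eW, hZc] at h3
      have h4 : Nat.card ↥(𝐂[x] ⊓ W) ≤ p ^ 2 :=
        (card_le_of_le (le_inf (inf_le_right.trans h1) inf_le_left)).trans hA
      rw [hZc] at h2
      refine Nat.le_of_mul_le_mul_left ?_ hp.out.pos
      rw [← h3, mul_comm]
      exact Nat.mul_le_mul h2 h4) (by
      have h1 : quo A Z ≤ 𝐂(quo T Z) := cent_of_card_le (pgroup_quo hpT Z) (quo_mono hAT Z)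
        (quo_norm hTA Z) (by rw [hAc, sq] at cA; exact (Nat.eq_of_mul_eq_mul_left hp.out.pos cA).le)
      have h2 : quo T Z ≤ quo (H ⊓ 𝐍(Z)) Z ⊓ 𝐂[qhom Z ⟨x, hxN⟩] :=
        le_inf (quo_mono (le_inf (hT.le.trans inf_le_left) hTN) Z)
          (le_cent1_iff.2 (h1 (hxq hxA)))
      refine dvd_trans ?_ (card_dvd_of_le h2)
      obtain ⟨k, hk⟩ := IsPGroup.iff_card.1 (pgroup_quo hpT Z)
      rw [hk] at cT ⊢
      rw [← cT, ← pow_succ'] at hT4
      exact pow_dvd_pow p ((Nat.pow_le_pow_iff_right p1).1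
        (Nat.le_of_mul_le_mul_left hT4 hp.out.pos)))
  obtain ⟨g, hg', rfl⟩ := mem_quo.1 hg
  refine ⟨g, hg'.1, ?_⟩
  rw [← quo_comm hPZ hPZ] at hgx
  rw [← copre_quo_of_le hZP ((der_le P).trans hPZ)]
  exact mem_copre.2 ⟨mul_mem (mul_mem g.2 hxN) (inv_mem g.2), by
    rw [← map_inv, ← map_mul, ← map_mul] at hgx; exact hgx⟩

end Cfsg.Lib.FGS.MaxFus
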