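import Cfsg.Agent.Lib.FGS.Nse
import Cfsg.Agent.Lib.BG.Rank
import Cfsg.Agent.Lib.BG.Prod
import Cfsg.Agent.Lib.Frobenius.Basic
import Cfsg.Agent.S4249

/-!
# Groups of odd order with three same-order class sizes
-/

set_option autoImplicit false

namespace Cfsg.Lib.FGS

open Subgroup Cfsg.Lib.BG Cfsg.Lib.Spec

variable {G : Type*} [Group G] [Finite G] {m n k p q : ℕ}

theorem exists_comm_of_not_dvd_ns (hp : p.Prime) {y : G} {j : ℕ} (hy : y ^ p ^ j = 1) (h : ¬ p ∣ ns G k) :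
    ∃ z : G, orderOf z = k ∧ Commute y z := by
  have : Fact p.Prime := ⟨hp⟩
  let _ : MulAction (zpowers y) {g : G // orderOf g = k} :=
    { smul := fun a g => ⟨a * g * (a : G)⁻¹, ((MulAut.conj (a : G)).orderOf_eq _).trans g.2⟩
      one_smul := fun g => Subtype.ext (show ((1 : zpowers y) : G) * g * ((1 : zpowers y) : G)⁻¹ = g by simp)
      mul_smul := fun a b g => Subtype.ext (show ((a * b : zpowers y) : G) * g * ((a * b : zpowers y) : G)⁻¹ =
        a * (b * g * (b : G)⁻¹) * (a : G)⁻¹ by simp [mul_assoc]) }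
  obtain ⟨z, hz⟩ := (IsPGroup.of_card_dvd_pow (G := zpowers y) (n := j) (by
    rw [Nat.card_zpowers]; exact orderOf_dvd_of_pow_eq_one hy)).nonempty_fixed_point_of_prime_not_dvd_card
    {g : G // orderOf g = k} h
  exact ⟨z, z.2, mul_inv_eq_iff_eq_mul.1 (congrArg Subtype.val (hz ⟨y, mem_zpowers y⟩))⟩

theorem two_mul_ns_le (hp : p.Prime) (hq : q.Prime) (hpq : p ≠ q) (q2 : 2 < q) (h : ¬ p ∣ ns G q) :
    2 * ns G p ≤ ns G (p * q) := by
  have hc := (Nat.coprime_primes hp hq).2 hpq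
  choose z hz using fun y : {g : G // orderOf g = p} =>
    exists_comm_of_not_dvd_ns hp (y := (y : G)) (j := 1)
      (orderOf_dvd_iff_pow_eq_one.1 (y.2.trans (pow_one p).symm).dvd) h
  let w : Bool × {g : G // orderOf g = p} → G := fun x => if x.1 then z x.2 else (z x.2)⁻¹
  have hw : ∀ x, orderOf (w x) = q ∧ Commute (x.2 : G) (w x) := by
    rintro ⟨_ | _, y⟩
    exacts [⟨(orderOf_inv _).trans (hz y).1, (hz y).2.inv_right⟩, hz y]
  have := Nat.card_le_card_of_injective (β := {g : G // orderOf g = p * q}) (fun x => ⟨x.2 * w x, by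
    rw [(hw x).2.orderOf_mul_eq_mul_orderOf_of_coprime (by rwa [x.2.2, (hw x).1]), x.2.2, (hw x).1]⟩)
    fun x x' e => by
      replace e := congrArg Subtype.val e
      have k : ∀ x, ((x.2 : G) * w x) ^ q = x.2 ^ q := fun x => by
        rw [(hw x).2.mul_pow, ← (hw x).1, pow_orderOf_eq_one, mul_one]
      have e1 : (x.2 : G) = x'.2 := by
        obtain ⟨i, -, hi⟩ := Nat.exists_mul_mod_eq_one_of_coprime hc.symm hp.one_lt
        have k' : ∀ y : {g : G // orderOf g = p}, ((y : G) ^ q) ^ i = y := fun y => by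
          rw [← pow_mul, ← pow_mod_orderOf, y.2, hi, pow_one]
        rw [← k' x.2, ← k' x'.2, ← k, ← k, show (x.2 : G) * w x = x'.2 * w x' from e]
      obtain ⟨b, y⟩ := x
      obtain ⟨b', y'⟩ := x'
      obtain rfl : y = y' := Subtype.ext e1
      have e2 : w (b, y) = w (b', y) := mul_left_cancel e
      have h2 : z y ≠ (z y)⁻¹ := fun e => by
        have := orderOf_dvd_of_pow_eq_one (show z y ^ 2 = 1 by rw [pow_two, mul_eq_one_iff_eq_inv]; exact e)
        rw [(hz y).1] at this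
        have := Nat.le_of_dvd two_pos this; omega
      cases b <;> cases b' <;> first | rfl | exact (h2 e2).elim | exact (h2 e2.symm).elim
  simpa [ns] using this

theorem pow_eq_one_of_sq_not_mem (hp : p.Prime) (h : p ^ 2 ∉ sp G) {g : G} (hg : g ^ p ^ k = 1) :
    g ^ p = 1 := by
  obtain ⟨j, -, hj⟩ := (Nat.dvd_prime_pow hp).1 (orderOf_dvd_of_pow_eq_one hg)
  by_cases h2 : 2 ≤ j
  · exact (h (mem_sp_of_dvd_orderOf g (hj ▸ pow_dvd_pow p h2))).elim
  · exact orderOf_dvd_iff_pow_eq_one.1 (hj ▸ (pow_dvd_pow p (by omega : j ≤ 1)).trans (pow_one p).dvd)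

theorem pow_dvd_one_add_ns (hp : p.Prime) (h : p ^ 2 ∉ sp G) (hk : p ^ k ∣ Nat.card G) :
    p ^ k ∣ 1 + ns G p := by
  rcases k with _ | k
  · simp
  have h1 := sum_ns (G := G) hp.ne_zero
  rw [hp.divisors, Finset.sum_pair hp.one_lt.ne, ns_one] at h1
  rw [h1, Nat.card_congr (Equiv.subtypeEquivRight fun g : G => (⟨fun e => by
    rw [pow_succ', pow_mul, e, one_pow], pow_eq_one_of_sq_not_mem hp h⟩ : g ^ p = 1 ↔ g ^ p ^ (k + 1) = 1))]
  exact dvd_card_pow_eq_one hk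

theorem exponent_eq_of_sq_not_mem (hp : p.Prime) (h : p ^ 2 ∉ sp G) {P : Subgroup G} (hP : IsPGroup p P)
    (h0 : P ≠ ⊥) : Monoid.exponent P = p := by
  have := (nontrivial_iff_ne_bot P).2 h0
  have : Fact p.Prime := ⟨hp⟩
  refine (Monoid.exponent_eq_prime_iff hp).2 fun g g1 => orderOf_eq_prime ?_ g1
  obtain ⟨k, hk⟩ := hP g
  exact Subtype.ext (pow_eq_one_of_sq_not_mem hp h (congrArg Subtype.val hk))

theorem ns_ne_of_odd (ho : Odd (Nat.card G)) (v : ∀ k, 2 < k → ns G k = 0 ∨ ns G k = n ∨ ns G k = m)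
    (hp : p.Prime) (hq : q.Prime) (hpq : p ≠ q) (pG : p ∣ Nat.card G) (qG : q ∣ Nat.card G)
    (e1 : ns G p = n) (e2 : ns G q = n) : False := by
  have lt : ∀ {r : ℕ}, r.Prime → r ∣ Nat.card G → 2 < r := fun hr h =>
    lt_of_le_of_ne hr.two_le fun e => (Nat.not_even_iff_odd.2 ho) (even_iff_two_dvd.2 (e ▸ h))
  have add : ∀ {r s : ℕ}, r.Prime → s.Prime → r ≠ s → r ∣ Nat.card G → s ∣ Nat.card G →
      r ∣ ns G s + ns G (r * s) ∧ 2 < r * s := fun hr hs e rG sG =>
    have c := (Nat.coprime_primes hr hs).2 e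
    ⟨dvd_ns_add hr (hr.coprime_iff_not_dvd.1 c) (c.mul_dvd_of_dvd_of_dvd rG sG), by
      nlinarith [lt hr rG, lt hs sG]⟩
  have pair : ∀ {r s : ℕ}, r.Prime → s.Prime → r ≠ s → r ∣ Nat.card G → s ∣ Nat.card G →
      ns G r = n → ns G s = n → r ∣ 1 + n ∧ ns G (r * s) = m ∧ r ∣ n + m := fun hr hs e rG sG a b => by
    have a1 := a ▸ dvd_one_add_ns hr rG
    obtain ⟨a2, l⟩ := add hr hs e rG sG
    rw [b] at a2
    have h1 := np_two (lt hr rG) a1 a2
    have := ((v _ l).resolve_left h1.2.2.1).resolve_left h1.2.2.2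
    exact ⟨a1, this, this ▸ a2⟩
  obtain ⟨a1, a2, a3⟩ := pair hp hq hpq pG qG e1 e2
  obtain ⟨b1, -, b3⟩ := pair hq hp hpq.symm qG pG e2 e1
  have all : ∀ r : ℕ, r.Prime → r ∣ Nat.card G → ns G r = n := fun r hr rG => by
    have c1 := dvd_one_add_ns hr rG
    refine ((v r (lt hr rG)).resolve_left (np_one (lt hr rG) c1).2.2).resolve_right fun e => ?_
    have mn := (np_two (lt hp pG) a1 a3).2.2.2
    have pr : p ≠ r := by rintro rfl; exact mn (e.symm.trans e1)
    have qr : q ≠ r := by rintro rfl; exact mn (e.symm.trans e2)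
    have c2 : ns G (q * r) = n := by
      obtain ⟨c2, l⟩ := add hq hr qr qG rG
      have h1 := np_two (lt hq qG) b1 b3
      rcases v _ l with h | h | h <;> rw [e, h] at c2
      exacts [(h1.1 c2).elim, h, (h1.2.1 c2).elim]
    have c3 : p.Coprime (q * r) :=
      ((Nat.coprime_primes hp hq).2 hpq).mul_right ((Nat.coprime_primes hp hr).2 pr)
    have c4 := c3.mul_dvd_of_dvd_of_dvd pG (((Nat.coprime_primes hq hr).2 qr).mul_dvd_of_dvd_of_dvd qG rG)
    have c5 := dvd_ns_add hp (hp.coprime_iff_not_dvd.1 c3) c4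
    rw [c2] at c5
    have h1 := np_two (lt hp pG) a1 c5
    have c6 := ((v _ (by nlinarith [lt hp pG, (add hq hr qr qG rG).2])).resolve_left
      h1.2.2.1).resolve_left h1.2.2.2
    have c7 := dvd_ns_add (G := G) (k := p * q) hr (hr.coprime_iff_not_dvd.1
      (((Nat.coprime_primes hr hp).2 pr.symm).mul_right ((Nat.coprime_primes hr hq).2 qr.symm)))
      (by rwa [mul_comm, mul_assoc])
    rw [a2, mul_comm r, mul_assoc, c6] at c7
    exact (np_one (lt hr rG) (e ▸ c1)).2.1 c7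
  have h1 : Nat.card G ∣ 1 + n := (Nat.dvd_iff_prime_pow_dvd_dvd _ _).2 fun r k hr h => by
    rcases k with _ | k
    · simp
    have rG := (dvd_pow_self r k.succ_ne_zero).trans h
    obtain ⟨s, hs, sG, e⟩ : ∃ s : ℕ, s.Prime ∧ s ∣ Nat.card G ∧ r ≠ s := by
      by_cases e : r = p
      exacts [⟨q, hq, qG, e ▸ hpq⟩, ⟨p, hp, pG, e⟩]
    obtain ⟨c1, -, c3⟩ := pair hr hs e rG sG (all r hr rG) (all s hs sG)
    rw [← all r hr rG]
    refine pow_dvd_one_add_ns hr (ns_eq_zero.1 ?_) h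
    have := dvd_ns_of_sq_dvd (G := G) hr dvd_rfl
    rcases v (r ^ 2) (by nlinarith [lt hr rG]) with h | h | h <;> rw [h] at this
    exacts [h, ((np_one (lt hr rG) c1).1 this).elim, ((np_two (lt hr rG) c1 c3).1 this).elim]
  have h2 := Finset.sum_le_sum_of_subset (f := ns G) (s := {1, p, q}) (t := (Nat.card G).divisors) (by
    simp [Finset.insert_subset_iff, pG, qG, Nat.card_pos.ne'])
  rw [sum_ns_card Nat.card_pos.ne' fun _ => pow_card_eq_one', Finset.sum_insert (by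
    simp [hp.one_lt.ne, hq.one_lt.ne]), Finset.sum_pair hpq, ns_one, e1, e2] at h2
  have := Nat.le_of_dvd (by omega) h1
  have := (np_one (lt hp pG) a1).2.2
  omega

theorem not_mem_sp_of_ne (v : ∀ k, 2 < k → ns G k = 0 ∨ ns G k = ns G p ∨ ns G k = ns G q)
    (hp : p.Prime) (hq : q.Prime) (hpq : p ≠ q) (p2 : 2 < p) (q2 : 2 < q) (pG : p ∣ Nat.card G)
    (qG : q ∣ Nat.card G) : p * q ∉ sp G ∧ p ^ 2 ∉ sp G := by
  have c := (Nat.coprime_primes hp hq).2 hpq
  have a1 := dvd_one_add_ns hp pG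
  have a2 := dvd_one_add_ns hq qG
  have a3 := dvd_ns_add hp (hp.coprime_iff_not_dvd.1 c) (c.mul_dvd_of_dvd_of_dvd pG qG)
  have a4 := dvd_ns_add hq (hq.coprime_iff_not_dvd.1 c.symm) (c.symm.mul_dvd_of_dvd_of_dvd qG pG)
  rw [mul_comm] at a4
  have h1 : p * q ∉ sp G := by
    rcases v (p * q) (by nlinarith) with h | h | h
    · exact ns_eq_zero.1 h
    · have := two_mul_ns_le hp hq hpq q2 (np_two p2 a1 (by rwa [h, add_comm] at a3)).1
      have := (np_one p2 a1).2.2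
      omega
    · have := two_mul_ns_le hq hp hpq.symm p2 (np_two q2 a2 (by rwa [h, add_comm] at a4)).1
      have := (np_one q2 a2).2.2
      rw [mul_comm q] at *
      omega
  refine ⟨h1, ns_eq_zero.1 ?_⟩
  rcases v (p ^ 2) (by nlinarith) with h | h | h
  · exact h
  · exact ((np_one p2 a1).1 (h ▸ dvd_ns_of_sq_dvd hp dvd_rfl)).elim
  · have : Fact q.Prime := ⟨hq⟩
    obtain ⟨y, hy⟩ := exists_prime_orderOf_dvd_card' q qG
    obtain ⟨z, hz, hc⟩ := exists_comm_of_not_dvd_ns hq (y := y) (j := 1) (k := p ^ 2)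
      (by rw [pow_one, ← hy, pow_orderOf_eq_one]) (h ▸ (np_one q2 a2).1)
    exact (h1 (mul_mem_sp_of_commute' hc.symm hp hq hpq (hz ▸ dvd_pow_self p two_ne_zero) hy.symm.dvd)).elim

theorem exists_frob_prime [Group.IsSolvable G] (hp : p.Prime) (hq : q.Prime) (hpq : p ≠ q) (p2 : p ≠ 2)
    (pG : p ∣ Nat.card G) (h : ∀ r : ℕ, r.Prime → r ∣ Nat.card G → r = p ∨ r = q)
    (h0 : pCore q G ≠ ⊥) (h1 : p * q ∉ sp G) (h2 : p ^ 2 ∉ sp G) (h3 : q ^ 2 ∉ sp G) :
    ∃ C : Subgroup G, IsFrobeniusComplement C ∧ (Nat.card C).Prime := by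
  have : Fact p.Prime := ⟨hp⟩
  have : Fact q.Prime := ⟨hq⟩
  have hA := Core.pCore_isPGroup q G
  have fp : ∀ x y : G, x ≠ 1 → y ≠ 1 → (∃ k, x ^ p ^ k = 1) → (∃ k, y ^ q ^ k = 1) → ¬ Commute x y := by
    rintro x y x1 y1 ⟨k, hk⟩ ⟨l, hl⟩ hc
    exact h1 (mul_mem_sp_of_commute' hc hp hq hpq
      (orderOf_eq_prime (pow_eq_one_of_sq_not_mem hp h2 hk) x1).symm.dvd
      (orderOf_eq_prime (pow_eq_one_of_sq_not_mem hq h3 hl) y1).symm.dvd)
  have pg : ∀ {r : ℕ} {K : Subgroup G}, IsPGroup r K → ∀ x ∈ K, ∃ k, x ^ r ^ k = 1 := fun hK x hx =>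
    (hK ⟨x, hx⟩).imp fun _ h => congrArg Subtype.val h
  obtain ⟨P⟩ : Nonempty (Sylow p G) := inferInstance
  have P0 := P.ne_bot_of_dvd_card pG
  have hc : IsCyclic (P : Subgroup G) := by
    by_contra hc
    obtain ⟨E, hE, -⟩ := exists_nml_elem_two p2 P.isPGroup' (Nml.refl _) hc
    obtain ⟨a, ha, a1, e⟩ := coprime_abelian_exists_cent1 hE.abelian (hE.not_cyclic le_rfl)
      le_normalizer_of_normal (IsPGroup.coprime_card_of_ne p q hpq _ _ hE.pgroup hA) h0
    obtain ⟨y, hy, y1⟩ := (bot_or_exists_ne_one _).resolve_left e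
    exact fp a y a1 y1 (pg hE.pgroup a ha) (pg hA y hy.1) (mem_cent1.1 hy.2).symm
  have cP : Nat.card P = p := by rw [← IsCyclic.exponent_eq_card, exponent_eq_of_sq_not_mem hp h2 P.isPGroup' P0]
  obtain ⟨z, hz, z1⟩ := (bot_or_exists_ne_one _).resolve_left h0
  obtain ⟨y, hy, y1⟩ := (bot_or_exists_ne_one _).resolve_left P0
  have : Nontrivial G := ⟨⟨z, 1, z1⟩⟩
  obtain ⟨M, _, hM⟩ := Core.exists_normal_index_prime (G := G)
  have cases : ∀ g : G, g ^ p = 1 ∨ g ^ q = 1 := fun g => by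
    by_cases e : p ∣ orderOf g
    · refine .inl (pow_eq_one_of_sq_not_mem hp h2 (orderOf_dvd_iff_pow_eq_one.1 (Nat.eq_prime_pow_of_unique_prime_dvd
        (orderOf_pos g).ne' fun {r} hr hd => (h r hr (hd.trans (orderOf_dvd_natCard g))).resolve_right ?_).dvd))
      rintro rfl
      exact h1 (mem_sp_of_dvd_orderOf g (((Nat.coprime_primes hp hr).2 hpq).mul_dvd_of_dvd_of_dvd e hd))
    · exact .inr (pow_eq_one_of_sq_not_mem hq h3 (orderOf_dvd_iff_pow_eq_one.1 (Nat.eq_prime_pow_of_unique_prime_dvd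
        (orderOf_pos g).ne' fun {r} hr hd => (h r hr (hd.trans (orderOf_dvd_natCard g))).resolve_left
          fun e' => e (e' ▸ hd)).dvd))
  have mem : ∀ {r : ℕ} (g : G), r.Coprime M.index → g ^ r = 1 → g ∈ M := fun g hr hg => by
    rw [← QuotientGroup.eq_one_iff, ← orderOf_eq_one_iff]
    exact Nat.eq_one_of_dvd_coprimes hr (orderOf_dvd_of_pow_eq_one (by rw [← QuotientGroup.mk_pow, hg]; rfl))
      (orderOf_dvd_natCard _)
  have yq : y ^ q ≠ 1 := fun e => fp y y y1 y1 (pg P.isPGroup' y hy) ⟨1, by rwa [pow_one]⟩ rfl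
  rcases h _ hM M.index_dvd_card with e | e
  · have hMp : ¬ p ∣ Nat.card M := by
      have e1 := M.card_mul_index
      rw [e, ← (P : Subgroup G).index_mul_card, cP] at e1
      exact Nat.eq_of_mul_eq_mul_right hp.pos e1 ▸ P.not_dvd_index
    have hMq : ∀ u ∈ M, u ^ q = 1 := fun u hu => (cases u).elim (fun h4 => by
      by_contra h5
      exact hMp ((orderOf_eq_prime h4 fun e => h5 (by rw [e, one_pow])) ▸ orderOf_dvd_natCard M hu)) id
    obtain ⟨l, hl⟩ := pg hA z hz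
    refine ⟨P, Frobenius.isFrobeniusComplement_of_fpf (K := M) ?_ (fun e' => z1 (mem_bot.1 (e'.le (mem z
      (by rw [e]; exact ((Nat.coprime_primes hq hp).2 hpq.symm).pow_left l) hl)))) P0 fun x hx x1 => ?_,
      by rwa [cP]⟩
    · rcases (Nat.dvd_prime hM).1 (index_dvd_of_le (le_sup_left : M ≤ M ⊔ P)) with h4 | h4
      · exact index_eq_one.1 h4
      · refine (hMp (cP ▸ card_dvd_of_le ?_)).elim
        have := eq_of_le_of_card_ge (le_sup_left : M ≤ M ⊔ P) (Nat.le_of_eq (Nat.eq_of_mul_eq_mul_right hM.pos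
          (by rw [M.card_mul_index, ← h4, card_mul_index])))
        exact this ▸ le_sup_right
    · exact eq_bot_iff.2 fun u hu => by_contra fun u1 =>
        fp x u x1 u1 (pg P.isPGroup' x hx) ⟨1, by rw [pow_one, hMq u hu.1]⟩ (mem_cent1.1 hu.2).symm
  · have hle : closure {g : G | g ^ q ≠ 1} ≤ M := (closure_le _).2 fun g hg =>
      mem g (e ▸ (Nat.coprime_primes hp hq).2 hpq) ((cases g).resolve_right hg)
    obtain ⟨hn, -⟩ := Cfsg.Agent.S4249.result (G := G) q hq (fun h => by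
      obtain ⟨k, hk⟩ := h y
      exact yq (pow_eq_one_of_sq_not_mem hq h3 hk)) fun e' => hM.one_lt.ne' (index_eq_one.2 (top_le_iff.1 (e' ▸ hle)))
    have : (closure {g : G | g ^ q ≠ 1}).Normal := ⟨fun u hu g =>
      (show (closure {g : G | g ^ q ≠ 1}).map (MulAut.conj g).toMonoidHom ≤ _ from by
        rw [MonoidHom.map_closure]
        refine closure_mono ?_
        rintro _ ⟨x, hx, rfl⟩ e
        exact hx ((MulAut.conj g).injective (by rw [map_pow, map_one]; exact (show _ from e)))) (mem_map_of_mem _ hu)⟩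
    have hn' := Core.isNilpotent_sup (H := closure {g : G | g ^ q ≠ 1}) (K := pCore q G)
      le_normalizer_of_normal le_normalizer_of_normal hn hA.isNilpotent
    refine (fp y z y1 z1 (pg P.isPGroup' y hy) (pg hA z hz) ?_).elim
    have := Core.commute_of_coprime_orderOf (x := (⟨y, mem_sup_left (subset_closure yq)⟩  :
      ↥(closure {g : G | g ^ q ≠ 1} ⊔ pCore q G)))
      (y := ⟨z, mem_sup_right hz⟩) (by
        obtain ⟨k, hk⟩ := pg P.isPGroup' y hy
        obtain ⟨l, hl⟩ := pg hA z hz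
        rw [← orderOf_coe, ← orderOf_coe]
        exact Nat.Coprime.of_dvd (orderOf_dvd_of_pow_eq_one hk) (orderOf_dvd_of_pow_eq_one hl)
          (Nat.Coprime.pow _ _ ((Nat.coprime_primes hp hq).2 hpq)))
    exact congrArg Subtype.val this

theorem nse_three_odd (ho : Odd (Nat.card G)) (h : (nse G).ncard = 3) :
    (Nat.card G).primeFactors.card ≤ 2 ∧
      ((Nat.card G).primeFactors.card = 2 →
        (∀ (p : ℕ) [Fact p.Prime] (P : Sylow p G), p ∣ Nat.card G → Monoid.exponent ↥(P : Subgroup G) = p) ∧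
        ∃ C : Subgroup G, IsFrobeniusComplement C ∧ (Nat.card C).Prime) := by
  obtain ⟨a, b, ab, -, -, e⟩ := exists_two_vals h
  have v : ∀ k, 2 < k → ns G k = 0 ∨ ns G k = a ∨ ns G k = b := fun k hk => (ns_mem (G := G) k).imp_right fun h => by
    rw [e] at h
    exact h.resolve_left fun h => by simpa [h] using even_ns (G := G) hk
  have lt : ∀ {r : ℕ}, r.Prime → r ∣ Nat.card G → 2 < r := fun hr h =>
    lt_of_le_of_ne hr.two_le fun e => (Nat.not_even_iff_odd.2 ho) (even_iff_two_dvd.2 (e ▸ h))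
  have w : ∀ {r : ℕ}, r.Prime → r ∣ Nat.card G → ns G r = a ∨ ns G r = b := fun hr h =>
    (v _ (lt hr h)).resolve_left (np_one (lt hr h) (dvd_one_add_ns hr h)).2.2
  have inj : ∀ {r s : ℕ}, r.Prime → s.Prime → r ∣ Nat.card G → s ∣ Nat.card G → ns G r = ns G s → r = s :=
    fun hr hs rG sG e => by_contra fun n => (w hr rG).elim
      (fun h => ns_ne_of_odd ho v hr hs n rG sG h (e ▸ h))
      fun h => ns_ne_of_odd ho (fun k hk => (v k hk).imp_right .symm) hr hs n rG sG h (e ▸ h)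
  refine ⟨?_, fun h2 => ?_⟩
  · refine (Finset.card_le_card_of_injOn (ns G) (t := {a, b}) (fun r hr => ?_) fun r hr s hs => ?_).trans
      Finset.card_le_two
    · simpa using w (Nat.prime_of_mem_primeFactors hr) (Nat.dvd_of_mem_primeFactors hr)
    · exact inj (Nat.prime_of_mem_primeFactors hr) (Nat.prime_of_mem_primeFactors hs)
        (Nat.dvd_of_mem_primeFactors hr) (Nat.dvd_of_mem_primeFactors hs)
  have key : ∀ {r s : ℕ}, r.Prime → s.Prime → r ≠ s → r ∣ Nat.card G → s ∣ Nat.card G →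
      r * s ∉ sp G ∧ r ^ 2 ∉ sp G := fun hr hs n rG sG => by
    refine not_mem_sp_of_ne (fun k hk => (v k hk).imp_right fun h => ?_) hr hs n (lt hr rG) (lt hs sG) rG sG
    have := mt (inj hr hs rG sG) n
    rcases w hr rG with h1 | h1 <;> rcases w hs sG with h2 | h2 <;> omega
  obtain ⟨p, q, hpq, e2⟩ := Finset.card_eq_two.1 h2
  have m : ∀ r : ℕ, r.Prime ∧ r ∣ Nat.card G ↔ r = p ∨ r = q := fun r => by
    rw [← Finset.mem_singleton (b := r) (a := q), ← Finset.mem_insert, ← e2]; simp [Nat.card_pos.ne']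
  obtain ⟨hp, pG⟩ := (m p).2 (.inl rfl)
  obtain ⟨hq, qG⟩ := (m q).2 (.inr rfl)
  refine ⟨fun r _ P rG => exponent_eq_of_sq_not_mem Fact.out ?_ P.isPGroup' (P.ne_bot_of_dvd_card rG), ?_⟩
  · rcases (m r).1 ⟨Fact.out, rG⟩ with rfl | rfl
    exacts [(key hp hq hpq pG qG).2, (key hq hp hpq.symm qG pG).2]
  have := PF.isSolvable_of_odd G ho
  have : Nontrivial G := Finite.one_lt_card_iff_nontrivial.1 (hp.one_lt.trans_le (Nat.le_of_dvd Nat.card_pos pG))
  obtain ⟨r, hr, h0⟩ := Core.exists_pCore_inf_ne_bot (G := G) (N := ⊤) inferInstance top_ne_bot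
  rw [inf_top_eq] at h0
  have : Fact r.Prime := ⟨hr⟩
  have rG : r ∣ Nat.card G := ((Core.pCore_isPGroup r G).card_eq_or_dvd.resolve_left
    (mt card_eq_one.1 h0)).trans (card_subgroup_dvd_card _)
  rcases (m r).1 ⟨hr, rG⟩ with rfl | rfl
  · exact exists_frob_prime hq hp hpq.symm (lt hq qG).ne' qG (fun s a b => ((m s).1 ⟨a, b⟩).symm) h0
      (key hq hp hpq.symm qG pG).1 (key hq hp hpq.symm qG pG).2 (key hp hq hpq pG qG).2
  · exact exists_frob_prime hp hq hpq (lt hp pG).ne' pG (fun s a b => (m s).1 ⟨a, b⟩) h0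
      (key hp hq hpq pG qG).1 (key hp hq hpq pG qG).2 (key hq hp hpq.symm qG pG).2

end Cfsg.Lib.FGS
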