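import Cfsg.Agent.Lib.FGS.Nse2
import Cfsg.Agent.Lib.FGS.Count
import Cfsg.Agent.Lib.Small.Recog
import Cfsg.Agent.Lib.T2.Gen

/-!
# Recognition of `A₄`, `A₅`, `A₆` by the numbers of elements of the same order
-/

set_option autoImplicit false

namespace Cfsg.Lib.FGS

open Subgroup Cfsg.Lib.BG Cfsg.Lib.Spec

variable {G : Type*} [Group G] [Finite G] {m n k p q : ℕ}

theorem exists_conj_mem_zpowers (hp : p.Prime) {y x : G} (hy : orderOf y = p ^ k) (h : ¬ p ^ (k + 1) ∣ Nat.card G)
    {j : ℕ} (hx : x ^ p ^ j = 1) : ∃ g : G, x ∈ zpowers (g * y * g⁻¹) := by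
  have := Fact.mk hp
  obtain ⟨P, hP⟩ := (IsPGroup.of_card ((Nat.card_zpowers y).trans hy)).exists_le_sylow
  obtain ⟨Q, hQ⟩ := exists_sylow_mem hx
  obtain ⟨g, rfl⟩ := MulAction.exists_smul_eq G P Q
  obtain ⟨i, hi⟩ := P.2.exists_card_eq
  have e : zpowers y = P := eq_of_le_of_card_ge hP (by
    rw [Nat.card_zpowers, hy, hi]
    exact Nat.pow_le_pow_right hp.pos (by_contra fun h' =>
      h ((pow_dvd_pow p (by omega)).trans (hi ▸ card_subgroup_dvd_card _))))
  rw [Sylow.coe_subgroup_smul, ← e] at hQ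
  obtain ⟨_, ⟨l, rfl⟩, rfl⟩ := hQ
  exact ⟨g, l, by simp⟩

theorem mul_ns_le (hp : p.Prime) (h1 : p ^ (k + 2) ∈ sp G) (h : ¬ p ^ (k + 3) ∣ Nat.card G) :
    p * ns G (p ^ (k + 1)) ≤ ns G (p ^ (k + 2)) := by
  have := Fact.mk hp
  obtain ⟨y, hy⟩ := mem_sp.1 h1
  have o : ∀ x : {g : G // orderOf g = p ^ (k + 1)}, (x : G) ^ p ^ (k + 1) = 1 := fun x =>
    orderOf_dvd_iff_pow_eq_one.1 x.2.dvd
  have key : ∀ x : {g : G // orderOf g = p ^ (k + 1)}, ∃ z : G, z ^ p = x := fun x => by
    have hx := o x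
    obtain ⟨g, hg⟩ := exists_conj_mem_zpowers hp hy h hx
    obtain ⟨i, hi⟩ := mem_powers_iff_mem_zpowers.2 hg
    replace hi : (g * y * g⁻¹) ^ i = x := hi
    rw [← hi, ← pow_mul, ← orderOf_dvd_iff_pow_eq_one, show orderOf (g * y * g⁻¹) = _ from
      (MulAut.conj g).orderOf_eq y, hy, pow_succ', Nat.mul_dvd_mul_iff_right (pow_pos hp.pos _)] at hx
    obtain ⟨l, rfl⟩ := hx
    exact ⟨(g * y * g⁻¹) ^ l, by rw [← pow_mul, mul_comm, hi]⟩
  choose z hz using key
  have e : ∀ (x : {g : G // orderOf g = p ^ (k + 1)}) (i : ℕ), (z x * (x : G) ^ (p ^ k * i)) ^ p = x := fun x i => by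
    rw [((hz x ▸ (Commute.refl (z x)).pow_right p : Commute (z x) x).pow_right _).mul_pow, hz, ← pow_mul,
      mul_right_comm, ← pow_succ, pow_mul, o, one_pow, mul_one]
  have := Nat.card_le_card_of_injective (α := Fin p × {g : G // orderOf g = p ^ (k + 1)})
    (β := {g : G // orderOf g = p ^ (k + 2)}) (fun x => ⟨z x.2 * x.2 ^ (p ^ k * x.1), orderOf_eq_prime_pow
      (fun h => pow_ne_one_of_lt_orderOf (pow_pos hp.pos k).ne' ((Nat.pow_lt_pow_right hp.one_lt
        k.lt_succ_self).trans_eq x.2.2.symm) (by rw [← e x.2 x.1, ← pow_mul, ← pow_succ', h]))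
      (by rw [pow_succ' p (k + 1), pow_mul, e, o])⟩) fun x x' h => by
      replace h := congrArg Subtype.val h
      obtain ⟨i, x⟩ := x
      obtain ⟨i', x'⟩ := x'
      obtain rfl : x = x' := Subtype.ext ((e x i).symm.trans ((congrArg (· ^ p) h).trans (e x' i')))
      have h2 := pow_inj_mod.1 (mul_left_cancel h)
      simp only [x.2] at h2
      rw [pow_succ, Nat.mul_mod_mul_left, Nat.mul_mod_mul_left, Nat.mul_right_inj (pow_pos hp.pos _).ne',
        Nat.mod_eq_of_lt i.2, Nat.mod_eq_of_lt i'.2] at h2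
      rw [Fin.ext h2]
  simpa [ns] using this

theorem ns_dvd_ns_mul (hp : p.Prime) (h : ¬ p ^ 2 ∣ Nat.card G) (hk : ¬ p ∣ k) : ns G p ∣ ns G (p * k) := by
  classical
  have hc := hp.coprime_iff_not_dvd.2 hk
  have hk0 : k ≠ 0 := fun e => hk (e ▸ dvd_zero p)
  let f : {g : G // orderOf g = p * k} → {g : G // orderOf g = p} := fun g =>
    ⟨g ^ k, by rw [orderOf_pow_of_dvd hk0 ((dvd_mul_left k p).trans g.2.symm.dvd), g.2, Nat.mul_div_cancel _ (Nat.pos_of_ne_zero hk0)]⟩
  have key : ∀ x y, Nat.card {g // f g = x} ≤ Nat.card {g // f g = y} := fun x y => by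
    obtain ⟨a, ha⟩ := exists_conj_mem_zpowers hp (k := 1) (x.2.trans (pow_one p).symm) h (j := 1)
      (by rw [pow_one, ← y.2]; exact pow_orderOf_eq_one y.1)
    obtain ⟨i, hi⟩ := mem_powers_iff_mem_zpowers.2 ha
    replace hi : (a * x * a⁻¹) ^ i = y := hi
    have o : ∀ g, orderOf (a * g * a⁻¹) = orderOf g := fun g => (MulAut.conj a).orderOf_eq g
    have hi' : p.Coprime i := hp.coprime_iff_not_dvd.2 fun e => hp.one_lt.ne (by
      rw [← y.2, ← hi, orderOf_dvd_iff_pow_eq_one.1 (by rwa [o, x.2]), orderOf_one])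
    obtain ⟨j, h1, h2⟩ := Nat.chineseRemainder hc i 1
    have hj : (p * k).Coprime j := Nat.Coprime.mul_left (by rw [Nat.Coprime, Nat.gcd_comm, h1.gcd_eq, Nat.gcd_comm, hi'])
      (by rw [Nat.Coprime, Nat.gcd_comm, h2.gcd_eq, Nat.gcd_one_left])
    refine Nat.card_le_card_of_injective (fun g => ⟨⟨(a * g.1 * a⁻¹) ^ j, by
      rw [Nat.Coprime.orderOf_pow (by rwa [o, g.1.2]), o, g.1.2]⟩, Subtype.ext ?_⟩) fun g g' e => ?_
    · show ((a * g.1 * a⁻¹) ^ j) ^ k = y
      rw [← pow_mul, mul_comm j, pow_mul, conj_pow, show g.1.1 ^ k = x from congrArg Subtype.val g.2, ← hi,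
        pow_eq_pow_iff_modEq, o, x.2]
      exact h1
    · replace e : (a * g.1 * a⁻¹) ^ j = (a * g'.1 * a⁻¹) ^ j := congrArg (·.1.1) e
      obtain ⟨l, -, hl⟩ := Nat.exists_mul_mod_eq_of_coprime 1 hj.symm (mul_ne_zero hp.ne_zero hk0)
      have e' : ∀ g : {g : G // orderOf g = p * k}, ((a * g * a⁻¹) ^ j) ^ l = a * g * a⁻¹ := fun g => by
        rw [← pow_mul, pow_eq_pow_iff_modEq.2 (show j * l ≡ 1 [MOD _] by rw [o, g.2]; exact hl), pow_one]
      exact Subtype.ext (Subtype.ext (mul_left_cancel (mul_right_cancel ((e' g.1).symm.trans (e ▸ e' g'.1)))))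
  have := Fintype.ofFinite {g : G // orderOf g = p}
  rw [ns, ns, ← Nat.card_congr (Equiv.sigmaFiberEquiv f), Nat.card_sigma]
  cases isEmpty_or_nonempty {g : G // orderOf g = p} with
  | inl _ => simp
  | inr h =>
    rw [Finset.sum_congr rfl fun x _ => (key x h.some).antisymm (key _ x), Finset.sum_const, Finset.card_univ,
      Nat.card_eq_fintype_card, smul_eq_mul]
    exact dvd_mul_right _ _

theorem ns_dvd_mul_card (hp : p.Prime) (h1 : p ∣ Nat.card G) (h : ¬ p ^ 2 ∣ Nat.card G) :
    ns G p ∣ (p - 1) * Nat.card G := by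
  have := Fact.mk hp
  have e : p ^ (Nat.card G).factorization p = p := by
    rw [le_antisymm (Nat.lt_succ_iff.1 (not_le.1 (mt (hp.pow_dvd_iff_le_factorization Nat.card_pos.ne').2 h)))
      ((hp.dvd_iff_one_le_factorization Nat.card_pos.ne').1 h1), pow_one]
  rw [ns, card_orderOf_eq_prime_mul, Nat.card_congr (β := Sylow p G)
    { toFun := fun C => Sylow.ofCard C.1 (C.2.trans e.symm)
      invFun := fun P => ⟨P, P.card_eq_multiplicity.trans e⟩
      left_inv := fun C => rfl
      right_inv := fun P => Sylow.ext rfl }]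
  exact Nat.mul_dvd_mul_left _ ((default : Sylow p G).card_dvd_index.trans (index_dvd_card _))

theorem card_dvd_mul_ns (hp : p.Prime) (h1 : p ∣ Nat.card G) (h : ¬ p ^ 2 ∣ Nat.card G)
    (h2 : ∀ q, q.Prime → q ≠ p → p * q ∉ sp G) : Nat.card G ∣ p * ns G p := by
  have := Fact.mk hp
  obtain ⟨c, hc⟩ := h1
  rw [hc, ns_eq_ncard]
  refine Nat.mul_dvd_mul_left _ (dvd_ncard_of_classes (fun x => {y | IsConj x y}) (fun x _ => IsConj.refl x)
    (fun x hx y hy => ?_) (fun x _ y hy => Set.ext fun z => ⟨fun h => IsConj.trans hy h, fun h => hy.symm.trans h⟩)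
    fun x hx => ?_)
  · obtain ⟨g, rfl⟩ := isConj_iff.1 hy
    exact ((MulAut.conj g).orderOf_eq x).trans hx
  · obtain ⟨j, hj⟩ : ∃ j, Nat.card 𝐂[x] = p ^ j := ⟨_, Nat.eq_prime_pow_of_unique_prime_dvd Nat.card_pos.ne'
      fun {q} hq hd => by_contra fun e => by
        have := Fact.mk hq
        obtain ⟨y, hy⟩ := exists_prime_orderOf_dvd_card' q hd
        have := mul_mem_sp_of_commute (mem_cent1.1 y.2).symm (by
          rw [hx, orderOf_coe, hy]; exact (Nat.coprime_primes hp hq).2 (Ne.symm e))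
        rw [hx, orderOf_coe, hy] at this
        exact h2 q hq e this⟩
    have h3 := 𝐂[x].card_mul_index
    have h4 : j ≤ 1 := by_contra fun e => h ((pow_dvd_pow p (by omega)).trans (hj ▸ card_subgroup_dvd_card _))
    rw [hj, hc] at h3
    rw [show {y | IsConj x y}.ncard = _ from Inv.card_class_eq_index x]
    exact (Nat.mul_dvd_mul_iff_left hp.pos).1 (h3 ▸ Nat.mul_dvd_mul_right ((pow_dvd_pow p h4).trans (pow_one p).dvd) _)

theorem dvd_of_primes {n : ℕ} (a b c : ℕ) (h : ∀ p, p.Prime → p ∣ n → p = 2 ∨ p = 3 ∨ p = 5) (h2 : ¬ 2 ^ (a + 1) ∣ n)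
    (h3 : ¬ 3 ^ (b + 1) ∣ n) (h5 : ¬ 5 ^ (c + 1) ∣ n) : n ∣ 2 ^ a * 3 ^ b * 5 ^ c := by
  refine (Nat.dvd_iff_prime_pow_dvd_dvd _ _).2 fun p k hp hk => ?_
  rcases k with _ | k
  · simp
  have key : ∀ d, ¬ p ^ (d + 1) ∣ n → p ^ (k + 1) ∣ p ^ d := fun d hd =>
    pow_dvd_pow p (by_contra fun e => hd ((pow_dvd_pow p (by omega)).trans hk))
  rcases h p hp ((dvd_pow_self p k.succ_ne_zero).trans hk) with rfl | rfl | rfl
  · exact ((key a h2).mul_right _).mul_right _
  · exact ((key b h3).mul_left _).mul_right _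
  · exact (key c h5).mul_left _

theorem ns_eq_zero_of_dvd (h : ns G m = 0) (hd : m ∣ n) : ns G n = 0 :=
  ns_eq_zero.2 fun e => ns_eq_zero.1 h (mem_sp_of_dvd e hd)

theorem ns_ne_zero (hp : p.Prime) (h : p ∣ Nat.card G) : ns G p ≠ 0 :=
  fun e => ns_eq_zero.1 e ((prime_mem_sp_iff hp).2 h)

theorem ns_two (h : n ∈ nse G) (ho : Odd n) (h1 : n ≠ 1) : ns G 2 = n ∧ 2 ∣ Nat.card G := by
  obtain ⟨m, hm, rfl⟩ := h
  obtain rfl : m = 2 := by
    have := pos_of_mem_sp hm
    have : m ≠ 1 := fun e => h1 (by rw [e]; exact ns_one)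
    exact by_contra fun e => Nat.not_even_iff_odd.2 ho (even_ns (by omega))
  exact ⟨rfl, dvd_card_of_mem_sp hm⟩

theorem sum_ns_of_dvd (hm : m ≠ 0) (h : Nat.card G ∣ m) : ∑ d ∈ m.divisors, ns G d = Nat.card G :=
  sum_ns_card hm fun g => orderOf_dvd_iff_pow_eq_one.1 ((orderOf_dvd_natCard g).trans h)

theorem frob {m : ℕ} (l : List ℕ) (h : m ∣ Nat.card G) (hl : m.divisors = l.toFinset := by decide)
    (hn : l.Nodup := by decide) : m ∣ (l.map (ns G)).sum := by
  rw [← List.sum_toFinset _ hn, ← hl]; exact dvd_sum_ns h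

theorem total {m : ℕ} (l : List ℕ) (h : ∀ g : G, g ^ m = 1) (hl : m.divisors = l.toFinset := by decide)
    (hn : l.Nodup := by decide) (hm : m ≠ 0 := by decide) : (l.map (ns G)).sum = Nat.card G := by
  rw [← List.sum_toFinset _ hn, ← hl]; exact sum_ns_card hm h

theorem pow_of_dvd (h : Nat.card G ∣ m) (g : G) : g ^ m = 1 :=
  orderOf_dvd_iff_pow_eq_one.1 ((orderOf_dvd_natCard g).trans h)

theorem equiv_four (h : nse G = {1, 3, 8}) : Nonempty (G ≃* alternatingGroup (Fin 4)) := by
  obtain ⟨n2, d2⟩ := ns_two (G := G) (n := 3) (h.ge (by simp)) (by decide) (by decide)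
  have n1 := ns_one (G := G)
  have v : ∀ m, 2 < m → ns G m = 0 ∨ ns G m = 8 := fun m hm => by
    have := even_iff_two_dvd.1 (even_ns (G := G) hm)
    have := ns_mem (G := G) m
    simp only [h, Set.mem_insert_iff, Set.mem_singleton_iff] at this; omega
  have pr : ∀ p, p.Prime → p ∣ Nat.card G → p = 2 ∨ p = 3 := fun p hp hd => or_iff_not_imp_left.2 fun e => by
    have h1 := dvd_one_add_ns hp hd
    rw [(v p (by have := hp.two_le; omega)).resolve_left (ns_ne_zero hp hd)] at h1
    exact (Nat.prime_dvd_prime_iff_eq hp Nat.prime_three).1 (hp.dvd_of_dvd_pow (n := 2) h1)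
  have n9 : ns G 9 = 0 := by have := dvd_ns_of_sq_dvd (G := G) (m := 9) Nat.prime_three dvd_rfl; have := v 9; omega
  have d := dvd_of_primes 2 2 0 (fun p hp hd => (pr p hp hd).imp_right .inl) (fun e => by
    have := frob [1, 2, 4, 8] e; simp only [List.map, List.sum_cons, List.sum_nil] at this
    have := v 4; have := v 8; omega) (fun e => by
    have := pow_dvd_one_add_ns Nat.prime_three (ns_eq_zero.1 n9) e
    have := v 3; omega) fun e => by have := pr 5 Nat.prime_five e; omega
  have d3 : 3 ∣ Nat.card G := by_contra fun e => by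
    obtain ⟨m, -, hm⟩ : 8 ∈ nse G := h.ge (by simp)
    have h1 : Nat.card {g : G // orderOf g = m} ≤ Nat.card G := Finite.card_subtype_le _
    have h2 := Nat.le_of_dvd (by decide) (Nat.Coprime.dvd_of_dvd_mul_right (k := Nat.card G) (n := 3 ^ 2) (m := 4)
      ((Nat.prime_three.coprime_iff_not_dvd.2 e).symm.pow_right 2) d)
    simp only at hm; omega
  have n3 := ns_ne_zero Nat.prime_three d3
  have n6 : ns G 6 = 0 := by
    have := frob [1, 2, 3, 6] (show 6 ∣ Nat.card G by omega); simp only [List.map, List.sum_cons, List.sum_nil] at this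
    have := v 3; have := v 6; omega
  have := total [1, 2, 3, 4, 6, 9, 12, 18, 36] (pow_of_dvd (m := 36) d)
  simp only [List.map, List.sum_cons, List.sum_nil] at this
  have := ns_eq_zero_of_dvd (n := 12) n6 (by decide)
  have := ns_eq_zero_of_dvd (n := 18) n6 (by decide)
  have := ns_eq_zero_of_dvd (n := 36) n6 (by decide)
  refine Small.equiv_alt_four_of_card_twelve (by have := v 3; have := v 4; omega) fun z hz hc => ?_
  obtain ⟨x, hx⟩ := mem_sp.1 ((prime_mem_sp_iff Nat.prime_three).2 d3)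
  have := mul_mem_sp_of_commute (mem_center_iff.1 hc x) (by rw [hx, hz]; decide)
  rw [hx, hz] at this
  exact ns_eq_zero.1 n6 this

theorem equiv_five (h : nse G = {1, 15, 20, 24}) : Nonempty (G ≃* alternatingGroup (Fin 5)) := by
  obtain ⟨n2, d2⟩ := ns_two (G := G) (n := 15) (h.ge (by simp)) (by decide) (by decide)
  have n1 := ns_one (G := G)
  have v : ∀ m, 2 < m → ns G m = 0 ∨ ns G m = 20 ∨ ns G m = 24 := fun m hm => by
    have := even_iff_two_dvd.1 (even_ns (G := G) hm)
    have := ns_mem (G := G) m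
    simp only [h, Set.mem_insert_iff, Set.mem_singleton_iff] at this; omega
  have t := totient_dvd_ns (G := G)
  have pr : ∀ p, p.Prime → p ∣ Nat.card G → p = 2 ∨ p = 3 ∨ p = 5 := fun p hp hd => or_iff_not_imp_left.2 fun e => by
    have h1 := dvd_one_add_ns hp hd
    have h2 := t p
    rw [Nat.totient_prime hp] at h2
    rcases (v p (by have := hp.two_le; omega)).resolve_left (ns_ne_zero hp hd) with h3 | h3 <;> rw [h3] at h1 h2 <;>
      have := Nat.le_of_dvd (by decide) h1 <;> interval_cases p <;> simp_all (decide := true)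
  have n3 : 3 ∣ Nat.card G → ns G 3 = 20 := fun e => by have := dvd_one_add_ns Nat.prime_three e; have := v 3; omega
  have n5 : 5 ∣ Nat.card G → ns G 5 = 24 := fun e => by have := dvd_one_add_ns Nat.prime_five e; have := v 5; omega
  have d9 : ¬ 3 ^ 2 ∣ Nat.card G := fun e => by
    have n3 := n3 (by omega)
    have n9 : ns G 9 = 24 := by
      have := frob [1, 3, 9] e; simp only [List.map, List.sum_cons, List.sum_nil] at this; have := v 9; omega
    have := mul_ns_le (G := G) (k := 0) Nat.prime_three (not_not.1 fun e => by have : ns G _ = 0 := ns_eq_zero.2 e; norm_num at this; omega)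
      fun e => by
        have := frob [1, 3, 9, 27] e; simp only [List.map, List.sum_cons, List.sum_nil] at this; have := v 27; omega
    simp at this; omega
  have d25 : ¬ 5 ^ 2 ∣ Nat.card G := fun e => by
    have n5 := n5 (by omega)
    have n25 : ns G 25 = 0 := by
      have := frob [1, 5, 25] e; simp only [List.map, List.sum_cons, List.sum_nil] at this; have := v 25; omega
    have := ns_eq_zero_of_dvd (n := 50) n25 (by decide)
    have := frob [1, 2, 5, 10, 25, 50] (show 50 ∣ Nat.card G by omega); simp only [List.map, List.sum_cons, List.sum_nil] at this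
    have := v 10; omega
  have d35 : 3 ∣ Nat.card G ↔ 5 ∣ Nat.card G :=
    ⟨fun e => by have := ns_dvd_mul_card Nat.prime_three e d9; rw [n3 e] at this; omega,
      fun e => by have := ns_dvd_mul_card Nat.prime_five e d25; rw [n5 e] at this; omega⟩
  have d3 : 3 ∣ Nat.card G := by_contra fun e => by
    have h1 : ∀ g : G, g ^ 16 = 1 := fun g => orderOf_dvd_iff_pow_eq_one.1 (dvd_of_primes 4 0 0
      (fun p hp hd => pr p hp (hd.trans (orderOf_dvd_natCard g))) (fun e => (ns_eq_zero (m := 32)).1 (by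
        have := t 32; have := v 32; rw [show Nat.totient 32 = 16 by decide] at *; omega) (mem_sp_of_dvd_orderOf g e))
      (fun e' => e (e'.trans (orderOf_dvd_natCard g))) fun e' => e (d35.2 (e'.trans (orderOf_dvd_natCard g))))
    obtain ⟨_, ⟨g, rfl⟩, hm⟩ : 20 ∈ nse G := h.ge (by simp)
    replace hm : ns G (orderOf g) = 20 := hm
    have h2 := Nat.mem_divisors.2 ⟨orderOf_dvd_of_pow_eq_one (h1 g), by decide⟩
    have := total [1, 2, 4, 8, 16] h1; simp only [List.map, List.sum_cons, List.sum_nil] at this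
    have := t 16; have := v 4; have := v 8; have := v 16
    have := mt d35.2 e
    have := mt (pr 7 (by decide)) (by decide)
    rw [show Nat.totient 16 = 8 by decide] at *
    simp only [show (16).divisors = {1, 2, 4, 8, 16} by decide, Finset.mem_insert, Finset.mem_singleton] at h2
    rcases h2 with h2 | h2 | h2 | h2 | h2 <;> rw [h2] at hm <;> omega
  have d5 := d35.1 d3
  replace n3 := n3 d3
  replace n5 := n5 d5
  have d := card_dvd_mul_ns Nat.prime_three d3 d9 fun q hq hq3 e => by
    rcases pr q hq ((dvd_mul_left q 3).trans (dvd_card_of_mem_sp e)) with rfl | rfl | rfl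
    · have : 20 ∣ ns G 6 := n3 ▸ ns_dvd_ns_mul (k := 2) Nat.prime_three d9 (by decide)
      have := frob [1, 2, 3, 6] (show 6 ∣ Nat.card G by omega); simp only [List.map, List.sum_cons, List.sum_nil] at this
      have := v 6; have := mt (ns_eq_zero (m := 6)).1 (not_not.2 e); omega
    · exact hq3 rfl
    · have := frob [1, 3, 5, 15] (show 15 ∣ Nat.card G by omega); simp only [List.map, List.sum_cons, List.sum_nil] at this
      have := v 15; have := mt (ns_eq_zero (m := 15)).1 (not_not.2 e); omega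
  rw [n3] at d
  have s := total [1, 2, 3, 4, 5, 6, 10, 12, 15, 20, 30, 60] (pow_of_dvd d)
  have := Nat.le_of_dvd (by decide) d
  simp at s
  refine Small.equiv_alt_five_of_orders (by omega) fun g => ?_
  have h2 := Nat.mem_divisors.2 ⟨(orderOf_dvd_natCard g).trans d, by decide⟩
  have h3 := mt ns_eq_zero.1 (not_not.2 (orderOf_mem_sp g))
  simp only [show (3 * 20).divisors = {1, 2, 3, 4, 5, 6, 10, 12, 15, 20, 30, 60} by decide, Finset.mem_insert,
    Finset.mem_singleton] at h2
  rcases h2 with h2 | h2 | h2 | h2 | h2 | h2 | h2 | h2 | h2 | h2 | h2 | h2 <;> rw [h2] at h3 ⊢ <;> omega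

theorem mem_of_pow_coprime {N : Subgroup G} [N.Normal] {g : G} (hg : g ^ n = 1) (h : n.Coprime N.index) : g ∈ N :=
  zpowers_le.2 (N.pow_index_mem g) (mem_zpowers_pow_iff.2
    (Nat.Coprime.coprime_dvd_right (orderOf_dvd_of_pow_eq_one hg) h.symm))

theorem card_six (h : nse G = {1, 45, 80, 90, 144}) : Nat.card G = 360 ∧ ns G 3 = 80 ∧ ns G 5 = 144 ∧
    ns G 10 = 0 ∧ ns G 15 = 0 := by
  obtain ⟨n2, d2⟩ := ns_two (G := G) (n := 45) (h.ge (by simp)) (by decide) (by decide)
  have n1 := ns_one (G := G)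
  have v : ∀ m, 2 < m → ns G m = 0 ∨ ns G m = 80 ∨ ns G m = 90 ∨ ns G m = 144 := fun m hm => by
    have := even_iff_two_dvd.1 (even_ns (G := G) hm)
    have := ns_mem (G := G) m
    simp only [h, Set.mem_insert_iff, Set.mem_singleton_iff] at this; omega
  have t := totient_dvd_ns (G := G)
  have n7 : ¬ 7 ∣ Nat.card G := fun e => by
    have n7 : ns G 7 = 90 := by have := dvd_one_add_ns (by decide) e; have := v 7; omega
    have : 90 ∣ ns G 14 := n7 ▸ ns_dvd_ns_mul (G := G) (p := 7) (k := 2) (by decide) (fun e => by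
      have := frob [1, 7, 49] e; simp only [List.map, List.sum_cons, List.sum_nil] at this; have := v 49; omega) (by decide)
    have := frob [1, 2, 7, 14] (show 14 ∣ Nat.card G by omega); simp only [List.map, List.sum_cons, List.sum_nil] at this
    have := v 14; omega
  have pr : ∀ p, p.Prime → p ∣ Nat.card G → p = 2 ∨ p = 3 ∨ p = 5 := fun p hp hd => or_iff_not_imp_left.2 fun e => by
    have h1 := dvd_one_add_ns hp hd
    have h2 := t p
    have h0 : p ≠ 7 := fun e => n7 (e ▸ hd)
    rw [Nat.totient_prime hp] at h2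
    rcases (v p (by have := hp.two_le; omega)).resolve_left (ns_ne_zero hp hd) with h3 | h3 | h3 <;> rw [h3] at h1 h2
    · exact .inl ((Nat.prime_dvd_prime_iff_eq hp Nat.prime_three).1 (hp.dvd_of_dvd_pow (n := 4) h1))
    · rcases (Nat.Prime.dvd_mul hp).1 (show p ∣ 7 * 13 from h1) with h | h <;>
        rw [Nat.prime_dvd_prime_iff_eq hp (by decide)] at h <;> subst h <;> omega
    · rcases (Nat.Prime.dvd_mul hp).1 (show p ∣ 5 * 29 from h1) with h | h <;>
        rw [Nat.prime_dvd_prime_iff_eq hp (by decide)] at h <;> subst h <;> omega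
  have n3 : 3 ∣ Nat.card G → ns G 3 = 80 := fun e => by have := dvd_one_add_ns Nat.prime_three e; have := v 3; omega
  have n4 : 4 ∣ Nat.card G → ns G 4 = 90 := fun e => by have := ns_four e; have := v 4; omega
  have n5 : 5 ∣ Nat.card G → ns G 5 = 144 := fun e => by have := dvd_one_add_ns Nat.prime_five e; have := v 5; omega
  have t8 : 4 ∣ ns G 8 := t 8
  have d16 : ¬ 2 ^ 4 ∣ Nat.card G := fun e => by
    have := n4 (by omega)
    have : 8 ∣ ns G 16 := t 16
    have := frob [1, 2, 4, 8, 16] e; simp only [List.map, List.sum_cons, List.sum_nil] at this; have := v 8; have := v 16; omega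
  have d25 : ¬ 5 ^ 2 ∣ Nat.card G := fun e => by
    have n5 := n5 (by omega)
    have n25 : ns G 25 = 80 := by
      have := frob [1, 5, 25] e; simp only [List.map, List.sum_cons, List.sum_nil] at this; have := v 25; omega
    have := mul_ns_le (G := G) (k := 0) Nat.prime_five (not_not.1 fun e => by have : ns G _ = 0 := ns_eq_zero.2 e; norm_num at this; omega)
      fun e => by
        have := frob [1, 5, 25, 125] e; simp only [List.map, List.sum_cons, List.sum_nil] at this; have := v 125; omega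
    simp at this; omega
  have big : 144 ≤ Nat.card G := by
    obtain ⟨m, -, hm⟩ : 144 ∈ nse G := h.ge (by simp)
    exact hm.ge.trans (Finite.card_subtype_le _)
  have d5 : 5 ∣ Nat.card G := by_contra fun e => by
    have d3 : 3 ^ 3 ∣ Nat.card G := by_contra fun e' => by
      have := Nat.le_of_dvd (by decide) (dvd_of_primes 3 2 0 pr d16 e' e); omega
    have n3 := n3 (by omega)
    have n9 : ns G 9 = 0 := by
      have : 18 ∣ ns G 27 := t 27
      have := frob [1, 3, 9, 27] d3; simp only [List.map, List.sum_cons, List.sum_nil] at this; have := v 9; have := v 27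
      have := (ns_eq_zero_of_dvd (G := G) (m := 9) (n := 27) · (by decide))
      omega
    have d := dvd_of_primes 3 4 0 pr d16 (fun e => by
      have := pow_dvd_one_add_ns Nat.prime_three (ns_eq_zero.1 n9) e; omega) e
    have n8 : ns G 8 = 0 := by_contra fun e => by
      have h8 := not_not.1 (mt ns_eq_zero.2 e)
      have : 2 * ns G 4 ≤ ns G 8 := mul_ns_le (G := G) (k := 1) Nat.prime_two h8 d16
      have := n4 ((show 4 ∣ 8 by decide).trans (dvd_card_of_mem_sp h8))
      have := v 8; omega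
    have h1 : ∀ g : G, g ^ 12 = 1 := fun g => orderOf_dvd_iff_pow_eq_one.1 (dvd_of_primes 2 1 0
      (fun p hp hd => pr p hp (hd.trans (orderOf_dvd_natCard g)))
      (fun e => ns_eq_zero.1 n8 (mem_sp_of_dvd_orderOf g e)) (fun e => ns_eq_zero.1 n9 (mem_sp_of_dvd_orderOf g e))
      fun e' => e (e'.trans (orderOf_dvd_natCard g)))
    have := total [1, 2, 3, 4, 6, 12] h1; simp only [List.map, List.sum_cons, List.sum_nil] at this
    have := v 4; have := v 6; have := v 12
    obtain ⟨_, ⟨g, rfl⟩, hm⟩ : 144 ∈ nse G := h.ge (by simp)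
    replace hm : ns G (orderOf g) = 144 := hm
    have h2 := Nat.mem_divisors.2 ⟨orderOf_dvd_of_pow_eq_one (h1 g), by decide⟩
    simp only [show (12).divisors = {1, 2, 3, 4, 6, 12} by decide, Finset.mem_insert, Finset.mem_singleton] at h2
    have h4 : ¬ 4 ∣ Nat.card G → ns G 4 = 0 := fun e => ns_eq_zero.2 (mt dvd_card_of_mem_sp e)
    have h5 : ns G 6 = 144 ∨ ns G 12 = 144 := by
      rcases h2 with h2 | h2 | h2 | h2 | h2 | h2 <;> rw [h2] at hm <;> omega
    have h6 : Nat.card G = 126 + ns G 4 + ns G 6 + ns G 12 := by omega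
    have h7 : ns G 6 ≤ 144 ∧ ns G 12 ≤ 144 := by omega
    obtain ⟨c, hc⟩ := d3
    have h3 : c ∣ 24 := Nat.dvd_of_mul_dvd_mul_left (by decide) (show 3 ^ 3 * c ∣ 3 ^ 3 * 24 from hc ▸ d)
    have := Nat.le_of_dvd (by decide) h3
    rw [hc] at h4 h6 n4
    clear * - this h3 h4 h5 h6 h7 n4
    interval_cases c <;> omega
  replace n5 := n5 d5
  have d36 : 36 ∣ Nat.card G := by have := ns_dvd_mul_card Nat.prime_five d5 d25; rw [n5] at this; omega
  replace n3 := n3 (by omega)
  replace n4 := n4 (by omega)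
  have n10 : ns G 10 = 0 := by
    have : 144 ∣ ns G 10 := n5 ▸ ns_dvd_ns_mul (k := 2) Nat.prime_five d25 (by decide)
    have := frob [1, 2, 5, 10] (show 10 ∣ Nat.card G by omega); simp only [List.map, List.sum_cons, List.sum_nil] at this
    have := v 10; omega
  have n15 : ns G 15 = 0 := by
    have : 144 ∣ ns G 15 := n5 ▸ ns_dvd_ns_mul (k := 3) Nat.prime_five d25 (by decide)
    have := frob [1, 3, 5, 15] (show 15 ∣ Nat.card G by omega); simp only [List.map, List.sum_cons, List.sum_nil] at this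
    have := v 15; omega
  have d := card_dvd_mul_ns Nat.prime_five d5 d25 fun q hq hq5 e => by
    rcases pr q hq ((dvd_mul_left q 5).trans (dvd_card_of_mem_sp e)) with rfl | rfl | rfl
    exacts [ns_eq_zero.1 n10 e, ns_eq_zero.1 n15 e, hq5 rfl]
  rw [n5] at d
  refine ⟨?_, n3, n5, n10, n15⟩
  have s := total [1, 2, 3, 4, 5, 6, 9, 10, 12, 15, 18, 20, 30, 36, 45, 60, 90, 180] (m := 180) (G := G)
    (hl := by decide +kernel)
  have := Nat.le_of_dvd (by decide) d
  by_contra e
  have e' : Nat.card G = 180 := by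
    obtain ⟨c, hc⟩ : 180 ∣ Nat.card G := by omega
    rw [hc] at d this d16 e ⊢
    have : c ≤ 4 := by omega
    interval_cases c <;> omega
  have := s (pow_of_dvd e'.dvd)
  simp at this; omega

theorem equiv_six (h : nse G = {1, 45, 80, 90, 144}) : Nonempty (G ≃* alternatingGroup (Fin 6)) := by
  obtain ⟨hc, n3, n5, n10, n15⟩ := card_six h
  have : Nontrivial G := Finite.one_lt_card_iff_nontrivial.1 (by omega)
  have : IsSimpleGroup G := ⟨fun N hN => by_contra fun e => by
    have h1 := N.card_mul_index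
    rw [not_or] at e
    by_cases d : 5 ∣ Nat.card N
    · have key : ∀ n, n.Coprime N.index → Nat.card {g : G // g ^ n = 1} ≤ Nat.card N := fun n hn =>
        Nat.card_le_card_of_injective (fun g => ⟨g, mem_of_pow_coprime g.2 hn⟩) fun _ _ e =>
          Subtype.ext (congrArg (fun x : N => (x : G)) e)
      have h2 := key 5 (Nat.prime_five.coprime_iff_not_dvd.2 fun e => by
        have := Nat.mul_dvd_mul d e; omega)
      rw [← sum_ns (by decide), show Nat.divisors 5 = {1, 5} by decide] at h2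
      simp [ns_one] at h2
      have h3 : N.index = 2 := by
        have := mt index_eq_one.1 e.2
        have : N.index < 3 := by nlinarith
        have := N.index_ne_zero_of_finite
        omega
      have h4 := key 15 (by rw [h3]; decide)
      rw [← sum_ns (by decide), show Nat.divisors 15 = {1, 3, 5, 15} by decide] at h4
      simp [ns_one] at h4
      rw [h3] at h1; omega
    have d' : Nat.card N ∣ 2 ^ 3 * 3 ^ 2 := (Nat.prime_five.coprime_iff_not_dvd.2 d).symm.dvd_of_dvd_mul_right
      (show Nat.card N ∣ 360 from hc ▸ card_subgroup_dvd_card N)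
    obtain ⟨q, hq, h0⟩ := Core.exists_pCore_inf_ne_bot (Char.isSolvable_of_card_dvd_pow_mul_pow N Nat.prime_two
      Nat.prime_three d') e.1
    have := Fact.mk hq
    have := Fact.mk Nat.prime_five
    obtain ⟨j, hj⟩ := ((Core.pCore_isPGroup q G).to_inf_left (K := N)).exists_card_eq
    obtain ⟨x, hx⟩ := exists_prime_orderOf_dvd_card' (G := G) 5 (by omega)
    have d'' := (card_dvd_of_le (inf_le_right : pCore q G ⊓ N ≤ N)).trans d'
    have h2 := Frobenius.card_dvd_card_sub_one_of_fpf (K := pCore q G ⊓ N) (H := zpowers x) le_normalizer_of_normal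
      fun y hy hy1 => eq_bot_iff.2 fun z hz => by_contra fun hz1 => by
        obtain ⟨r, hr, hd⟩ := Nat.exists_prime_and_dvd (mt orderOf_eq_one_iff.1 hz1)
        have k1 : orderOf y = 5 := ((Nat.dvd_prime Nat.prime_five).1 (hx ▸ orderOf_dvd_of_mem_zpowers hy)).resolve_left
          (mt orderOf_eq_one_iff.1 hy1)
        have k2 := (orderOf_dvd_natCard (⟨z, hz.1⟩ : ↥(pCore q G ⊓ N))).trans d''
        rw [← orderOf_coe] at k2
        have k3 := mul_mem_sp_of_commute (mem_centralizer_singleton_iff.1 hz.2).symm (by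
          rw [k1]; exact Nat.Coprime.coprime_dvd_right k2 (by decide))
        have k4 := mem_sp_of_dvd k3 (Nat.mul_dvd_mul k1.symm.dvd hd)
        rcases (Nat.Prime.dvd_mul hr).1 (hd.trans k2) with k | k
        · rw [(Nat.prime_dvd_prime_iff_eq hr Nat.prime_two).1 (hr.dvd_of_dvd_pow k)] at k4
          exact ns_eq_zero.1 n10 k4
        · rw [(Nat.prime_dvd_prime_iff_eq hr Nat.prime_three).1 (hr.dvd_of_dvd_pow k)] at k4
          exact ns_eq_zero.1 n15 k4
    rw [Nat.card_zpowers, hx] at h2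
    have h3 := one_lt_card_iff_ne_bot _ |>.2 h0
    have h4 : 6 ∣ q ^ j := by
      have := Nat.le_of_dvd (by decide) d''
      rw [← hj]
      generalize Nat.card ↥(pCore q G ⊓ N) = a at *
      interval_cases a <;> omega
    have := (Nat.prime_dvd_prime_iff_eq Nat.prime_two hq).1 (Nat.prime_two.dvd_of_dvd_pow (dvd_trans (by decide) h4))
    have := (Nat.prime_dvd_prime_iff_eq Nat.prime_three hq).1
      (Nat.prime_three.dvd_of_dvd_pow (dvd_trans (by decide) h4))
    omega⟩
  have := alternatingGroup.isSimpleGroup (α := Fin 6) (by simp)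
  exact T2.nonempty_equiv_of_simple (.inr hc) (by rw [hc, nat_card_alternatingGroup, Nat.card_fin]; rfl)

end Cfsg.Lib.FGS
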