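import Mathlib

/-!
# An irreducible cyclic `2`-group inverted modulo squares lives in dimension at most `2`
-/

set_option autoImplicit false

namespace Cfsg.Lib.FGS.OrbEq

open Module

universe v

variable {q : ℕ} [hq : Fact q.Prime]

theorem finrank_le_two_of_field {L : Type*} [Field L] [Finite L] [Algebra (ZMod q) L] {x : L}
    (hx : Algebra.adjoin (ZMod q) {x} = ⊤) (σ : L →ₐ[ZMod q] L) {k m : ℕ} (hm : 2 ≤ m)
    (ho : orderOf x = 2 ^ m) (hσ : σ x = x ^ k) (hk : k % 4 = 3) (hk2 : x ^ (k * k) = x) :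
    finrank (ZMod q) L ≤ 2 := by
  obtain ⟨j, hj⟩ := (FiniteField.bijective_frobeniusAlgHom_pow (ZMod q) L).2 σ
  have hp : ∀ (n : ℕ) (y : L), (FiniteField.frobeniusAlgHom (ZMod q) L ^ n) y = y ^ q ^ n := by
    intro n y
    rw [AlgHom.coe_pow, FiniteField.coe_frobeniusAlgHom, pow_iterate, ZMod.card]
  have h1 : x ^ q ^ j.1 = x ^ k := by rw [← hσ, ← hj, hp]
  have hfin : IsOfFinOrder x := orderOf_pos_iff.1 (by rw [ho]; positivity)
  have h2 : q ^ j.1 ≡ k [MOD 2 ^ m] := by rw [← ho]; exact hfin.pow_eq_pow_iff_modEq.1 h1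
  have h3 : k * k ≡ 1 [MOD 2 ^ m] := by
    rw [← ho]; exact hfin.pow_eq_pow_iff_modEq.1 (by rw [hk2, pow_one])
  have h4 : q ^ j.1 % 4 = 3 := by
    have := h2.of_dvd (show 4 ∣ 2 ^ m from pow_dvd_pow 2 hm)
    unfold Nat.ModEq at this
    omega
  have hj2 : Odd j.1 := by
    by_contra h
    obtain ⟨i, hi⟩ := Nat.not_odd_iff_even.1 h
    rw [hi, pow_add, Nat.mul_mod] at h4
    have : q ^ i % 4 < 4 := Nat.mod_lt _ (by norm_num)
    interval_cases q ^ i % 4 <;> simp at h4
  have hqo : q.Coprime (2 ^ m) := by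
    refine Nat.Coprime.pow_right _ (Nat.coprime_two_right.2 ?_)
    refine (Nat.odd_pow_iff hj2.pos.ne').1 (Nat.odd_iff.2 (by omega))
  have h5 : ((q : ZMod (2 ^ m)) ^ 2) = 1 := by
    have a1 : ((q : ZMod (2 ^ m)) ^ 2) ^ j.1 = 1 := by
      have := (ZMod.natCast_eq_natCast_iff _ _ _).2 ((h2.mul h2).trans h3)
      push_cast at this
      rw [← this]; ring
    have a2 : ((q : ZMod (2 ^ m)) ^ 2) ^ (2 ^ (m - 1)) = 1 := by
      have := (ZMod.natCast_eq_natCast_iff _ _ _).2 (Nat.ModEq.pow_totient hqo)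
      rw [Nat.totient_prime_pow Nat.prime_two (by omega)] at this
      push_cast at this
      rw [mul_one] at this
      rw [← pow_mul, mul_comm, pow_mul, this, one_pow]
    have := pow_gcd_eq_one.2 ⟨a1, a2⟩
    rwa [(Nat.Coprime.pow_right _ (Nat.coprime_two_right.2 hj2)).gcd_eq_one, pow_one]
      at this
  have h6 : x ^ q ^ 2 = x := by
    conv_rhs => rw [← pow_one x]
    refine hfin.pow_eq_pow_iff_modEq.2 ?_
    rw [ho, ← ZMod.natCast_eq_natCast_iff]
    push_cast
    exact h5
  have h7 : FiniteField.frobeniusAlgHom (ZMod q) L ^ 2 = 1 := by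
    refine AlgHom.ext_of_adjoin_eq_top hx ?_
    rintro _ rfl
    rw [hp, h6]; rfl
  rw [← FiniteField.orderOf_frobeniusAlgHom]
  exact Nat.le_of_dvd two_pos (orderOf_dvd_of_pow_eq_one h7)

variable {V : Type v} [AddCommGroup V] [Module (ZMod q) V] [Finite V]

theorem finrank_le_two [Nontrivial V] {α β β' : End (ZMod q) V} (h1 : β * β' = 1) (h2 : β' * β = 1)
    {k m : ℕ} (hm : 2 ≤ m) (ho : orderOf α = 2 ^ m) (hσ : β * α * β' = α ^ k) (hk : k % 4 = 3)
    (hk2 : α ^ (k * k) = α)
    (irr : ∀ U : Submodule (ZMod q) V, (∀ u ∈ U, α u ∈ U) → U = ⊥ ∨ U = ⊤) :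
    finrank (ZMod q) V ≤ 2 := by
  classical
  let R := Algebra.adjoin (ZMod q) {α}
  have hα : α ∈ R := Algebra.subset_adjoin rfl
  haveI : Finite (End (ZMod q) V) := DFunLike.finite _
  have hc : ∀ f ∈ R, f * α = α * f := fun f hf => setLike_mul_comm (s := R) hf hα
  letI : CommRing R := { (inferInstance : Ring R) with
    mul_comm := fun a b => Subtype.ext (setLike_mul_comm (s := R) a.2 b.2) }
  have hinj : ∀ f ∈ R, f ≠ 0 → ∀ v, f v = 0 → v = 0 := by
    intro f hf h0 v hv
    rcases irr (LinearMap.ker f) (fun u hu => by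
      rw [LinearMap.mem_ker, ← End.mul_apply, hc f hf, End.mul_apply, LinearMap.mem_ker.1 hu,
        map_zero]) with h | h
    · exact (Submodule.eq_bot_iff _).1 h v hv
    · exact absurd (LinearMap.ker_eq_top.1 h) h0
  haveI : NoZeroDivisors R := ⟨fun {a b} h => by
    by_cases ha : a = 0
    · exact Or.inl ha
    refine Or.inr (Subtype.ext (LinearMap.ext fun v => hinj a a.2 (fun e => ha (Subtype.ext e)) _ ?_))
    exact congrArg (fun f : R => (f : End (ZMod q) V) v) h⟩
  haveI : IsDomain R := NoZeroDivisors.to_isDomain R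
  letI : Field R := (Finite.isField_of_domain R).toField
  let φ : End (ZMod q) V →ₐ[ZMod q] End (ZMod q) V :=
    { toFun := fun f => β * f * β'
      map_one' := by rw [mul_one, h1]
      map_mul' := fun f g => by
        rw [show β * f * β' * (β * g * β') = β * f * (β' * β) * g * β' by noncomm_ring, h2]
        noncomm_ring
      map_zero' := by simp
      map_add' := fun f g => by noncomm_ring
      commutes' := fun r => by rw [← Algebra.commutes r β, mul_assoc, h1, mul_one] }
  have hφ : R ≤ R.comap φ := Algebra.adjoin_le (by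
    rintro y hy
    rw [Set.mem_singleton_iff.1 hy]
    change β * α * β' ∈ R
    rw [hσ]; exact pow_mem hα _)
  let σ : R →ₐ[ZMod q] R := (φ.comp R.val).codRestrict R fun x => hφ x.2
  have hR : finrank (ZMod q) R ≤ 2 := by
    refine finrank_le_two_of_field (x := ⟨α, hα⟩) ?_ σ hm ?_ (Subtype.ext hσ) hk (Subtype.ext hk2)
    · have := Algebra.adjoin_adjoin_coe_preimage (R := ZMod q) (s := {α})
      rw [← this]
      congr 1
      ext y
      simp [Subtype.ext_iff]
    · rw [← ho]
      exact (orderOf_injective R.val.toMonoidHom Subtype.val_injective _).symm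
  obtain ⟨v, hv⟩ := exists_ne (0 : V)
  let ev : R →ₗ[ZMod q] V := (LinearMap.applyₗ v).comp R.val.toLinearMap
  rcases irr (LinearMap.range ev) (by
    rintro _ ⟨f, rfl⟩
    exact ⟨⟨α, hα⟩ * f, rfl⟩) with h | h
  · exact absurd ((Submodule.eq_bot_iff _).1 h v ⟨1, rfl⟩) hv
  · haveI : Module.Finite (ZMod q) R := Module.Finite.of_finite
    exact (LinearMap.finrank_le_finrank_of_surjective (LinearMap.range_eq_top.1 h)).trans hR

theorem unip_of_det (hV : finrank (ZMod q) V ≤ 2) {f : End (ZMod q) V} (hd : LinearMap.det f = 1)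
    {v : V} (hv : v ≠ 0) (hf : f v = v) (u : V) : f (f u - u) = f u - u := by
  haveI : Module.Finite (ZMod q) V := Module.Finite.of_finite
  by_cases h : ∀ w, ∃ c : ZMod q, c • v = w
  · obtain ⟨c, hc⟩ := h (f u - u)
    rw [← hc, map_smul, hf]
  push Not at h
  obtain ⟨w, hw⟩ := h
  have hl : LinearIndependent (ZMod q) ![v, w] := (LinearIndependent.pair_iff' hv).2 hw
  have h2 : Fintype.card (Fin 2) = finrank (ZMod q) V := le_antisymm hl.fintype_card_le_finrank
    (by simpa using hV)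
  let B := basisOfLinearIndependentOfCardEqFinrank hl h2
  have b0 : B 0 = v := by simp [B]
  have e : ∀ x, x = B.repr x 0 • B 0 + B.repr x 1 • B 1 := fun x => by
    conv_lhs => rw [← B.sum_repr x, Fin.sum_univ_two]
  rw [← LinearMap.det_toMatrix B, Matrix.det_fin_two] at hd
  simp only [LinearMap.toMatrix_apply] at hd
  rw [b0, hf, ← b0] at hd
  simp only [Basis.repr_self, Finsupp.single_eq_same, one_mul, ne_eq, one_ne_zero,
    not_false_eq_true, Finsupp.single_eq_of_ne, mul_zero, sub_zero] at hd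
  have e1 := e (f (B 1))
  rw [hd, one_smul] at e1
  have : f u - u = (B.repr u 1 * B.repr (f (B 1)) 0) • v := by
    conv_lhs => rw [e u, map_add, map_smul, map_smul, e1, b0, hf]
    module
  rw [this, map_smul, hf]

end Cfsg.Lib.FGS.OrbEq
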