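import Cfsg.Agent.Lib.FGS.ClassSize2
import Cfsg.Agent.Lib.FGS.ClassFour
import Cfsg.Agent.Lib.FGS.OrbField
import Cfsg.Agent.Lib.PGroup.RankOne
import Cfsg.Agent.Lib.Inv.SylowTwo
import Cfsg.Agent.Lib.Coprime.Nilpotent

/-!
# A coprime linear group all of whose orbits have `p`-power length is solvable
-/

set_option autoImplicit false

namespace Cfsg.Lib.FGS.OrbEq

open Subgroup Cfsg.Lib Cfsg.Lib.BG Module
open scoped commutatorElement

universe u v

variable {q : ℕ} [hq : Fact q.Prime]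
variable {V : Type v} [AddCommGroup V] [Module (ZMod q) V] [Finite V]
variable {H : Type u} [Group H] [Finite H]

/-- The stabilizer of a vector. -/
def st (ρ : H →* End (ZMod q) V) (v : V) : Subgroup H where
  carrier := {h | ρ h v = v}
  mul_mem' {a b} ha hb := by
    change ρ (a * b) v = v
    rw [map_mul, End.mul_apply, hb, ha]
  one_mem' := by change ρ 1 v = v; rw [map_one]; rfl
  inv_mem' {a} ha := by
    change ρ a⁻¹ v = v
    conv_lhs => rw [← ha, ← End.mul_apply, ← map_mul, inv_mul_cancel, map_one]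
    rfl

/-- The elements mapping a set of vectors into itself. -/
def pres (ρ : H →* End (ZMod q) V) (X : Set V) : Subgroup H where
  carrier := {h | ∀ x ∈ X, ρ h x ∈ X}
  mul_mem' {a b} ha hb x hx := by rw [map_mul]; exact ha _ (hb x hx)
  one_mem' x hx := by rw [map_one]; exact hx
  inv_mem' {a} ha := by
    have : ∀ n : ℕ, ∀ x ∈ X, ρ (a ^ n) x ∈ X := fun n => by
      induction n with
      | zero => intro x hx; rw [pow_zero, map_one]; exact hx
      | succ n ih => intro x hx; rw [pow_succ', map_mul]; exact ha _ (ih x hx)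
    have e : a⁻¹ = a ^ (orderOf a - 1) := inv_eq_of_mul_eq_one_right (by
      rw [← pow_succ', Nat.sub_add_cancel (orderOf_pos a), pow_orderOf_eq_one])
    rw [e]; exact this _

omit [Finite V] [Finite H] in
theorem inv_apply (ρ : H →* End (ZMod q) V) (h : H) (v : V) : ρ h (ρ h⁻¹ v) = v := by
  rw [← End.mul_apply, ← map_mul, mul_inv_cancel, map_one]; rfl

/-- A minimal counterexample. -/
structure OE (ρ : H →* End (ZMod q) V) : Prop where
  perf : commutator H = ⊤
  cop : ¬ q ∣ Nat.card H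
  inj : ∀ h, ρ h = 1 → h = 1
  idx : ∀ v, ∃ a, (st ρ v).index = 2 ^ a
  ind : ∀ W : Submodule (ZMod q) V, (∀ h, ∀ w ∈ W, ρ h w ∈ W) → W ≠ ⊤ → ∀ h, ∀ w ∈ W, ρ h w = w
  nt : Nontrivial H

namespace OE

variable {ρ : H →* End (ZMod q) V} (h : OE ρ)
include h

omit [Finite V] [Finite H] in
theorem not_solvable : ¬ Group.IsSolvable H := fun hs => by
  haveI := h.nt
  exact (Group.IsSolvable.commutator_lt_top_of_nontrivial H).ne h.perf

omit [Finite V] in
theorem eq_one_of_unip {g : H} (e : ∀ u, ρ g (ρ g u - u) = ρ g u - u) : g = 1 := by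
  have h1 : ∀ (n : ℕ) u, ρ (g ^ n) u = u + n • (ρ g u - u) := fun n u => by
    induction n with
    | zero => simp
    | succ n ih => rw [pow_succ', map_mul, End.mul_apply, ih, map_add, map_nsmul, e, succ_nsmul]; abel
  have h2 : g ^ q = 1 := h.inj _ (LinearMap.ext fun u => by
    rw [h1, ← Nat.cast_smul_eq_nsmul (ZMod q), ZMod.natCast_self, zero_smul, add_zero]; rfl)
  rcases (Nat.dvd_prime hq.out).1 (orderOf_dvd_of_pow_eq_one h2) with h3 | h3
  · exact orderOf_eq_one_iff.1 h3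
  · exact absurd (h3 ▸ orderOf_dvd_natCard g) h.cop

omit [Finite V] in
theorem pres_eq_top (P : Sylow 2 H) {X : Set V} (hX : (P : Subgroup H) ≤ pres ρ X) (g : H) :
    g ∈ pres ρ X := by
  intro x hx
  obtain ⟨a, ha⟩ := h.idx x
  obtain ⟨s, hs, y, hy, rfl⟩ := Coprime.exists_mul_of_coprime_index (H := (P : Subgroup H))
    (K := st ρ x) (ha ▸ ((Nat.Prime.coprime_iff_not_dvd Nat.prime_two).2
      P.not_dvd_index).symm.pow_right a) g
  rw [map_mul, End.mul_apply, show ρ y x = x from hy]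
  exact hX hs x hx

omit [Finite V] in
theorem irr (P : Sylow 2 H) (W : Submodule (ZMod q) V) (hW : (P : Subgroup H) ≤ pres ρ W) :
    W = ⊥ ∨ W = ⊤ := by
  classical
  by_contra hn
  push Not at hn
  obtain ⟨w, hw, hw0⟩ := (Submodule.ne_bot_iff _).1 hn.1
  have hf := h.ind W (h.pres_eq_top P hW) hn.2
  haveI := Fintype.ofFinite H
  let S : End (ZMod q) V := ∑ g, ρ g
  have hS : ∀ g v, S (ρ g v) = S v := fun g v => by
    rw [← End.mul_apply, Finset.sum_mul]
    simp only [← map_mul]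
    rw [Fintype.sum_equiv (Equiv.mulRight g) (fun x => ρ (x * g)) ρ fun _ => rfl]
  have hk : LinearMap.ker S ≠ ⊤ := fun e => by
    have : S w = 0 := LinearMap.mem_ker.1 (e ▸ Submodule.mem_top)
    rw [LinearMap.sum_apply, Finset.sum_congr rfl fun g _ => hf g w hw, Finset.sum_const,
      ← Nat.cast_smul_eq_nsmul (ZMod q), smul_eq_zero, ZMod.natCast_eq_zero_iff,
      Finset.card_univ, ← Nat.card_eq_fintype_card] at this
    exact this.elim h.cop hw0
  haveI := h.nt
  obtain ⟨g, hg⟩ := exists_ne (1 : H)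
  refine hg (h.eq_one_of_unip fun u => h.ind _ (fun g w hw => ?_) hk g _ ?_)
  · rw [LinearMap.mem_ker, hS]; exact hw
  · rw [LinearMap.mem_ker, map_sub, hS, sub_self]

omit [Finite V] in
theorem pair (P : Sylow 2 H) {W W' : Submodule (ZMod q) V} (h1 : W ≠ ⊤) (h2 : W' ≠ ⊤)
    (h3 : W ⊔ W' = ⊤) (hP : (P : Subgroup H) ≤ pres ρ (W ∪ W')) : False := by
  have hH := h.pres_eq_top P hP
  have a1 : ∀ (g : H) (U : Submodule (ZMod q) V), (U : Set V) ⊆ W ∪ W' →
      (∀ u ∈ U, ρ g u ∈ W) ∨ ∀ u ∈ U, ρ g u ∈ W' := by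
    intro g U hU
    by_contra hn
    push Not at hn
    obtain ⟨⟨x, hx, hx'⟩, y, hy, hy'⟩ := hn
    have e1 := (hH g x (hU hx)).resolve_left hx'
    have e2 := (hH g y (hU hy)).resolve_right hy'
    rcases hH g _ (hU (U.add_mem hx hy)) with e | e <;> rw [map_add] at e
    · exact hx' (by simpa using W.sub_mem e e2)
    · exact hy' (by simpa using W'.sub_mem e e1)
  have a2 : ∀ (g : H) (U : Submodule (ZMod q) V), U ≠ ⊤ → (∀ u ∈ W, ρ g u ∈ U) →
      ¬ ∀ u ∈ W', ρ g u ∈ U := by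
    intro g U hU e1 e2
    refine hU (eq_top_iff.2 fun v _ => ?_)
    have : W ⊔ W' ≤ U.comap (ρ g) := sup_le e1 e2
    rw [← inv_apply ρ g v]
    exact this (h3 ▸ Submodule.mem_top)
  let K := pres ρ W ⊓ pres ρ W'
  have a3 : ∀ g, g ∉ K → (∀ u ∈ W, ρ g u ∈ W') ∧ ∀ u ∈ W', ρ g u ∈ W := by
    intro g hg
    rcases a1 g W Set.subset_union_left with e1 | e1 <;>
      rcases a1 g W' Set.subset_union_right with e2 | e2
    · exact absurd e2 (a2 g W h1 e1)
    · exact absurd ⟨e1, e2⟩ hg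
    · exact ⟨e1, e2⟩
    · exact absurd e2 (a2 g W' h2 e1)
  have a4 : ∀ a b, a ∉ K → b ∉ K → a * b ∈ K := fun a b ha hb =>
    ⟨fun x hx => by rw [map_mul]; exact (a3 a ha).2 _ ((a3 b hb).1 x hx),
      fun x hx => by rw [map_mul]; exact (a3 a ha).1 _ ((a3 b hb).2 x hx)⟩
  have a5 : commutator H ≤ K := by
    refine commutator_le.2 fun a _ b _ => ?_
    rw [commutatorElement_def]
    by_cases ha : a ∈ K <;> by_cases hb : b ∈ K
    · exact mul_mem (mul_mem (mul_mem ha hb) (inv_mem ha)) (inv_mem hb)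
    · refine a4 _ _ (fun e => hb ?_) (by simpa using hb)
      simpa [mul_assoc] using mul_mem (mul_mem (inv_mem ha) e) ha
    · refine mul_mem (a4 _ _ (fun e => ha ?_) (by simpa using ha)) (inv_mem hb)
      simpa using mul_mem e (inv_mem hb)
    · rw [mul_assoc]
      exact mul_mem (a4 _ _ ha hb) (a4 _ _ (by simpa using ha) (by simpa using hb))
  have a6 : ∀ g, g ∈ K := fun g => a5 (h.perf ▸ mem_top g)
  haveI := h.nt
  obtain ⟨g, hg⟩ := exists_ne (1 : H)
  refine hg (h.inj g (LinearMap.ext fun v => ?_))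
  obtain ⟨x, hx, y, hy, rfl⟩ := Submodule.mem_sup.1 (h3 ▸ Submodule.mem_top : v ∈ W ⊔ W')
  rw [map_add, h.ind W (fun g => (a6 g).1) h1 g x hx, h.ind W' (fun g => (a6 g).2) h2 g y hy]
  rfl

omit [Finite V] in
theorem no_four (P : Sylow 2 H) (E : Subgroup P) [hE : E.Normal] (he : IsElementaryAbelian 2 E) :
    Nat.card E ≠ 2 ^ 2 := by
  intro hc
  have hE1 : E ≠ ⊥ := fun e => by rw [e, card_bot] at hc; omega
  haveI : Nontrivial E := (nontrivial_iff_ne_bot E).2 hE1
  haveI : IsKleinFour E := ⟨hc, (Monoid.exponent_eq_prime_iff Nat.prime_two).2 fun g hg =>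
    orderOf_eq_prime (Subtype.ext (he.2 g g.2)) hg⟩
  obtain ⟨z, hzE, hz, ho⟩ := PGroup.exists_mem_center_orderOf_eq P.isPGroup' E hE1
  have hz1 : z ≠ 1 := fun e => by rw [e, orderOf_one] at ho; omega
  let V1 : P → Submodule (ZMod q) V := fun s => LinearMap.ker (ρ s - 1)
  have m1 : ∀ s v, v ∈ V1 s ↔ ρ s v = v := fun s v => by
    rw [LinearMap.mem_ker, LinearMap.sub_apply, sub_eq_zero]; rfl
  have m2 : ∀ s, s ≠ 1 → V1 s ≠ ⊤ := fun s hs e => hs (Subtype.ext (h.inj _
    (LinearMap.ext fun v => (m1 s v).1 (e ▸ Submodule.mem_top))))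
  have m3 : ∀ (s u : P) v, v ∈ V1 u → ρ s v ∈ V1 (s * u * s⁻¹) := fun s u v hv => by
    rw [m1] at hv ⊢
    rw [← End.mul_apply, ← map_mul]
    push_cast
    rw [inv_mul_cancel_right, map_mul, End.mul_apply, hv]
  have m4 : ∀ u ∈ E, ∀ v, ρ u (ρ u v) = v := fun u hu v => by
    rw [← End.mul_apply, ← map_mul, ← sq, ← SubgroupClass.coe_pow, he.2 u hu]
    simp
  have hzc : ∀ s : P, s * z * s⁻¹ = z := fun s => by rw [mem_center_iff.1 hz s]; group
  have hzv : ∀ v, ρ z v = -v := fun v => by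
    have := (h.irr P (V1 z) fun s hs v hv => by
      have := m3 ⟨s, hs⟩ z v hv
      rwa [hzc] at this).resolve_right (m2 z hz1)
    refine eq_neg_of_add_eq_zero_left ((Submodule.eq_bot_iff _).1 this _ ((m1 _ _).2 ?_))
    rw [map_add, m4 z hzE, add_comm]
  obtain ⟨t, ht1, htz⟩ : ∃ t : E, t ≠ 1 ∧ t ≠ ⟨z, hzE⟩ := by
    by_contra hn
    push Not at hn
    have : Nat.card E ≤ ({1, ⟨z, hzE⟩} : Set E).ncard := by
      rw [← Set.ncard_univ]
      exact Set.ncard_le_ncard fun t _ => (eq_or_ne t 1).imp id (hn t)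
    have := this.trans ((Set.ncard_insert_le _ _).trans_eq (by rw [Set.ncard_singleton]))
    omega
  have hz1' : (⟨z, hzE⟩ : E) ≠ 1 := fun e => hz1 (congrArg Subtype.val e)
  have h2 : (2 : ZMod q) ≠ 0 := fun e => by
    have : q ∣ 2 := (ZMod.natCast_eq_zero_iff 2 q).1 (by exact_mod_cast e)
    exact h.cop (this.trans ((ho ▸ orderOf_dvd_natCard z).trans (card_subgroup_dvd_card _)))
  have htz1 : (t : P) * z ≠ 1 := fun e => htz (Subtype.ext (by
    have := he.2 z hzE
    rw [sq, ← e] at this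
    exact (mul_right_cancel this).symm))
  refine h.pair P (m2 t fun e => ht1 (Subtype.ext e)) (m2 _ htz1) (eq_top_iff.2 fun v _ => ?_) ?_
  · have : v = (2 : ZMod q)⁻¹ • ((v + ρ (t : P) v) + (v - ρ (t : P) v)) := by
      rw [add_add_sub_cancel, ← two_smul (ZMod q) v, inv_smul_smul₀ h2]
    rw [this]
    refine Submodule.smul_mem _ _ (Submodule.add_mem_sup ((m1 _ _).2 ?_) ((m1 _ _).2 ?_))
    · rw [map_add, m4 t t.2, add_comm]
    · push_cast
      rw [map_mul, End.mul_apply, hzv, map_neg, map_sub, m4 t t.2, neg_sub]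
  · have key : ∀ (s u : P), u ∈ E → u ≠ 1 → u ≠ z → ∀ v ∈ V1 u,
        ρ s v ∈ (V1 t : Set V) ∪ V1 (t * z) := by
      intro s u hu hu1 huz v hv
      have hm := m3 s u v hv
      let u' : E := ⟨s * u * s⁻¹, hE.conj_mem u hu s⟩
      by_cases e : u' = t
      · left; rw [← e]; exact hm
      · right
        have := IsKleinFour.eq_mul_of_ne_all (z := u') ht1 hz1' htz
          (fun e => hu1 (conj_eq_one_iff.1 (congrArg Subtype.val e))) e (fun e => huz (by
            have e' : s * u * s⁻¹ = s * z * s⁻¹ := by rw [hzc]; exact congrArg Subtype.val e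
            simpa using e'))
        rw [show (t : P) * z = s * u * s⁻¹ from (congrArg Subtype.val this).symm]
        exact hm
    rintro s hs v (hv | hv)
    · exact key ⟨s, hs⟩ t t.2 (fun e => ht1 (Subtype.ext e)) (fun e => htz (Subtype.ext e)) v hv
    · exact key ⟨s, hs⟩ _ (mul_mem t.2 hzE) htz1 (fun e => ht1 (Subtype.ext (by simpa using e)))
        v hv

theorem finrank_le : finrank (ZMod q) V ≤ 2 := by
  obtain ⟨P⟩ : Nonempty (Sylow 2 H) := inferInstance
  rcases PGroup.isCyclic_or_of_no_normal_rank_two P.isPGroup' (fun E hE he => h.no_four P E he)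
    with hc | ⟨-, a, b, m, hm, ha, hcard, hb, hsup, hcase⟩
  · exact absurd (isSolvable_of_hasNormalPComplement_two
      (Inv.hasNormalPComplement_of_isCyclic P hc)) h.not_solvable
  have hm2 : 2 ^ m = 4 * 2 ^ (m - 2) := by
    rw [show m = m - 2 + 2 by omega, pow_add]; simp [mul_comm]
  have hinv : a⁻¹ = a ^ (2 ^ m - 1) := inv_eq_of_mul_eq_one_right (by
    rw [← pow_succ', Nat.sub_add_cancel Nat.one_le_two_pow, ← ha, pow_orderOf_eq_one])
  obtain ⟨k, hk, e1, e2⟩ : ∃ k : ℕ, k % 4 = 3 ∧ b * a * b⁻¹ = a ^ k ∧ b ^ 2 ∈ zpowers a := by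
    have hp : 0 < 2 ^ (m - 2) := by positivity
    rcases hcase with ⟨-, c1, c2⟩ | ⟨c1, c2⟩ | ⟨c0, c1, c2⟩
    · exact ⟨2 ^ m - 1, by omega, hinv ▸ c2, c1 ▸ one_mem _⟩
    · exact ⟨2 ^ m - 1, by omega, hinv ▸ c2, c1 ▸ pow_mem (mem_zpowers a) _⟩
    · refine ⟨2 ^ (m - 1) - 1, ?_, c2, c1 ▸ one_mem _⟩
      have : 2 ^ (m - 1) = 4 * 2 ^ (m - 3) := by
        rw [show m - 1 = m - 3 + 2 by omega, pow_add]; simp [mul_comm]
      have hp : 0 < 2 ^ (m - 3) := by positivity
      omega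
  have e3 : a ^ (k * k) = a := by
    obtain ⟨i, hi⟩ := mem_zpowers_iff.1 e2
    rw [pow_mul, ← e1, conj_pow, ← e1, show b * (b * a * b⁻¹) * b⁻¹ = b ^ 2 * a * (b ^ 2)⁻¹ by
      rw [sq]; group,
      ← hi]
    group
  let r : P →* End (ZMod q) V := ρ.comp (P : Subgroup H).subtype
  have hr : Function.Injective r := (injective_iff_map_eq_one r).2 fun s hs =>
    Subtype.ext (h.inj _ hs)
  have hP : ∀ X : Set V, (a : H) ∈ pres ρ X → (b : H) ∈ pres ρ X → (P : Subgroup H) ≤ pres ρ X := by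
    intro X h1 h2 s hs
    have : zpowers a ⊔ zpowers b ≤ (pres ρ X).comap (P : Subgroup H).subtype :=
      sup_le (zpowers_le.2 h1) (zpowers_le.2 h2)
    exact this (hsup ▸ mem_top (⟨s, hs⟩ : P))
  have hb1 : b ≠ 1 := fun e => hb (e ▸ one_mem _)
  haveI : Nontrivial V := by
    by_contra hn
    rw [not_nontrivial_iff_subsingleton] at hn
    exact hb1 (hr (Subsingleton.elim _ _))
  refine finrank_le_two (α := r a) (β := r b) (β' := r b⁻¹) (k := k) (by rw [← map_mul]; simp)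
    (by rw [← map_mul]; simp) hm (by rw [orderOf_injective r hr, ha])
    (by rw [← map_mul, ← map_mul, e1, map_pow]) hk (by rw [← map_pow, e3]) fun U hU => ?_
  by_contra hn
  push Not at hn
  have hUa : zpowers a ≤ (pres ρ U).comap (P : Subgroup H).subtype := zpowers_le.2 hU
  let U' := U.map (r b)
  have hU' : ∀ u ∈ U', r a u ∈ U' := by
    rintro _ ⟨u, hu, rfl⟩
    refine ⟨r (a ^ k) u, hUa (pow_mem (mem_zpowers a) k) u hu, ?_⟩
    rw [← End.mul_apply, ← End.mul_apply, ← map_mul, ← map_mul]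
    congr 2
    rw [← mul_inv_eq_iff_eq_mul, ← conj_pow, e1, ← pow_mul, e3]
  have hbb : ∀ u ∈ U', r b u ∈ U := by
    rintro _ ⟨u, hu, rfl⟩
    rw [← End.mul_apply, ← map_mul, ← sq]
    exact hUa e2 u hu
  have hU1 : U' ≠ ⊤ := fun e => hn.2 (eq_top_iff.2 fun v _ => by
    have := hbb (r b⁻¹ v) (e ▸ Submodule.mem_top)
    rwa [inv_apply] at this)
  refine h.pair P hn.2 hU1 ((h.irr P (U ⊔ U') (hP _ ?_ ?_)).resolve_left fun e =>
    hn.1 (eq_bot_iff.2 (e ▸ le_sup_left))) (hP _ ?_ ?_)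
  · exact (sup_le (fun u hu => Submodule.mem_sup_left (hU u hu))
      fun u hu => Submodule.mem_sup_right (hU' u hu) : U ⊔ U' ≤ (U ⊔ U').comap (r a))
  · exact (sup_le (fun u hu => Submodule.mem_sup_right ⟨u, hu, rfl⟩)
      fun u hu => Submodule.mem_sup_left (hbb u hu) : U ⊔ U' ≤ (U ⊔ U').comap (r b))
  · rintro u (hu | hu)
    exacts [Or.inl (hU u hu), Or.inr (hU' u hu)]
  · rintro u (hu | hu)
    exacts [Or.inr ⟨u, hu, rfl⟩, Or.inl (hbb u hu)]

theorem false : False := by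
  haveI := h.nt
  obtain ⟨r, hr, hr2, hd⟩ : ∃ r : ℕ, r.Prime ∧ r ≠ 2 ∧ r ∣ Nat.card H := by
    by_contra hn
    push Not at hn
    have : IsPGroup 2 H := IsPGroup.iff_card.2 ⟨_, Nat.eq_prime_pow_of_unique_prime_dvd
      Nat.card_pos.ne' fun {d} hd hd' => by_contra fun e => hn d hd e hd'⟩
    haveI := this.isNilpotent
    exact h.not_solvable inferInstance
  obtain ⟨g, hg⟩ := exists_ne (1 : H)
  obtain ⟨v, hv⟩ : ∃ v : V, v ≠ 0 := by
    by_contra hn
    push Not at hn
    exact hg (h.inj g (LinearMap.ext fun v => by rw [hn (ρ g v), hn ((1 : End (ZMod q) V) v)]))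
  obtain ⟨a, ha⟩ := h.idx v
  haveI := Fact.mk hr
  obtain ⟨x, hx⟩ := exists_prime_orderOf_dvd_card' (G := st ρ v) r (by
    rw [← (st ρ v).card_mul_index, ha] at hd
    exact (((Nat.coprime_primes hr Nat.prime_two).2 hr2).pow_right a).dvd_of_dvd_mul_right hd)
  have hdet : LinearMap.det (ρ x) = 1 := by
    have := Abelianization.commutator_subset_ker (LinearMap.det.comp ρ).toHomUnits
      (h.perf ▸ mem_top (x : H))
    exact congrArg Units.val this
  have := h.eq_one_of_unip (unip_of_det h.finrank_le hdet hv x.2)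
  rw [show x = 1 from Subtype.ext this, orderOf_one] at hx
  exact hr.one_lt.ne hx

end OE

theorem trivial_aux (n : ℕ) : ∀ (V : Type v) [AddCommGroup V] [Module (ZMod q) V] [Finite V]
    (H : Type u) [Group H] [Finite H] (ρ : H →* End (ZMod q) V), Nat.card V ≤ n →
    commutator H = ⊤ → ¬ q ∣ Nat.card H → (∀ v, ∃ a, (st ρ v).index = 2 ^ a) → ∀ g, ρ g = 1 := by
  induction n with
  | zero => intro V _ _ _ _ _ _ _ hn; exact absurd hn (Nat.card_pos (α := V)).not_ge
  | succ n ih =>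
  intro V _ _ _ H _ _ ρ hn h1 h2 h3 g
  by_contra hg
  let τ : H ⧸ ρ.ker →* End (ZMod q) V := QuotientGroup.lift _ ρ le_rfl
  have hs := QuotientGroup.mk'_surjective ρ.ker
  refine OE.false (ρ := τ) ⟨?_, fun e => h2 (e.trans (card_quotient_dvd_card _)), ?_, fun v => ?_,
    fun W hW hW1 x w hw => ?_, ⟨g, 1, fun e => hg ?_⟩⟩
  · rw [commutator_def, ← map_top_of_surjective _ hs, ← map_commutator, ← commutator_def, h1]
  · intro x hx
    obtain ⟨x, rfl⟩ := hs x
    exact (QuotientGroup.eq_one_iff x).2 hx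
  · rw [← index_comap_of_surjective _ hs]
    exact h3 v
  · obtain ⟨x, rfl⟩ := hs x
    have := ih W H (Representation.subrepresentation ρ W fun g => hW g) (by
      obtain ⟨y, -, hy⟩ := SetLike.exists_of_lt hW1.lt_top
      have := Finite.card_subtype_lt (p := (· ∈ W)) hy
      omega) h1 h2 (fun v => by
        have : st (Representation.subrepresentation ρ W fun g => hW g) v = st ρ (v : V) := by
          ext y; exact Subtype.ext_iff
        rw [this]; exact h3 v) x
    exact congrArg (fun f : End (ZMod q) W => (f ⟨w, hw⟩ : V)) this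
  · exact (QuotientGroup.eq_one_iff g).1 e

omit [Finite V] in
theorem odd_of_odd_index {ρ : H →* End (ZMod q) V} (cop : ¬ q ∣ Nat.card H)
    (inj : ∀ h, ρ h = 1 → h = 1) (idx : ∀ v, Odd (st ρ v).index) : Odd (Nat.card H) := by
  by_contra hn
  have h2 : 2 ∣ Nat.card H := even_iff_two_dvd.1 (Nat.not_odd_iff_even.1 hn)
  obtain ⟨t, ht⟩ := exists_prime_orderOf_dvd_card' 2 h2
  have t2 : t * t = 1 := by rw [← sq, ← ht, pow_orderOf_eq_one]
  obtain ⟨u, hu⟩ : ∃ u, ρ t u ≠ u := by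
    by_contra hu
    push Not at hu
    rw [inj t (LinearMap.ext hu), orderOf_one] at ht
    omega
  have e : ρ t (ρ t u - u) = -(ρ t u - u) := by
    rw [map_sub, ← End.mul_apply, ← map_mul, t2, map_one, neg_sub]; rfl
  have hti : t⁻¹ = t := inv_eq_of_mul_eq_one_right t2
  have hN : t ∈ 𝐍(st ρ (ρ t u - u)) := by
    have : ∀ y ∈ st ρ (ρ t u - u), t * y * t ∈ st ρ (ρ t u - u) := fun y hy => by
      change ρ _ _ = _
      rw [map_mul, map_mul, End.mul_apply, End.mul_apply, e, map_neg,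
        show ρ y (ρ t u - u) = _ from hy, map_neg, e, neg_neg]
    refine mem_normalizer_iff.2 fun y => ⟨hti.symm ▸ this y, fun hy => ?_⟩
    have := this _ hy
    rwa [hti, show t * (t * y * t) * t = (t * t) * y * (t * t) by group, t2, one_mul, mul_one] at this
  have := (dvd_relIndex_of_not_mem Nat.prime_two (k := 1) le_rfl hN (fun h' => hu ?_)
    (by rw [pow_one, sq, t2]; exact one_mem _)).trans (relIndex_dvd_index_of_le le_normalizer)
  · exact (Nat.not_even_iff_odd.2 (idx _)) (even_iff_two_dvd.2 this)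
  · have h3 : (2 : ZMod q) • (ρ t u - u) = 0 := by
      rw [two_smul]
      exact add_eq_zero_iff_eq_neg.2 ((show ρ t (ρ t u - u) = _ from h').symm.trans e)
    refine sub_eq_zero.1 ((smul_eq_zero.1 h3).resolve_left fun e => cop (Dvd.dvd.trans ?_ h2))
    exact (ZMod.natCast_eq_zero_iff 2 q).1 (by exact_mod_cast e)

theorem isSolvable_of_orbits {p : ℕ} (hp : p.Prime) {ρ : H →* End (ZMod q) V}
    (cop : ¬ q ∣ Nat.card H) (inj : ∀ h, ρ h = 1 → h = 1)
    (idx : ∀ v, ∃ a, (st ρ v).index = p ^ a) : Group.IsSolvable H := by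
  rcases hp.eq_two_or_odd' with rfl | ho
  swap
  · exact PF.isSolvable_of_odd H (odd_of_odd_index cop inj fun v => by
      obtain ⟨a, ha⟩ := idx v
      exact ha ▸ ho.pow)
  obtain ⟨n, hn⟩ := WellFoundedLT.antitone_chain_condition (derivedSeries_antitone H)
  refine ⟨n, eq_bot_iff.2 fun g hg => inj g ?_⟩
  refine trivial_aux _ V (derivedSeries H n) (ρ.comp (derivedSeries H n).subtype) le_rfl ?_
    (fun e => cop (e.trans (card_subgroup_dvd_card _))) (fun v => ?_) ⟨g, hg⟩
  · apply map_injective (derivedSeries H n).subtype_injective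
    rw [map_subtype_commutator, ← MonoidHom.range_eq_map, range_subtype, ← derivedSeries_succ]
    exact (hn (n + 1) n.le_succ).symm
  · obtain ⟨a, ha⟩ := idx v
    obtain ⟨b, -, hb⟩ := (Nat.dvd_prime_pow Nat.prime_two).1
      (ha ▸ relIndex_dvd_index_of_normal' (st ρ v) (derivedSeries H n))
    exact ⟨b, hb⟩

end Cfsg.Lib.FGS.OrbEq
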