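import Cfsg.Agent.Lib.FGS.Kulakoff2
import Cfsg.Agent.Lib.Misc.Cyclic

/-!
# The power graph determines the prime graph
-/

set_option autoImplicit false

namespace Cfsg.Lib.FGS

open Subgroup Cfsg.Lib.BG

variable {G H : Type*} [Group G] [Finite G] [Group H] [Finite H] {p q : ℕ} {x y z : G}

/-- Adjacency in the power graph. -/
def PA {G : Type*} [Group G] (x y : G) : Prop := x ∈ zpowers y ∨ y ∈ zpowers x

theorem pa_iff (hx : x ∈ zpowers z) (hy : y ∈ zpowers z) :
    PA x y ↔ orderOf x ∣ orderOf y ∨ orderOf y ∣ orderOf x :=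
  ⟨Or.imp orderOf_dvd_of_mem_zpowers orderOf_dvd_of_mem_zpowers, Or.imp
    (Misc.mem_zpowers_of_orderOf_dvd_of_cyclic inferInstance hx hy)
    (Misc.mem_zpowers_of_orderOf_dvd_of_cyclic inferInstance hy hx)⟩

theorem exists_mem_zpowers_orderOf {d : ℕ} (h : d ∣ orderOf z) : ∃ c ∈ zpowers z, orderOf c = d :=
  ⟨_, pow_mem (mem_zpowers z) _, orderOf_pow_orderOf_div (orderOf_pos z).ne' h⟩

theorem le_two_mul_totient {m : ℕ} (h : IsPrimePow m) : m ≤ 2 * m.totient := by
  obtain ⟨r, k, hr, hk, rfl⟩ := (isPrimePow_nat_iff _).1 h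
  obtain ⟨k, rfl⟩ := Nat.exists_eq_succ_of_ne_zero hk.ne'
  obtain ⟨r, rfl⟩ := Nat.exists_eq_add_of_le hr.two_le
  rw [Nat.totient_prime_pow_succ hr, pow_succ, mul_left_comm]
  exact Nat.mul_le_mul_left _ (by omega)

theorem power_graph_aux (e : G ≃ H) (he : ∀ x y, PA x y ↔ PA (e x) (e y)) (h1 : e 1 = 1) (hp : p.Prime)
    (hq : q.Prime) (hpq : p < q) (hx : p * q ∣ orderOf x) (mx : ∀ y, x ∈ zpowers y → y ∈ zpowers x) :
    ∃ h : H, orderOf h = p * q := by
  obtain ⟨g, hg, gm⟩ := Set.exists_max_image {g | zpowers g = zpowers x} (fun g => orderOf (e g))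
    (Set.toFinite _) ⟨x, rfl⟩
  replace hg : zpowers g = zpowers x := hg
  have hN : ∀ c, PA (e c) (e g) ↔ c ∈ zpowers x := fun c => (he c g).symm.trans
    ⟨fun h => h.elim (hg ▸ id) fun h => mx c (zpowers_le.2 h (hg ▸ mem_zpowers x)), fun h => .inl (hg ▸ h)⟩
  have dn : ∀ h ∈ zpowers (e g), e.symm h ∈ zpowers x := fun h hh => (hN _).1 (.inl (by simpa))
  by_cases hU : ∀ c ∈ zpowers x, e c ∈ zpowers (e g)
  · refine (exists_mem_zpowers_orderOf (z := e g) ?_).imp fun _ h => h.2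
    rwa [← Nat.card_zpowers, ← Nat.card_congr (e.subtypeEquiv (p := (· ∈ zpowers x)) (q := (· ∈ zpowers (e g)))
      fun c => ⟨hU c, fun h => by simpa using dn _ h⟩), Nat.card_zpowers]
  exfalso
  have pn : p ∣ orderOf x := (dvd_mul_right p q).trans hx
  have qn : q ∣ orderOf x := (dvd_mul_left q p).trans hx
  let U : G → Prop := fun c => c ∈ zpowers x ∧ e c ∉ zpowers (e g)
  have up : ∀ {c}, U c → e g ∈ zpowers (e c) := fun h => ((hN _).2 h.1).resolve_left h.2
  have cl : ∀ {c c'}, U c → c' ∈ zpowers x → ¬ orderOf c ∣ orderOf c' → ¬ orderOf c' ∣ orderOf c → U c' :=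
    fun h h' a b => ⟨h', fun k => ((pa_iff h.1 h').1 ((he _ _).2 (.inr (zpowers_le.2 (up h) k)))).elim a b⟩
  have gen : ∀ {c}, c ∈ zpowers x → orderOf c = orderOf x → zpowers c = zpowers x := fun h k =>
    eq_of_le_of_card_le (zpowers_le.2 h) (by rw [Nat.card_zpowers, Nat.card_zpowers, k])
  have nS : ∀ {c}, U c → orderOf c ≠ 1 ∧ orderOf c ≠ orderOf x := fun {c} h =>
    ⟨fun k => h.2 (by rw [orderOf_eq_one_iff.1 k, h1]; exact one_mem _), fun k => h.2 (eq_of_le_of_card_le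
      (zpowers_le.2 (up h)) (by simpa [Nat.card_zpowers] using gm c (gen h.1 k)) ▸ mem_zpowers _)⟩
  have L1 : ∀ c ∈ zpowers x, orderOf c ≠ 1 → orderOf c ≠ orderOf x → IsPrimePow (orderOf c) ∨
      ∃ t ∈ zpowers x, IsPrimePow (orderOf t) ∧ ¬ orderOf c ∣ orderOf t ∧ ¬ orderOf t ∣ orderOf c :=
    fun c hc a b => or_iff_not_imp_left.2 fun k => by
      have := mt (Nat.dvd_antisymm (orderOf_dvd_of_mem_zpowers hc)) b
      simp only [Nat.dvd_iff_prime_pow_dvd_dvd _ (orderOf x), not_forall] at this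
      obtain ⟨r, j, hr, h2, h3⟩ := this
      obtain ⟨t, ht, e⟩ := exists_mem_zpowers_orderOf h2
      rw [← e] at h3
      refine ⟨t, ht, e ▸ hr.isPrimePow.pow fun j0 => h3 (by simp [e, j0]), fun d => ?_, h3⟩
      obtain ⟨i, -, hi⟩ := (Nat.dvd_prime_pow hr).1 (e ▸ d)
      exact k (hi ▸ hr.isPrimePow.pow fun i0 => a (by simp [hi, i0]))
  have L2 : ∀ {t t'}, U t → IsPrimePow (orderOf t) → t' ∈ zpowers x → IsPrimePow (orderOf t') → U t' := by
    have k : ∀ {t t'}, U t → orderOf t ≠ 1 → t' ∈ zpowers x → orderOf t' ≠ 1 →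
        (orderOf t).Coprime (orderOf t') → U t' := fun h a h' b c =>
      cl h h' (fun d => a (c.eq_one_of_dvd d)) fun d => b (c.symm.eq_one_of_dvd d)
    intro t t' h a h' b
    obtain ⟨r, i, hr, -, ei⟩ := (isPrimePow_nat_iff _).1 a
    obtain ⟨r', j, hr', -, ej⟩ := (isPrimePow_nat_iff _).1 b
    by_cases e : r = r'
    · obtain ⟨s, hs, sn, sr⟩ : ∃ s : ℕ, s.Prime ∧ s ∣ orderOf x ∧ r ≠ s := by
        by_cases e : r = p
        exacts [⟨q, hq, qn, e ▸ hpq.ne⟩, ⟨p, hp, pn, e⟩]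
      obtain ⟨c, hc, ec⟩ := exists_mem_zpowers_orderOf sn
      have := (Nat.coprime_primes hr hs).2 sr
      exact k (k h a.ne_one hc (ec ▸ hs.ne_one) (ei ▸ ec ▸ this.pow_left i)) (ec ▸ hs.ne_one) h' b.ne_one
        (ej ▸ ec ▸ e ▸ this.symm.pow_right j)
    · exact k h a.ne_one h' b.ne_one (ei ▸ ej ▸ Nat.Coprime.pow _ _ ((Nat.coprime_primes hr hr').2 e))
  obtain ⟨t, ht, pt⟩ : ∃ t, U t ∧ IsPrimePow (orderOf t) := by
    simp only [not_forall] at hU
    obtain ⟨c, h2, h3⟩ := hU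
    have hc : U c := ⟨h2, h3⟩
    rcases L1 c h2 (nS hc).1 (nS hc).2 with h | ⟨t, a, b, h⟩
    exacts [⟨c, hc, h⟩, ⟨t, cl hc a h.1 h.2, b⟩]
  have all : ∀ c ∈ zpowers x, orderOf c ≠ 1 → orderOf c ≠ orderOf x → U c := fun c hc a b => by
    rcases L1 c hc a b with h | ⟨t', a, b, h⟩
    exacts [L2 ht pt hc h, cl (L2 ht pt a b) hc h.2 h.1]
  have n1 : orderOf x ≠ 1 := fun e => hp.not_dvd_one (e ▸ pn)
  have m1 : (orderOf x).totient + 1 ≤ orderOf (e g) := by
    rw [← Nat.card_zpowers x, ← ncard_generators inferInstance, ← Set.ncard_insert_of_notMem (a := 1) (fun k =>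
      n1 (by rw [← Nat.card_zpowers, ← show _ = zpowers x from k, Nat.card_zpowers, orderOf_one])), ← Nat.card_zpowers, ← SetLike.coe_sort_coe,
      Nat.card_coe_set_eq]
    refine Set.ncard_le_ncard_of_injOn e (fun c hc => by_contra fun k => ?_) e.injective.injOn
    rcases hc with rfl | hc
    · exact (nS ⟨one_mem _, k⟩).1 orderOf_one
    · exact (nS ⟨hc ▸ mem_zpowers c, k⟩).2 (by rw [← Nat.card_zpowers, hc, Nat.card_zpowers])
  have t1 : (p - 1) * (q - 1) ≤ (orderOf x).totient := by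
    rw [← Nat.totient_prime hp, ← Nat.totient_prime hq, ← Nat.totient_mul ((Nat.coprime_primes hp hq).2 hpq.ne)]
    exact Nat.le_of_dvd (Nat.totient_pos.2 (orderOf_pos x)) (Nat.totient_dvd_of_dvd hx)
  have p2 := hp.two_le
  have t2 : (p - 1) * 2 ≤ (p - 1) * (q - 1) := Nat.mul_le_mul_left _ (by omega)
  have m2 : IsPrimePow (orderOf (e g)) := by
    obtain ⟨r, hr, hd⟩ := Nat.exists_prime_and_dvd (n := orderOf (e g)) (by omega)
    refine isPrimePow_iff_unique_prime_dvd.2 ⟨r, ⟨hr, hd⟩, fun s hs => ?_⟩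
    obtain ⟨a, ha, ea⟩ := exists_mem_zpowers_orderOf hd
    obtain ⟨b, hb, eb⟩ := exists_mem_zpowers_orderOf hs.2
    have : PA (e.symm a) (e.symm b) := (pa_iff (dn a ha) (dn b hb)).2 (by
      by_cases k : orderOf (e.symm a) = 1
      · exact .inl (k ▸ one_dvd _)
      · exact .inr ((by_contra fun k' => (all _ (dn a ha) k k').2 (by simpa) : orderOf (e.symm a) = orderOf x) ▸
          orderOf_dvd_of_mem_zpowers (dn b hb)))
    rw [he, e.apply_symm_apply, e.apply_symm_apply, pa_iff ha hb, ea, eb] at this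
    exact this.elim (fun h => ((Nat.prime_dvd_prime_iff_eq hr hs.1).1 h).symm)
      (Nat.prime_dvd_prime_iff_eq hs.1 hr).1
  obtain ⟨a, ha, ea⟩ := exists_mem_zpowers_orderOf pn
  have Ua := L2 ht pt ha (ea ▸ hp.isPrimePow)
  have m3 : (orderOf (e a)).totient ≤ p - 1 := by
    rw [← Nat.totient_prime hp, ← ea, ← Nat.card_zpowers, ← Nat.card_zpowers, ← ncard_generators inferInstance,
      ← ncard_generators inferInstance]
    refine Set.ncard_le_ncard_of_injOn e.symm (fun h hh => ?_) e.symm.injective.injOn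
    obtain ⟨c, rfl⟩ := e.surjective h
    replace hh : zpowers (e c) = zpowers (e a) := hh
    have hc : c ∈ zpowers x := (hN c).1 (.inr (hh ▸ up Ua))
    have tw : ∀ d ∈ zpowers x, orderOf d ∣ orderOf c ∨ orderOf c ∣ orderOf d ↔ orderOf d ∣ p ∨ p ∣ orderOf d :=
      fun d hd => by
        rw [← ea, ← pa_iff hd hc, ← pa_iff hd ha, he, he, PA, PA, ← zpowers_le, ← zpowers_le (g := e c),
          ← zpowers_le (g := e d), ← zpowers_le (g := e a), hh]
    have c1 : ∀ s : ℕ, s.Prime → s ∣ orderOf x → s ∣ orderOf c ∨ orderOf c ∣ s → s = p := fun s hs sn k => by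
      obtain ⟨d, hd, rfl⟩ := exists_mem_zpowers_orderOf sn
      exact ((tw d hd).1 k).elim (Nat.prime_dvd_prime_iff_eq hs hp).1
        fun h => ((Nat.prime_dvd_prime_iff_eq hp hs).1 h).symm
    have c2 : orderOf c = p := by
      obtain ⟨d, hd, ed⟩ := exists_mem_zpowers_orderOf hx
      have c3 : ¬ q ∣ orderOf c := fun k => hpq.ne' (c1 q hq qn (.inl k))
      have c4 := ((tw d hd).2 (.inr (ed ▸ dvd_mul_right p q))).resolve_left
        fun k => c3 ((dvd_mul_left q p).trans (ed ▸ k))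
      rw [ed] at c4
      exact ((Nat.dvd_prime hp).1 (((Nat.Prime.coprime_iff_not_dvd hq).2 c3).symm.dvd_of_dvd_mul_right c4)).resolve_left
        fun k => hpq.ne' (c1 q hq qn (.inr (k ▸ one_dvd q)))
    rw [e.symm_apply_apply]
    exact eq_of_le_of_card_le (zpowers_le.2 (Misc.mem_zpowers_of_orderOf_dvd_of_cyclic inferInstance hc ha
      (by rw [c2, ea]))) (by rw [Nat.card_zpowers, Nat.card_zpowers, c2, ea])
  have := Nat.le_of_dvd (Nat.totient_pos.2 (orderOf_pos _))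
    (Nat.totient_dvd_of_dvd (orderOf_dvd_of_mem_zpowers (up Ua)))
  have := le_two_mul_totient m2
  omega

theorem power_graph (e : G ≃ H) (he : ∀ x y, PA x y ↔ PA (e x) (e y)) (hp : p.Prime) (hq : q.Prime)
    (hpq : p ≠ q) (h : ∃ g : G, orderOf g = p * q) : ∃ h : H, orderOf h = p * q := by
  classical
  obtain ⟨g, hg⟩ := h
  obtain ⟨x, hx, mx⟩ := Set.exists_max_image {x | g ∈ zpowers x} orderOf (Set.toFinite _) ⟨g, mem_zpowers g⟩
  have mx' : ∀ y, x ∈ zpowers y → y ∈ zpowers x := fun y hy => eq_of_le_of_card_le (zpowers_le.2 hy)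
    (by simpa [Nat.card_zpowers] using mx y (zpowers_le.2 hy hx)) ▸ mem_zpowers y
  have hd : p * q ∣ orderOf x := hg ▸ orderOf_dvd_of_mem_zpowers hx
  have d : ∀ u : H, u = e 1 ∨ u = 1 → ∀ v, PA u v := by
    rintro u (rfl | rfl) v
    · simpa using (he 1 (e.symm v)).1 (.inl (one_mem _))
    · exact .inl (one_mem _)
  have k : ∀ u : H, (u = e 1 ∨ u = 1) ∧ (Equiv.swap (e 1) 1 u = e 1 ∨ Equiv.swap (e 1) 1 u = 1) ∨
      Equiv.swap (e 1) 1 u = u := fun u => by
    by_cases a : u = e 1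
    · simp [a]
    by_cases b : u = 1
    · simp [b]
    exact .inr (Equiv.swap_apply_of_ne_of_ne a b)
  have he' : ∀ x y, PA x y ↔ PA ((e.trans (Equiv.swap (e 1) 1)) x) ((e.trans (Equiv.swap (e 1) 1)) y) :=
    fun x y => by
      rw [he, Equiv.trans_apply, Equiv.trans_apply]
      rcases k (e x) with h | h
      · exact iff_of_true (d _ h.1 _) (d _ h.2 _)
      rcases k (e y) with h' | h'
      · exact iff_of_true (d _ h'.1 _).symm (d _ h'.2 _).symm
      rw [h, h']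
  rcases hpq.lt_or_gt with h | h
  · exact power_graph_aux _ he' (by simp) hp hq h hd mx'
  · rw [mul_comm] at hd ⊢
    exact power_graph_aux _ he' (by simp) hq hp h hd mx'

end Cfsg.Lib.FGS
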