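import Cfsg.Agent.Lib.FGS.TwoReg2

/-!
# Groups of conjugate rank two with a proper inclusion of centralizers
-/

set_option autoImplicit false

namespace Cfsg.Lib.FGS.TR

open Subgroup Cfsg.Lib Cfsg.Lib.BG Cfsg.Lib.Transfer Cfsg.Lib.Core
open scoped commutatorElement Pointwise

variable {G : Type*} [Group G] [Finite G] {p q r s t m n k : ℕ} {x y u v w g : G}

omit [Finite G] in
theorem cent1_mul_center (x : G) (hz : y ∈ center G) : 𝐂[x * y] = 𝐂[x] := by
  ext g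
  rw [mem_cent1, mem_cent1, ← mul_assoc, mul_assoc x, ← mem_center_iff.1 hz g, ← mul_assoc,
    mul_left_inj]

omit [Finite G] in
theorem mem_center_subtype {H : Subgroup G} {v : H} : v ∈ center H ↔ H ≤ 𝐂[(v : G)] :=
  ⟨fun e g hg => mem_cent1.2 (congrArg Subtype.val (mem_center_iff.1 e ⟨g, hg⟩)),
    fun e => mem_center_iff.2 fun g => Subtype.ext (mem_cent1.1 (e g.2))⟩

omit [Finite G] in
theorem PE.subtype {H : Subgroup G} {v : H} : PE r (v : G) ↔ PE r v :=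
  exists_congr fun _ => ⟨fun e => Subtype.ext (by simpa using e), fun e => by
    simpa using congrArg Subtype.val e⟩

/-- Three primes dividing `|G : Z(G)|`. -/
def Three (G : Type*) [Group G] : Prop :=
  ∀ a b : ℕ, ∃ r : ℕ, r.Prime ∧ r ≠ a ∧ r ≠ b ∧ ∃ w : G, w ∉ center G ∧ PE r w

theorem isSolvable_of_not_three (h : ¬ Three G) : Group.IsSolvable G := by
  obtain ⟨a, h⟩ := not_forall.1 h
  obtain ⟨b, h⟩ := not_forall.1 h
  haveI : Group.IsSolvable (center G) := abelian_sol inferInstance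
  have := Char.isSolvable_of_forall_prime_dvd (G ⧸ center G) a b fun r hr e => by
    by_contra! e'
    obtain ⟨w, -, w1, w2⟩ := PGroup.exists_not_mem_of_dvd_relIndex hr (H := ⊤) (K := center G)
      (by rwa [relIndex_top_right])
    exact h ⟨r, hr, e'.1, e'.2, w, w1, w2⟩
  exact Group.isSolvable_of_ker_le_range (center G).subtype (QuotientGroup.mk' (center G))
    (by rw [QuotientGroup.ker_mk', range_subtype])

/-- Class sizes `1, m, m * k`, with an inclusion of centralizers. -/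
structure NF (G : Type*) [Group G] (m k : ℕ) : Prop where
  idx : ∀ x : G, x ∉ center G → (𝐂[x]).index = m ∨ (𝐂[x]).index = m * k
  lt : 1 < k
  ex : ∃ x y : G, y ∉ center G ∧ 𝐂[x] ≤ 𝐂[y] ∧ (𝐂[x]).index = m * k ∧ (𝐂[y]).index = m

theorem exists_nf (h : ∀ x : G, x ∉ center G → (𝐂[x]).index = m ∨ (𝐂[x]).index = n) (hmn : m < n)
    (hy : y ∉ center G) (hle : 𝐂[x] ≤ 𝐂[y]) (hne : 𝐂[x] ≠ 𝐂[y]) : ∃ k, n = m * k ∧ NF G m k := by
  have h1 : (𝐂[y]).index < (𝐂[x]).index := not_le.1 fun e => hne (cent1_eq_of_le hle e)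
  have h2 := h x (not_mem_center_of_le hy hle)
  have h3 := h y hy
  have e1 : (𝐂[x]).index = n := by omega
  have e2 : (𝐂[y]).index = m := by omega
  obtain ⟨k, rfl⟩ : m ∣ n := e1 ▸ e2 ▸ index_dvd_of_le hle
  exact ⟨k, rfl, h, by
    rcases k with _ | _ | k <;> omega, x, y, hy, hle, e1, e2⟩

namespace NF

variable (h : NF G m k)
include h

theorem pos : 0 < m := by
  obtain ⟨x, y, -, -, -, e⟩ := h.ex
  exact e ▸ Nat.pos_of_ne_zero index_ne_zero_of_finite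

theorem lt' : m < m * k := lt_mul_of_one_lt_right h.pos h.lt

theorem eq_of_min (hx : (𝐂[x]).index = m) (hy : y ∉ center G) (e : 𝐂[x] ≤ 𝐂[y]) :
    𝐂[x] = 𝐂[y] :=
  cent1_eq_of_le e (by have := h.idx y hy; have := h.lt'; omega)

theorem eq_of_max (hy : (𝐂[y]).index = m * k) (hy' : y ∉ center G) (e : 𝐂[x] ≤ 𝐂[y]) :
    𝐂[x] = 𝐂[y] :=
  cent1_eq_of_le e (by have := h.idx x (not_mem_center_of_le hy' e); have := h.lt'; omega)

theorem le_of_max (hy : (𝐂[y]).index = m * k) (hy' : y ∉ center G) (hv : v ∈ 𝐂[y])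
    (hc : (orderOf y).Coprime (orderOf v)) : 𝐂[y] ≤ 𝐂[v] :=
  (h.eq_of_max hy hy' ((cent1_mul hv hc).le.trans inf_le_left)).ge.trans
    ((cent1_mul hv hc).le.trans inf_le_right)

theorem dvd_rel (hx : (𝐂[x]).index = m * k) (hg : g ∉ center G) :
    (center G).relIndex 𝐂[x] ∣ (center G).relIndex 𝐂[g] := by
  have h1 := (relIndex_mul g).trans (relIndex_mul x).symm
  rcases h.idx g hg with e | e <;> rw [hx, e] at h1
  · rw [mul_comm m, ← mul_assoc] at h1
    exact Dvd.intro _ (Nat.eq_of_mul_eq_mul_right h.pos h1).symm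
  · exact (Nat.eq_of_mul_eq_mul_right (h.pos.trans h.lt') h1).symm.dvd

theorem rel_dvd (hy : (𝐂[y]).index = m) (hg : g ∉ center G) :
    (center G).relIndex 𝐂[g] ∣ (center G).relIndex 𝐂[y] := by
  have h1 := (relIndex_mul y).trans (relIndex_mul g).symm
  rcases h.idx g hg with e | e <;> rw [hy, e] at h1
  · exact (Nat.eq_of_mul_eq_mul_right h.pos h1).symm.dvd
  · rw [mul_comm m, ← mul_assoc] at h1
    exact Dvd.intro _ (Nat.eq_of_mul_eq_mul_right h.pos h1).symm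

/-- Every prime dividing `|G : Z(G)|` divides `|𝐂[g] : Z(G)|`. -/
theorem exists_in (hr : r.Prime) (hw : ∃ w : G, w ∉ center G ∧ PE r w) (hg : g ∉ center G) :
    ∃ w ∈ 𝐂[g], w ∉ center G ∧ PE r w := by
  haveI := Fact.mk hr
  obtain ⟨x, y, y1, hle, hx, hy⟩ := h.ex
  refine PGroup.exists_not_mem_of_dvd_relIndex hr (Dvd.dvd.trans ?_ (h.dvd_rel hx hg))
  by_contra e
  obtain ⟨w0, w1, w2⟩ := hw
  obtain ⟨w, a1, a2, a3⟩ := PGroup.exists_not_mem_of_dvd_relIndex hr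
    ((dvd_relIndex_center hr (self_mem_cent1 w0) w1 w2).trans (h.rel_dvd hy w1))
  obtain ⟨a, ha, b, hb, a4, a5, rfl⟩ := exists_p_part_mul_p'_part (p := r) y
  have a6 : a ∈ center G := by
    by_contra e'
    exact e (dvd_relIndex_center hr (zpowers_le.2 (mem_cent1_symm (hle (self_mem_cent1 x))) ha)
      e' a4)
  rw [mem_center_iff.1 a6 b |>.symm, cent1_mul_center b a6] at hle hy a1
  have b1 : b ∉ center G := fun e' => y1 (mul_mem a6 e')
  have e1 := cent1_mul (mem_cent1_symm a1) (PE.coprime' a3 a5)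
  have b2 : w * b ∉ center G := not_mem_center_of_le b1 (e1.le.trans inf_le_right)
  rcases h.idx _ b2 with e2 | e2
  · exact e (dvd_relIndex_center hr (mem_cent1_symm ((e1.le.trans inf_le_left)
      ((h.eq_of_min e2 b1 (e1.le.trans inf_le_right)).ge (hle (self_mem_cent1 x))))) a2 a3)
  · exact e ((dvd_relIndex_center hr (e1.ge ⟨self_mem_cent1 w, a1⟩) a2 a3).trans
      (h.dvd_rel e2 (not_mem_center_of_le b1 hle)))

theorem rel_idx (hw : w ∉ center G) (hm : (𝐂[w]).index = m) (hv : v ∈ 𝐂[w])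
    (hc : (orderOf w).Coprime (orderOf v)) :
    (𝐂[v]).relIndex 𝐂[w] = 1 ∨ (𝐂[v]).relIndex 𝐂[w] = k := by
  have e := cent1_mul hv hc
  have e1 := relIndex_mul_index (e.le.trans inf_le_left)
  rw [hm, e, inf_relIndex_left, ← e] at e1
  rcases h.idx _ (not_mem_center_of_le hw (e.le.trans inf_le_left)) with e2 | e2
  · exact Or.inl (Nat.eq_of_mul_eq_mul_right h.pos (by rw [e1, e2, one_mul]))
  · exact Or.inr (Nat.eq_of_mul_eq_mul_right h.pos (by rw [e1, e2, mul_comm]))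

theorem pow_or (h3 : Three G) (hr : r.Prime) (hw : w ∉ center G) (hw' : PE r w)
    (hm : (𝐂[w]).index = m) : (∃ a, k = r ^ a) ∨ 𝐂[w] ≤ 𝐂(𝐂[w]) ∨ ∃ p : ℕ, p.Prime ∧
      (∃ a, k = p ^ a) ∧ ∀ v ∈ 𝐂[w], (orderOf v).Coprime p → 𝐂[w] ≤ 𝐂[v] := by
  rcases two_sizes (G := 𝐂[w]) (k := k) hr (fun u hu => by
    rw [index_cent1_subtype]
    exact h.rel_idx hw hm u.2 (hw'.coprime' (by rwa [orderOf_coe]))) with ⟨t, -, -, H⟩ | H
  swap
  · exact Or.inl H.2
  obtain ⟨s, hs, hsr, hst, hx⟩ := h3 r t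
  haveI := Fact.mk hs
  obtain ⟨x, x0, x1, x2⟩ := h.exists_in hs hx hw
  have e := h.eq_of_min hm x1 (mem_center_subtype.1 (H s hs hsr hst ⟨x, x0⟩ (PE.subtype.1 x2)))
  have H1 : ∀ u : 𝐂[w], (𝐂[u]).index = 1 ∨ (𝐂[u]).index = k := fun u => by
    obtain ⟨a, -, b, -, a4, a5, rfl⟩ := exists_p_part_mul_p'_part (p := s) u
    have a6 := H s hs hsr hst a a4
    rw [mem_center_iff.1 a6 b |>.symm, cent1_mul_center b a6, index_cent1_subtype]
    have := h.rel_idx (v := (b : G)) x1 (e ▸ hm) (e.le b.2) (PE.coprime' x2 (by rwa [orderOf_coe]))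
    rwa [← e] at this
  obtain ⟨p, hp, H2⟩ := exists_pResidual_le_center_of_rankOne H1
  refine Or.inr (or_iff_not_imp_left.2 fun e' => ⟨p, hp, ?_, fun v hv hc =>
    mem_center_subtype.1 (pResidual_le_iff.1 H2 ⟨v, hv⟩ (by rwa [← orderOf_coe]))⟩)
  obtain ⟨u, u1, u2⟩ := SetLike.not_le_iff_exists.1 e'
  rw [← (H1 ⟨u, u1⟩).resolve_left fun e => u2 (le_cent1_iff.1
    (mem_center_subtype.1 (index_cent1_eq_one.1 e)))]
  refine exists_index_eq_pow fun q hq hqp e => ?_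
  obtain ⟨y, y1, y2⟩ := exists_of_dvd_index hq e
  exact y1 (pResidual_le_iff.1 H2 y (y2.coprime hq hp hqp))

theorem exists_prime (h3 : Three G) : ∃ p : ℕ, p.Prime ∧ ∃ a, k = p ^ a := by
  obtain ⟨x, y, y1, hle, hx, hy⟩ := h.ex
  obtain ⟨r, hr, w, w0, w1, w2⟩ := exists_primePow_not_mem y1
  have e := h.eq_of_min hy w1 (cent1_le_cent1_of_mem_zpowers w0)
  rcases h.pow_or h3 hr w1 w2 (e ▸ hy) with H | H | ⟨p, hp, H, -⟩
  · exact ⟨r, hr, H⟩
  · rw [← e] at H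
    have := le_antisymm hle (le_cent1_iff.2 (H (hle (self_mem_cent1 x))))
    have := h.lt'
    simp_all
  · exact ⟨p, hp, H⟩

theorem cenHyp (h3 : Three G) (hp : p.Prime) {a : ℕ} (hk : k = p ^ a) : CenHyp G p := by
  have uq : ∀ r : ℕ, r.Prime → ∀ b, k = r ^ b → r = p := fun r hr b e =>
    (Nat.prime_dvd_prime_iff_eq hr hp).1 (hr.dvd_of_dvd_pow (n := a) (hk ▸ e ▸ dvd_pow_self r
      fun e' => by have := h.lt; simp_all))
  have A : ∀ r : ℕ, r.Prime → r ≠ p → ∀ w : G, w ∉ center G → PE r w → (𝐂[w]).index = m →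
      ∀ v ∈ 𝐂[w], (orderOf v).Coprime p → 𝐂[w] ≤ 𝐂[v] := fun r hr hrp w w1 w2 w3 v hv hc => by
    rcases h.pow_or h3 hr w1 w2 w3 with ⟨b, H⟩ | H | ⟨q, hq, ⟨b, H⟩, H'⟩
    · exact (hrp (uq r hr b H)).elim
    · exact le_cent1_iff.2 (H hv)
    · exact H' v hv (uq q hq b H ▸ hc)
  intro u u1 u2 v hv hc
  obtain ⟨r, hr, y, y0, y1, y2⟩ := exists_primePow_not_mem u1
  have hle := cent1_le_cent1_of_mem_zpowers y0
  have hrp := ne_of_mem hr u2 y0 y1 y2
  refine hle.trans ?_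
  replace hv := hle hv
  rcases h.idx y y1 with e | e
  · exact A r hr hrp y y1 y2 e v hv hc
  refine le_cent1_of_parts fun b hb z z1 _ z3 => ?_
  have z4 : z ∈ 𝐂[y] := zpowers_le.2 hv z1
  by_cases hab : r = b
  swap
  · exact h.le_of_max e y1 z4 (PE.coprime' y2 (z3.coprime hb hr (Ne.symm hab)))
  subst hab
  obtain ⟨t, ht, htp, htr, hx⟩ := h3 p r
  obtain ⟨w, w0, w1, w2⟩ := h.exists_in ht hx y1
  have e1 := h.le_of_max e y1 w0 (PE.coprime' y2 (w2.coprime ht hr htr))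
  refine e1.trans ?_
  rcases h.idx w w1 with e' | e'
  · exact A t ht htp w w1 w2 e' z (e1 z4) (coprime_of_mem z1 hc)
  · exact h.le_of_max e' w1 (e1 z4) (w2.coprime' (z3.coprime hr ht htr.symm))

theorem not_three : ¬ Three G := by
  intro h3
  obtain ⟨p, hp, a, hk⟩ := h.exists_prime h3
  obtain ⟨r, hr, hrp, -, hv⟩ := h3 p p
  obtain ⟨t, ht, htp, htr, hw⟩ := h3 p r
  obtain ⟨b, hb⟩ := (h.cenHyp h3 hp hk).exists_pow (m := m) hp (fun u u1 _ => by
    rcases h.idx u u1 with e | e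
    exacts [⟨0, by simpa using e⟩, ⟨a, hk ▸ e⟩]) hr hrp ht htp htr hv hw
  haveI := Fact.mk hr
  obtain ⟨v, v1, v2⟩ := hv
  obtain ⟨P, hP⟩ := v2.pgroup.exists_le_sylow
  refine v1 (sylow_le_center_of_not_dvd_index (fun y e => hrp ?_) P (hP (mem_zpowers v)))
  refine (Nat.prime_dvd_prime_iff_eq hr hp).1 (hr.dvd_of_dvd_pow (n := b + a) (e.trans ?_))
  rw [pow_add, ← hb, ← hk]
  by_cases e' : y ∈ center G
  · exact index_cent1_eq_one.2 e' ▸ one_dvd _
  · rcases h.idx y e' with e | e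
    exacts [e ▸ dvd_mul_right _ _, e.dvd]

theorem isSolvable : Group.IsSolvable G := isSolvable_of_not_three h.not_three

end NF

end Cfsg.Lib.FGS.TR
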