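import Cfsg.Agent.Lib.FGS.TwoReg2

/-!
# Normal subgroups with two class sizes which contain a noncentral Sylow subgroup
-/

set_option autoImplicit false

namespace Cfsg.Lib.FGS.TR

open Subgroup Cfsg.Lib Cfsg.Lib.BG Cfsg.Lib.Transfer Cfsg.Lib.Core

variable {G : Type*} [Group G] [Finite G] {r m : ℕ}

theorem nil_of_parts (hr : r.Prime) (h : ∀ s : ℕ, s.Prime → s ≠ r → ∀ y : G, PE s y → y ∈ center G) :
    Group.IsNilpotent G := by
  have := Fact.mk hr
  have : Group.IsNilpotent (G ⧸ center G) := IsPGroup.isNilpotent (p := r) fun x => by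
    obtain ⟨g, rfl⟩ := QuotientGroup.mk_surjective x
    obtain ⟨a, -, b, -, ⟨k, hk⟩, hb, rfl⟩ := exists_p_part_mul_p'_part (p := r) g
    have : b ∈ center G := by_contra fun e => by
      obtain ⟨q, hq, y, h1, h2, h3⟩ := exists_primePow_not_mem e
      exact h2 (h q hq (ne_of_mem hq hb h1 h2 h3) y h3)
    exact ⟨k, by rw [QuotientGroup.mk_mul_of_mem _ this, ← QuotientGroup.mk_pow, hk]; rfl⟩
  exact Subgroup.isNilpotent_of_ker_le_center (QuotientGroup.mk' (center G)) (QuotientGroup.ker_mk' _).le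

theorem nil_of_two_cs [hr : Fact r.Prime] (R : Sylow r G) (hR : ¬ (R : Subgroup G) ≤ center G)
    (N : Subgroup G) [N.Normal] (hRN : (R : Subgroup G) ≤ N)
    (h : ∀ x ∈ N, (𝐂[x]).index = 1 ∨ (𝐂[x]).index = m) : Group.IsNilpotent N := by
  have idx : ∀ x ∈ N, x ∉ center G → (𝐂[x]).index = m := fun x hx e =>
    (h x hx).resolve_left (mt index_cent1_eq_one.1 e)
  have eq : ∀ {x y : G}, x ∈ N → x ∉ center G → y ∈ N → y ∉ center G → y ∈ 𝐂[x] →
      (orderOf x).Coprime (orderOf y) → 𝐂[x] = 𝐂[y] := fun hx x1 hy y1 e hc => by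
    have h1 := cent1_mul e hc
    have h2 := idx _ (mul_mem hx hy) (not_mem_center_of_le x1 (h1.le.trans inf_le_left))
    rw [← cent1_eq_of_le (h1.le.trans inf_le_left) (h2.trans (idx _ hx x1).symm).le,
      ← cent1_eq_of_le (h1.le.trans inf_le_right) (h2.trans (idx _ hy y1).symm).le]
  have cen : ∀ q : ℕ, q.Prime → ¬ q ∣ m → ∀ x : N, PE q x → x ∈ center N := fun q hq e x hx => by
    have := Fact.mk hq
    obtain ⟨Q, hQ⟩ := hx.pgroup.exists_le_sylow
    refine sylow_le_center_of_not_dvd_index (fun y d => ?_) Q (hQ (mem_zpowers x))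
    rcases h y y.2 with h | h <;> replace d := h ▸ d.trans (index_cent1_subtype_dvd N y)
    exacts [hq.not_dvd_one d, e d]
  have up : ∀ {x : N}, x ∉ center N → (x : G) ∉ center G := fun e e' =>
    e (mem_center_iff.2 fun g => Subtype.ext (mem_center_iff.1 e' g))
  have dn : ∀ {x y : N}, (y : G) ∈ 𝐂[(x : G)] ↔ y ∈ 𝐂[x] := by simp [mem_cent1, Subtype.ext_iff]
  obtain ⟨x₀, hx₀, x₁⟩ := SetLike.not_le_iff_exists.1 hR
  have px₀ := PE.of_pgroup R.isPGroup' hx₀
  refine nil_of_parts hr.out fun s hs hsr y hy => by_contra fun y1 => ?_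
  have := Fact.mk hs
  have hy' : PE s (y : G) := hy.map N.subtype
  by_cases hm : r ∣ m
  swap
  · have h1 := cen r hr.out hm ⟨x₀, hRN hx₀⟩ (px₀.imp fun _ => Subtype.ext)
    have h2 : ∀ g : N, (g : G) ∈ 𝐂[x₀] := fun g => mem_cent1.2 (congrArg Subtype.val (mem_center_iff.1 h1 g))
    have := eq (hRN hx₀) x₁ y.2 (up y1) (h2 y) (px₀.coprime' (hy'.coprime hs hr.out hsr))
    exact y1 (mem_center_iff.2 fun g => Subtype.ext (mem_cent1.1 (this ▸ h2 g)))
  have zc : ∀ {x : N}, (x : G) ∉ center G → x ∉ center N := fun {x} e e' =>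
    not_dvd_index_of_sylow_le R (H := 𝐂[(x : G)]) (fun g hg => mem_cent1.2
      (congrArg Subtype.val (mem_center_iff.1 e' ⟨g, hRN hg⟩))) (idx x x.2 e ▸ hm)
  obtain ⟨x, hx, x1, px⟩ : ∃ x ∈ 𝐂[(y : G)], x ∉ center G ∧ PE r x := by
    refine PGroup.exists_not_mem_of_dvd_relIndex hr.out ?_
    have h1 := (relIndex_mul (y : G)).trans (relIndex_mul x₀).symm
    rw [idx _ y.2 (up y1), idx _ (hRN hx₀) x₁] at h1
    rw [Nat.eq_of_mul_eq_mul_right (Nat.pos_of_ne_zero (idx _ y.2 (up y1) ▸ index_ne_zero_of_finite)) h1]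
    exact dvd_relIndex_center hr.out (self_mem_cent1 x₀) x₁ px₀
  have xN : x ∈ N := by
    obtain ⟨k, hk⟩ := px
    obtain ⟨g, hg⟩ := exists_conj_mem_of_not_dvd_index (not_dvd_index_of_sylow_le R hRN) hk
    simpa [mul_assoc] using ‹N.Normal›.conj_mem _ hg g⁻¹
  have exy := eq y.2 (up y1) xN x1 hx (hy'.coprime' (px.coprime hr.out hs hsr.symm))
  have key : ∀ q : ℕ, q.Prime → ∀ w ∈ 𝐂[y], w ∉ center N → PE q w → 𝐂[(w : G)] = 𝐂[(y : G)] :=
    fun q hq w hw w1 pw => by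
      have pw' : PE q (w : G) := pw.map N.subtype
      by_cases e : q = s
      · rw [exy]
        exact (eq xN x1 w.2 (up w1) (exy ▸ dn.2 hw) (px.coprime' (pw'.coprime hq hr.out (e ▸ hsr)))).symm
      · exact (eq y.2 (up y1) w.2 (up w1) (dn.2 hw) (hy'.coprime' (pw'.coprime hq hs e))).symm
  have good : ∀ q : ℕ, q.Prime → (∃ w ∈ 𝐂[y], w ∉ center N ∧ PE q w) → Good 𝐂[y] q := fun q hq e =>
    ⟨fun w hw pw => by
      by_cases w1 : w ∈ center N
      · exact top_le_of_mem_center w1 _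
      · exact fun g hg => dn.1 (key q hq w hw w1 pw ▸ dn.2 hg),
    e, fun w hw w1 pw g hg => dn.1 (key q hq w hw w1 pw ▸ dn.2 hg)⟩
  have gr := good r hr.out ⟨⟨x, xN⟩, dn.1 hx, zc x1, px.imp fun _ => Subtype.ext⟩
  have gs := good s hs ⟨y, self_mem_cent1 y, y1, hy⟩
  have hd : r ∣ (𝐂[y]).index := by
    have := (idx _ y.2 (up y1) ▸ hm).trans (index_dvd_of_le (inf_le_left : 𝐂[(y : G)] ⊓ N ≤ _))
    rw [← relIndex_mul_index inf_le_right, inf_relIndex_right, ← index_cent1_subtype] at this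
    exact (hr.out.dvd_mul.1 this).resolve_right (not_dvd_index_of_sylow_le R hRN)
  have hi : ¬ s ∣ gs.sub.index := fun e => by
    rw [← relIndex_mul_index gs.sub_le] at e
    refine (hs.dvd_mul.1 e).elim (fun e => ?_) fun e => gr.false_of_dvd hr.out hs hsr gs hd e
    obtain ⟨w, h1, h2, h3⟩ := PGroup.exists_not_mem_of_dvd_relIndex hs e
    exact h2 ⟨h1, h3⟩
  obtain ⟨g, g1, g2, -⟩ := gr.exists_norm hr.out hd
  obtain ⟨S, hS⟩ := (gs.pgroup.map N.subtype).exists_le_sylow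
  have h1 : (S : Subgroup G).subgroupOf N = gs.sub :=
    (gs.pgroup.toSylow hi).is_maximal' S.isPGroup'.comap_subtype (map_le_iff_le_comap.1 hS)
  have hU : gs.sub.map N.subtype = (S : Subgroup G) ⊓ N := by rw [← h1, subgroupOf_map_subtype]
  set U := (S : Subgroup G) ⊓ N
  have : IsMulCommutative U := hU ▸ abelian_map _ gs.comm
  have hp : IsPGroup s U := S.isPGroup'.to_inf_left
  have l1 : U ≤ N ⊓ 𝐍(U) := le_inf inf_le_right (le_norm U)
  obtain ⟨-, d2⟩ := abelian_sylowIn_decomposition hp l1 inf_le_right fun e => hi (by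
    have := e.trans (relIndex_dvd_right l1 inf_le_left)
    rwa [inf_relIndex_right, relIndex, h1] at this)
  have hle : ⁅U, N ⊓ 𝐍(U)⁆ ≤ U := comm_le_left inf_le_right
  have sU : (S : Subgroup G) ≤ 𝐍(U) := norm_inf (le_norm _) le_normalizer_of_normal
  obtain ⟨w, hw, w1⟩ := exists_ne_one (PGroup.inf_centralizer_ne_bot (hp.to_le hle) S.isPGroup'
    (norm_comm sU (norm_inf le_normalizer_of_normal (norm_norm sU))) fun e => g2 (dn.1 (cent_le_cent1
      (hU ▸ mem_map_of_mem N.subtype (show y ∈ gs.sub from ⟨self_mem_cent1 y, hy⟩))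
      (comm_eq_bot_iff'.1 e ⟨g.2, hU ▸ map_norm N.subtype gs.norm_le (mem_map_of_mem _ g1)⟩))))
  have w2 : w ∉ center G := fun e => w1 (mem_bot.1 (d2 ▸ mem_inf.2 ⟨hw.1, center_le_centralizer _ e⟩))
  exact y1 (cen s hs (idx w (hle hw.1).2 w2 ▸ not_dvd_index_of_sylow_le S (le_cent1_iff.2 hw.2)) y hy)

end Cfsg.Lib.FGS.TR
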