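import Cfsg.Agent.Lib.GW.Ind
import Cfsg.Agent.Lib.OddChar.Basic
import Cfsg.Agent.Lib.Modular.PPart

/-!
# Two consecutive character degrees prime to `p`

If the `p`-singular elements all have class size prime to `p` and a linear character `lam` of order
`p` of `K` has trivial-intersection support with normaliser `K ⟨s⟩`, `s` inverting `lam`, then there
are two nonprincipal irreducible characters of consecutive degrees prime to `p`.
-/

set_option autoImplicit false

namespace Cfsg.Lib.FGS.TwoP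

open Subgroup Cfsg.Lib.BG Cfsg.Lib.Modular Cfsg.Lib.Induce Cfsg.Lib.GW Cfsg.Lib.OddChar
open _root_.Cfsg.Lib.Char
open scoped ComplexConjugate

variable {G : Type*} [Group G] {g s : G} {K : Subgroup G} {lam θ χ : G → ℂ} {p : ℕ}

theorem sq_mul_card_le [Finite G] (h : IsGeneralizedCharacter G θ) (S : Finset G)
    (hS : ∀ k : ℕ, k.Coprime (Nat.card G) → ∀ g ∈ S, g ^ k ∈ S) (h0 : ∀ g ∈ S, θ g ≠ 0)
    (hp : 0 < p) (hi : ∀ g ∈ S, IsIntegral ℤ (θ g / p)) :
    (p : ℝ) ^ 2 * S.card ≤ ∑ g ∈ S, ‖θ g‖ ^ 2 := by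
  obtain ⟨n, hn⟩ := h.exists_int_prod S hS
  have hp' : (0 : ℝ) < p := by exact_mod_cast hp
  have hn0 : n ≠ 0 := by
    rintro rfl
    exact Finset.prod_ne_zero_iff.2 h0 (by simpa using hn)
  have hd : ((p : ℤ) ^ S.card) ∣ n := by
    refine int_dvd_of_isIntegral_div (by positivity) ?_
    have := IsIntegral.prod _ hi
    rw [Finset.prod_div_distrib, hn, Finset.prod_const] at this
    simpa using this
  have h1 : (1 : ℝ) ≤ ∏ g ∈ S, ‖θ g‖ / p := by
    rw [Finset.prod_div_distrib, ← norm_prod, hn, Complex.norm_intCast, Finset.prod_const,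
      one_le_div (by positivity)]
    have := Int.le_of_dvd (abs_pos.2 hn0) ((dvd_abs _ _).2 hd)
    exact_mod_cast this
  have hpos : ∀ g ∈ S, 0 < ‖θ g‖ / p := fun g hg => div_pos (norm_pos_iff.2 (h0 g hg)) hp'
  have h2 : 0 ≤ ∑ g ∈ S, Real.log (‖θ g‖ / p) := by
    rw [← Real.log_prod fun g hg => (hpos g hg).ne']
    exact Real.log_nonneg h1
  have h3 : ∀ g ∈ S, 1 + 2 * Real.log (‖θ g‖ / p) ≤ ‖θ g‖ ^ 2 / p ^ 2 := fun g hg => by
    have h4 := Real.log_le_sub_one_of_pos (pow_pos (hpos g hg) 2)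
    rw [Real.log_pow, div_pow] at h4
    push_cast at h4
    linarith
  have h5 := Finset.sum_le_sum h3
  rw [Finset.sum_add_distrib, ← Finset.mul_sum, Finset.sum_const, nsmul_eq_mul, mul_one,
    ← Finset.sum_div, le_div_iff₀ (by positivity)] at h5
  nlinarith [sq_nonneg (p : ℝ), mul_nonneg h2 (sq_nonneg (p : ℝ))]

/-- A constituent of multiplicity `±1` of a small function supported on `p`-singular elements of
`p'`-class size has degree prime to `p`. -/
theorem not_dvd_degree [Fintype G] (hp : p.Prime) (hχ : IsIrrCharacter G χ)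
    (hc : ∀ g : G, p ∣ orderOf g → ¬ p ∣ 𝐂[g].index) (h0 : ∀ g, θ g ≠ 0 → p ∣ orderOf g)
    (hb : ∀ g, ‖θ g‖ ≤ p) (h1 : ‖classInner θ χ‖ = 1) : ¬ p ∣ charDegree χ := by
  classical
  rintro ⟨d, hd⟩
  set S : Finset G := Finset.univ.filter fun g => p ∣ orderOf g ∧ χ g ≠ 0 with hS
  have hp' : (0 : ℝ) < p := by exact_mod_cast hp.pos
  have hpc : (p : ℂ) ≠ 0 := by exact_mod_cast hp.ne_zero
  have hd0 : (d : ℂ) ≠ 0 := by
    have := hχ.charDegree_pos
    rw [hd] at this
    exact_mod_cast (Nat.pos_of_mul_pos_left this).ne'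
  have a1 := sq_mul_card_le hχ.isGeneralizedCharacter S (fun k hk g hg => by
    simp only [hS, Finset.mem_filter, Finset.mem_univ, true_and] at hg ⊢
    have hk' : k.Coprime (orderOf g) := hk.coprime_dvd_right (orderOf_dvd_natCard g)
    refine ⟨by rw [hk'.symm.orderOf_pow]; exact hg.1, ?_⟩
    obtain ⟨σ, hσ⟩ := exists_ringEquiv_map_apply_eq_pow g hk'
    rw [← hσ χ hχ.isGeneralizedCharacter]
    simpa using hg.2) (fun g hg => (Finset.mem_filter.1 hg).2.2) hp.pos (fun g hg => by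
    have hg' := hc g (Finset.mem_filter.1 hg).2.1
    obtain ⟨a, b, hab⟩ := Nat.isCoprime_iff_coprime.2 ((hp.coprime_iff_not_dvd).2 hg')
    have i1 := hχ.isIntegral_centralChar g
    rw [centralChar_def, hχ.apply_one_eq, hd] at i1
    have i2 := ((isIntegral_algebraMap (x := a)).mul (hχ.isIntegral g)).add
      (((isIntegral_algebraMap (x := b)).mul (isIntegral_natCast (R := ℤ) (B := ℂ) d)).mul i1)
    have hab' := congrArg (Int.cast : ℤ → ℂ) hab
    push_cast at hab'
    have e : χ g / p = (a : ℂ) * χ g + (b : ℂ) * (d : ℂ) *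
        (((𝐂[g]).index : ℂ) * χ g / ((p * d : ℕ) : ℂ)) := by
      push_cast
      field_simp
      linear_combination -χ g * hab'
    rw [e]
    exact i2)
  have a2 : ∑ g ∈ S, ‖χ g‖ ^ 2 < Nat.card G := by
    rw [← hχ.sum_norm_sq]
    refine Finset.sum_lt_sum_of_subset (Finset.subset_univ _) (Finset.mem_univ 1) ?_ ?_
      fun _ _ _ => by positivity
    · simp [hS, hp.one_lt.ne']
    · rw [hχ.isCharacter.norm_apply_one]
      have := hχ.charDegree_pos
      positivity
  have a3 : (Nat.card G : ℝ) ≤ p * ∑ g ∈ S, ‖χ g‖ := by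
    rw [classInner, norm_mul, norm_inv, Complex.norm_natCast,
      inv_mul_eq_one₀ (by exact_mod_cast Nat.card_pos.ne')] at h1
    rw [h1, Finset.mul_sum, ← Finset.sum_subset (Finset.subset_univ S) fun g _ hg => ?_]
    · refine (norm_sum_le _ _).trans (Finset.sum_le_sum fun g _ => ?_)
      rw [norm_mul, Complex.norm_conj]
      exact mul_le_mul_of_nonneg_right (hb g) (norm_nonneg _)
    · by_contra h
      exact hg (Finset.mem_filter.2 ⟨Finset.mem_univ _, h0 g (left_ne_zero_of_mul h),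
        fun e => h (by simp [e])⟩)
  have a4 := sq_sum_le_card_mul_sum_sq (s := S) (f := fun g => ‖χ g‖)
  have a5 : (0 : ℝ) < Nat.card G := by exact_mod_cast Nat.card_pos
  have a6 : (0 : ℝ) ≤ ∑ g ∈ S, ‖χ g‖ ^ 2 := Finset.sum_nonneg fun _ _ => by positivity
  have a7 : (Nat.card G : ℝ) ^ 2 ≤ p ^ 2 * (∑ g ∈ S, ‖χ g‖) ^ 2 := by
    rw [← mul_pow]; exact pow_le_pow_left₀ a5.le a3 2
  have a8 : (p : ℝ) ^ 2 * (∑ g ∈ S, ‖χ g‖) ^ 2 ≤ (∑ g ∈ S, ‖χ g‖ ^ 2) * ∑ g ∈ S, ‖χ g‖ ^ 2 :=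
    (mul_le_mul_of_nonneg_left a4 (by positivity)).trans (by
      rw [← mul_assoc]; exact mul_le_mul_of_nonneg_right a1 a6)
  nlinarith

structure DP (p : ℕ) (s : G) (K : Subgroup G) (lam : G → ℂ) : Prop where
  mu : Mu K lam
  sK : s ∉ K
  ne : ∃ g ∈ K, lam g ≠ 1
  pw : ∀ g ∈ K, lam g ^ p = 1
  nm : s ∈ 𝐍(K)
  inv : ∀ g ∈ K, lam (s * g * s⁻¹) = conj (lam g)
  ti : ∀ g ∈ K, ∀ c, c * g * c⁻¹ ∈ K → lam g ≠ 1 → lam (c * g * c⁻¹) ≠ 1 → c ∈ K ∨ c * s⁻¹ ∈ K

namespace DP

variable [Fintype G] (h : DP p s K lam)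
include h

theorem gen : IsGeneralizedCharacter G (al K (fun _ => 1) lam) := by
  refine isGeneralizedCharacter_indFun K ?_
  convert (mu_one (L := K)).irr.isGeneralizedCharacter.sub h.mu.irr.isGeneralizedCharacter using 1
  ext; simp

theorem al_apply (hg : g ∈ K) (h1 : lam g ≠ 1) :
    al K (fun _ => 1) lam g = 2 - lam g - conj (lam g) := by
  classical
  have e : ∀ c : G, extendByZero K (fun k => (1 : ℂ) * (1 - lam k)) (c * g * c⁻¹) =
      (if c ∈ K then 1 - lam g else 0) + if c * s⁻¹ ∈ K then 1 - conj (lam g) else 0 := fun c => by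
    rw [extendByZero_apply]
    by_cases h1 : c ∈ K
    · rw [dif_pos (mul_mem (mul_mem h1 hg) (inv_mem h1)), if_pos h1, h.mu.conj_eq h1 hg,
        if_neg (by rw [mul_mem_cancel_left h1, inv_mem_iff]; exact h.sK), add_zero, one_mul]
    by_cases h2 : c * s⁻¹ ∈ K
    · have h3 : c * g * c⁻¹ = c * s⁻¹ * (s * g * s⁻¹) * (c * s⁻¹)⁻¹ := by group
      have h4 : s * g * s⁻¹ ∈ K := (mem_normalizer_iff.1 h.nm g).1 hg
      rw [dif_pos (h3 ▸ mul_mem (mul_mem h2 h4) (inv_mem h2)), if_neg h1, if_pos h2,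
        zero_add, one_mul, ← h.inv g hg, ← h.mu.conj_eq h2 h4]
      exact congrArg (1 - lam ·) h3
    · rw [if_neg h1, if_neg h2, add_zero]
      split_ifs with h3
      · by_contra h4
        exact (h.ti g hg c h3 ‹_› fun e => h4 (by simp [e])).elim h1 h2
      · rfl
  have e2 : ∀ z : ℂ, ∑ c : G, (if c ∈ K then z else 0) = Nat.card K * z := fun z => by
    rw [sum_ite_mem_eq_sum_subgroup K (fun _ => z)]; simp
  rw [al, indFun_apply']
  simp only [e, Finset.sum_add_distrib]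
  rw [Fintype.sum_equiv (Equiv.mulRight s⁻¹) (fun c => if c * s⁻¹ ∈ K then 1 - conj (lam g) else 0)
    (fun c => if c ∈ K then 1 - conj (lam g) else 0) fun _ => rfl, e2, e2, ← mul_add,
    inv_mul_cancel_left₀ (card_ne_zero_complex K)]
  ring

theorem norm_three (hg : g ∈ K) (h2 : lam g * lam g ≠ 1) :
    classInner (al K (fun _ => 1) lam) (al K (fun _ => 1) lam) = 3 := by
  have := Fintype.ofFinite K
  have h1 : lam g ≠ 1 := fun e => h2 (by simp [e])
  have e : ∀ k : K, (1 : ℂ) * (1 - lam k) * conj (al K (fun _ => 1) lam k) =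
      3 - 3 * lam k - conj (lam k) + lam k * lam k := fun k => by
    by_cases e : lam k = 1
    · simp only [e, map_one]; ring
    · rw [h.al_apply k.2 e]
      simp only [map_sub, map_ofNat, Complex.conj_conj]
      linear_combination h.mu.mul_conj k.2
  simp only [al_inner al_cf, e, Finset.sum_add_distrib, Finset.sum_sub_distrib, ← Finset.mul_sum]
  rw [h.mu.sum_zero hg h1, h.mu.star.sum_zero hg (by simpa using fun e => h1 (by
    simpa using congrArg conj e)), (h.mu.times h.mu).sum_zero hg h2]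
  simp [← Nat.card_eq_fintype_card, mul_comm (3 : ℂ), inv_mul_cancel_left₀ (card_ne_zero_complex K)]

theorem inner_one (hg : g ∈ K) (h1 : lam g ≠ 1) :
    classInner (al K (fun _ => 1) lam) (fun _ => 1) = 1 := by
  have := Fintype.ofFinite K
  simp only [al_inner isClassFunction_one, map_one, mul_one, one_mul, Finset.sum_sub_distrib,
    h.mu.sum_zero hg h1]
  simp [← Nat.card_eq_fintype_card]

theorem supp (hx : al K (fun _ => 1) lam g ≠ 0) :
    ∃ c, c * g * c⁻¹ ∈ K ∧ lam (c * g * c⁻¹) ≠ 1 := by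
  by_contra hc
  push Not at hc
  exact hx (indFun_eq_zero_of_forall' _ _ _ fun c hc' => by simp [hc c hc'])

omit [Fintype G] in
theorem dvd_ord (hp : p.Prime) (hg : g ∈ K) (h1 : lam g ≠ 1) : p ∣ orderOf g := by
  by_contra hd
  have a := h.mu.pow hg (orderOf g)
  rw [pow_orderOf_eq_one, h.mu.one] at a
  exact h1 (by simpa using (pow_eq_one_iff_of_coprime
    ((hp.coprime_iff_not_dvd).2 hd)).1 ⟨h.pw g hg, a.symm⟩)

theorem norm_le (hp : p.Prime) (h2 : p ≠ 2) (g : G) : ‖al K (fun _ => 1) lam g‖ ≤ p := by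
  by_cases hx : al K (fun _ => 1) lam g = 0
  · rw [hx]; simp
  obtain ⟨c, h3, h4⟩ := h.supp hx
  rw [← al_cf g c, h.al_apply h3 h4]
  have a := h.mu.mul_conj h3
  have b := h.pw _ h3
  generalize lam (c * g * c⁻¹) = z at *
  by_cases e : p = 3
  · subst e
    have : 2 - z - conj z = 3 := by
      have : (z - 1) * (2 - z - conj z - 3) = 0 := by 
        linear_combination (z ^ 2 - 1) * a - conj z * b
      rcases mul_eq_zero.1 this with e | e
      · exact absurd (sub_eq_zero.1 e) h4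
      · exact sub_eq_zero.1 e
    rw [this]; simp
  have h5 : (4 : ℝ) ≤ p := by
    have := hp.two_le
    exact_mod_cast (by omega : 4 ≤ p)
  have n1 : ‖z‖ = 1 := by
    have := congrArg norm b
    rw [norm_pow, norm_one] at this
    exact (pow_eq_one_iff_of_nonneg (norm_nonneg _) hp.ne_zero).1 this
  have := norm_sub_le (2 - z) (conj z)
  have := norm_sub_le 2 z
  simp only [Complex.norm_conj, Complex.norm_ofNat, n1] at *
  linarith

theorem degrees (hp : p.Prime) (h2 : p ≠ 2) (hc : ∀ g : G, p ∣ orderOf g → ¬ p ∣ 𝐂[g].index) :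
    ∃ χ ψ : G → ℂ, IsIrrCharacter G χ ∧ IsIrrCharacter G ψ ∧ χ ≠ (fun _ => 1) ∧ ψ ≠ (fun _ => 1) ∧
      ¬ p ∣ charDegree χ ∧ ¬ p ∣ charDegree ψ ∧
      (charDegree χ = charDegree ψ + 1 ∨ charDegree χ + charDegree ψ = 1) := by
  obtain ⟨g, hg, h1⟩ := h.ne
  have h3 : lam g * lam g ≠ 1 := fun e => h1 (by
    simpa using (pow_eq_one_iff_of_coprime ((Nat.coprime_primes hp Nat.prime_two).2 h2)).1
      ⟨h.pw g hg, by rw [sq, e]⟩)
  have h4 : al K (fun _ => 1) lam 1 = 0 := by simp [al, indFun_one, h.mu.one]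
  obtain ⟨χ, ψ, ε, a1, a2, -, a3, -, a4, a5, -, a6⟩ := exists_eq_of_norm_three h.gen
    (h.norm_three hg h3) h4 (h.inner_one hg h1)
  have h0 : ∀ g, al K (fun _ => 1) lam g ≠ 0 → p ∣ orderOf g := fun g hx => by
    obtain ⟨c, h3, h4⟩ := h.supp hx
    exact (MulAut.conj c).orderOf_eq g ▸ h.dvd_ord hp h3 h4
  have b := a6 fun ξ => (ξ : G → ℂ) 1
  rw [← apply_eq_sum_mlt h.gen, h4, coe_irrOne, χ.2.apply_one_eq, ψ.2.apply_one_eq] at b
  refine ⟨χ, ψ, χ.2, ψ.2, fun e => a1 (Subtype.ext e), fun e => a2 (Subtype.ext e),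
    not_dvd_degree hp χ.2 hc h0 (h.norm_le hp h2) ?_,
    not_dvd_degree hp ψ.2 hc h0 (h.norm_le hp h2) ?_, ?_⟩
  · rw [← mlt_cast h.gen, a4]; simp
  · rw [← mlt_cast h.gen, a5]; rcases a3 with rfl | rfl <;> simp
  · rcases a3 with rfl | rfl
    · left
      have : (charDegree (χ : G → ℂ) : ℂ) = charDegree (ψ : G → ℂ) + 1 := by
        push_cast at b; linear_combination b
      exact_mod_cast this
    · right
      have : (charDegree (χ : G → ℂ) : ℂ) + charDegree (ψ : G → ℂ) = 1 := by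
        push_cast at b; linear_combination b
      exact_mod_cast this

end DP

end Cfsg.Lib.FGS.TwoP
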